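import Mathlib
import Cfsg.Agent.Lib.Degree.UniqueDvd3
import Cfsg.Agent.Lib.Char.Brauer

/-!
# Multiplying a character induced from the inertia group by linear characters
-/

set_option autoImplicit false
set_option linter.unusedSectionVars false
set_option linter.unusedSimpArgs false
set_option linter.unusedVariables false

open scoped ComplexConjugate
open Module
open Cfsg

namespace Cfsg.Agent.Lib.Degree

open Cfsg.Agent.Lib.Char Cfsg.Agent.Lib.CharExtra

section Fibre

variable {G : Type*} [Group G] [Fintype G]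

/-- Two irreducible characters over `θ` of the inertia group with the same induced character
are equal. -/
theorem eq_of_indFun_eq {H T : Subgroup G} (hN : H.Normal) [Fintype H] [Fintype T] {θ : H → ℂ}
    (hθ : IsIrrCharacter H θ) (hT : T = inertia hN θ) (hHT : H ≤ T) {ψ₁ ψ₂ : T → ℂ}
    (hψ₁ : IsIrrCharacter T ψ₁) (hψ₂ : IsIrrCharacter T ψ₂)
    (h1 : classInner (fun n : H => ψ₁ ⟨n, hHT n.2⟩) θ ≠ 0)
    (h2 : classInner (fun n : H => ψ₂ ⟨n, hHT n.2⟩) θ ≠ 0)
    (h : indFun T ψ₁ = indFun T ψ₂) : ψ₁ = ψ₂ := by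
  classical
  by_contra hne
  have hχ := indFun_isIrr_of_over hN hθ hT hHT hψ₁ h1
  set χ := indFun T ψ₁ with hχdef
  have hχc := IsIrrCharacter.isCharacter hχ
  have hc1 : classInner (fun t : T => χ t) ψ₁ = 1 := by
    rw [← frobenius_reciprocity' T ψ₁ χ (IsCharacter.isClassFunction hχc), classInner_irr_self hχ]
  have hc2 : classInner (fun t : T => χ t) ψ₂ = 1 := by
    rw [← frobenius_reciprocity' T ψ₂ χ (IsCharacter.isClassFunction hχc), ← h,
      classInner_irr_self hχ]
  have hres := IsCharacter.restrict T hχc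
  have hr1 := isCharacter_sub_of_constituent hres hψ₁ (by rw [hc1]; exact one_ne_zero)
  have hc3 : classInner ((fun t : T => χ t) - ψ₁) ψ₂ = 1 := by
    rw [classInner_sub_left, hc2, classInner_irr_of_ne hψ₁ hψ₂ hne, sub_zero]
  have hr2 := isCharacter_sub_of_constituent hr1 hψ₂ (by rw [hc3]; exact one_ne_zero)
  -- restrict to `H`
  have hθc := IsIrrCharacter.isCharacter hθ
  have hcomp : ∀ {f : T → ℂ}, IsCharacter T f → IsCharacter H (fun n : H => f ⟨n, hHT n.2⟩) :=
    fun hf => IsCharacter.comp (Subgroup.inclusion hHT) hf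
  obtain ⟨a₁, ha₁⟩ := classInner_isCharacter_nat (hcomp (IsIrrCharacter.isCharacter hψ₁)) hθc
  obtain ⟨a₃, ha₃⟩ := classInner_isCharacter_nat (hcomp hr2) hθc
  have hcore1 := (clifford_corresp_core hN hθ hT hHT hψ₁ h1 hχ (by rw [hc1]; exact one_ne_zero)).2
  have hcore2 := (clifford_corresp_core hN hθ hT hHT hψ₂ h2 hχ (by rw [hc2]; exact one_ne_zero)).2
  have hsum : classInner (fun n : H => χ n) θ =
      classInner (fun n : H => ψ₁ ⟨n, hHT n.2⟩) θ + classInner (fun n : H => ψ₂ ⟨n, hHT n.2⟩) θ +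
        classInner (fun n : H => ((fun t : T => χ t) - ψ₁ - ψ₂) ⟨n, hHT n.2⟩) θ := by
    rw [← classInner_add_left, ← classInner_add_left]
    congr 1
    funext n
    simp
  have hA : classInner (fun n : H => χ n) θ = a₁ := by rw [← hcore1, ha₁]
  rw [hcore2, ha₃, hcore1, hA] at hsum
  have h3 : ((a₁ : ℂ) + a₃) = 0 := by linear_combination -hsum
  have h4 : a₁ + a₃ = 0 := by exact_mod_cast h3
  apply h1
  rw [ha₁]
  have h5 : a₁ = 0 := by omega
  simp [h5]

/-- Induction of a product by the restriction of a class function. -/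
theorem indFun_mul_class (I : Subgroup G) (θ : I → ℂ) {f : G → ℂ} (hf : IsClassFunction G f) :
    indFun I (fun i : I => θ i * f i) = indFun I θ * f := by
  funext g
  rw [Pi.mul_apply, indFun_apply, indFun_apply, mul_assoc, Finset.sum_mul]
  congr 1
  refine Finset.sum_congr rfl fun x _ => ?_
  by_cases hx : x⁻¹ * g * x ∈ I
  · rw [extendByZero_of_mem I _ hx, extendByZero_of_mem I _ hx]
    have := hf g x⁻¹
    simp only [inv_inv] at this
    simp only [this]
  · rw [extendByZero_of_not_mem I _ hx, extendByZero_of_not_mem I _ hx]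
    simp

/-- The conjugate of an irreducible character. -/
noncomputable def conjChar (χ : IrrCharacter G) : IrrCharacter G :=
  ⟨fun g => conj ((χ : G → ℂ) g), isIrr_conj χ.2⟩

theorem norm_linear_sq (χ : IrrCharacter G) (h : (χ : G → ℂ) 1 = 1) (g : G) :
    (χ : G → ℂ) g * conj ((χ : G → ℂ) g) = 1 := by
  rw [Complex.mul_conj, Complex.normSq_eq_norm_sq,
    norm_linear_eq_one (IsIrrCharacter.isCharacter χ.2) h g]
  simp

/-- If `β ψ = ψ` with `ψ` extending an irreducible character of `H` and `β` linear, trivial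
on `H`, then `β` is trivial. -/
theorem eq_one_of_mul_eq {I : Type*} [Group I] [Fintype I] (H : Subgroup I) [Fintype H]
    (ψ : IrrCharacter I) (hHirr : IsIrrCharacter H (fun n : H => (ψ : I → ℂ) n))
    (β : IrrCharacter I) (hβH : ∀ n ∈ H, (β : I → ℂ) n = 1) (hβ1 : (β : I → ℂ) 1 = 1)
    (hfix : ∀ i, (ψ : I → ℂ) i * (β : I → ℂ) i = (ψ : I → ℂ) i) : ∀ i, (β : I → ℂ) i = 1 := by
  classical
  by_contra hne
  push Not at hne
  obtain ⟨i₀, hi₀⟩ := hne
  have hψc := IsIrrCharacter.isCharacter ψ.2
  let γ : IrrCharacter I := conjChar β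
  let D : I → ℂ := (ψ : I → ℂ) * (fun i => conj ((ψ : I → ℂ) i))
  have hD : IsCharacter I D := IsCharacter.mul hψc (IsIrrCharacter.isCharacter (isIrr_conj ψ.2))
  have hprin : classInner D ((principal I : IrrCharacter I) : I → ℂ) = 1 := by
    have h1 := classInner_irr_self ψ.2
    rw [classInner_def] at h1 ⊢
    rw [← h1]
    congr 1
    refine Finset.sum_congr rfl fun g _ => ?_
    simp [D]
  have hγ : classInner D (γ : I → ℂ) = 1 := by
    have h1 := classInner_irr_self ψ.2
    rw [classInner_def] at h1 ⊢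
    rw [← h1]
    congr 1
    refine Finset.sum_congr rfl fun g _ => ?_
    show (ψ : I → ℂ) g * conj ((ψ : I → ℂ) g) * conj (conj ((β : I → ℂ) g)) = _
    rw [Complex.conj_conj]
    calc (ψ : I → ℂ) g * conj ((ψ : I → ℂ) g) * (β : I → ℂ) g =
        ((ψ : I → ℂ) g * (β : I → ℂ) g) * conj ((ψ : I → ℂ) g) := by ring
      _ = _ := by rw [hfix g]
  have hγne : (principal I : IrrCharacter I) ≠ γ := by
    intro h
    have h1 := congrFun (congrArg Subtype.val h) i₀
    have h2 : (1 : ℂ) = conj ((β : I → ℂ) i₀) := h1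
    apply hi₀
    have h3 := congrArg conj h2
    rw [Complex.conj_conj, map_one] at h3
    exact h3.symm
  have hr1 := isCharacter_sub_of_constituent hD (principal I).2 (by rw [hprin]; exact one_ne_zero)
  have hc : classInner (D - ((principal I : IrrCharacter I) : I → ℂ)) (γ : I → ℂ) = 1 := by
    rw [classInner_sub_left, hγ, classInner_irr_of_ne (principal I).2 γ.2
      (fun h => hγne (Subtype.ext h)), sub_zero]
  have hr2 := isCharacter_sub_of_constituent hr1 γ.2 (by rw [hc]; exact one_ne_zero)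
  have hres := IsCharacter.restrict H hr2
  obtain ⟨a, ha⟩ := classInner_isCharacter_nat hres (IsIrrCharacter.isCharacter (principal H).2)
  have hval : (fun n : H => (D - ((principal I : IrrCharacter I) : I → ℂ) - (γ : I → ℂ)) n) =
      (fun n : H => (ψ : I → ℂ) n * conj ((ψ : I → ℂ) n)) -
        ((principal H : IrrCharacter H) : H → ℂ) - ((principal H : IrrCharacter H) : H → ℂ) := by
    funext n
    have h1 : (γ : I → ℂ) n = 1 := by
      show conj ((β : I → ℂ) n) = 1
      rw [hβH n n.2, map_one]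
    simp [D, h1]
  rw [hval, classInner_sub_left, classInner_sub_left, classInner_irr_self (principal H).2] at ha
  have h5 : classInner (fun n : H => (ψ : I → ℂ) n * conj ((ψ : I → ℂ) n))
      ((principal H : IrrCharacter H) : H → ℂ) = 1 := by
    have h1 := classInner_irr_self hHirr
    rw [classInner_def] at h1 ⊢
    rw [← h1]
    congr 1
    refine Finset.sum_congr rfl fun g _ => ?_
    simp
  rw [h5] at ha
  have h6 : ((a : ℂ) + 1) = 0 := by linear_combination -ha
  have h7 : a + 1 = 0 := by exact_mod_cast h6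
  omega

/-- Counting linear characters by their products with the character induced from the inertia
group. -/
theorem card_le_mul_card_of_mul_ind {H I : Subgroup G} (hN : H.Normal) [Fintype H] [Fintype I]
    (φ : IrrCharacter H) (hI : I = inertia hN (φ : H → ℂ)) (hHI : H ≤ I) (ψ : IrrCharacter I)
    (hext : ∀ n : H, (ψ : I → ℂ) ⟨n, hHI n.2⟩ = (φ : H → ℂ) n) (hHG : H ≤ commutator G)
    (s t : Finset (IrrCharacter G)) (hs : ∀ l ∈ s, (l : G → ℂ) 1 = 1)
    (hst : ∀ l ∈ s, ∃ χ ∈ t, (χ : G → ℂ) = indFun I (ψ : I → ℂ) * (l : G → ℂ)) :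
    s.card ≤ I.index * t.card := by
  classical
  have hψc := IsIrrCharacter.isCharacter ψ.2
  -- the products restricted to `I`
  have hlI : ∀ l ∈ s, ∀ n : H, (l : G → ℂ) n = 1 := by
    intro l hl n
    rw [irr_linear_commutator l (hs l hl) (hHG n.2)]
  have hover : ∀ l ∈ s, IsIrrCharacter I (fun i : I => (ψ : I → ℂ) i * (l : G → ℂ) i) ∧
      classInner (fun n : H => (fun i : I => (ψ : I → ℂ) i * (l : G → ℂ) i) ⟨n, hHI n.2⟩) (φ : H → ℂ) ≠ 0 := by
    intro l hl
    have h1 : IsCharacter I (fun i : I => (l : G → ℂ) i) :=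
      IsCharacter.restrict I (IsIrrCharacter.isCharacter l.2)
    have h2 : (fun i : I => (l : G → ℂ) i) 1 = 1 := by simpa using hs l hl
    refine ⟨isIrr_mul_linear ψ.2 h1 h2, ?_⟩
    have h3 : (fun n : H => (fun i : I => (ψ : I → ℂ) i * (l : G → ℂ) i) ⟨n, hHI n.2⟩) = (φ : H → ℂ) := by
      funext n
      show (ψ : I → ℂ) ⟨n, hHI n.2⟩ * (l : G → ℂ) n = _
      rw [hext, hlI l hl, mul_one]
    rw [h3, classInner_irr_self φ.2]
    exact one_ne_zero
  let Ξ : G → ℂ := indFun I (ψ : I → ℂ)
  let f : IrrCharacter G → (G → ℂ) := fun l => Ξ * (l : G → ℂ)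
  have hmaps : ∀ l ∈ s, f l ∈ t.image (fun χ : IrrCharacter G => (χ : G → ℂ)) := by
    intro l hl
    obtain ⟨χ, hχ, h⟩ := hst l hl
    exact Finset.mem_image.mpr ⟨χ, hχ, h⟩
  have hfib : ∀ b ∈ t.image (fun χ : IrrCharacter G => (χ : G → ℂ)),
      (s.filter (fun l => f l = b)).card ≤ I.index := by
    intro b _
    by_cases hemp : (s.filter (fun l => f l = b)) = ∅
    · rw [hemp]
      simp
    obtain ⟨l₀, hl₀⟩ := Finset.nonempty_iff_ne_empty.mpr hemp
    obtain ⟨hl₀s, hl₀b⟩ := Finset.mem_filter.mp hl₀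
    have hl₀1 := hs l₀ hl₀s
    -- restriction to `I` agrees
    have hagree : ∀ l ∈ s.filter (fun l => f l = b), ∀ i : I, (l : G → ℂ) i = (l₀ : G → ℂ) i := by
      intro l hl i
      obtain ⟨hls, hlb⟩ := Finset.mem_filter.mp hl
      have hl1 := hs l hls
      have hind : indFun I (fun i : I => (ψ : I → ℂ) i * (l : G → ℂ) i) =
          indFun I (fun i : I => (ψ : I → ℂ) i * (l₀ : G → ℂ) i) := by
        rw [indFun_mul_class I _ (irr_isClassFunction l), indFun_mul_class I _ (irr_isClassFunction l₀)]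
        exact hlb.trans hl₀b.symm
      have heq := eq_of_indFun_eq hN φ.2 hI hHI (hover l hls).1 (hover l₀ hl₀s).1 (hover l hls).2
        (hover l₀ hl₀s).2 hind
      -- now apply `eq_one_of_mul_eq`
      let ν : I → ℂ := fun i => (l : G → ℂ) i * conj ((l₀ : G → ℂ) i)
      have hν : IsIrrCharacter I ν := by
        have h1 : IsCharacter I (fun i : I => (l : G → ℂ) i) :=
          IsCharacter.restrict I (IsIrrCharacter.isCharacter l.2)
        have h2 : IsCharacter I (fun i : I => conj ((l₀ : G → ℂ) i)) :=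
          IsCharacter.restrict I (IsIrrCharacter.isCharacter (isIrr_conj l₀.2))
        have h3 : IsIrrCharacter I (fun i : I => (l : G → ℂ) i) := by
          obtain ⟨u, hu⟩ := exists_hom_of_character_one h1 (by simpa using hl1)
          rw [hu]
          exact isIrrCharacter_of_hom u
        exact isIrr_mul_linear h3 h2 (by simp [hl₀1])
      letI : Fintype (H.subgroupOf I) := Fintype.ofFinite _
      have hHirr : IsIrrCharacter (H.subgroupOf I) (fun n : H.subgroupOf I => (ψ : I → ℂ) n) := by
        have h1 := isIrr_comp_equiv (Subgroup.subgroupOfEquivOfLe hHI) φ.2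
        convert h1 using 1
        funext n
        have h2 := hext (Subgroup.subgroupOfEquivOfLe hHI n)
        simp only [Function.comp]
        rw [← h2]
        rfl
      have hν1 : ν 1 = 1 := by simp [ν, hl1, hl₀1]
      have hνH : ∀ n ∈ H.subgroupOf I, ν n = 1 := by
        intro n hn
        have h2 := hlI l hls ⟨n, hn⟩
        have h3 := hlI l₀ hl₀s ⟨n, hn⟩
        simp only [ν]
        have h2' : (l : G → ℂ) n = 1 := h2
        have h3' : (l₀ : G → ℂ) n = 1 := h3
        rw [h2', h3']
        simp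
      have hνfix : ∀ i, (ψ : I → ℂ) i * ν i = (ψ : I → ℂ) i := by
        intro i
        have h2 : (ψ : I → ℂ) i * (l : G → ℂ) i = (ψ : I → ℂ) i * (l₀ : G → ℂ) i := congrFun heq i
        simp only [ν]
        calc (ψ : I → ℂ) i * ((l : G → ℂ) i * conj ((l₀ : G → ℂ) i)) =
            ((ψ : I → ℂ) i * (l : G → ℂ) i) * conj ((l₀ : G → ℂ) i) := by ring
          _ = (ψ : I → ℂ) i * ((l₀ : G → ℂ) i * conj ((l₀ : G → ℂ) i)) := by rw [h2]; ring
          _ = _ := by rw [norm_linear_sq l₀ hl₀1, mul_one]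
      have hνone := eq_one_of_mul_eq (H.subgroupOf I) ψ hHirr ⟨ν, hν⟩ hνH hν1 hνfix i
      have h5 : (l : G → ℂ) i * conj ((l₀ : G → ℂ) i) = 1 := hνone
      calc (l : G → ℂ) i = (l : G → ℂ) i * (conj ((l₀ : G → ℂ) i) * (l₀ : G → ℂ) i) := by
            rw [mul_comm (conj _), norm_linear_sq l₀ hl₀1, mul_one]
        _ = ((l : G → ℂ) i * conj ((l₀ : G → ℂ) i)) * (l₀ : G → ℂ) i := by ring
        _ = _ := by rw [h5, one_mul]
    -- the fibre injects into the characters trivial on `I G'`
    let M : Subgroup G := I ⊔ commutator G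
    haveI hMn : M.Normal := by
      constructor
      intro m hm g
      have h1 : g * m * g⁻¹ = (g * m * g⁻¹ * m⁻¹) * m := by group
      rw [h1]
      refine M.mul_mem ?_ hm
      have h2 : g * m * g⁻¹ * m⁻¹ ∈ commutator G := by
        have := Subgroup.commutator_mem_commutator (Subgroup.mem_top g) (Subgroup.mem_top m)
        rwa [commutatorElement_def] at this
      exact Subgroup.mem_sup_right h2
    have hconjl₀ : IsCharacter G (fun g => conj ((l₀ : G → ℂ) g)) :=
      IsIrrCharacter.isCharacter (isIrr_conj l₀.2)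
    let F : IrrCharacter G → IrrCharacter G := fun l =>
      ⟨(l : G → ℂ) * (fun g => conj ((l₀ : G → ℂ) g)), isIrr_mul_linear l.2 hconjl₀ (by simp [hl₀1])⟩
    have hF : ∀ l ∈ s.filter (fun l => f l = b),
        F l ∈ Finset.univ.filter (fun χ : IrrCharacter G => KerContains M (χ : G → ℂ)) := by
      intro l hl
      obtain ⟨hls, -⟩ := Finset.mem_filter.mp hl
      have hl1 := hs l hls
      refine Finset.mem_filter.mpr ⟨Finset.mem_univ _, ?_⟩
      intro m hm
      have hmul : ∀ x : G, (F l : G → ℂ) x = (l : G → ℂ) x * conj ((l₀ : G → ℂ) x) := fun x => rfl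
      rw [hmul, hmul, hl1, hl₀1]
      have h2 : m ∈ (↑(I ⊔ commutator G) : Set G) := hm
      rw [Subgroup.mul_normal] at h2
      obtain ⟨i, hi, c, hc, rfl⟩ := Set.mem_mul.mp h2
      rw [irr_linear_mul l hl1, irr_linear_mul l₀ hl₀1, irr_linear_commutator l hl1 hc,
        irr_linear_commutator l₀ hl₀1 hc, hagree l hl ⟨i, hi⟩]
      simp only [mul_one, map_one]
      exact (norm_linear_sq l₀ hl₀1 i).trans (by simp)
    have hFinj : Set.InjOn F (s.filter (fun l => f l = b)) := by
      intro l _ l' _ h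
      apply Subtype.ext
      funext g
      have h2 := congrFun (congrArg Subtype.val h) g
      have h3 : (l : G → ℂ) g * conj ((l₀ : G → ℂ) g) = (l' : G → ℂ) g * conj ((l₀ : G → ℂ) g) := h2
      have h4 : conj ((l₀ : G → ℂ) g) ≠ 0 := by
        intro h5
        have h6 := norm_linear_sq l₀ hl₀1 g
        rw [h5, mul_zero] at h6
        exact zero_ne_one h6
      exact mul_right_cancel₀ h4 h3
    have hc1 := Finset.card_le_card_of_injOn F hF hFinj
    refine hc1.trans ?_
    have hc2 : (Finset.univ.filter (fun χ : IrrCharacter G => KerContains M (χ : G → ℂ))).card =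
        Nat.card {χ : IrrCharacter G // KerContains M (χ : G → ℂ)} := by
      rw [Nat.card_eq_fintype_card, Fintype.card_subtype]
    rw [hc2, card_irr_kerContains]
    have hc3 : Nat.card (ConjClasses (G ⧸ M)) ≤ Nat.card (G ⧸ M) :=
      Nat.card_le_card_of_surjective ConjClasses.mk ConjClasses.mk_surjective
    refine hc3.trans ?_
    have hc4 : Nat.card (G ⧸ M) = M.index := rfl
    rw [hc4]
    exact Nat.le_of_dvd (Nat.pos_of_ne_zero Subgroup.index_ne_zero_of_finite)
      (Subgroup.index_dvd_of_le le_sup_left)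
  have h1 := Finset.card_le_mul_card_image_of_maps_to hmaps I.index hfib
  refine h1.trans (Nat.mul_le_mul_left _ Finset.card_image_le)

end Fibre

end Cfsg.Agent.Lib.Degree
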