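import Mathlib
import Cfsg.Agent.Lib.CharExtra.Ito
import Cfsg.Agent.Lib.Char.DetExt
import Cfsg.Agent.Lib.Char.Clifford2
import Cfsg.Agent.Lib.Char.Brauer
import Cfsg.Agent.Lib.Char.Integral
import Cfsg.Agent.Lib.Degree.Inflate
import Cfsg.Agent.Lib.Degree.FSMore
import Cfsg.Agent.Lib.PSolv.Basic
import Cfsg.Agent.Lib.GS1.PSolvOrbit

/-!
# Derived length of Sylow subgroups of `p`-solvable groups and the number of characters of degree
divisible by `p`.
-/

set_option autoImplicit false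
set_option linter.unusedSimpArgs false
set_option linter.unusedVariables false
set_option linter.unusedSectionVars false

namespace Cfsg.Agent.Lib.Degree.DerivedSylow

open Cfsg Cfsg.Agent.Lib.Char Cfsg.Agent.Lib.CharExtra Cfsg.Agent.Lib.Degree Module
open Cfsg.Agent.Lib.PSolv Cfsg.Agent.Lib.GS1

universe u

/-- A character scalar on `A` through the hom `θ` and of degree prime to `|A|` gives an extension of `θ`. -/
theorem exists_hom_ext {T : Type u} [Group T] [Finite T] (A : Subgroup T) (θ : A →* ℂˣ) {ψ : T → ℂ}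
    (hψ : IsCharacter T ψ) (hres : ∀ a : A, ψ a = ψ 1 * (θ a : ℂ))
    (hcop : Nat.Coprime (charDegree ψ) (Nat.card A)) :
    ∃ μ : T →* ℂˣ, ∀ a : A, μ a = θ a := by
  classical
  obtain ⟨n, ρ, rfl⟩ := hψ
  have hn : ρ.character 1 = (n : ℂ) := by
    rw [Representation.char_one]
    simp
  have hdeg : charDegree ρ.character = n := charDegree_natCast hn
  rw [hdeg] at hcop
  have hfr : finrank ℂ (Fin n → ℂ) = n := by simp
  have hpow : ∀ a : A, θ a ^ Nat.card A = 1 := fun a => by
    rw [← map_pow, pow_card_eq_one', map_one]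
  have hnorm : ∀ a : A, ‖(θ a : ℂ)‖ = 1 := by
    intro a
    have h1 : ((θ a : ℂˣ) : ℂ) ^ Nat.card A = 1 := by
      rw [← Units.val_pow_eq_pow_val, hpow, Units.val_one]
    exact Complex.norm_eq_one_of_pow_eq_one h1 Nat.card_pos.ne'
  have hscal : ∀ a : A, ρ a = (θ a : ℂ) • (LinearMap.id : (Fin n → ℂ) →ₗ[ℂ] (Fin n → ℂ)) := by
    intro a
    have h1 : ‖ρ.character a‖ = (finrank ℂ (Fin n → ℂ) : ℝ) := by
      rw [hres a, hn, hfr, norm_mul, hnorm, mul_one]
      simp
    obtain ⟨ω, hω⟩ := (norm_character_eq_iff ρ a (isOfFinOrder_of_finite _)).mp h1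
    by_cases hn0 : n = 0
    · subst hn0
      exact Subsingleton.elim _ _
    have h2 : ρ.character a = ω * n := by
      simp [Representation.character, hω, LinearMap.trace_id]
    rw [hres a, hn] at h2
    have hn' : (n : ℂ) ≠ 0 := by exact_mod_cast hn0
    have h3 : (θ a : ℂ) = ω := by
      have : (n : ℂ) * (θ a : ℂ) = (n : ℂ) * ω := by rw [h2]; ring
      exact mul_left_cancel₀ hn' this
    rw [hω, h3]
  have hdet : ∀ a : A, detHom ρ a = θ a ^ n := by
    intro a
    ext
    rw [detHom_apply, hscal a, LinearMap.det_smul, LinearMap.det_id, hfr]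
    simp
  by_cases h1 : Nat.card A = 1
  · refine ⟨1, fun a => ?_⟩
    have : Subsingleton A := (Nat.card_eq_one_iff_unique.mp h1).1
    rw [Subsingleton.elim a 1]
    simp
  · have h2 : 1 < Nat.card A := by
      have := Nat.card_pos (α := A)
      omega
    obtain ⟨k, hk⟩ := Nat.exists_mul_mod_eq_one_of_coprime hcop h2
    refine ⟨detHom ρ ^ k, fun a => ?_⟩
    rw [MonoidHom.pow_apply, hdet, ← pow_mul]
    have h3 := pow_eq_pow_of_modEq (z := θ a) (o := Nat.card A) (a := n * k) (b := 1) (hpow a)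
      (by rw [Nat.ModEq, hk.2, Nat.mod_eq_of_lt h2])
    rw [h3, pow_one]

/-- `p`-solvability passes to images. -/
theorem isPSolvable_map {G A : Type*} [Group G] [Group A] {p : ℕ} (hp : p.Prime) (f : G →* A)
    (hf : Function.Surjective f) (h : IsPSolvable p G) : IsPSolvable p A := by
  obtain ⟨n, S, h0, hlast, hmono, hnorm, hfac⟩ := h
  refine ⟨n, fun i => (S i).map f, ?_, ?_, ?_, ?_, ?_⟩
  · simp [h0]
  · show (S (Fin.last n)).map f = ⊤
    rw [hlast, ← MonoidHom.range_eq_map, MonoidHom.range_eq_top.2 hf]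
  · intro i j hij
    exact Subgroup.map_mono (hmono hij)
  · intro i
    exact (hnorm i).map f hf
  · intro i
    have h1 : (((S i.castSucc).map f).relIndex ((S i.succ).map f)) ∣ (S i.castSucc).relIndex (S i.succ) := by
      rw [← Subgroup.relIndex_comap]
      exact Subgroup.relIndex_dvd_of_le_left _ (Subgroup.le_comap_map f _)
    rcases hfac i with ⟨m, hm⟩ | hc
    · left
      rw [hm] at h1
      obtain ⟨k, -, hk⟩ := (Nat.dvd_prime_pow hp).1 h1
      exact ⟨k, hk⟩
    · right
      exact Nat.Coprime.coprime_dvd_left h1 hc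

variable {G : Type u} [Group G] [Finite G] {p : ℕ} [hpf : Fact p.Prime]

/-- A character over a nontrivial linear character does not contain `N` in the kernel. -/
theorem exists_ne_of_over [Fintype G] {N : Subgroup G} [Fintype N] {θ₀ : N →* ℂˣ} (hθ₀ : θ₀ ≠ 1)
    {χ : G → ℂ} (hne : classInner (fun n : N => χ n) (fun n => (θ₀ n : ℂ)) ≠ 0) :
    ∃ n ∈ N, χ n ≠ χ 1 := by
  classical
  by_contra hcon
  push Not at hcon
  apply hne
  have h1 : (fun n : N => χ n) = χ 1 • (fun _ : N => (1 : ℂ)) := by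
    funext n
    simp [hcon n n.2]
  rw [h1, classInner_smul_left]
  have h2 : (fun _ : N => (1 : ℂ)) ≠ (fun n => (θ₀ n : ℂ)) := by
    intro h
    apply hθ₀
    ext n
    exact (congrFun h n).symm
  have h3 : IsIrrCharacter N (fun _ : N => (1 : ℂ)) := by
    have := isIrrCharacter_of_hom (1 : N →* ℂˣ)
    simpa using this
  rw [classInner_irr_of_ne h3 (isIrrCharacter_of_hom θ₀) h2, mul_zero]

/-- The main step: if all characters not containing the abelian normal `p`-subgroup `N` in their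
kernel have `p'`-degree, then `P / N` is abelian for `P` Sylow. -/
theorem comm_mem_of_degrees (hsolv : IsPSolvable p G) (N : Subgroup G) [hN : N.Normal]
    (hNc : ∀ a ∈ N, ∀ b ∈ N, a * b = b * a) (hNp : IsPGroup p N) (hN1 : N ≠ ⊥)
    (h : ∀ χ : IrrCharacter G, (∃ n ∈ N, (χ : G → ℂ) n ≠ (χ : G → ℂ) 1) → ¬ p ∣ charDegree (χ : G → ℂ))
    (P : Sylow p G) {x y : G} (hx : x ∈ (P : Subgroup G)) (hy : y ∈ (P : Subgroup G)) :
    x * y * x⁻¹ * y⁻¹ ∈ N := by
  classical
  have hp : p.Prime := hpf.out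
  letI : Fintype G := Fintype.ofFinite G
  letI : Fintype N := Fintype.ofFinite N
  -- a nontrivial linear character of `N`
  obtain ⟨n₀, hn₀N, hn₀⟩ := N.bot_or_exists_ne_one.resolve_left hN1
  obtain ⟨θ₀, hθ₀n⟩ : ∃ θ₀ : N →* ℂˣ, θ₀ ⟨n₀, hn₀N⟩ ≠ 1 := by
    letI : CommGroup N := { (inferInstance : Group N) with
      mul_comm := fun a b => Subtype.ext (hNc a a.2 b b.2) }
    have hne : (⟨n₀, hn₀N⟩ : N) ≠ 1 := fun h => hn₀ (congrArg Subtype.val h)
    exact CommGroup.exists_apply_ne_one_of_hasEnoughRootsOfUnity N ℂ hne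
  have hθ₀ : θ₀ ≠ 1 := by
    rintro rfl
    exact hθ₀n rfl
  let θ : N → ℂ := fun n => (θ₀ n : ℂ)
  have hθ : IsIrrCharacter N θ := isIrrCharacter_of_hom θ₀
  have hθ1 : θ 1 = 1 := by simp [θ]
  have hNT : N ≤ inertia hN θ :=
    le_inertia hN (IsCharacter.isClassFunction (IsIrrCharacter.isCharacter hθ))
  obtain ⟨χ, hχ, hne⟩ := exists_irr_over N hθ
  have hpχ : ¬ p ∣ charDegree χ := h ⟨χ, hχ⟩ (exists_ne_of_over hθ₀ hne)
  have hdvd := inertia_index_mul_degree_dvd N hN hχ hθ hne
  have hpT : ¬ p ∣ (inertia hN θ).index :=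
    fun hd => hpχ ((hd.trans (Nat.dvd_mul_right _ _)).trans hdvd)
  obtain ⟨T, hT⟩ : ∃ T : Subgroup G, T = inertia hN θ := ⟨_, rfl⟩
  rw [← hT] at hNT hpT
  letI : Fintype T := Fintype.ofFinite T
  obtain ⟨ψ₀, hψ₀, hind, he⟩ := clifford_correspondence hN hθ hT hNT hχ hne
  have hψ₀c := IsIrrCharacter.isCharacter hψ₀
  have hd₀ : ψ₀ 1 = (charDegree ψ₀ : ℂ) := map_one_eq_charDegree hψ₀c
  have hpd₀ : ¬ p ∣ charDegree ψ₀ := by
    intro hd
    apply hpχ
    have h1 : χ 1 = ((T.index * charDegree ψ₀ : ℕ) : ℂ) := by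
      rw [← hind, indFun_one, hd₀]
      push_cast
      rfl
    rw [charDegree_natCast h1]
    exact hd.trans (Nat.dvd_mul_left _ _)
  have hnorm : ∀ t ∈ T, ∀ n ∈ N, t * n * t⁻¹ ∈ N := fun t _ n hn => hN.conj_mem n hn t
  have hinv : ∀ (t : T) (n : N), θ ⟨(t : G) * n * (t : G)⁻¹, hnorm t t.2 n n.2⟩ = θ n := by
    intro t n
    have ht : (t : G) ∈ inertia hN θ := hT ▸ t.2
    exact (mem_inertia_iff hN θ t).mp ht n
  have hcon : classInner (fun n : N => ψ₀ ⟨n, hNT n.2⟩) θ ≠ 0 := by
    rw [he]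
    exact hne
  have hres := restrict_eq_smul_of_invariant hNT hψ₀ hθ hnorm hinv hcon
  obtain ⟨e₀, he₀⟩ : ∃ e₀, e₀ = classInner (fun n : N => ψ₀ ⟨n, hNT n.2⟩) θ := ⟨_, rfl⟩
  rw [← he₀] at hres
  have hres1 : ∀ n : N, ψ₀ ⟨n, hNT n.2⟩ = e₀ * θ n := fun n => by
    have := congrFun hres n
    simpa using this
  have he₁ : e₀ = ψ₀ 1 := by
    have := hres1 1
    rw [hθ1, mul_one] at this
    rw [← this]
    rfl
  -- the extension
  let A : Subgroup T := N.subgroupOf T
  let eA : A ≃* N := Subgroup.subgroupOfEquivOfLe hNT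
  have heA : ∀ a : A, ((eA a : N) : G) = ((a : T) : G) := fun _ => rfl
  obtain ⟨k, hk⟩ := IsPGroup.iff_card.mp hNp
  have hcardA : Nat.card A = p ^ k := by
    rw [← hk]
    exact Nat.card_congr eA.toEquiv
  obtain ⟨μ, hμ⟩ := exists_hom_ext A (θ₀.comp eA.toMonoidHom) hψ₀c
    (fun a => by
      have h1 := hres1 (eA a)
      rw [he₁] at h1
      have h2 : (⟨((eA a : N) : G), hNT (eA a).2⟩ : T) = (a : T) := Subtype.ext (heA a)
      rw [h2] at h1
      exact h1)
    (by
      rw [hcardA]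
      exact Nat.Coprime.pow_right k ((Nat.Prime.coprime_iff_not_dvd hp).mpr hpd₀).symm)
  haveI hAn : A.Normal := Subgroup.normal_subgroupOf
  have hμN : ∀ n : N, (μ ⟨n, hNT n.2⟩ : ℂ) = θ n := by
    intro n
    have h1 := hμ ⟨⟨n, hNT n.2⟩, by simp [A, Subgroup.mem_subgroupOf]⟩
    have h2 : eA ⟨⟨n, hNT n.2⟩, by simp [A, Subgroup.mem_subgroupOf]⟩ = n := Subtype.ext rfl
    simp only [MonoidHom.comp_apply] at h1
    have h3 : μ ⟨n, hNT n.2⟩ = θ₀ n := by
      rw [← h2]
      exact h1
    simp [h3, θ]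
  -- all degrees of `T / N` are prime to `p`
  have hdegβ : ∀ β : IrrCharacter (T ⧸ A), ¬ p ∣ charDegree (β : T ⧸ A → ℂ) := by
    intro β hdvdβ
    let π := QuotientGroup.mk' A
    let β' : T → ℂ := (β : T ⧸ A → ℂ) ∘ π
    have hβ' : IsIrrCharacter T β' := isIrr_comp_surjective π (QuotientGroup.mk'_surjective A) β.2
    let μc : T → ℂ := fun t => (μ t : ℂ)
    have hμc : IsIrrCharacter T μc := isIrrCharacter_of_hom μ
    let ψ : T → ℂ := β' * μc
    have hψ : IsIrrCharacter T ψ :=
      isIrr_mul_linear hβ' (IsIrrCharacter.isCharacter hμc) (by simp [μc])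
    have hψ1 : ψ 1 = (β : T ⧸ A → ℂ) 1 := by
      simp [ψ, β', μc]
    have hψN : ∀ n : N, ψ ⟨n, hNT n.2⟩ = (β : T ⧸ A → ℂ) 1 * θ n := by
      intro n
      have h1 : π ⟨n, hNT n.2⟩ = 1 := by
        show ((⟨n, hNT n.2⟩ : T) : T ⧸ A) = 1
        rw [QuotientGroup.eq_one_iff]
        simp [A, Subgroup.mem_subgroupOf]
      simp only [ψ, Pi.mul_apply, β', μc, Function.comp, h1]
      rw [hμN n]
    have hβ1 : (β : T ⧸ A → ℂ) 1 ≠ 0 := map_one_ne_zero_of_irr β.2
    have hcon2 : classInner (fun n : N => ψ ⟨n, hNT n.2⟩) θ ≠ 0 := by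
      have h1 : (fun n : N => ψ ⟨n, hNT n.2⟩) = (β : T ⧸ A → ℂ) 1 • θ := by
        funext n
        rw [hψN n]
        rfl
      rw [h1, classInner_smul_left, classInner_irr_self hθ, mul_one]
      exact hβ1
    have hχ' := indFun_isIrr_of_over hN hθ hT hNT hψ hcon2
    have hk' : ∃ n ∈ N, indFun T ψ n ≠ indFun T ψ 1 := by
      refine ⟨n₀, hn₀N, fun heq => ?_⟩
      have hinn : classInner (fun t : T => indFun T ψ t) ψ ≠ 0 := by
        rw [← frobenius_reciprocity' T ψ _ (IsCharacter.isClassFunction (IsIrrCharacter.isCharacter hχ')),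
          classInner_irr_self hχ']
        exact one_ne_zero
      have h2 := map_eq_of_constituent (IsCharacter.restrict T (IsIrrCharacter.isCharacter hχ')) hψ hinn
        (g := ⟨n₀, hNT hn₀N⟩) (by simpa using heq)
      have h3 := hψN ⟨n₀, hn₀N⟩
      simp only at h3
      rw [h2, hψ1] at h3
      apply hθ₀n
      have h4 : θ ⟨n₀, hn₀N⟩ = 1 := by
        have h5 : (β : T ⧸ A → ℂ) 1 * 1 = (β : T ⧸ A → ℂ) 1 * θ ⟨n₀, hn₀N⟩ := by
          rw [mul_one]; exact h3
        exact (mul_left_cancel₀ hβ1 h5).symm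
      ext
      exact h4
    apply h ⟨_, hχ'⟩ hk'
    have h6 : indFun T ψ 1 = ((T.index * charDegree (β : T ⧸ A → ℂ) : ℕ) : ℂ) := by
      rw [indFun_one, hψ1, map_one_eq_charDegree (IsIrrCharacter.isCharacter β.2)]
      push_cast
      rfl
    show p ∣ charDegree (indFun T ψ)
    rw [charDegree_natCast h6]
    exact hdvdβ.trans (Nat.dvd_mul_left _ _)
  have hstep : PStep p (T ⧸ A) :=
    (pStep_of_isPSolvable hp (isPSolvable_subgroup hp hsolv T)).quotient A
  have hnormal := sylow_normal_of_degrees (p := p) _ (T ⧸ A) rfl hstep hdegβ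
  -- a Sylow subgroup of `G` inside `T`
  obtain ⟨Q⟩ : Nonempty (Sylow p T) := inferInstance
  obtain ⟨S, hS⟩ := (IsPGroup.map Q.isPGroup' (QuotientGroup.mk' A)).exists_le_sylow
  haveI := hnormal S
  have hScomm := sylow_comm_of_degrees (S : Subgroup (T ⧸ A)) S.isPGroup' hdegβ
  let Q' : Subgroup G := (Q : Subgroup T).map T.subtype
  have hQ'card : Nat.card Q' = p ^ (Nat.card G).factorization p := by
    have h1 : Nat.card Q' = Nat.card Q :=
      Nat.card_congr (Subgroup.equivMapOfInjective (Q : Subgroup T) T.subtype T.subtype_injective).symm.toEquiv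
    rw [h1, Q.card_eq_multiplicity]
    have h2 : Nat.card G = Nat.card T * T.index := (Subgroup.card_mul_index T).symm
    rw [h2, Nat.factorization_mul Nat.card_pos.ne' Subgroup.index_ne_zero_of_finite]
    simp [Nat.factorization_eq_zero_of_not_dvd hpT]
  let R : Sylow p G := Sylow.ofCard Q' hQ'card
  obtain ⟨g, hg⟩ := MulAction.exists_smul_eq G R P
  have hmem : ∀ z ∈ (P : Subgroup G), ∃ a ∈ (Q : Subgroup T), ((a : T) : G) = g⁻¹ * z * g := by
    intro z hz
    rw [← hg, Sylow.coe_subgroup_smul, Subgroup.mem_pointwise_smul_iff_inv_smul_mem] at hz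
    have h2 : (MulAut.conj g)⁻¹ • z = g⁻¹ * z * g := by simp [MulAut.smul_def]
    rw [h2] at hz
    obtain ⟨a, ha, hae⟩ := hz
    exact ⟨a, ha, hae⟩
  obtain ⟨a, ha, hae⟩ := hmem x hx
  obtain ⟨b, hb, hbe⟩ := hmem y hy
  have hab : a * b * a⁻¹ * b⁻¹ ∈ A := by
    rw [← QuotientGroup.eq_one_iff]
    have h1 := hScomm ⟨(QuotientGroup.mk' A) a, hS ⟨a, ha, rfl⟩⟩ ⟨(QuotientGroup.mk' A) b, hS ⟨b, hb, rfl⟩⟩
    have h2 : ((a : T) : T ⧸ A) * ((b : T) : T ⧸ A) = ((b : T) : T ⧸ A) * ((a : T) : T ⧸ A) :=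
      congrArg Subtype.val h1
    show (QuotientGroup.mk' A) (a * b * a⁻¹ * b⁻¹) = 1
    rw [map_mul, map_mul, map_mul, map_inv, map_inv]
    show ((a : T) : T ⧸ A) * ((b : T) : T ⧸ A) * ((a : T) : T ⧸ A)⁻¹ * ((b : T) : T ⧸ A)⁻¹ = 1
    rw [h2]
    group
  have hab' : ((a * b * a⁻¹ * b⁻¹ : T) : G) ∈ N := hab
  have h7 : x * y * x⁻¹ * y⁻¹ = g * ((a * b * a⁻¹ * b⁻¹ : T) : G) * g⁻¹ := by
    push_cast
    rw [hae, hbe]
    group
  rw [h7]
  exact hN.conj_mem _ hab' g

/-- Elements of the `k`-th derived subgroup of a Sylow subgroup lie in `N` when the image is trivial. -/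
lemma mem_of_derived_quot (N : Subgroup G) [N.Normal] (P : Sylow p G) (k : ℕ)
    (hk : derivedSeries ↥((P.mapSurjective (QuotientGroup.mk'_surjective N) : Sylow p (G ⧸ N)) : Subgroup (G ⧸ N)) k = ⊥)
    (x : P) (hx : x ∈ derivedSeries ↥(P : Subgroup G) k) : (x : G) ∈ N := by
  let f : ↥(P : Subgroup G) →* ↥((P.mapSurjective (QuotientGroup.mk'_surjective N) : Sylow p (G ⧸ N)) : Subgroup (G ⧸ N)) :=
    (QuotientGroup.mk' N).subgroupMap (P : Subgroup G)
  have h1 := map_derivedSeries_le_derivedSeries f k (Subgroup.mem_map_of_mem f hx)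
  rw [hk, Subgroup.mem_bot] at h1
  have h2 : (QuotientGroup.mk' N) (x : G) = 1 := congrArg Subtype.val h1
  exact (QuotientGroup.eq_one_iff _).mp h2

lemma derived_add_eq_bot {H : Type*} [Group H] {k : ℕ} (h : derivedSeries H k = ⊥) (a : ℕ) :
    derivedSeries H (k + a) = ⊥ := by
  have := derivedSeries_antitone (G := H) (Nat.le_add_right k a)
  rw [h] at this
  exact le_bot_iff.mp this

lemma derived_succ_eq_bot_of_comm {H : Type*} [Group H] {k : ℕ}
    (h : ∀ a ∈ derivedSeries H k, ∀ b ∈ derivedSeries H k, a * b = b * a) :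
    derivedSeries H (k + 1) = ⊥ := by
  rw [derivedSeries_succ, Subgroup.commutator_eq_bot_iff_le_centralizer]
  intro a ha
  rw [Subgroup.mem_centralizer_iff]
  intro b hb
  exact h b hb a ha

/-- The number of characters of degree divisible by `p` goes down in quotients. -/
lemma card_quot_le (N : Subgroup G) [N.Normal] :
    Nat.card {χ : IrrCharacter (G ⧸ N) // p ∣ charDegree (χ : G ⧸ N → ℂ)} ≤
      Nat.card {χ : IrrCharacter G // p ∣ charDegree (χ : G → ℂ)} := by
  haveI : Finite (IrrCharacter G) := irrCharacter_finite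
  refine Nat.card_le_card_of_injective
    (fun ψ => ⟨inflate N ψ.1, ?_⟩) ?_
  · have : charDegree ((inflate N ψ.1 : IrrCharacter G) : G → ℂ) = charDegree ((ψ.1 : IrrCharacter (G ⧸ N)) : G ⧸ N → ℂ) := by
      show ⌊((ψ.1 : G ⧸ N → ℂ) ((1 : G) : G ⧸ N)).re⌋₊ = ⌊((ψ.1 : G ⧸ N → ℂ) 1).re⌋₊
      rfl
    rw [this]
    exact ψ.2
  · intro a b hab
    apply Subtype.ext
    apply inflate_injective N
    exact congrArg Subtype.val hab

lemma card_quot_lt (N : Subgroup G) [N.Normal] (χ₀ : IrrCharacter G)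
    (h₀ : p ∣ charDegree (χ₀ : G → ℂ)) (hker : ∃ n ∈ N, (χ₀ : G → ℂ) n ≠ (χ₀ : G → ℂ) 1) :
    Nat.card {χ : IrrCharacter (G ⧸ N) // p ∣ charDegree (χ : G ⧸ N → ℂ)} <
      Nat.card {χ : IrrCharacter G // p ∣ charDegree (χ : G → ℂ)} := by
  classical
  haveI : Finite (IrrCharacter G) := irrCharacter_finite
  haveI : Finite (IrrCharacter (G ⧸ N)) := irrCharacter_finite
  letI : Fintype {χ : IrrCharacter G // p ∣ charDegree (χ : G → ℂ)} := Fintype.ofFinite _
  letI : Fintype {χ : IrrCharacter (G ⧸ N) // p ∣ charDegree (χ : G ⧸ N → ℂ)} := Fintype.ofFinite _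
  rw [Nat.card_eq_fintype_card, Nat.card_eq_fintype_card]
  have hdeg : ∀ ψ : {χ : IrrCharacter (G ⧸ N) // p ∣ charDegree (χ : G ⧸ N → ℂ)},
      p ∣ charDegree ((inflate N ψ.1 : IrrCharacter G) : G → ℂ) := by
    intro ψ
    have : charDegree ((inflate N ψ.1 : IrrCharacter G) : G → ℂ) = charDegree ((ψ.1 : IrrCharacter (G ⧸ N)) : G ⧸ N → ℂ) := by
      show ⌊((ψ.1 : G ⧸ N → ℂ) ((1 : G) : G ⧸ N)).re⌋₊ = ⌊((ψ.1 : G ⧸ N → ℂ) 1).re⌋₊
      rfl
    rw [this]
    exact ψ.2
  refine Fintype.card_lt_of_injective_of_notMem (fun ψ => ⟨inflate N ψ.1, hdeg ψ⟩) ?_ (b := ⟨χ₀, h₀⟩) ?_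
  · intro a b hab
    apply Subtype.ext
    apply inflate_injective N
    exact congrArg Subtype.val hab
  · rintro ⟨ψ, hψ⟩
    have h1 : inflate N ψ.1 = χ₀ := congrArg Subtype.val hψ
    obtain ⟨n, hn, hne⟩ := hker
    apply hne
    have := inflate_kerContains N ψ.1 n hn
    rwa [h1] at this

/-- **The derived length of a Sylow subgroup of a `p`-solvable group** is at most one more than the
number of irreducible characters of degree divisible by `p`. -/
theorem derived_main : ∀ (m : ℕ) (G : Type u) [Group G] [Finite G], Nat.card G = m → IsPSolvable p G →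
    ∀ P : Sylow p G, derivedSeries ↥(P : Subgroup G)
      (Nat.card {χ : IrrCharacter G // p ∣ charDegree (χ : G → ℂ)} + 1) = ⊥ := by
  intro m
  induction m using Nat.strong_induction_on with
  | _ m ih =>
    intro G _ _ hm hsolv P
    classical
    have hp : p.Prime := hpf.out
    haveI : Finite (IrrCharacter G) := irrCharacter_finite
    have hstep : PStep p G := pStep_of_isPSolvable hp hsolv
    -- no character of degree divisible by `p`
    by_cases hn0 : Nat.card {χ : IrrCharacter G // p ∣ charDegree (χ : G → ℂ)} = 0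
    · rw [hn0]
      have hdeg : ∀ χ : IrrCharacter G, ¬ p ∣ charDegree (χ : G → ℂ) := by
        intro χ hχ
        have := (Finite.card_eq_zero_iff.mp hn0).false ⟨χ, hχ⟩
        exact this
      haveI := sylow_normal_of_degrees (p := p) _ G rfl hstep hdeg P
      have hc := sylow_comm_of_degrees (P : Subgroup G) P.isPGroup' hdeg
      apply derived_succ_eq_bot_of_comm
      intro a _ b _
      exact hc a b
    -- a nontrivial normal subgroup of the right shape
    obtain ⟨⟨χ₀, hχ₀⟩⟩ : Nonempty {χ : IrrCharacter G // p ∣ charDegree (χ : G → ℂ)} := by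
      by_contra hne
      rw [not_nonempty_iff] at hne
      exact hn0 (Nat.card_of_isEmpty)
    have hntG : Nontrivial G := by
      by_contra hne
      rw [not_nontrivial_iff_subsingleton] at hne
      letI : Fintype G := Fintype.ofFinite G
      have h1 := charDegree_dvd_card χ₀.2
      rw [Nat.card_unique] at h1
      have h2 := hχ₀.trans h1
      exact hp.one_lt.ne' (Nat.dvd_one.mp h2)
    obtain ⟨D, hDn, hD1, -, hD⟩ := hstep ⊥ ⊤ inferInstance inferInstance bot_lt_top
    haveI := hDn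
    have hD2 : D ≠ ⊥ := hD1.ne'
    rw [Subgroup.relIndex_bot_left] at hD
    -- a general remark on the sizes of quotients
    have hcard : ∀ N : Subgroup G, N ≠ ⊥ → Nat.card (G ⧸ N) < Nat.card G := by
      intro N hN
      have h1 : Nat.card N * Nat.card (G ⧸ N) = Nat.card G := by
        rw [← Subgroup.index_eq_card]
        exact Subgroup.card_mul_index N
      have h2 : 1 < Nat.card N := by
        obtain ⟨z, hz, hz1⟩ := N.bot_or_exists_ne_one.resolve_left hN
        haveI : Nontrivial N := (Subgroup.nontrivial_iff_exists_ne_one N).mpr ⟨z, hz, hz1⟩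
        exact Finite.one_lt_card
      have h3 : 0 < Nat.card (G ⧸ N) := Nat.card_pos
      rw [← h1]
      nlinarith
    rcases hD with ⟨k, hk⟩ | hcop
    · -- the `p`-group case: take `N = Z(D)`
      let N : Subgroup G := Subgroup.centralizer (D : Set G) ⊓ D
      haveI hNn : N.Normal := inferInstance
      have hNc : ∀ a ∈ N, ∀ b ∈ N, a * b = b * a := by
        intro a ha b hb
        exact Subgroup.mem_centralizer_iff.mp hb.1 a ha.2 |>.symm ▸ rfl
      have hDp : IsPGroup p D := IsPGroup.of_card hk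
      have hNp : IsPGroup p N := hDp.to_le inf_le_right
      have hN1 : N ≠ ⊥ := by
        haveI : Nontrivial D := by
          obtain ⟨z, hz, hz1⟩ := D.bot_or_exists_ne_one.resolve_left hD2
          exact (Subgroup.nontrivial_iff_exists_ne_one D).mpr ⟨z, hz, hz1⟩
        haveI := hDp.center_nontrivial
        obtain ⟨z, hz⟩ := exists_ne (1 : Subgroup.center D)
        intro hbot
        have hzN : ((z : D) : G) ∈ N := by
          refine ⟨?_, (z : D).2⟩
          show ((z : D) : G) ∈ Subgroup.centralizer (D : Set G)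
          rw [Subgroup.mem_centralizer_iff]
          intro b hb
          have := Subgroup.mem_center_iff.mp z.2 ⟨b, hb⟩
          exact congrArg Subtype.val this
        rw [hbot, Subgroup.mem_bot] at hzN
        apply hz
        apply Subtype.ext
        apply Subtype.ext
        exact hzN
      by_cases hcase : ∃ χ : IrrCharacter G, p ∣ charDegree (χ : G → ℂ) ∧ ∃ n ∈ N, (χ : G → ℂ) n ≠ (χ : G → ℂ) 1
      · obtain ⟨χ, hχ, hker⟩ := hcase
        have hlt := card_quot_lt (p := p) N χ hχ hker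
        have hIH := ih _ (hm ▸ hcard N hN1) (G ⧸ N) rfl
          (isPSolvable_map hp (QuotientGroup.mk' N) (QuotientGroup.mk'_surjective N) hsolv)
          (P.mapSurjective (QuotientGroup.mk'_surjective N))
        obtain ⟨a, ha⟩ : ∃ a, Nat.card {χ : IrrCharacter G // p ∣ charDegree (χ : G → ℂ)} =
            Nat.card {χ : IrrCharacter (G ⧸ N) // p ∣ charDegree (χ : G ⧸ N → ℂ)} + 1 + a :=
          ⟨_, (Nat.add_sub_of_le hlt).symm⟩
        have hIH2 := derived_add_eq_bot hIH a
        rw [← ha] at hIH2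
        apply derived_succ_eq_bot_of_comm
        intro a ha b hb
        have h1 := mem_of_derived_quot N P _ hIH2 a ha
        have h2 := mem_of_derived_quot N P _ hIH2 b hb
        apply Subtype.ext
        exact hNc _ h1 _ h2
      · push Not at hcase
        have hdeg : ∀ χ : IrrCharacter G, (∃ n ∈ N, (χ : G → ℂ) n ≠ (χ : G → ℂ) 1) →
            ¬ p ∣ charDegree (χ : G → ℂ) := by
          rintro χ ⟨n, hn, hne⟩ hχ
          exact hne (hcase χ hχ n hn)
        have h1 : ∀ a ∈ derivedSeries ↥(P : Subgroup G) 1, (a : G) ∈ N := by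
          rw [derivedSeries_one]
          have h2 : commutator ↥(P : Subgroup G) ≤ N.comap (P : Subgroup G).subtype := by
            rw [commutator_def, Subgroup.commutator_le]
            rintro x - y -
            rw [Subgroup.mem_comap, commutatorElement_def]
            exact comm_mem_of_degrees hsolv N hNc hNp hN1 hdeg P x.2 y.2
          exact fun a ha => h2 ha
        have h3 : derivedSeries ↥(P : Subgroup G) (1 + 1) = ⊥ := by
          apply derived_succ_eq_bot_of_comm
          intro a ha b hb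
          apply Subtype.ext
          exact hNc _ (h1 a ha) _ (h1 b hb)
        obtain ⟨a, ha⟩ : ∃ a, Nat.card {χ : IrrCharacter G // p ∣ charDegree (χ : G → ℂ)} + 1 = 1 + 1 + a :=
          ⟨Nat.card {χ : IrrCharacter G // p ∣ charDegree (χ : G → ℂ)} - 1, by omega⟩
        rw [ha]
        exact derived_add_eq_bot h3 a
    · -- the `p'`-group case
      have hIH := ih _ (hm ▸ hcard D hD2) (G ⧸ D) rfl
        (isPSolvable_map hp (QuotientGroup.mk' D) (QuotientGroup.mk'_surjective D) hsolv)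
        (P.mapSurjective (QuotientGroup.mk'_surjective D))
      have hle := card_quot_le (p := p) (G := G) D
      obtain ⟨a, ha⟩ : ∃ a, Nat.card {χ : IrrCharacter G // p ∣ charDegree (χ : G → ℂ)} + 1 =
          Nat.card {χ : IrrCharacter (G ⧸ D) // p ∣ charDegree (χ : G ⧸ D → ℂ)} + 1 + a :=
        ⟨Nat.card {χ : IrrCharacter G // p ∣ charDegree (χ : G → ℂ)} -
          Nat.card {χ : IrrCharacter (G ⧸ D) // p ∣ charDegree (χ : G ⧸ D → ℂ)}, by omega⟩
      have hIH2 := derived_add_eq_bot hIH a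
      rw [← ha] at hIH2
      rw [Subgroup.eq_bot_iff_forall]
      intro x hx
      have h1 := mem_of_derived_quot D P _ hIH2 x hx
      apply Subtype.ext
      obtain ⟨k, hk⟩ := (IsPGroup.iff_orderOf.mp P.isPGroup') x
      have h2 : (x : G) ^ p ^ k = 1 := by
        have := pow_orderOf_eq_one x
        rw [hk] at this
        exact congrArg Subtype.val this
      have h3 : (x : G) ^ Nat.card D = 1 := by
        have := pow_card_eq_one' (x := (⟨x, h1⟩ : D))
        exact congrArg Subtype.val this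
      exact eq_one_of_pow_of_coprime h2 h3 (Nat.Coprime.pow_left k hcop.symm)

end Cfsg.Agent.Lib.Degree.DerivedSylow
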