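import Cfsg.Agent.Lib.Degree.Gagola
import Cfsg.Agent.Lib.Degree.FSMore
import Mathlib

/-!
# Irreducible characters nonzero on exactly two conjugacy classes: Sylow structure (Gagola).
-/

set_option autoImplicit false
set_option linter.unusedSectionVars false

open scoped ComplexConjugate
open Module

namespace Cfsg.Agent.Lib.Degree

open Cfsg (classInner IsCharacter IsIrrCharacter IrrCharacter IsClassFunction charDegree indFun)
open Cfsg.Agent.Lib.Char

universe u v

section Gagola2

variable {G : Type u} [Group G] [Fintype G]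

/-- A normal `p`-subgroup lies in every Sylow `p`-subgroup. -/
theorem normal_pgroup_le_sylow {p : ℕ} [Fact p.Prime] {N : Subgroup G} (hN : N.Normal)
    (hNp : IsPGroup p N) (P : Sylow p G) : N ≤ P := by
  obtain ⟨Q, hQ⟩ := hNp.exists_le_sylow
  obtain ⟨g, hg⟩ := MulAction.exists_smul_eq G Q P
  rw [← hg, Sylow.coe_subgroup_smul]
  intro n hn
  rw [Subgroup.mem_pointwise_smul_iff_inv_smul_mem]
  apply hQ
  simpa [MulAut.smul_def] using hN.conj_mem n hn g⁻¹

theorem classCard_congr {x y : G} (h : IsConj x y) : classCard x = classCard y := by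
  classical
  unfold classCard
  congr 1
  ext g
  simp only [Finset.mem_filter, Finset.mem_univ, true_and]
  exact ⟨fun h1 => h1.trans h, fun h1 => h1.trans h.symm⟩

namespace TwoClass

variable {χ : IrrCharacter G} {N : Subgroup G} {x : G} {a : ℕ} (h : TwoClass χ N x a)

include h

theorem eq_of_support {N' : Subgroup G} (hN : ∀ g, g ∈ N' ↔ (χ : G → ℂ) g ≠ 0) : N' = N := by
  ext g
  rw [hN, h.mem_iff]

theorem card_dvd_of_pGroup {p : ℕ} [Fact p.Prime] (hNp : IsPGroup p N) : p ∣ Nat.card N := by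
  have hnt : Nontrivial N := (Subgroup.nontrivial_iff_ne_bot N).mpr h.bot_ne
  obtain ⟨n, hn⟩ := IsPGroup.iff_card.mp hNp
  have hn0 : n ≠ 0 := by
    rintro rfl
    rw [pow_zero] at hn
    exact (Finite.one_lt_card (α := N)).ne' hn
  rw [hn]
  exact dvd_pow_self p hn0

theorem not_dvd_classCard {p : ℕ} [Fact p.Prime] (hNp : IsPGroup p N) : ¬ p ∣ classCard x := by
  intro hd
  have h1 := h.card_dvd_of_pGroup hNp
  rw [h.card_eq] at h1
  have h2 := (Nat.dvd_add_right hd).mp h1
  exact (Fact.out : p.Prime).one_lt.ne' (Nat.dvd_one.mp h2)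

theorem centralizer_isPGroup {p : ℕ} [Fact p.Prime] (hNp : IsPGroup p N) {y : G} (hy : y ∈ N)
    (hy1 : y ≠ 1) : IsPGroup p (Subgroup.centralizer ({y} : Set G)) := by
  classical
  rw [IsPGroup.iff_card]
  refine ⟨_, Nat.eq_prime_pow_of_unique_prime_dvd Nat.card_pos.ne' ?_⟩
  intro q hq hqd
  by_contra hne
  have hfq : Fact q.Prime := ⟨hq⟩
  obtain ⟨c, hc⟩ := exists_prime_orderOf_dvd_card' (G := Subgroup.centralizer ({y} : Set G)) q hqd
  have hc' : orderOf (c : G) = q := by rw [Subgroup.orderOf_coe, hc]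
  have hyo : ∃ k, orderOf y = p ^ k := by
    obtain ⟨k, hk⟩ := (IsPGroup.iff_orderOf.mp hNp) ⟨y, hy⟩
    exact ⟨k, by rw [← hk, Subgroup.orderOf_mk]⟩
  have hcN : (c : G) ∉ N := by
    intro hcN
    obtain ⟨k, hk⟩ := (IsPGroup.iff_orderOf.mp hNp) ⟨c, hcN⟩
    have h1 : orderOf (c : G) = p ^ k := by rw [← hk, Subgroup.orderOf_mk]
    rw [hc'] at h1
    have h2 : q ∣ p ^ k := h1 ▸ dvd_rfl
    exact hne ((Nat.prime_dvd_prime_iff_eq hq Fact.out).mp (hq.dvd_of_dvd_pow h2))
  have h1 := h.isConj_mul hcN hy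
  have h2 : orderOf ((c : G) * y) = orderOf (c : G) := by
    obtain ⟨u, hu⟩ := isConj_iff.mp h1.symm
    rw [← hu]
    exact MulEquiv.orderOf_eq (MulAut.conj u) (c : G)
  have hcomm : Commute (c : G) y := by
    have := Subgroup.mem_centralizer_iff.mp c.2 y (Set.mem_singleton y)
    exact this.symm
  obtain ⟨k, hk⟩ := hyo
  have hcop : (orderOf (c : G)).Coprime (orderOf y) := by
    rw [hc', hk]
    exact Nat.Coprime.pow_right _ ((Nat.coprime_primes hq Fact.out).mpr hne)
  rw [hcomm.orderOf_mul_eq_mul_orderOf_of_coprime hcop, hc'] at h2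
  have h3 : orderOf y = 1 := by
    have hq0 : q ≠ 0 := hq.ne_zero
    have : q * orderOf y = q * 1 := by rw [h2, mul_one]
    exact Nat.eq_of_mul_eq_mul_left (Nat.pos_of_ne_zero hq0) this
  exact hy1 (orderOf_eq_one_iff.mp h3)

theorem exists_centralizer_sylow {p : ℕ} [Fact p.Prime] (hNp : IsPGroup p N) {y : G} (hy : y ∈ N)
    (hy1 : y ≠ 1) : ∃ P : Sylow p G, Subgroup.centralizer ({y} : Set G) = P := by
  have h1 := h.centralizer_isPGroup hNp hy hy1
  have h2 : ¬ p ∣ (Subgroup.centralizer ({y} : Set G)).index := by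
    rw [← classCard_eq_index, classCard_congr (h.isConj_of_mem hy hy1)]
    exact h.not_dvd_classCard hNp
  exact ⟨h1.toSylow h2, rfl⟩

/-- The inertia group of a nonprincipal linear character of `N` has index `k`. -/
theorem inertia_index (hN : N.Normal) {μ : IrrCharacter N} (hcomm : ∀ a b : N, a * b = b * a)
    (hμ : (μ : N → ℂ) ≠ (fun _ => (1 : ℂ))) : (inertia hN (μ : N → ℂ)).index = classCard x := by
  classical
  have : Fintype N := Fintype.ofFinite N
  have hμ1 : (μ : N → ℂ) 1 = 1 := charDegree_eq_one_of_comm hcomm μ.2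
  have hk := h.card_eq
  -- the sum of `conj μ` vanishes
  have hsum : ∑ n : N, conj ((μ : N → ℂ) n) = 0 := by
    by_contra hne
    have h1 : classInner (fun _ : N => (1 : ℂ)) (μ : N → ℂ) ≠ 0 := by
      rw [classInner_def]
      simp only [one_mul]
      exact mul_ne_zero (inv_ne_zero (card_ne_zero_complex N)) hne
    have h2 := eq_of_irr_of_constituent isIrr_principal μ.2 h1
    exact hμ h2.symm
  -- the multiplicity
  have hsplit : ∀ f : N → ℂ, ∑ n : N, f n = f 1 + ∑ n ∈ Finset.univ.erase (1 : N), f n := by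
    intro f
    rw [Finset.add_sum_erase _ _ (Finset.mem_univ _)]
  have he : classInner (fun n : N => (χ : G → ℂ) n) (μ : N → ℂ) = (a : ℕ) := by
    rw [classInner_def, hsplit]
    have h1 : ∑ n ∈ Finset.univ.erase (1 : N), (χ : G → ℂ) n * conj ((μ : N → ℂ) n) =
        -(a : ℂ) * ∑ n ∈ Finset.univ.erase (1 : N), conj ((μ : N → ℂ) n) := by
      rw [Finset.mul_sum]
      refine Finset.sum_congr rfl fun n hn => ?_
      have hn1 : (n : G) ≠ 1 := fun h0 =>
        (Finset.mem_erase.mp hn).1 (Subtype.ext h0)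
      rw [h.val_of_mem n.2 hn1]
    have h2 : ∑ n ∈ Finset.univ.erase (1 : N), conj ((μ : N → ℂ) n) = -1 := by
      have := hsplit (fun n => conj ((μ : N → ℂ) n))
      rw [hsum, hμ1] at this
      simp only [map_one] at this
      linear_combination -this
    rw [h1, h2, hμ1]
    have h3 : (χ : G → ℂ) ((1 : N) : G) = (a : ℂ) * classCard x := by
      rw [OneMemClass.coe_one, map_one_eq_charDegree (IsIrrCharacter.isCharacter χ.2), h.deg]
      push_cast
      rfl
    rw [h3]
    have h4 : (Nat.card N : ℂ) = (classCard x : ℂ) + 1 := by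
      rw [hk]; push_cast; rfl
    have h5 : (Nat.card N : ℂ) ≠ 0 := by
      exact_mod_cast Nat.card_pos.ne'
    simp only [map_one]
    rw [h4] at h5 ⊢
    field_simp
  have hdeg := clifford_degree hN χ.2 μ.2 he h.pos.ne'
  have hμd : charDegree (μ : N → ℂ) = 1 := by
    have := map_one_eq_charDegree (IsIrrCharacter.isCharacter μ.2)
    rw [hμ1] at this
    exact_mod_cast this.symm
  rw [hμd, h.deg, mul_one] at hdeg
  exact (Nat.eq_of_mul_eq_mul_left h.pos hdeg).symm

theorem exists_inertia_sylow {p : ℕ} [Fact p.Prime] (hNp : IsPGroup p N) (hN : N.Normal)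
    {μ : IrrCharacter N} (hμ : (μ : N → ℂ) ≠ (fun _ => (1 : ℂ))) :
    ∃ P : Sylow p G, ∀ g : G, g ∈ (P : Subgroup G) ↔ g ∈ inertia hN (μ : N → ℂ) := by
  have hcomm : ∀ a b : N, a * b = b * a := by
    obtain ⟨q, _, he, _⟩ := h.exists_prime_elementary
    exact fun a b => he.1.1.1 a b
  have h1 := h.inertia_index hN hcomm hμ
  have h2 := h.centralizer_isPGroup hNp h.x_mem h.ne_one
  have h3 : (inertia hN (μ : N → ℂ)).index = (Subgroup.centralizer ({x} : Set G)).index := by
    rw [h1, classCard_eq_index]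
  have h4 : Nat.card (inertia hN (μ : N → ℂ)) = Nat.card (Subgroup.centralizer ({x} : Set G)) := by
    have h5 := Subgroup.card_mul_index (inertia hN (μ : N → ℂ))
    have h6 := Subgroup.card_mul_index (Subgroup.centralizer ({x} : Set G))
    rw [h3] at h5
    have h7 : (Subgroup.centralizer ({x} : Set G)).index ≠ 0 := Subgroup.index_ne_zero_of_finite
    exact Nat.eq_of_mul_eq_mul_right (Nat.pos_of_ne_zero h7) (h5.trans h6.symm)
  have h8 : IsPGroup p (inertia hN (μ : N → ℂ)) := by
    obtain ⟨n, hn⟩ := IsPGroup.iff_card.mp h2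
    exact IsPGroup.iff_card.mpr ⟨n, h4.trans hn⟩
  have h9 : ¬ p ∣ (inertia hN (μ : N → ℂ)).index := by
    rw [h1]
    exact h.not_dvd_classCard hNp
  exact ⟨h8.toSylow h9, fun g => Iff.rfl⟩

/-- The class of `g ∉ N` is the preimage of the class of its image. -/
theorem isConj_iff_mk [N.Normal] {g u : G} (hg : g ∉ N) :
    IsConj u g ↔ IsConj (u : G ⧸ N) (g : G ⧸ N) := by
  constructor
  · intro h1
    obtain ⟨c, hc⟩ := isConj_iff.mp h1
    exact isConj_iff.mpr ⟨(c : G ⧸ N), by rw [← hc]; rfl⟩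
  · intro h1
    obtain ⟨c, hc⟩ := isConj_iff.mp h1
    obtain ⟨c, rfl⟩ := QuotientGroup.mk_surjective c
    have h2 : ((c * u * c⁻¹ : G) : G ⧸ N) = (g : G ⧸ N) := hc
    rw [eq_comm, QuotientGroup.eq] at h2
    have h3 : c * u * c⁻¹ = g * (g⁻¹ * (c * u * c⁻¹)) := by group
    have h4 : IsConj (c * u * c⁻¹) g := by
      rw [h3]
      exact h.isConj_mul hg h2
    exact (isConj_iff.mpr ⟨c, rfl⟩).trans h4

/-- The class of `g ∉ N` has `|N|` times the size of the class of its image. -/
theorem classCard_eq_mul [N.Normal] [Fintype (G ⧸ N)] {g : G} (hg : g ∉ N) :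
    classCard g = Nat.card N * classCard (g : G ⧸ N) := by
  classical
  have h1 := sum_comp_mk N (fun q : G ⧸ N => if IsConj q (g : G ⧸ N) then 1 else 0)
  simp only [smul_eq_mul] at h1
  have h2 : classCard g = ∑ u : G, if IsConj ((u : G) : G ⧸ N) (g : G ⧸ N) then 1 else 0 := by
    rw [classCard, Finset.card_filter]
    refine Finset.sum_congr rfl fun u _ => ?_
    simp only [h.isConj_iff_mk hg]
  have h3 : classCard (g : G ⧸ N) =
      ∑ q : G ⧸ N, if IsConj q (g : G ⧸ N) then 1 else 0 := by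
    rw [classCard, Finset.card_filter]
    refine Finset.sum_congr rfl fun q _ => by congr
  rw [h2, h3, h1]

/-- The centralizer sizes agree outside `N`. -/
theorem card_centralizer_eq [N.Normal] {g : G} (hg : g ∉ N) :
    Nat.card (Subgroup.centralizer ({g} : Set G)) =
      Nat.card (Subgroup.centralizer ({(g : G ⧸ N)} : Set (G ⧸ N))) := by
  classical
  have : Fintype (G ⧸ N) := Fintype.ofFinite _
  have h1 := h.classCard_eq_mul hg
  rw [classCard_eq_index, classCard_eq_index] at h1
  have h2 := Subgroup.card_mul_index (Subgroup.centralizer ({g} : Set G))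
  have h3 := Subgroup.card_mul_index (Subgroup.centralizer ({(g : G ⧸ N)} : Set (G ⧸ N)))
  have h4 := Subgroup.card_mul_index N
  have h5 : Nat.card (G ⧸ N) = N.index := rfl
  rw [h1] at h2
  rw [h5] at h3
  rw [← h3] at h4
  set c := Nat.card (Subgroup.centralizer ({g} : Set G))
  set c' := Nat.card (Subgroup.centralizer ({(g : G ⧸ N)} : Set (G ⧸ N)))
  set i' := (Subgroup.centralizer ({(g : G ⧸ N)} : Set (G ⧸ N))).index
  have hi : i' ≠ 0 := Subgroup.index_ne_zero_of_finite
  have hn : Nat.card N ≠ 0 := Nat.card_pos.ne'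
  have h6 : c * (Nat.card N * i') = c' * (Nat.card N * i') := by
    rw [h2, ← h4]
    ring
  exact Nat.eq_of_mul_eq_mul_right (Nat.pos_of_ne_zero (mul_ne_zero hn hi)) h6

/-- An element outside `N` has class size divisible by `|N|`. -/
theorem card_dvd_index [N.Normal] {g : G} (hg : g ∉ N) :
    Nat.card N ∣ (Subgroup.centralizer ({g} : Set G)).index := by
  classical
  have : Fintype (G ⧸ N) := Fintype.ofFinite _
  rw [← classCard_eq_index, h.classCard_eq_mul hg]
  exact dvd_mul_right _ _

/-- The centre of a Sylow subgroup lies in `N`. -/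
theorem center_le {p : ℕ} [Fact p.Prime] [N.Normal] (hNp : IsPGroup p N) (P : Sylow p G) :
    (Subgroup.center (P : Subgroup G)).map (P : Subgroup G).subtype ≤ N := by
  rintro _ ⟨z, hz, rfl⟩
  by_contra hzN
  have hzN' : (z : G) ∉ N := hzN
  have h1 := h.card_dvd_index hzN'
  have h2 : (P : Subgroup G) ≤ Subgroup.centralizer ({(z : G)} : Set G) := by
    intro w hw
    rw [Subgroup.mem_centralizer_iff]
    rintro _ rfl
    have := (Subgroup.mem_center_iff.mp hz) ⟨w, hw⟩
    exact (congrArg Subtype.val this).symm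
  have h3 := Subgroup.index_dvd_of_le h2
  exact P.not_dvd_index ((h.card_dvd_of_pGroup hNp).trans (h1.trans h3))

theorem center_eq_iff {p : ℕ} [Fact p.Prime] [hN : N.Normal] (hNp : IsPGroup p N) (P : Sylow p G) :
    (Subgroup.center (P : Subgroup G)).map (P : Subgroup G).subtype = N ↔
      (P : Subgroup G).Normal := by
  have hNP : N ≤ P := normal_pgroup_le_sylow hN hNp P
  constructor
  · intro he
    have hcen : ∀ y ∈ N, y ≠ 1 → Subgroup.centralizer ({y} : Set G) = P := by
      intro y hy hy1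
      obtain ⟨Q, hQ⟩ := h.exists_centralizer_sylow hNp hy hy1
      have h1 : (P : Subgroup G) ≤ Q := by
        rw [← hQ]
        intro w hw
        rw [Subgroup.mem_centralizer_iff]
        rintro _ rfl
        rw [← he] at hy
        obtain ⟨z, hz, rfl⟩ := hy
        have := (Subgroup.mem_center_iff.mp hz) ⟨w, hw⟩
        exact (congrArg Subtype.val this).symm
      rw [hQ]
      exact P.is_maximal' Q.isPGroup' h1
    obtain ⟨x', hx', hx1⟩ : ∃ x', x' ∈ N ∧ x' ≠ 1 := ⟨_, h.x_mem, h.ne_one⟩
    refine ⟨fun u hu g => ?_⟩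
    rw [← hcen x' hx' hx1, Subgroup.mem_centralizer_iff]
    rintro y (hyx : y = x')
    rw [hyx]
    have hy : g⁻¹ * x' * g ∈ N := by
      simpa using hN.conj_mem x' hx' g⁻¹
    have hy1 : g⁻¹ * x' * g ≠ 1 := by
      intro h0
      apply hx1
      have : x' = g * (g⁻¹ * x' * g) * g⁻¹ := by group
      rw [this, h0]
      simp
    have h1 := hcen _ hy hy1
    rw [← h1, Subgroup.mem_centralizer_iff] at hu
    have h2 := hu _ rfl
    calc x' * (g * u * g⁻¹) = g * ((g⁻¹ * x' * g) * u) * g⁻¹ := by group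
      _ = g * (u * (g⁻¹ * x' * g)) * g⁻¹ := by rw [h2]
      _ = g * u * g⁻¹ * x' := by group
  · intro hPn
    apply le_antisymm (h.center_le hNp P)
    apply h.le_of_normal
    · refine ⟨?_⟩
      rintro _ ⟨z, hz, rfl⟩ g
      have hm : g * (z : G) * g⁻¹ ∈ (P : Subgroup G) := hPn.conj_mem _ z.2 g
      refine ⟨⟨_, hm⟩, Subgroup.mem_center_iff.mpr ?_, rfl⟩
      intro w
      apply Subtype.ext
      have hw : g⁻¹ * (w : G) * g ∈ (P : Subgroup G) := by
        simpa using hPn.conj_mem _ w.2 g⁻¹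
      have h2 := congrArg Subtype.val ((Subgroup.mem_center_iff.mp hz) ⟨_, hw⟩)
      have h3 : (g⁻¹ * (w : G) * g) * (z : G) = (z : G) * (g⁻¹ * (w : G) * g) := h2
      show (w : G) * (g * (z : G) * g⁻¹) = (g * (z : G) * g⁻¹) * w
      calc (w : G) * (g * (z : G) * g⁻¹) = g * ((g⁻¹ * (w : G) * g) * (z : G)) * g⁻¹ := by group
        _ = g * ((z : G) * (g⁻¹ * (w : G) * g)) * g⁻¹ := by rw [h3]
        _ = (g * (z : G) * g⁻¹) * w := by group
    · intro hb
      have hnt : Nontrivial (P : Subgroup G) := by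
        obtain ⟨y, hy⟩ : ∃ y : (P : Subgroup G), (y : G) ≠ 1 := ⟨⟨x, hNP h.x_mem⟩, h.ne_one⟩
        exact ⟨⟨y, 1, fun h0 => hy (congrArg Subtype.val h0)⟩⟩
      have hcn := P.isPGroup'.center_nontrivial
      obtain ⟨z, hz⟩ := exists_ne (1 : Subgroup.center (P : Subgroup G))
      apply hz
      have h1 : (((z : (P : Subgroup G))) : G) ∈
          (Subgroup.center (P : Subgroup G)).map (P : Subgroup G).subtype :=
        ⟨z, z.2, rfl⟩
      rw [hb] at h1
      apply Subtype.ext
      apply Subtype.ext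
      simpa using h1

theorem mem_of_mem_upperCentralSeries_succ {p : ℕ} [Fact p.Prime] [hN : N.Normal]
    (hNp : IsPGroup p N) (P : Sylow p G) (i : ℕ)
    (hi : Subgroup.upperCentralSeries (P : Subgroup G) i ≤ N.subgroupOf (P : Subgroup G))
    (hne : Subgroup.upperCentralSeries (P : Subgroup G) i ≠ N.subgroupOf (P : Subgroup G))
    {z : (P : Subgroup G)} (hz : z ∈ Subgroup.upperCentralSeries (P : Subgroup G) (i + 1)) :
    (z : G) ∈ N := by
  classical
  have hNP : N ≤ P := normal_pgroup_le_sylow hN hNp P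
  by_contra hzN
  set Z := Subgroup.upperCentralSeries (P : Subgroup G) i with hZ
  set C' := Subgroup.centralizer ({z} : Set (P : Subgroup G)) with hC'
  set C := Subgroup.centralizer ({(z : G)} : Set G) with hC
  -- the index in `P` is at most `|Z|`
  have h1 : C'.index ≤ Nat.card Z := by
    rw [hC', ← Cfsg.Agent.Lib.Char.card_isConj_eq_index]
    refine Nat.card_le_card_of_injective
      (fun w : {w : (P : Subgroup G) // IsConj z w} => (⟨(w : (P : Subgroup G)) * z⁻¹, ?_⟩ : Z)) ?_
    · obtain ⟨c, hc⟩ := isConj_iff.mp w.2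
      have h2 := Subgroup.mem_upperCentralSeries_succ_iff.mp hz c
      rw [commutatorElement_def] at h2
      have h3 : (w : (P : Subgroup G)) * z⁻¹ = c * z * c⁻¹ * z⁻¹ := by rw [hc]
      rw [h3]
      have h4 := Z.inv_mem h2
      have h5 : (z * c * z⁻¹ * c⁻¹)⁻¹ = c * z * c⁻¹ * z⁻¹ := by group
      rw [h5] at h4
      exact h4
    · intro w w' hww
      have := congrArg Subtype.val hww
      exact Subtype.ext (mul_right_cancel this)
  have h2 : Nat.card N ∣ C.index := h.card_dvd_index hzN
  have h3 : Nat.card C' ∣ Nat.card C := by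
    have h4 : C'.map (P : Subgroup G).subtype ≤ C := by
      rintro _ ⟨w, hw, rfl⟩
      rw [hC, Subgroup.mem_centralizer_iff]
      rintro _ rfl
      have h5 := Subgroup.mem_centralizer_iff.mp hw z rfl
      exact congrArg Subtype.val h5
    have h5 := Subgroup.card_dvd_of_le h4
    rwa [Subgroup.card_map_of_injective (Subgroup.subtype_injective _)] at h5
  have h4 : Nat.card N * Nat.card C' ∣ Nat.card G := by
    rw [← Subgroup.card_mul_index C, mul_comm (Nat.card C)]
    exact mul_dvd_mul h2 h3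
  obtain ⟨n, hn⟩ := IsPGroup.iff_card.mp hNp
  have hC'p : IsPGroup p C' := IsPGroup.to_subgroup P.isPGroup' C'
  obtain ⟨m, hm⟩ := IsPGroup.iff_card.mp hC'p
  have h5 : p ^ (n + m) ∣ Nat.card (P : Subgroup G) :=
    P.pow_dvd_card_of_pow_dvd_card (by rw [pow_add, ← hn, ← hm]; exact h4)
  have h6 : Nat.card N ∣ C'.index := by
    have h7 := Subgroup.card_mul_index C'
    rw [← h7, pow_add, ← hn, ← hm, mul_comm (Nat.card N)] at h5
    exact Nat.dvd_of_mul_dvd_mul_left Nat.card_pos h5
  have h7 : Nat.card Z < Nat.card N := by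
    have h8 : Nat.card (N.subgroupOf (P : Subgroup G)) = Nat.card N :=
      Nat.card_congr (Subgroup.subgroupOfEquivOfLe hNP).toEquiv
    rw [← h8]
    by_contra h9
    exact hne (Subgroup.eq_of_le_of_card_ge hi (not_lt.mp h9))
  have h8 := Nat.le_of_dvd (Nat.pos_of_ne_zero Subgroup.index_ne_zero_of_finite) h6
  omega

theorem exists_upperCentralSeries {p : ℕ} [Fact p.Prime] [hN : N.Normal] (hNp : IsPGroup p N)
    (P : Sylow p G) :
    ∃ i : ℕ, Subgroup.upperCentralSeries (P : Subgroup G) i = N.subgroupOf (P : Subgroup G) := by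
  classical
  have key : ∀ i, Subgroup.upperCentralSeries (P : Subgroup G) i ≤ N.subgroupOf (P : Subgroup G) ∨
      ∃ j, Subgroup.upperCentralSeries (P : Subgroup G) j = N.subgroupOf (P : Subgroup G) := by
    intro i
    induction i with
    | zero =>
      left
      rw [Subgroup.upperCentralSeries_zero]
      exact bot_le
    | succ i ih =>
      rcases ih with ih | ih
      · by_cases he : Subgroup.upperCentralSeries (P : Subgroup G) i = N.subgroupOf (P : Subgroup G)
        · exact Or.inr ⟨i, he⟩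
        · left
          intro z hz
          rw [Subgroup.mem_subgroupOf]
          exact h.mem_of_mem_upperCentralSeries_succ hNp P i ih he hz
      · exact Or.inr ih
  have hnil : Group.IsNilpotent (P : Subgroup G) := P.isPGroup'.isNilpotent
  obtain ⟨c, hc⟩ := (Group.isNilpotent_iff _).mp hnil
  rcases key c with h1 | h1
  · refine ⟨c, ?_⟩
    rw [hc] at h1 ⊢
    exact (top_le_iff.mp h1).symm
  · exact h1

end TwoClass

end Gagola2

end Cfsg.Agent.Lib.Degree
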