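import Mathlib
import Cfsg.Agent.Lib.Degree.GalConj1
import Cfsg.Agent.Lib.Core.Basic
import Cfsg.Agent.Lib.Degree.GaloisChar

/-!
# Groups with all same-degree nonlinear characters Galois conjugate: easy direction
-/

set_option autoImplicit false
set_option linter.unusedSectionVars false
set_option linter.unusedSimpArgs false
set_option linter.unusedVariables false
set_option linter.style.haveILetI false

open scoped ComplexConjugate
open Module
open Cfsg

namespace Cfsg.Agent.Lib.Degree

open Cfsg.Agent.Lib.Char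

universe u

/-- The hypothesis: same-degree nonlinear irreducible characters are Galois conjugate. -/
def GalH (P : Type u) [Group P] : Prop :=
  ∀ χ ψ : IrrCharacter P, charDegree (χ : P → ℂ) ≠ 1 → charDegree (χ : P → ℂ) = charDegree (ψ : P → ℂ) →
    ∃ k : ℕ, Nat.Coprime k (Nat.card P) ∧ ∀ g : P, (ψ : P → ℂ) g = (χ : P → ℂ) (g ^ k)

section Cyc

theorem mem_zpowers_of_cyclic {C : Type*} [Group C] [Fintype C] [IsCyclic C] {p : ℕ} [hp : Fact p.Prime]
    (hC : IsPGroup p C) {x y : C} (hx : x ^ p = 1) (hy : y ≠ 1) : x ∈ Subgroup.zpowers y := by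
  classical
  obtain ⟨k, hk⟩ := (IsPGroup.iff_orderOf.1 hC) y
  have hk0 : k ≠ 0 := by
    rintro rfl
    rw [pow_zero, orderOf_eq_one_iff] at hk
    exact hy hk
  have hpd : p ∣ orderOf y := by
    rw [hk]
    exact dvd_pow_self p hk0
  have hord : orderOf (y ^ (orderOf y / p)) = p := orderOf_pow_orderOf_div (orderOf_pos y).ne' hpd
  set y' := y ^ (orderOf y / p) with hy'
  have hcard : (Finset.univ.filter (fun z : C => z ^ p = 1)).card ≤ p :=
    IsCyclic.card_pow_eq_one_le hp.out.pos
  let S : Finset C := (Finset.range p).image (fun i => y' ^ i)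
  have hS : S.card = p := by
    rw [Finset.card_image_of_injOn, Finset.card_range]
    intro a ha b hb hab
    have ha' : a < orderOf y' := by rw [hord]; exact Finset.mem_range.1 ha
    have hb' : b < orderOf y' := by rw [hord]; exact Finset.mem_range.1 hb
    exact pow_injOn_Iio_orderOf ha' hb' hab
  have hsub : S ⊆ Finset.univ.filter (fun z : C => z ^ p = 1) := by
    intro z hz
    obtain ⟨i, -, rfl⟩ := Finset.mem_image.1 hz
    simp only [Finset.mem_filter, Finset.mem_univ, true_and]
    rw [← pow_mul, mul_comm, pow_mul, ← hord, pow_orderOf_eq_one, one_pow]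
  have heq : S = Finset.univ.filter (fun z : C => z ^ p = 1) :=
    Finset.eq_of_subset_of_card_le hsub (by rw [hS]; exact hcard)
  have hxS : x ∈ S := by
    rw [heq]
    simp [hx]
  obtain ⟨i, -, hi⟩ := Finset.mem_image.1 hxS
  rw [← hi, hy', ← pow_mul]
  exact Subgroup.npow_mem_zpowers _ _

end Cyc

section PGrp

variable {P : Type u} [Group P] [Fintype P] {p : ℕ} [hp : Fact p.Prime]

theorem comm_mem_commutator (a b : P) : a * b * a⁻¹ * b⁻¹ ∈ commutator P := by
  have := Subgroup.commutator_mem_commutator (G := P) (H₁ := ⊤) (H₂ := ⊤) (g₁ := a) (g₂ := b) trivial trivial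
  simpa [commutatorElement_def, _root_.commutator_def] using this

theorem comm_mem_commutator' (g h : P) : g⁻¹ * h⁻¹ * g * h ∈ commutator P := by
  have := comm_mem_commutator g⁻¹ h⁻¹
  simpa using this

/-- A subgroup of prime order is generated by any of its nontrivial elements. -/
theorem eq_zpowers_of_card_prime {D : Subgroup P} (hD : Nat.card D = p) {c : P} (hc : c ∈ D) (hc1 : c ≠ 1) :
    D ≤ Subgroup.zpowers c := by
  have hle : Subgroup.zpowers c ≤ D := (Subgroup.zpowers_le).2 hc
  have h1 : Nat.card (Subgroup.zpowers c) ∣ p := by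
    rw [← hD]
    exact Subgroup.card_dvd_of_le hle
  rcases (Nat.dvd_prime hp.out).1 h1 with h2 | h2
  · exfalso
    apply hc1
    have := Subgroup.eq_bot_of_card_eq _ h2
    exact Subgroup.zpowers_eq_bot.1 this
  · rw [Subgroup.eq_of_le_of_card_ge hle (by rw [h2, hD])]

/-- Normal subgroups of prime order of a `p`-group are central. -/
theorem le_center_of_card_prime (hP : IsPGroup p P) (D : Subgroup P) [hDn : D.Normal] (hD : Nat.card D = p) :
    D ≤ Subgroup.center P := by
  haveI : Group.IsNilpotent P := hP.isNilpotent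
  have hne : D ≠ ⊥ := by
    intro h
    rw [h] at hD
    simp at hD
    exact hp.out.one_lt.ne hD
  have h1 := Cfsg.Agent.Lib.Core.normal_inf_center_ne_bot D hne
  have h2 : (D ⊓ Subgroup.center P) ≤ D := inf_le_left
  have h3 : Nat.card ↥(D ⊓ Subgroup.center P) ∣ p := by
    rw [← hD]
    exact Subgroup.card_dvd_of_le h2
  rcases (Nat.dvd_prime hp.out).1 h3 with h4 | h4
  · exact absurd (Subgroup.eq_bot_of_card_eq _ h4) h1
  · have h5 := Subgroup.eq_of_le_of_card_ge h2 (by rw [h4, hD])
    rw [← h5]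
    exact inf_le_right

theorem val_pow_of_ker (χ : IrrCharacter P) {u : P} (hu : (χ : P → ℂ) u = (χ : P → ℂ) 1) (k : ℕ) :
    (χ : P → ℂ) (u ^ k) = (χ : P → ℂ) 1 := by
  have hc := IsIrrCharacter.isCharacter χ.2
  have h1 : u ∈ kerOf (χ : P → ℂ) := (mem_kerOf_iff hc).2 hu
  exact (mem_kerOf_iff hc).1 (Subgroup.pow_mem _ h1 k)

theorem val_zpow_of_ker (χ : IrrCharacter P) {u : P} (hu : (χ : P → ℂ) u = (χ : P → ℂ) 1) (k : ℤ) :
    (χ : P → ℂ) (u ^ k) = (χ : P → ℂ) 1 := by
  have hc := IsIrrCharacter.isCharacter χ.2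
  have h1 : u ∈ kerOf (χ : P → ℂ) := (mem_kerOf_iff hc).2 hu
  exact (mem_kerOf_iff hc).1 (Subgroup.zpow_mem _ h1 k)

/-- Nonlinear characters are faithful on a commutator subgroup of prime order. -/
theorem faithful_on_commutator (hD : Nat.card (commutator P) = p) (χ : IrrCharacter P)
    (hχ : charDegree (χ : P → ℂ) ≠ 1) {c : P} (hc : c ∈ commutator P) (hc1 : c ≠ 1) :
    (χ : P → ℂ) c ≠ (χ : P → ℂ) 1 := by
  intro h
  apply hχ
  apply charDegree_one_of_commutator_ker
  intro x hx
  obtain ⟨i, rfl⟩ := Subgroup.mem_zpowers_iff.1 (eq_zpowers_of_card_prime hD hc hc1 hx)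
  exact val_zpow_of_ker χ h i

/-- A character faithful on a central commutator subgroup vanishes off the centre. -/
theorem vanish_off_center (hDc : commutator P ≤ Subgroup.center P) (χ : IrrCharacter P)
    (hf : ∀ c ∈ commutator P, c ≠ 1 → (χ : P → ℂ) c ≠ (χ : P → ℂ) 1) {g : P} (hg : g ∉ Subgroup.center P) :
    (χ : P → ℂ) g = 0 := by
  rw [Subgroup.mem_center_iff] at hg
  push Not at hg
  obtain ⟨h, hh⟩ := hg
  have hc := comm_mem_commutator' g h
  refine irr_eq_zero_of_comm χ (hDc hc) (hf _ hc ?_)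
  intro h1
  apply hh
  have h2 : g⁻¹ * h⁻¹ * g * h = (h * g)⁻¹ * (g * h) := by group
  rw [h2, inv_mul_eq_one] at h1
  exact h1

/-- The easy direction. -/
theorem galH_of_structure (hP : IsPGroup p P) (hcyc : IsCyclic (Subgroup.center P))
    (hD : Nat.card (commutator P) = p) : GalH P := by
  classical
  intro χ ψ hχ hdeg
  have hψ : charDegree (ψ : P → ℂ) ≠ 1 := hdeg ▸ hχ
  haveI hDn : (commutator P).Normal := inferInstance
  have hDZ : commutator P ≤ Subgroup.center P := le_center_of_card_prime hP _ hD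
  have hZp : IsPGroup p (Subgroup.center P) := hP.to_subgroup _
  have hval1 : (ψ : P → ℂ) 1 = (χ : P → ℂ) 1 := by
    rw [map_one_eq_charDegree (IsIrrCharacter.isCharacter ψ.2),
      map_one_eq_charDegree (IsIrrCharacter.isCharacter χ.2), hdeg]
  -- faithfulness on the centre
  have hfaith : ∀ ξ : IrrCharacter P, charDegree (ξ : P → ℂ) ≠ 1 → ∀ y ∈ Subgroup.center P, y ≠ 1 →
      cv ξ y ≠ 1 := by
    intro ξ hξ y hy hy1 hcv
    have hyk : (ξ : P → ℂ) y = (ξ : P → ℂ) 1 := by
      rw [val_eq_cv_mul ξ y, hcv, one_mul]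
    apply hξ
    apply charDegree_one_of_commutator_ker
    intro c hc
    have hcZ := hDZ hc
    have hcp : (⟨c, hcZ⟩ : Subgroup.center P) ^ p = 1 := by
      apply Subtype.ext
      have : c ^ p = 1 := by
        have h1 : (⟨c, hc⟩ : commutator P) ^ Nat.card (commutator P) = 1 := pow_card_eq_one'
        rw [hD] at h1
        exact congrArg Subtype.val h1
      exact this
    have hy1' : (⟨y, hy⟩ : Subgroup.center P) ≠ 1 := fun h => hy1 (congrArg Subtype.val h)
    obtain ⟨i, hi⟩ := Subgroup.mem_zpowers_iff.1 (mem_zpowers_of_cyclic hZp hcp hy1')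
    have hi' : c = y ^ i := by
      have := congrArg Subtype.val hi
      exact this.symm
    rw [hi']
    exact val_zpow_of_ker ξ hyk i
  -- the generator
  obtain ⟨z, hz⟩ := IsCyclic.exists_generator (α := Subgroup.center P)
  set n := orderOf z with hn
  have hn0 : 0 < n := orderOf_pos z
  have hprim : ∀ ξ : IrrCharacter P, charDegree (ξ : P → ℂ) ≠ 1 → IsPrimitiveRoot (cv ξ (z : P)) n := by
    intro ξ hξ
    refine ⟨?_, ?_⟩
    · rw [← cv_pow ξ z.2, ← Subgroup.coe_pow, hn, pow_orderOf_eq_one]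
      simp [cv_one]
    · intro l hl
      rw [← cv_pow ξ z.2] at hl
      by_contra hnd
      have hz1 : (z : P) ^ l ≠ 1 := by
        intro h
        apply hnd
        apply orderOf_dvd_of_pow_eq_one
        apply Subtype.ext
        simpa using h
      exact hfaith ξ hξ _ (Subgroup.pow_mem _ z.2 l) hz1 hl
  have hα := hprim χ hχ
  have hβ := hprim ψ hψ
  haveI : NeZero n := ⟨hn0.ne'⟩
  obtain ⟨k, hkn, hk⟩ := hα.eq_pow_of_pow_eq_one hβ.pow_eq_one
  have hcop : k.Coprime n := (hα.pow_iff_coprime hn0 k).1 (by rw [hk]; exact hβ)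
  have hpn : p ∣ n := by
    have h1 : Nat.card (Subgroup.center P) = n := by
      rw [hn]
      exact (orderOf_eq_card_of_forall_mem_zpowers hz).symm
    rw [← h1, ← hD]
    exact Subgroup.card_dvd_of_le hDZ
  have hcopP : k.Coprime (Nat.card P) := by
    obtain ⟨m, hm⟩ := IsPGroup.iff_card.1 hP
    rw [hm]
    exact Nat.Coprime.pow_right _ (Nat.Coprime.coprime_dvd_right hpn hcop)
  refine ⟨k, hcopP, fun g => ?_⟩
  by_cases hg : g ∈ Subgroup.center P
  · obtain ⟨i, hi⟩ := Subgroup.mem_zpowers_iff.1 (hz ⟨g, hg⟩)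
    -- natural exponent
    have hnat : ∃ j : ℕ, (z : P) ^ j = g := by
      have h1 : (⟨g, hg⟩ : Subgroup.center P) ∈ Submonoid.powers z := by
        rw [← SetLike.mem_coe, powers_eq_zpowers]
        exact hz _
      obtain ⟨j, hj⟩ := h1
      exact ⟨j, by simpa using congrArg Subtype.val hj⟩
    obtain ⟨j, rfl⟩ := hnat
    rw [val_eq_cv_mul ψ, cv_pow ψ z.2, ← pow_mul, val_eq_cv_mul χ, cv_pow χ z.2, hval1, ← hk]
    ring
  · have hgk : g ^ k ∉ Subgroup.center P := by
      intro h
      apply hg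
      exact mem_of_pow_mem_of_coprime _ hcopP h
    have hf : ∀ ξ : IrrCharacter P, charDegree (ξ : P → ℂ) ≠ 1 →
        ∀ c ∈ commutator P, c ≠ 1 → (ξ : P → ℂ) c ≠ (ξ : P → ℂ) 1 :=
      fun ξ hξ c hc hc1 => faithful_on_commutator hD ξ hξ hc hc1
    rw [vanish_off_center hDZ ψ (hf ψ hψ) hg, vanish_off_center hDZ χ (hf χ hχ) hgk]

end PGrp

end Cfsg.Agent.Lib.Degree
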