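import Mathlib
import Cfsg.Agent.Lib.Degree.GalConj2
import Cfsg.Agent.Lib.Exc3.Fourier

/-!
# Groups with all same-degree nonlinear characters Galois conjugate: tools for the hard direction
-/

set_option autoImplicit false
set_option linter.unusedSectionVars false
set_option linter.unusedSimpArgs false
set_option linter.unusedVariables false
set_option linter.style.haveILetI false

open scoped ComplexConjugate
open Module
open Cfsg

namespace Cfsg.Agent.Lib.Degree

open Cfsg.Agent.Lib.Char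

universe u

section Forward

variable {P : Type u} [Group P] [Fintype P] {p : ℕ} [hp : Fact p.Prime]

/-- Twisting by a linear character. -/
noncomputable def twI (μ : P →* ℂˣ) (χ : IrrCharacter P) : IrrCharacter P :=
  ⟨(χ : P → ℂ) * fun g => (μ g : ℂ), isIrr_mul_linear χ.2 (isCharacter_of_units_hom μ) (by simp)⟩

theorem twI_apply (μ : P →* ℂˣ) (χ : IrrCharacter P) (g : P) :
    (twI μ χ : P → ℂ) g = (χ : P → ℂ) g * (μ g : ℂ) := rfl

theorem charDegree_twI (μ : P →* ℂˣ) (χ : IrrCharacter P) :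
    charDegree (twI μ χ : P → ℂ) = charDegree (χ : P → ℂ) := by
  apply charDegree_natCast
  rw [twI_apply, map_one_eq_charDegree (IsIrrCharacter.isCharacter χ.2)]
  simp

theorem GalH.ker_same (H : GalH P) {χ ψ : IrrCharacter P} (hχ : charDegree (χ : P → ℂ) ≠ 1)
    (hdeg : charDegree (χ : P → ℂ) = charDegree (ψ : P → ℂ)) {u : P}
    (hu : (χ : P → ℂ) u = (χ : P → ℂ) 1) : (ψ : P → ℂ) u = (ψ : P → ℂ) 1 := by
  obtain ⟨k, -, hk⟩ := H χ ψ hχ hdeg
  rw [hk u, val_pow_of_ker χ hu, hk 1, one_pow]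

/-- Kernels of nonlinear characters lie in the commutator subgroup. -/
theorem GalH.ker_le (H : GalH P) {χ : IrrCharacter P} (hχ : charDegree (χ : P → ℂ) ≠ 1) {u : P}
    (hu : (χ : P → ℂ) u = (χ : P → ℂ) 1) : u ∈ commutator P := by
  classical
  by_contra hn
  have hx : (Abelianization.of u : Abelianization P) ≠ 1 := by
    intro h
    exact hn ((QuotientGroup.eq_one_iff u).1 h)
  obtain ⟨ψ₀, hψ₀⟩ := Cfsg.Agent.Lib.Exc3.exists_dual_ne (P := Abelianization P) (fun a b => mul_comm a b) hx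
  let μ : P →* ℂˣ := ψ₀.comp Abelianization.of
  obtain ⟨k, -, hk⟩ := H χ (twI μ χ) hχ (charDegree_twI μ χ).symm
  have h1 := hk u
  rw [twI_apply, val_pow_of_ker χ hu, hu] at h1
  have h2 : ((μ u : ℂˣ) : ℂ) = 1 := by
    have h0 := irr_degree_ne_zero χ
    exact mul_left_cancel₀ h0 (by rw [h1, mul_one])
  apply hψ₀
  apply Units.ext
  simpa [μ] using h2

/-- The base case. -/
theorem center_cyclic_of_card (hP : IsPGroup p P) (H : GalH P) (hna : ¬ IsMulCommutative P)
    (hD : Nat.card (commutator P) = p) : IsCyclic (Subgroup.center P) := by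
  classical
  obtain ⟨χ, hχ⟩ := exists_nonlinear hna
  have hfaith : ∀ u : P, (χ : P → ℂ) u = (χ : P → ℂ) 1 → u = 1 := by
    intro u hu
    by_contra hu1
    exact faithful_on_commutator hD χ hχ (H.ker_le hχ hu) hu1 hu
  obtain ⟨f, hf⟩ := χ
  obtain ⟨n, ρ, hρ, rfl⟩ := id hf
  refine (faithful_irr_iff_cyclic_center hP).1 ⟨n, ρ, hρ, fun a b hab => ?_⟩
  have h3 : ρ 1 = 1 := map_one ρ
  have h1 : ρ (a⁻¹ * b) = 1 := by
    rw [map_mul, ← hab, ← map_mul, inv_mul_cancel, h3]
  have h2 : a⁻¹ * b = 1 := by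
    apply hfaith
    show ρ.character (a⁻¹ * b) = ρ.character 1
    simp only [Representation.character, h1, h3]
  exact (inv_mul_eq_one.1 h2)

variable (U : Subgroup P) [hUn : U.Normal]

theorem GalH.quotient [Fintype (P ⧸ U)] (H : GalH P) : GalH (P ⧸ U) := by
  intro χ ψ hχ hdeg
  have hdi : ∀ ξ : IrrCharacter (P ⧸ U), charDegree (Cfsg.Agent.Lib.Degree.inflate U ξ : P → ℂ) =
      charDegree (ξ : P ⧸ U → ℂ) := by
    intro ξ
    apply charDegree_natCast
    rw [inflate_apply]
    exact map_one_eq_charDegree (IsIrrCharacter.isCharacter ξ.2)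
  obtain ⟨k, hk, hg⟩ := H (inflate U χ) (inflate U ψ) (by rwa [hdi]) (by rw [hdi, hdi, hdeg])
  refine ⟨k, Nat.Coprime.coprime_dvd_right ?_ hk, fun g => ?_⟩
  · exact Subgroup.card_quotient_dvd_card U
  · obtain ⟨x, rfl⟩ := QuotientGroup.mk_surjective g
    have := hg x
    rw [inflate_apply, inflate_apply] at this
    rw [this]
    rfl

theorem card_eq_card_map_mul (S : Subgroup P) (hUS : U ≤ S) :
    Nat.card S = Nat.card (S.map (QuotientGroup.mk' U)) * Nat.card U := by
  have h1 := Subgroup.index_map (H := S) (QuotientGroup.mk' U)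
  rw [QuotientGroup.ker_mk', sup_eq_left.2 hUS, MonoidHom.range_eq_top.2 (QuotientGroup.mk'_surjective U),
    Subgroup.index_top, mul_one] at h1
  have h2 := Subgroup.card_mul_index S
  have h3 := Subgroup.card_mul_index (S.map (QuotientGroup.mk' U))
  have h4 := Subgroup.card_eq_card_quotient_mul_card_subgroup U
  rw [h1] at h3
  have hi : S.index ≠ 0 := Subgroup.index_ne_zero_of_finite
  apply Nat.eq_of_mul_eq_mul_right (Nat.pos_of_ne_zero hi)
  rw [h2, mul_right_comm, h3, h4]

theorem map_commutator_quot :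
    (commutator P).map (QuotientGroup.mk' U) = commutator (P ⧸ U) := by
  rw [_root_.commutator_def, _root_.commutator_def, Subgroup.map_commutator,
    Subgroup.map_top_of_surjective _ (QuotientGroup.mk'_surjective U)]

theorem card_commutator_quot (hUD : U ≤ commutator P) :
    Nat.card (commutator P) = Nat.card (commutator (P ⧸ U)) * Nat.card U := by
  rw [card_eq_card_map_mul U _ hUD, map_commutator_quot]

/-- Preimage of the centre of the quotient. -/
def RU : Subgroup P := (Subgroup.center (P ⧸ U)).comap (QuotientGroup.mk' U)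

theorem mem_RU {r : P} : r ∈ RU U ↔ ∀ x : P, r⁻¹ * x⁻¹ * r * x ∈ U := by
  rw [RU, Subgroup.mem_comap, Subgroup.mem_center_iff]
  constructor
  · intro h x
    have h1 := h (x : P ⧸ U)
    have h2 : ((x * r : P) : P ⧸ U) = ((r * x : P) : P ⧸ U) := h1
    rw [QuotientGroup.eq] at h2
    have h3 : (x * r)⁻¹ * (r * x) = r⁻¹ * x⁻¹ * r * x := by group
    rwa [h3] at h2
  · intro h g
    obtain ⟨x, rfl⟩ := QuotientGroup.mk_surjective g
    show ((x * r : P) : P ⧸ U) = ((r * x : P) : P ⧸ U)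
    rw [QuotientGroup.eq]
    have h3 : (x * r)⁻¹ * (r * x) = r⁻¹ * x⁻¹ * r * x := by group
    rw [h3]
    exact h x

theorem center_le_RU : Subgroup.center P ≤ RU U := by
  intro z hz
  rw [mem_RU]
  intro x
  have : z⁻¹ * x⁻¹ * z * x = 1 := by
    have h1 := Subgroup.mem_center_iff.1 hz x
    calc z⁻¹ * x⁻¹ * z * x = z⁻¹ * (x⁻¹ * z * x) := by group
      _ = z⁻¹ * z := by
        congr 1
        rw [mul_assoc, ← h1, inv_mul_cancel_left]
      _ = 1 := by group
  rw [this]
  exact U.one_mem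

theorem le_RU : U ≤ RU U := by
  intro u hu
  rw [RU, Subgroup.mem_comap]
  have : QuotientGroup.mk' U u = 1 := (QuotientGroup.eq_one_iff u).2 hu
  rw [this]
  exact Subgroup.one_mem _

theorem card_RU : Nat.card (RU U) = Nat.card (Subgroup.center (P ⧸ U)) * Nat.card U := by
  rw [card_eq_card_map_mul U _ (le_RU U), RU,
    Subgroup.map_comap_eq_self_of_surjective (QuotientGroup.mk'_surjective U)]

theorem conj_pow_of_central {A : Type*} [Group A] {a b c : A} (hc : c ∈ Subgroup.center A)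
    (h : a⁻¹ * b⁻¹ * a * b = c) (n : ℕ) : b⁻¹ * a ^ n * b = a ^ n * c ^ n := by
  have h1 : b⁻¹ * a * b = a * c := by rw [← h]; group
  have h2 : b⁻¹ * a ^ n * b = (b⁻¹ * a * b) ^ n := by
    have := conj_pow (a := b⁻¹) (b := a) (i := n)
    simpa using this.symm
  rw [h2, h1]
  exact (Commute.mul_pow (show Commute a c from (Subgroup.mem_center_iff.1 hc a)) n)

theorem pow_mem_center_of_card {A : Type*} [Group A] [Finite A]
    (hc : commutator A ≤ Subgroup.center A) (hcard : Nat.card (commutator A) = p) (a : A) :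
    a ^ p ∈ Subgroup.center A := by
  rw [Subgroup.mem_center_iff]
  intro b
  have hcm : a⁻¹ * b⁻¹ * a * b ∈ commutator A := by
    have := Subgroup.commutator_mem_commutator (G := A) (H₁ := ⊤) (H₂ := ⊤) (g₁ := a⁻¹) (g₂ := b⁻¹) trivial trivial
    simpa [commutatorElement_def, _root_.commutator_def] using this
  have h1 := conj_pow_of_central (hc hcm) rfl p
  have hcp : (a⁻¹ * b⁻¹ * a * b) ^ p = 1 := by
    have h1 : (⟨_, hcm⟩ : commutator A) ^ Nat.card (commutator A) = 1 := pow_card_eq_one'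
    rw [hcard] at h1
    exact congrArg Subtype.val h1
  rw [hcp, mul_one] at h1
  calc b * a ^ p = b * (b⁻¹ * a ^ p * b) := by rw [h1]
    _ = a ^ p * b := by group

theorem comm_le_RU (hP : IsPGroup p P) (hQ : Nat.card (commutator (P ⧸ U)) = p) :
    commutator P ≤ RU U := by
  intro c hc
  rw [RU, Subgroup.mem_comap]
  haveI : Fintype (P ⧸ U) := Fintype.ofFinite _
  apply le_center_of_card_prime (p := p) (hP.to_quotient U) (commutator (P ⧸ U)) hQ
  rw [← map_commutator_quot]
  exact Subgroup.mem_map_of_mem _ hc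

theorem pow_mem_RU (hP : IsPGroup p P) (hQ : Nat.card (commutator (P ⧸ U)) = p) (x : P) :
    x ^ p ∈ RU U := by
  rw [RU, Subgroup.mem_comap, map_pow]
  haveI : Fintype (P ⧸ U) := Fintype.ofFinite _
  exact pow_mem_center_of_card (le_center_of_card_prime (p := p) (hP.to_quotient U) (commutator (P ⧸ U)) hQ) hQ _

theorem card_RU_le (hUc : U ≤ Subgroup.center P) (hUp : Nat.card U = p)
    (hcyc : IsCyclic (Subgroup.center (P ⧸ U))) :
    Nat.card (RU U) ≤ p * Nat.card (Subgroup.center P) := by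
  classical
  obtain ⟨z, hz⟩ := IsCyclic.exists_generator (α := Subgroup.center (P ⧸ U))
  obtain ⟨r₀, hr₀⟩ := QuotientGroup.mk_surjective (z : P ⧸ U)
  have hr₀R : r₀ ∈ RU U := by
    rw [RU, Subgroup.mem_comap]
    show ((r₀ : P) : P ⧸ U) ∈ _
    rw [hr₀]
    exact z.2
  have hupow : ∀ u ∈ U, u ^ p = 1 := by
    intro u hu
    have h1 : (⟨u, hu⟩ : U) ^ Nat.card U = 1 := pow_card_eq_one'
    rw [hUp] at h1
    exact congrArg Subtype.val h1
  have hr₀p : r₀ ^ p ∈ Subgroup.center P := by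
    rw [Subgroup.mem_center_iff]
    intro x
    have hc := (mem_RU U).1 hr₀R x
    have h1 := conj_pow_of_central (hUc hc) rfl p
    rw [hupow _ hc, mul_one] at h1
    calc x * r₀ ^ p = x * (x⁻¹ * r₀ ^ p * x) := by rw [h1]
      _ = r₀ ^ p * x := by group
  -- surjection
  let f : Fin p × Subgroup.center P → RU U := fun a =>
    ⟨r₀ ^ (a.1 : ℕ) * a.2, Subgroup.mul_mem _ (Subgroup.pow_mem _ hr₀R _) (center_le_RU U a.2.2)⟩
  have hf : Function.Surjective f := by
    intro r
    have hr : QuotientGroup.mk' U (r : P) ∈ Subgroup.center (P ⧸ U) := r.2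
    have h1 : (⟨_, hr⟩ : Subgroup.center (P ⧸ U)) ∈ Submonoid.powers z := by
      rw [← SetLike.mem_coe, powers_eq_zpowers]
      exact hz _
    obtain ⟨j, hj⟩ := h1
    have hj' : ((r₀ ^ j : P) : P ⧸ U) = ((r : P) : P ⧸ U) := by
      have h2 := congrArg Subtype.val hj
      simp only [Subgroup.coe_pow] at h2
      rw [QuotientGroup.mk_pow, hr₀]
      exact h2
    rw [QuotientGroup.eq] at hj'
    have hp0 : 0 < p := hp.out.pos
    refine ⟨(⟨j % p, Nat.mod_lt _ hp0⟩, ⟨(r₀ ^ p) ^ (j / p) * ((r₀ ^ j)⁻¹ * r),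
      Subgroup.mul_mem _ (Subgroup.pow_mem _ hr₀p _) (hUc hj')⟩), ?_⟩
    apply Subtype.ext
    show r₀ ^ (j % p) * ((r₀ ^ p) ^ (j / p) * ((r₀ ^ j)⁻¹ * r)) = r
    have h3 : r₀ ^ (j % p) * (r₀ ^ p) ^ (j / p) = r₀ ^ j := by
      rw [← pow_mul, ← pow_add, Nat.mod_add_div]
    rw [← mul_assoc, h3]
    group
  have h1 := Nat.card_le_card_of_surjective f hf
  rw [Nat.card_prod, Nat.card_eq_fintype_card (α := Fin p), Fintype.card_fin] at h1
  exact h1

theorem exists_a (hP : IsPGroup p P) (hUc : U ≤ Subgroup.center P) (hUp : Nat.card U = p)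
    (hcyc : IsCyclic (Subgroup.center (P ⧸ U))) :
    ∃ a : ℕ, Nat.card (RU U) = a * Nat.card (Subgroup.center P) ∧ (a = 1 ∨ a = p) := by
  obtain ⟨a, ha⟩ := Subgroup.card_dvd_of_le (center_le_RU U)
  refine ⟨a, by rw [ha, mul_comm], ?_⟩
  have h1 := card_RU_le U hUc hUp hcyc
  rw [ha, mul_comm] at h1
  have hZ : 0 < Nat.card (Subgroup.center P) := Nat.card_pos
  have h2 : a ≤ p := Nat.le_of_mul_le_mul_right h1 hZ
  have h3 : a ∣ Nat.card P := by
    have h4 : a ∣ Nat.card (RU U) := ⟨_, by rw [ha, mul_comm]⟩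
    exact h4.trans (Subgroup.card_subgroup_dvd_card _)
  obtain ⟨m, hm⟩ := IsPGroup.iff_card.1 hP
  rw [hm] at h3
  obtain ⟨i, -, rfl⟩ := (Nat.dvd_prime_pow hp.out).1 h3
  rcases Nat.lt_or_ge i 2 with hi | hi
  · interval_cases i
    · left; rfl
    · right; rw [pow_one]
  · exfalso
    have h5 : p ^ 2 ≤ p ^ i := Nat.pow_le_pow_right hp.out.pos hi
    have h6 := hp.out.two_le
    nlinarith

/-- The character package attached to a central subgroup of order `p` in `P'`. -/
theorem exists_pkg (hP : IsPGroup p P) (hQ : Nat.card (commutator (P ⧸ U)) = p) :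
    ∃ χ : IrrCharacter P, charDegree (χ : P → ℂ) ≠ 1 ∧ (∀ u ∈ U, (χ : P → ℂ) u = (χ : P → ℂ) 1) ∧
      charDegree (χ : P → ℂ) ^ 2 * Nat.card (RU U) = Nat.card P := by
  classical
  letI : Fintype (P ⧸ U) := Fintype.ofFinite _
  have hna : ¬ IsMulCommutative (P ⧸ U) := by
    intro hc
    have h1 : commutator (P ⧸ U) = ⊥ := by
      rw [_root_.commutator_def, Subgroup.commutator_eq_bot_iff_le_centralizer]
      intro g _
      exact Subgroup.mem_centralizer_iff.2 fun h _ => hc.is_comm.comm h g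
    rw [h1] at hQ
    simp at hQ
    exact hp.out.one_lt.ne hQ
  obtain ⟨χ₀, hχ₀⟩ := exists_nonlinear hna
  have hQc : commutator (P ⧸ U) ≤ Subgroup.center (P ⧸ U) :=
    le_center_of_card_prime (p := p) (hP.to_quotient U) _ hQ
  have hv : ∀ g, g ∉ Subgroup.center (P ⧸ U) → (χ₀ : P ⧸ U → ℂ) g = 0 := fun g hg =>
    vanish_off_center hQc χ₀ (fun c hc hc1 => faithful_on_commutator hQ χ₀ hχ₀ hc hc1) hg
  have h1 := degree_sq_mul_card χ₀ (Subgroup.center (P ⧸ U)) le_rfl hv
  have hdi : charDegree (inflate U χ₀ : P → ℂ) = charDegree (χ₀ : P ⧸ U → ℂ) := by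
    apply charDegree_natCast
    rw [inflate_apply]
    exact map_one_eq_charDegree (IsIrrCharacter.isCharacter χ₀.2)
  refine ⟨inflate U χ₀, by rwa [hdi], inflate_kerContains U χ₀, ?_⟩
  rw [hdi, card_RU, ← mul_assoc, h1]
  exact (Subgroup.card_eq_card_quotient_mul_card_subgroup U).symm

end Forward

end Cfsg.Agent.Lib.Degree
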