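import Mathlib
import Cfsg.Agent.Lib.Degree.GalConj3

/-!
# Twist counting for Galois conjugate characters
-/

set_option autoImplicit false
set_option linter.unusedSectionVars false
set_option linter.unusedSimpArgs false
set_option linter.unusedVariables false
set_option linter.style.haveILetI false

open scoped ComplexConjugate
open Module
open Cfsg

namespace Cfsg.Agent.Lib.Degree

open Cfsg.Agent.Lib.Char

universe u

section Twist

variable {P : Type u} [Group P] [Fintype P] {p : ℕ} [hp : Fact p.Prime]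

/-- Twists of `ψ` are Galois conjugates by exponents `1 + p j`. -/
theorem exists_j (H : GalH P) {ψ : IrrCharacter P} (hψ : charDegree (ψ : P → ℂ) ≠ 1) {u₁ : P}
    (hu₁c : u₁ ∈ Subgroup.center P) (hu₁p : u₁ ^ p = 1) (hu₁ : (ψ : P → ℂ) u₁ ≠ (ψ : P → ℂ) 1)
    (hP1 : 1 < Nat.card P) (μ : P →* ℂˣ) (hμ : μ u₁ = 1) :
    ∃ j : ℕ, ∀ g : P, (ψ : P → ℂ) g * (μ g : ℂ) = (ψ : P → ℂ) (g ^ (1 + p * j)) := by
  obtain ⟨k, hk, hg⟩ := H ψ (twI μ ψ) hψ (charDegree_twI μ ψ).symm
  have hk0 : k ≠ 0 := by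
    rintro rfl
    rw [Nat.coprime_zero_left] at hk
    omega
  have h1 := hg u₁
  rw [twI_apply, hμ] at h1
  simp only [Units.val_one, mul_one] at h1
  have hω : cv ψ u₁ ≠ 1 := by
    intro h
    apply hu₁
    rw [val_eq_cv_mul ψ u₁, h, one_mul]
  have hωp : cv ψ u₁ ^ p = 1 := by
    rw [← cv_pow ψ hu₁c, hu₁p, cv_one]
  have h2 : cv ψ u₁ ^ k = cv ψ u₁ := by
    have h3 : cv ψ (u₁ ^ k) = cv ψ u₁ := by
      unfold cv
      rw [← h1]
    rwa [cv_pow ψ hu₁c] at h3
  have hω0 : cv ψ u₁ ≠ 0 := by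
    intro h
    rw [h, zero_pow hp.out.ne_zero] at hωp
    exact zero_ne_one hωp
  have h3 : cv ψ u₁ ^ (k - 1) = 1 := by
    have h4 : cv ψ u₁ ^ (k - 1) * cv ψ u₁ = cv ψ u₁ := by
      rw [← pow_succ, Nat.sub_add_cancel (Nat.pos_of_ne_zero hk0), h2]
    exact mul_right_cancel₀ hω0 (by rw [h4, one_mul])
  have hord : orderOf (cv ψ u₁) = p := orderOf_eq_prime hωp hω
  have hdvd : p ∣ k - 1 := by
    rw [← hord]
    exact orderOf_dvd_of_pow_eq_one h3
  obtain ⟨j, hj⟩ := hdvd
  refine ⟨j, fun g => ?_⟩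
  have hkj : k = 1 + p * j := by omega
  rw [← hkj, ← hg g, twI_apply]

/-- The twist-counting bounds. -/
theorem twist_bounds (hP : IsPGroup p P) (H : GalH P) {ψ : IrrCharacter P}
    (hψ : charDegree (ψ : P → ℂ) ≠ 1) {u₁ : P} (U : Subgroup P)
    (hUc : U ≤ Subgroup.center P) (hUD : U ≤ commutator P) (hUp : Nat.card U = p)
    (hu₁U : u₁ ∈ U) (hu₁ : (ψ : P → ℂ) u₁ ≠ (ψ : P → ℂ) 1)
    (hD : Nat.card (commutator P) = p ^ 2)
    (hvan : ∀ g ∈ commutator P, g ∉ U → (ψ : P → ℂ) g = 0)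
    (hpow : ∀ x : P, x ^ p ∈ commutator P) :
    (commutator P).index ≤ p * charDegree (ψ : P → ℂ) ^ 2 ∧
      charDegree (ψ : P → ℂ) ^ 2 ≤ p * (commutator P).index := by
  classical
  set A := Abelianization P with hA
  have hab : ∀ a b : A, a * b = b * a := fun a b => mul_comm a b
  haveI hfin := Cfsg.Agent.Lib.Exc3.finite_dual (P := A) hab
  letI : Fintype (A →* ℂˣ) := Fintype.ofFinite _
  have hcardA : Fintype.card (A →* ℂˣ) = (commutator P).index := by
    rw [← Nat.card_eq_fintype_card, Cfsg.Agent.Lib.Exc3.card_dual hab]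
    rfl
  have hu₁c := hUc hu₁U
  have hu₁p : u₁ ^ p = 1 := by
    have h1 : (⟨u₁, hu₁U⟩ : U) ^ Nat.card U = 1 := pow_card_eq_one'
    rw [hUp] at h1
    exact congrArg Subtype.val h1
  have hcardP : Nat.card P = p ^ 2 * (commutator P).index := by
    rw [← hD, Subgroup.card_mul_index]
  have hidx0 : 0 < (commutator P).index := Nat.pos_of_ne_zero Subgroup.index_ne_zero_of_finite
  have hp0 : 0 < p := hp.out.pos
  have hP1 : 1 < Nat.card P := by
    rw [hcardP]
    have : 1 < p ^ 2 := Nat.one_lt_pow two_ne_zero hp.out.one_lt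
    nlinarith
  let T : Finset (A →* ℂˣ) := Finset.univ.filter (fun μ =>
    ∀ g : P, (ψ : P → ℂ) g * ((μ (Abelianization.of g) : ℂˣ) : ℂ) = (ψ : P → ℂ) g)
  -- first count
  have hsum1 : ∑ μ : A →* ℂˣ, ∑ g : P, ((ψ : P → ℂ) g * ((μ (Abelianization.of g) : ℂˣ) : ℂ)) * conj ((ψ : P → ℂ) g) =
      (T.card : ℂ) * (Nat.card P : ℂ) := by
    have hc : (Nat.card P : ℂ) ≠ 0 := by exact_mod_cast Nat.card_pos.ne'
    have hterm : ∀ μ : A →* ℂˣ, ∑ g : P, ((ψ : P → ℂ) g * ((μ (Abelianization.of g) : ℂˣ) : ℂ)) * conj ((ψ : P → ℂ) g) =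
        if μ ∈ T then (Nat.card P : ℂ) else 0 := by
      intro μ
      let ν : P →* ℂˣ := μ.comp Abelianization.of
      have hi : (∑ g : P, (twI ν ψ : P → ℂ) g * conj ((ψ : P → ℂ) g)) =
          (Nat.card P : ℂ) * classInner (twI ν ψ : P → ℂ) (ψ : P → ℂ) := by
        rw [classInner_def, mul_inv_cancel_left₀ hc]
      have hi' : ∑ g : P, ((ψ : P → ℂ) g * ((μ (Abelianization.of g) : ℂˣ) : ℂ)) * conj ((ψ : P → ℂ) g) =
          ∑ g : P, (twI ν ψ : P → ℂ) g * conj ((ψ : P → ℂ) g) := rfl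
      rw [hi', hi]
      by_cases hμ : μ ∈ T
      · rw [if_pos hμ]
        have h1 : ((twI ν ψ : IrrCharacter P) : P → ℂ) = (ψ : P → ℂ) := by
          funext g
          exact (Finset.mem_filter.1 hμ).2 g
        rw [h1, classInner_irr_self ψ.2, mul_one]
      · rw [if_neg hμ]
        have h1 : ((twI ν ψ : IrrCharacter P) : P → ℂ) ≠ (ψ : P → ℂ) := by
          intro h
          apply hμ
          refine Finset.mem_filter.2 ⟨Finset.mem_univ _, fun g => ?_⟩
          exact congrFun h g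
        rw [classInner_irr_of_ne (twI ν ψ).2 ψ.2 h1, mul_zero]
    rw [Finset.sum_congr rfl (fun μ _ => hterm μ), Finset.sum_ite_mem, Finset.univ_inter,
      Finset.sum_const, nsmul_eq_mul]
  -- second count
  have hsum2 : ∑ μ : A →* ℂˣ, ∑ g : P, ((ψ : P → ℂ) g * ((μ (Abelianization.of g) : ℂˣ) : ℂ)) * conj ((ψ : P → ℂ) g) =
      ((commutator P).index : ℂ) * ((p : ℂ) * (charDegree (ψ : P → ℂ) : ℂ) ^ 2) := by
    rw [Finset.sum_comm]
    have hterm : ∀ g : P, ∑ μ : A →* ℂˣ, ((ψ : P → ℂ) g * ((μ (Abelianization.of g) : ℂˣ) : ℂ)) * conj ((ψ : P → ℂ) g) =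
        if g ∈ commutator P then ((commutator P).index : ℂ) * ((ψ : P → ℂ) g * conj ((ψ : P → ℂ) g)) else 0 := by
      intro g
      have h1 : ∑ μ : A →* ℂˣ, ((ψ : P → ℂ) g * ((μ (Abelianization.of g) : ℂˣ) : ℂ)) * conj ((ψ : P → ℂ) g) =
          ((ψ : P → ℂ) g * conj ((ψ : P → ℂ) g)) * ∑ μ : A →* ℂˣ, ((μ (Abelianization.of g) : ℂˣ) : ℂ) := by
        rw [Finset.mul_sum]
        refine Finset.sum_congr rfl fun μ _ => ?_
        ring
      rw [h1]
      by_cases hg : g ∈ commutator P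
      · rw [if_pos hg]
        have h2 : (Abelianization.of g : A) = 1 := (QuotientGroup.eq_one_iff g).2 hg
        rw [h2]
        simp only [map_one, Units.val_one, Finset.sum_const, Finset.card_univ, nsmul_eq_mul, mul_one]
        rw [hcardA]
        ring
      · rw [if_neg hg]
        have h2 : (Abelianization.of g : A) ≠ 1 := fun h => hg ((QuotientGroup.eq_one_iff g).1 h)
        rw [Cfsg.Agent.Lib.Exc3.sum_dual_of_ne hab h2, mul_zero]
    rw [Finset.sum_congr rfl (fun g _ => hterm g), ← Finset.sum_filter, ← Finset.mul_sum]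
    congr 1
    rw [sum_norm_sq_on ψ (commutator P) U hUc hUD hvan, hUp]
  -- consequences
  have hkey : p * T.card = charDegree (ψ : P → ℂ) ^ 2 := by
    have h1 := hsum1.symm.trans hsum2
    rw [hcardP] at h1
    have h2 : ((T.card * (p ^ 2 * (commutator P).index) : ℕ) : ℂ) =
        (((commutator P).index * (p * charDegree (ψ : P → ℂ) ^ 2) : ℕ) : ℂ) := by
      push_cast
      push_cast at h1
      exact h1
    have h3 : T.card * (p ^ 2 * (commutator P).index) = (commutator P).index * (p * charDegree (ψ : P → ℂ) ^ 2) := by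
      exact_mod_cast h2
    have h4 : (p * T.card) * (p * (commutator P).index) = charDegree (ψ : P → ℂ) ^ 2 * (p * (commutator P).index) := by
      nlinarith
    exact Nat.eq_of_mul_eq_mul_right (Nat.mul_pos hp0 hidx0) h4
  have hTle : T.card ≤ (commutator P).index := by
    rw [← hcardA]
    exact Finset.card_le_univ _
  -- the map `J`
  have hj : ∀ μ : A →* ℂˣ, ∃ j : ℕ, ∀ g : P, (ψ : P → ℂ) g * ((μ (Abelianization.of g) : ℂˣ) : ℂ) =
      (ψ : P → ℂ) (g ^ (1 + p * j)) := by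
    intro μ
    refine exists_j H hψ hu₁c hu₁p hu₁ hP1 (μ.comp Abelianization.of) ?_
    have h2 : (Abelianization.of u₁ : A) = 1 := (QuotientGroup.eq_one_iff u₁).2 (hUD hu₁U)
    show μ (Abelianization.of u₁) = 1
    rw [h2, map_one]
  choose j hj using hj
  have hwp : ∀ g : P, (g ^ p) ^ (p ^ 2) = 1 := by
    intro g
    have h1 : (⟨g ^ p, hpow g⟩ : commutator P) ^ Nat.card (commutator P) = 1 := pow_card_eq_one'
    rw [hD] at h1
    exact congrArg Subtype.val h1
  have hpow_eq : ∀ (g : P) (a b : ℕ), a % p ^ 2 = b % p ^ 2 → g ^ (1 + p * a) = g ^ (1 + p * b) := by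
    intro g a b hab'
    rw [pow_add, pow_add, pow_mul, pow_mul, pow_eq_pow_mod a (hwp g), pow_eq_pow_mod b (hwp g), hab']
  have hle : (commutator P).index ≤ p ^ 2 * T.card := by
    rw [← hcardA, ← Finset.card_univ]
    have h1 := Finset.card_le_mul_card_image (f := fun μ : A →* ℂˣ => j μ % p ^ 2)
      (Finset.univ) T.card ?_
    · refine h1.trans ?_
      rw [mul_comm]
      refine Nat.mul_le_mul_right _ ?_
      have h2 : Finset.univ.image (fun μ : A →* ℂˣ => j μ % p ^ 2) ⊆ Finset.range (p ^ 2) := by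
        intro a ha
        obtain ⟨μ, -, rfl⟩ := Finset.mem_image.1 ha
        exact Finset.mem_range.2 (Nat.mod_lt _ (by positivity))
      simpa using Finset.card_le_card h2
    · intro a ha
      obtain ⟨μ₀, -, rfl⟩ := Finset.mem_image.1 ha
      refine Finset.card_le_card_of_injOn (fun μ => μ * μ₀⁻¹) ?_ ?_
      · intro μ hμ
        have hμ' := (Finset.mem_filter.1 hμ).2
        refine Finset.mem_coe.2 (Finset.mem_filter.2 ⟨Finset.mem_univ _, fun g => ?_⟩)
        have h3 : (ψ : P → ℂ) g * ((μ (Abelianization.of g) : ℂˣ) : ℂ) =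
            (ψ : P → ℂ) g * ((μ₀ (Abelianization.of g) : ℂˣ) : ℂ) := by
          rw [hj, hj, hpow_eq g _ _ hμ']
        simp only [MonoidHom.mul_apply, MonoidHom.inv_apply, Units.val_mul, Units.val_inv_eq_inv_val]
        rw [← mul_assoc, h3, mul_assoc, mul_inv_cancel₀ (Units.ne_zero _), mul_one]
      · intro a _ b _ h
        exact mul_right_cancel h
  constructor
  · calc (commutator P).index ≤ p ^ 2 * T.card := hle
      _ = p * (p * T.card) := by ring
      _ = p * charDegree (ψ : P → ℂ) ^ 2 := by rw [hkey]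
  · rw [← hkey]
    exact Nat.mul_le_mul_left _ hTle

end Twist

end Cfsg.Agent.Lib.Degree
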