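import Mathlib
import Cfsg.Agent.Lib.Degree.GalConj4

/-!
# Groups with all same-degree nonlinear characters Galois conjugate: the hard direction
-/

set_option autoImplicit false
set_option linter.unusedSectionVars false
set_option linter.unusedSimpArgs false
set_option linter.unusedVariables false
set_option linter.style.haveILetI false

open scoped ComplexConjugate
open Module
open Cfsg

namespace Cfsg.Agent.Lib.Degree

open Cfsg.Agent.Lib.Char

universe u

section Main

variable {p : ℕ} [hp : Fact p.Prime]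

theorem exp_eq_of_sq_mul {α γ a a' : ℕ} (ha : a = 1 ∨ a = p) (ha' : a' = 1 ∨ a' = p)
    (h : (p ^ α) ^ 2 * a = (p ^ γ) ^ 2 * a') : α = γ := by
  have hone := hp.out.one_lt
  have hinj := Nat.pow_right_injective hp.out.two_le
  rcases ha with ha | ha <;> rcases ha' with ha' | ha' <;> rw [ha, ha'] at h
  · have : p ^ (α * 2) = p ^ (γ * 2) := by simpa [pow_mul] using h
    have := hinj this
    omega
  · have : p ^ (α * 2) = p ^ (γ * 2 + 1) := by simpa [pow_mul, pow_succ] using h
    have := hinj this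
    omega
  · have : p ^ (α * 2 + 1) = p ^ (γ * 2) := by simpa [pow_mul, pow_succ] using h
    have := hinj this
    omega
  · have : p ^ (α * 2 + 1) = p ^ (γ * 2 + 1) := by simpa [pow_mul, pow_succ] using h
    have := hinj this
    omega

theorem exp_eq_of_le {α β : ℕ} (h1 : (p ^ α) ^ 2 ≤ p * (p ^ β) ^ 2) (h2 : (p ^ β) ^ 2 ≤ p * (p ^ α) ^ 2) : α = β := by
  have hone := hp.out.one_lt
  have e1 : (p ^ α) ^ 2 = p ^ (α * 2) := by rw [pow_mul]
  have e2 : (p ^ β) ^ 2 = p ^ (β * 2) := by rw [pow_mul]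
  have e3 : p * p ^ (β * 2) = p ^ (β * 2 + 1) := by rw [pow_succ']
  have e4 : p * p ^ (α * 2) = p ^ (α * 2 + 1) := by rw [pow_succ']
  rw [e1, e2, e3] at h1
  rw [e1, e2, e4] at h2
  have h3 := (Nat.pow_le_pow_iff_right hone).1 h1
  have h4 := (Nat.pow_le_pow_iff_right hone).1 h2
  omega

variable {P : Type u} [Group P] [Fintype P]

theorem degree_eq_pow (hP : IsPGroup p P) (χ : IrrCharacter P) : ∃ i, charDegree (χ : P → ℂ) = p ^ i := by
  obtain ⟨m, hm⟩ := IsPGroup.iff_card.1 hP
  have h1 := charDegree_dvd_card χ.2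
  rw [hm] at h1
  obtain ⟨i, -, hi⟩ := (Nat.dvd_prime_pow hp.out).1 h1
  exact ⟨i, hi⟩

theorem comm_of_commutator_bot (h : commutator P = ⊥) : IsMulCommutative P := by
  refine ⟨⟨fun a b => ?_⟩⟩
  have h1 := comm_mem_commutator a b
  rw [h, Subgroup.mem_bot] at h1
  have : a * b * a⁻¹ = b := mul_inv_eq_one.1 h1
  exact (mul_inv_eq_iff_eq_mul.1 this)

theorem comm_quot_of_commutator_le (U : Subgroup P) [U.Normal] (h : commutator P ≤ U) :
    IsMulCommutative (P ⧸ U) := by
  refine ⟨⟨fun a b => ?_⟩⟩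
  obtain ⟨x, rfl⟩ := QuotientGroup.mk_surjective a
  obtain ⟨y, rfl⟩ := QuotientGroup.mk_surjective b
  show ((x * y : P) : P ⧸ U) = ((y * x : P) : P ⧸ U)
  rw [QuotientGroup.eq]
  have h1 : (x * y)⁻¹ * (y * x) = y⁻¹ * x⁻¹ * y * x := by group
  rw [h1]
  exact h (comm_mem_commutator' y x)

theorem commutator_le_of_comm_quot (U : Subgroup P) [U.Normal] (hc : IsMulCommutative (P ⧸ U)) :
    commutator P ≤ U := by
  have h1 : commutator (P ⧸ U) = ⊥ := by
    rw [_root_.commutator_def, Subgroup.commutator_eq_bot_iff_le_centralizer]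
    intro g _
    exact Subgroup.mem_centralizer_iff.2 fun h _ => hc.is_comm.comm h g
  rw [← map_commutator_quot, Subgroup.map_eq_bot_iff, QuotientGroup.ker_mk'] at h1
  exact h1

end Main

/-- The forward direction, by induction on the order. -/
theorem forward_main {p : ℕ} [hp : Fact p.Prime] (n : ℕ) :
    ∀ (P : Type u) [Group P] [Fintype P], Nat.card P = n → IsPGroup p P → GalH P → ¬ IsMulCommutative P →
      IsCyclic (Subgroup.center P) ∧ Nat.card (commutator P) = p := by
  induction n using Nat.strong_induction_on with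
  | _ n ih =>
  intro P _ _ hn hP H hna
  classical
  by_cases hD : Nat.card (commutator P) = p
  · exact ⟨center_cyclic_of_card hP H hna hD, hD⟩
  exfalso
  haveI : Group.IsNilpotent P := hP.isNilpotent
  have hDbot : commutator P ≠ ⊥ := fun h => hna (comm_of_commutator_bot h)
  have hDZne := Cfsg.Agent.Lib.Core.normal_inf_center_ne_bot (commutator P) hDbot
  -- a central subgroup of order p in the commutator subgroup
  have hDZp : IsPGroup p ↥(commutator P ⊓ Subgroup.center P) := hP.to_subgroup _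
  haveI : Nontrivial ↥(commutator P ⊓ Subgroup.center P) := (Subgroup.nontrivial_iff_ne_bot _).2 hDZne
  obtain ⟨x, hx⟩ : ∃ x : ↥(commutator P ⊓ Subgroup.center P), orderOf x = p := by
    have hdvd : p ∣ Nat.card ↥(commutator P ⊓ Subgroup.center P) := by
      obtain ⟨m, hm⟩ := IsPGroup.iff_card.1 hDZp
      have h1 : 1 < Nat.card ↥(commutator P ⊓ Subgroup.center P) := Finite.one_lt_card
      rw [hm] at h1 ⊢
      exact dvd_pow_self p (by rintro rfl; simp at h1)
    exact exists_prime_orderOf_dvd_card' p hdvd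
  set u₁ : P := (x : P) with hu₁
  have hu₁D : u₁ ∈ commutator P := x.2.1
  have hu₁Z : u₁ ∈ Subgroup.center P := x.2.2
  have hu₁ord : orderOf u₁ = p := by
    rw [hu₁, ← hx]
    exact Subgroup.orderOf_coe x
  have hu₁ne : u₁ ≠ 1 := by
    intro h
    rw [h, orderOf_one] at hu₁ord
    exact hp.out.one_lt.ne hu₁ord
  set U : Subgroup P := Subgroup.zpowers u₁ with hU
  have hUc : U ≤ Subgroup.center P := (Subgroup.zpowers_le).2 hu₁Z
  have hUD : U ≤ commutator P := (Subgroup.zpowers_le).2 hu₁D
  have hUp : Nat.card U = p := by rw [hU, Nat.card_zpowers, hu₁ord]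
  have hu₁U : u₁ ∈ U := Subgroup.mem_zpowers u₁
  have normal_of_central : ∀ W : Subgroup P, W ≤ Subgroup.center P → W.Normal := by
    intro W hW
    refine ⟨fun w hw g => ?_⟩
    have := Subgroup.mem_center_iff.1 (hW hw) g
    rw [this, mul_inv_cancel_right]
    exact hw
  haveI hUn : U.Normal := normal_of_central U hUc
  letI : Fintype (P ⧸ U) := Fintype.ofFinite _
  have hcard_lt : ∀ (W : Subgroup P) [W.Normal], W ≠ ⊥ → Nat.card (P ⧸ W) < n := by
    intro W _ hW
    have h1 := Subgroup.card_eq_card_quotient_mul_card_subgroup W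
    rw [← hn, h1]
    have h2 : 1 < Nat.card W := by
      rw [Finite.one_lt_card_iff_nontrivial]
      exact (Subgroup.nontrivial_iff_ne_bot _).2 hW
    have h3 : 0 < Nat.card (P ⧸ W) := Nat.card_pos
    nlinarith
  have hUne : U ≠ ⊥ := by
    intro h
    rw [h] at hUp
    simp at hUp
    exact hp.out.one_lt.ne hUp
  have hQna : ¬ IsMulCommutative (P ⧸ U) := by
    intro hc
    have h1 : commutator P ≤ U := commutator_le_of_comm_quot U hc
    apply hD
    rw [le_antisymm h1 hUD]
    exact hUp
  obtain ⟨hQ1, hQ2⟩ := ih _ (hcard_lt U hUne) (P ⧸ U) rfl (hP.to_quotient U) (H.quotient U) hQna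
  have hD2 : Nat.card (commutator P) = p ^ 2 := by
    rw [card_commutator_quot U hUD, hQ2, hUp, sq]
  obtain ⟨χ, hχnl, hχU, hχd⟩ := exists_pkg U hP hQ2
  obtain ⟨a, ha, ha1⟩ := exists_a U hP hUc hUp hQ1
  obtain ⟨ψ, hψ⟩ := exists_irr_ne_degree hu₁ne
  have hψnl : charDegree (ψ : P → ℂ) ≠ 1 := fun h => hψ (val_commutator_of_linear ψ h hu₁D)
  -- it suffices to prove the two degrees agree
  have hkey : charDegree (χ : P → ℂ) ≠ charDegree (ψ : P → ℂ) := fun h =>
    hψ (H.ker_same hχnl h (hχU u₁ hu₁U))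
  obtain ⟨α, hα⟩ := degree_eq_pow hP χ
  obtain ⟨β, hβ⟩ := degree_eq_pow hP ψ
  have hZpos : 0 < Nat.card (Subgroup.center P) := Nat.card_pos
  by_cases hDZ : commutator P ≤ Subgroup.center P
  · -- class two
    by_cases hf : ∀ c ∈ commutator P, c ≠ 1 → (ψ : P → ℂ) c ≠ (ψ : P → ℂ) 1
    · have hv : ∀ g, g ∉ Subgroup.center P → (ψ : P → ℂ) g = 0 := fun g hg => vanish_off_center hDZ ψ hf hg
      have h1 := degree_sq_mul_card ψ (Subgroup.center P) le_rfl hv
      rw [ha, ← mul_assoc] at hχd
      have h2 : charDegree (χ : P → ℂ) ^ 2 * a = charDegree (ψ : P → ℂ) ^ 2 * 1 := by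
        rw [mul_one]
        exact Nat.eq_of_mul_eq_mul_right hZpos (hχd.trans h1.symm)
      rw [hα, hβ] at h2
      have h3 := exp_eq_of_sq_mul ha1 (Or.inl rfl) h2
      exact hkey (by rw [hα, hβ, h3])
    · push Not at hf
      obtain ⟨w, hwD, hw1, hwψ⟩ := hf
      have hcψ := IsIrrCharacter.isCharacter ψ.2
      set W : Subgroup P := commutator P ⊓ kerOf (ψ : P → ℂ) with hW
      have hWD : W ≤ commutator P := inf_le_left
      have hWc : W ≤ Subgroup.center P := hWD.trans hDZ
      haveI hWn : W.Normal := normal_of_central W hWc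
      have hwW : w ∈ W := ⟨hwD, (mem_kerOf_iff hcψ).2 hwψ⟩
      have hu₁W : u₁ ∉ W := fun h => hψ ((mem_kerOf_iff hcψ).1 h.2)
      have hWne : W ≠ ⊥ := by
        intro h
        rw [h, Subgroup.mem_bot] at hwW
        exact hw1 hwW
      have hWp : Nat.card W = p := by
        have h1 : Nat.card W ∣ p ^ 2 := by
          rw [← hD2]
          exact Subgroup.card_dvd_of_le hWD
        obtain ⟨i, hi, hi2⟩ := (Nat.dvd_prime_pow hp.out).1 h1
        interval_cases i
        · exfalso
          rw [pow_zero] at hi2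
          exact hWne (Subgroup.eq_bot_of_card_eq _ hi2)
        · rw [hi2, pow_one]
        · exfalso
          apply hu₁W
          have h2 := Subgroup.eq_of_le_of_card_ge hWD (by rw [hD2, hi2])
          rw [h2]
          exact hu₁D
      letI : Fintype (P ⧸ W) := Fintype.ofFinite _
      have hWna : ¬ IsMulCommutative (P ⧸ W) := by
        intro hc
        exact hu₁W (commutator_le_of_comm_quot W hc hu₁D)
      obtain ⟨hW1, hW2⟩ := ih _ (hcard_lt W hWne) (P ⧸ W) rfl (hP.to_quotient W) (H.quotient W) hWna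
      obtain ⟨χ', hχ'nl, hχ'W, hχ'd⟩ := exists_pkg W hP hW2
      obtain ⟨a', ha', ha1'⟩ := exists_a W hP hWc hWp hW1
      obtain ⟨γ, hγ⟩ := degree_eq_pow hP χ'
      have hdeq : charDegree (χ : P → ℂ) = charDegree (χ' : P → ℂ) := by
        rw [ha, ← mul_assoc] at hχd
        rw [ha', ← mul_assoc] at hχ'd
        have h2 : charDegree (χ : P → ℂ) ^ 2 * a = charDegree (χ' : P → ℂ) ^ 2 * a' :=
          Nat.eq_of_mul_eq_mul_right hZpos (hχd.trans hχ'd.symm)
        rw [hα, hγ] at h2
        rw [hα, hγ, exp_eq_of_sq_mul ha1 ha1' h2]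
      have hχ'u := H.ker_same hχnl hdeq (hχU u₁ hu₁U)
      apply hχ'nl
      apply charDegree_one_of_commutator_ker
      have hcχ' := IsIrrCharacter.isCharacter χ'.2
      set V : Subgroup P := commutator P ⊓ kerOf (χ' : P → ℂ) with hV
      have hVD : V ≤ commutator P := inf_le_left
      have hWV : W ≤ V := fun y hy => ⟨hWD hy, (mem_kerOf_iff hcχ').2 (hχ'W y hy)⟩
      have hu₁V : u₁ ∈ V := ⟨hu₁D, (mem_kerOf_iff hcχ').2 hχ'u⟩
      have hVp : Nat.card V = p ^ 2 := by
        have h1 : Nat.card V ∣ p ^ 2 := by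
          rw [← hD2]
          exact Subgroup.card_dvd_of_le hVD
        have h2 : p ∣ Nat.card V := by
          rw [← hWp]
          exact Subgroup.card_dvd_of_le hWV
        obtain ⟨i, hi, hi2⟩ := (Nat.dvd_prime_pow hp.out).1 h1
        interval_cases i
        · exfalso
          rw [hi2, pow_zero] at h2
          exact hp.out.one_lt.ne' (Nat.dvd_one.1 h2)
        · exfalso
          rw [pow_one] at hi2
          have h3 := Subgroup.eq_of_le_of_card_ge hWV (by rw [hi2, hWp])
          rw [← h3] at hu₁V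
          exact hu₁W hu₁V
        · exact hi2
      have hVD' : V = commutator P := Subgroup.eq_of_le_of_card_ge hVD (by rw [hVp, hD2])
      intro c hc
      rw [← hVD'] at hc
      exact (mem_kerOf_iff hcχ').1 hc.2
  · -- class three
    obtain ⟨y₀, hy₀D, hy₀Z⟩ := Set.not_subset.1 hDZ
    have hQc : commutator (P ⧸ U) ≤ Subgroup.center (P ⧸ U) :=
      le_center_of_card_prime (p := p) (hP.to_quotient U) _ hQ2
    have hZU : Subgroup.center P ≤ U := by
      intro z hz
      by_contra hzU
      apply hy₀Z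
      have hCp : IsPGroup p (Subgroup.center (P ⧸ U)) := (hP.to_quotient U).to_subgroup _
      have hzQ : ((z : P) : P ⧸ U) ∈ Subgroup.center (P ⧸ U) := center_le_RU U hz
      have hcQ : ((y₀ : P) : P ⧸ U) ∈ commutator (P ⧸ U) := by
        rw [← map_commutator_quot]
        exact Subgroup.mem_map_of_mem _ hy₀D
      have hcp : (⟨_, hQc hcQ⟩ : Subgroup.center (P ⧸ U)) ^ p = 1 := by
        apply Subtype.ext
        have h1 : (⟨_, hcQ⟩ : commutator (P ⧸ U)) ^ Nat.card (commutator (P ⧸ U)) = 1 := pow_card_eq_one'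
        rw [hQ2] at h1
        have h2 : ((y₀ : P) : P ⧸ U) ^ p = 1 := by
          simpa using congrArg Subtype.val h1
        simpa using h2
      have hz1 : (⟨_, hzQ⟩ : Subgroup.center (P ⧸ U)) ≠ 1 := by
        intro h
        apply hzU
        have h2 := congrArg Subtype.val h
        exact (QuotientGroup.eq_one_iff z).1 h2
      obtain ⟨i, hi⟩ := Subgroup.mem_zpowers_iff.1 (mem_zpowers_of_cyclic hCp hcp hz1)
      have hi' : ((z ^ i : P) : P ⧸ U) = ((y₀ : P) : P ⧸ U) := by
        have h2 := congrArg Subtype.val hi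
        simpa using h2
      rw [QuotientGroup.eq] at hi'
      have h3 : y₀ = z ^ i * ((z ^ i)⁻¹ * y₀) := by group
      rw [h3]
      exact Subgroup.mul_mem _ (Subgroup.zpow_mem _ hz i) (hUc hi')
    have hZcard : Nat.card (Subgroup.center P) = p := by
      rw [le_antisymm hZU hUc]
      exact hUp
    have hRD : commutator P ≤ RU U := comm_le_RU U hP hQ2
    have hRcard : Nat.card (RU U) = p ^ 2 := by
      have h1 : p ^ 2 ≤ Nat.card (RU U) := by
        rw [← hD2]
        exact Subgroup.card_le_of_le hRD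
      rw [ha, hZcard] at h1 ⊢
      rcases ha1 with rfl | rfl
      · exfalso
        have h6 := hp.out.two_le
        nlinarith
      · rw [sq]
    have hRe : commutator P = RU U := Subgroup.eq_of_le_of_card_ge hRD (by rw [hRcard, hD2])
    have hidx : (commutator P).index = charDegree (χ : P → ℂ) ^ 2 := by
      have h1 := Subgroup.card_mul_index (commutator P)
      rw [hD2, ← hχd, hRcard, mul_comm (charDegree _ ^ 2)] at h1
      exact Nat.eq_of_mul_eq_mul_left (pow_pos hp.out.pos 2) h1
    have hpow : ∀ x : P, x ^ p ∈ commutator P := by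
      intro x
      rw [hRe]
      exact pow_mem_RU U hP hQ2 x
    have hvan : ∀ g ∈ commutator P, g ∉ U → (ψ : P → ℂ) g = 0 := by
      intro g hg hgU
      have hgZ : g ∉ Subgroup.center P := fun h => hgU (hZU h)
      rw [Subgroup.mem_center_iff] at hgZ
      push Not at hgZ
      obtain ⟨h, hh⟩ := hgZ
      have hgR : g ∈ RU U := hRD hg
      have hc := (mem_RU U).1 hgR h
      refine irr_eq_zero_of_comm ψ (hUc hc) ?_
      intro hker
      have hc1 : g⁻¹ * h⁻¹ * g * h ≠ 1 := by
        intro h1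
        apply hh
        have h2 : g⁻¹ * h⁻¹ * g * h = (h * g)⁻¹ * (g * h) := by group
        rw [h2, inv_mul_eq_one] at h1
        exact h1
      obtain ⟨i, hi⟩ := Subgroup.mem_zpowers_iff.1 (eq_zpowers_of_card_prime hUp hc hc1 hu₁U)
      apply hψ
      rw [← hi]
      exact val_zpow_of_ker ψ hker i
    obtain ⟨hb1, hb2⟩ := twist_bounds hP H hψnl U hUc hUD hUp hu₁U hψ hD2 hvan hpow
    rw [hidx, hα, hβ] at hb1 hb2
    have h3 := exp_eq_of_le hb1 hb2
    exact hkey (by rw [hα, hβ, h3])

end Cfsg.Agent.Lib.Degree
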