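import Mathlib
import Cfsg.Agent.Lib.CharExtra.FS
import Cfsg.Agent.Lib.Degree.FSMore
import Cfsg.Agent.Lib.Char.Induced
import Cfsg.Agent.Lib.Char.Iso

/-!
# The Frobenius--Schur indicator of an induced irreducible character
-/

set_option autoImplicit false
set_option linter.unusedSectionVars false
set_option linter.unusedSimpArgs false
set_option linter.unusedVariables false

open scoped ComplexConjugate
open Module Matrix
open Cfsg

namespace Cfsg.Agent.Lib.Degree

open Cfsg.Agent.Lib.Char Cfsg.Agent.Lib.CharExtra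

section Ind

open scoped Classical

variable {G : Type*} [Group G] [Fintype G] (T : Subgroup G) [Fintype T]
  {m : ℕ} (ρ : Representation ℂ T (Fin m → ℂ))

/-- The matrix coefficients extended by zero. -/
noncomputable def dotM (x : G) : Matrix (Fin m) (Fin m) ℂ :=
  if h : x ∈ T then matOf ρ ⟨x, h⟩ else 0

theorem dotM_of_mem {x : G} (h : x ∈ T) : dotM T ρ x = matOf ρ ⟨x, h⟩ := by
  simp [dotM, h]

theorem dotM_of_not_mem {x : G} (h : x ∉ T) : dotM T ρ x = 0 := by
  simp [dotM, h]

theorem dotM_mul {x y : G} (hy : y ∈ T) : dotM T ρ x * dotM T ρ y = dotM T ρ (x * y) := by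
  by_cases hx : x ∈ T
  · rw [dotM_of_mem T ρ hx, dotM_of_mem T ρ hy, dotM_of_mem T ρ (T.mul_mem hx hy), ← matOf_mul]
    rfl
  · have hxy : x * y ∉ T := fun h => hx (by simpa using T.mul_mem h (T.inv_mem hy))
    rw [dotM_of_not_mem T ρ hx, dotM_of_not_mem T ρ hxy, Matrix.zero_mul]

theorem dotM_one : dotM T ρ (1 : G) = 1 := by
  rw [dotM_of_mem T ρ T.one_mem]
  exact matOf_one ρ

/-- The representative of the coset of `g`. -/
theorem out_inv_mul_mem (g : G) : ((g : G ⧸ T).out)⁻¹ * g ∈ T := by
  have := QuotientGroup.out_eq' (g : G ⧸ T)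
  exact QuotientGroup.eq.mp this

theorem eq_of_out_inv_mul_mem {c : G ⧸ T} {g : G} (h : c.out⁻¹ * g ∈ T) : c = (g : G ⧸ T) := by
  have h1 : ((c.out : G) : G ⧸ T) = (g : G ⧸ T) := QuotientGroup.eq.mpr h
  rwa [QuotientGroup.out_eq'] at h1

abbrev Idx (G : Type*) [Group G] (T : Subgroup G) (m : ℕ) := (G ⧸ T) × Fin m

variable [Fintype (G ⧸ T)]

/-- The matrix of the induced representation. -/
noncomputable def indM (g : G) : Matrix (Idx G T m) (Idx G T m) ℂ :=
  fun p q => dotM T ρ ((p.1.out)⁻¹ * g * q.1.out) p.2 q.2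

theorem indM_one : indM T ρ (1 : G) = 1 := by
  classical
  ext ⟨a, i⟩ ⟨b, j⟩
  simp only [indM, mul_one]
  by_cases hab : a = b
  · subst hab
    rw [inv_mul_cancel, dotM_one, Matrix.one_apply, Matrix.one_apply]
    simp
  · have h1 : a.out⁻¹ * b.out ∉ T := by
      intro h
      apply hab
      have := eq_of_out_inv_mul_mem T h
      rwa [QuotientGroup.out_eq'] at this
    rw [dotM_of_not_mem T ρ h1, Matrix.one_apply]
    simp [hab]

theorem indM_mul (g h : G) : indM T ρ (g * h) = indM T ρ g * indM T ρ h := by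
  classical
  ext ⟨a, i⟩ ⟨b, j⟩
  rw [Matrix.mul_apply, Fintype.sum_prod_type]
  simp only [indM]
  set c₀ : G ⧸ T := ((h * b.out : G) : G ⧸ T) with hc₀
  have hmem : c₀.out⁻¹ * h * b.out ∈ T := by
    have := out_inv_mul_mem T (h * b.out)
    rwa [← mul_assoc] at this
  rw [Finset.sum_eq_single c₀]
  · have h1 := dotM_mul T ρ (x := a.out⁻¹ * g * c₀.out) hmem
    have h2 : a.out⁻¹ * g * c₀.out * (c₀.out⁻¹ * h * b.out) = a.out⁻¹ * (g * h) * b.out := by group
    rw [h2] at h1
    rw [← h1, Matrix.mul_apply]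
  · intro c _ hc
    have h1 : c.out⁻¹ * h * b.out ∉ T := by
      intro h2
      apply hc
      apply eq_of_out_inv_mul_mem T
      rwa [← mul_assoc]
    rw [dotM_of_not_mem T ρ h1]
    simp
  · intro h
    exact absurd (Finset.mem_univ _) h

/-- The induced representation on a coordinate space. -/
noncomputable def indRep : Representation ℂ G (Fin (Fintype.card (Idx G T m)) → ℂ) where
  toFun g := Matrix.toLin' (Matrix.reindex (Fintype.equivFin (Idx G T m)) (Fintype.equivFin (Idx G T m)) (indM T ρ g))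
  map_one' := by
    rw [indM_one]
    simp
    rfl
  map_mul' g h := by
    rw [indM_mul, Matrix.reindex_apply, Matrix.reindex_apply, Matrix.reindex_apply,
      ← Matrix.submatrix_mul_equiv _ _ _ (Fintype.equivFin (Idx G T m)).symm _]
    exact Matrix.toLin'_mul _ _

theorem matOf_indRep (g : G) : matOf (indRep T ρ) g =
    Matrix.reindex (Fintype.equivFin (Idx G T m)) (Fintype.equivFin (Idx G T m)) (indM T ρ g) := by
  show LinearMap.toMatrix' (Matrix.toLin' _) = _
  rw [LinearMap.toMatrix'_toLin']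

/-- The extension by zero of a character is invariant under conjugation by the subgroup. -/
theorem extendByZero_conj (g : G) (t : T) :
    extendByZero T ρ.character ((t : G)⁻¹ * g * t) = extendByZero T ρ.character g := by
  by_cases hg : g ∈ T
  · have h1 : (t : G)⁻¹ * g * t ∈ T := T.mul_mem (T.mul_mem (T.inv_mem t.2) hg) t.2
    rw [extendByZero_of_mem T _ h1, extendByZero_of_mem T _ hg]
    have h2 := (IsCharacter.isClassFunction (⟨m, ρ, rfl⟩ : IsCharacter T ρ.character)) ⟨g, hg⟩ t⁻¹
    have h3 : (⟨(t : G)⁻¹ * g * t, h1⟩ : T) = t⁻¹ * ⟨g, hg⟩ * t⁻¹⁻¹ := Subtype.ext (by simp)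
    rw [h3, h2]
  · have h1 : (t : G)⁻¹ * g * t ∉ T := by
      intro h
      apply hg
      have := T.mul_mem (T.mul_mem t.2 h) (T.inv_mem t.2)
      simpa [mul_assoc] using this
    rw [extendByZero_of_not_mem T _ h1, extendByZero_of_not_mem T _ hg]

theorem trace_dotM (x : G) : (dotM T ρ x).trace = extendByZero T ρ.character x := by
  by_cases hx : x ∈ T
  · rw [dotM_of_mem T ρ hx, trace_matOf, extendByZero_of_mem T _ hx]
  · rw [dotM_of_not_mem T ρ hx, extendByZero_of_not_mem T _ hx]
    simp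

theorem indRep_character : (indRep T ρ).character = indFun T ρ.character := by
  funext g
  rw [← trace_matOf, matOf_indRep, indFun_apply]
  -- the trace of the reindexed matrix
  have h1 : (Matrix.reindex (Fintype.equivFin (Idx G T m)) (Fintype.equivFin (Idx G T m)) (indM T ρ g)).trace =
      (indM T ρ g).trace := by
    simp only [Matrix.trace, Matrix.diag, Matrix.reindex_apply, Matrix.submatrix_apply]
    exact Equiv.sum_comp (Fintype.equivFin (Idx G T m)).symm (fun p => indM T ρ g p p)
  rw [h1]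
  have h2 : (indM T ρ g).trace = ∑ a : G ⧸ T, extendByZero T ρ.character (a.out⁻¹ * g * a.out) := by
    simp only [Matrix.trace, Matrix.diag, Fintype.sum_prod_type, indM]
    refine Finset.sum_congr rfl fun a _ => ?_
    rw [← trace_dotM]
    rfl
  rw [h2]
  -- grouping the cosets
  let φ : (G ⧸ T) × T → G := fun a => a.1.out * a.2
  have hφ : Function.Bijective φ := by
    constructor
    · rintro ⟨a, t⟩ ⟨a', t'⟩ h
      have h3 : a.out * (t : G) = a'.out * t' := h
      have h4 : a = a' := by
        have h5 : ((a.out * (t : G) : G) : G ⧸ T) = a := by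
          rw [QuotientGroup.mk_mul_of_mem _ t.2, QuotientGroup.out_eq']
        have h6 : ((a'.out * (t' : G) : G) : G ⧸ T) = a' := by
          rw [QuotientGroup.mk_mul_of_mem _ t'.2, QuotientGroup.out_eq']
        rw [← h5, ← h6, h3]
      subst h4
      have h7 : (t : G) = t' := mul_left_cancel h3
      rw [Subtype.ext h7]
    · intro x
      refine ⟨((x : G ⧸ T), ⟨_, out_inv_mul_mem T x⟩), ?_⟩
      show ((x : G ⧸ T).out) * (((x : G ⧸ T).out)⁻¹ * x) = x
      group
  have h3 : ∑ x : G, extendByZero T ρ.character (x⁻¹ * g * x) =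
      (Nat.card T : ℂ) * ∑ a : G ⧸ T, extendByZero T ρ.character (a.out⁻¹ * g * a.out) := by
    rw [← Equiv.sum_comp (Equiv.ofBijective φ hφ), Fintype.sum_prod_type, Finset.mul_sum]
    refine Finset.sum_congr rfl fun a _ => ?_
    have h4 : ∀ t : T, extendByZero T ρ.character
        (((Equiv.ofBijective φ hφ) (a, t))⁻¹ * g * (Equiv.ofBijective φ hφ) (a, t)) =
        extendByZero T ρ.character (a.out⁻¹ * g * a.out) := by
      intro t
      have h6 : (a.out * (t : G))⁻¹ * g * (a.out * t) = (t : G)⁻¹ * (a.out⁻¹ * g * a.out) * t := by group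
      show extendByZero T ρ.character ((a.out * (t : G))⁻¹ * g * (a.out * t)) = _
      rw [h6, extendByZero_conj]
    simp only [h4, Finset.sum_const, Finset.card_univ, nsmul_eq_mul, Fintype.card_eq_nat_card]
  rw [h3, ← mul_assoc, inv_mul_cancel₀ (card_subgroup_ne_zero T), one_mul]

variable {ρ} in
/-- The block diagonal form. -/
noncomputable def indForm (M₀ : Matrix (Fin m) (Fin m) ℂ) : Matrix (Idx G T m) (Idx G T m) ℂ :=
  fun p q => if p.1 = q.1 then M₀ p.2 q.2 else 0

theorem indForm_inv {M₀ : Matrix (Fin m) (Fin m) ℂ} (hM : IsInvForm ρ M₀) (g : G) :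
    (indM T ρ g)ᵀ * indForm T M₀ * indM T ρ g = indForm T M₀ := by
  ext ⟨a, i⟩ ⟨b, j⟩
  set c₀ : G ⧸ T := ((g * a.out : G) : G ⧸ T) with hc₀
  have hmem : c₀.out⁻¹ * (g * a.out) ∈ T := out_inv_mul_mem T (g * a.out)
  have hmem' : c₀.out⁻¹ * g * a.out ∈ T := by rwa [mul_assoc]
  have hnot : ∀ c : G ⧸ T, c ≠ c₀ → c.out⁻¹ * g * a.out ∉ T := by
    intro c hc h2
    apply hc
    apply eq_of_out_inv_mul_mem T
    rwa [← mul_assoc]
  rw [Matrix.mul_apply]
  simp only [Fintype.sum_prod_type]
  -- evaluate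
  have hL : ∀ (c : G ⧸ T) (l : Fin m), ((indM T ρ g)ᵀ * indForm T M₀) (a, i) (c, l) =
      ((dotM T ρ (c.out⁻¹ * g * a.out))ᵀ * M₀) i l := by
    intro c l
    rw [Matrix.mul_apply, Matrix.mul_apply]
    simp only [Fintype.sum_prod_type, Matrix.transpose_apply, indM, indForm]
    rw [Finset.sum_eq_single c]
    · simp
    · intro d _ hd
      simp [hd]
    · intro h
      exact absurd (Finset.mem_univ _) h
  simp only [hL, indM]
  rw [Finset.sum_eq_single c₀]
  · by_cases hab : a = b
    · subst hab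
      have h1 := hM ⟨_, hmem'⟩
      rw [← dotM_of_mem T ρ hmem'] at h1
      rw [← Matrix.mul_apply, h1]
      simp [indForm]
    · have h2 : c₀.out⁻¹ * g * b.out ∉ T := by
        intro h
        apply hab
        have h3 : (c₀.out⁻¹ * g * a.out)⁻¹ * (c₀.out⁻¹ * g * b.out) ∈ T :=
          T.mul_mem (T.inv_mem hmem') h
        have h4 : (c₀.out⁻¹ * g * a.out)⁻¹ * (c₀.out⁻¹ * g * b.out) = a.out⁻¹ * b.out := by group
        rw [h4] at h3
        have h5 := eq_of_out_inv_mul_mem T h3
        rwa [QuotientGroup.out_eq'] at h5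
      rw [dotM_of_not_mem T ρ h2]
      simp [indForm, hab]
  · intro c _ hc
    rw [dotM_of_not_mem T ρ (hnot c hc)]
    simp
  · intro h
    exact absurd (Finset.mem_univ _) h

end Ind

section Main

open scoped Classical

variable {G : Type*} [Group G] [Fintype G] (T : Subgroup G) [Fintype T]

/-- A character induced from a character of indicator `1`, if irreducible, has indicator `1`. -/
theorem fsInd_indFun (ψ : IrrCharacter T) (hfs : fsInd (ψ : T → ℂ) = 1)
    (hirr : IsIrrCharacter G (indFun T (ψ : T → ℂ))) : fsInd (indFun T (ψ : T → ℂ)) = 1 := by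
  letI : Fintype (G ⧸ T) := Fintype.ofFinite _
  have hreal := real_of_fsInd_ne_zero ψ (by rw [hfs]; exact one_ne_zero)
  obtain ⟨ψ', m, ρ, hρ, hψ'⟩ := ψ
  subst hψ'
  obtain ⟨⟨M₀, hne, hM⟩, hall⟩ := fs_form ρ hρ hreal
  have hsym : M₀ᵀ = M₀ := by
    have h1 := hall M₀ hM
    have h2 : (Nat.card T : ℂ)⁻¹ * ∑ s : T, ρ.character (s * s) = 1 := hfs
    rw [h2, one_smul] at h1
    exact h1
  have hchar := indRep_character T ρ
  have hρ' : (indRep T ρ).IsIrreducible := by
    obtain ⟨n, σ, hσ, hσc⟩ := hirr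
    obtain ⟨e⟩ := nonempty_equiv_of_character_eq _ _ _ σ (indRep T ρ) rfl (hσc.trans hchar.symm)
    exact isIrreducible_of_equiv e hσ
  let e := Fintype.equivFin (Idx G T m)
  let F : Matrix (Fin (Fintype.card (Idx G T m))) (Fin (Fintype.card (Idx G T m))) ℂ :=
    Matrix.reindex e e (indForm T M₀)
  have hFinv : IsInvForm (indRep T ρ) F := by
    intro g
    rw [matOf_indRep]
    have h1 := indForm_inv T ρ hM g
    show (Matrix.reindex e e (indM T ρ g))ᵀ * Matrix.reindex e e (indForm T M₀) * Matrix.reindex e e (indM T ρ g) = _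
    conv_rhs => rw [show F = Matrix.reindex e e (indForm T M₀) from rfl, ← h1]
    simp only [Matrix.reindex_apply, Matrix.transpose_submatrix, Matrix.submatrix_mul_equiv]
  have hFne : F ≠ 0 := by
    intro h0
    apply hne
    ext i j
    have ha : Nonempty (G ⧸ T) := ⟨(1 : G)⟩
    obtain ⟨a⟩ := ha
    have h1 := congrFun (congrFun h0 (e (a, i))) (e (a, j))
    simp only [F, Matrix.reindex_apply, Matrix.submatrix_apply, Equiv.symm_apply_apply, Matrix.zero_apply] at h1
    simpa [indForm] using h1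
  have hFsym : Fᵀ = F := by
    have h1 : (indForm T M₀)ᵀ = indForm T M₀ := by
      ext ⟨a, i⟩ ⟨b, j⟩
      simp only [Matrix.transpose_apply, indForm]
      by_cases hab : a = b
      · subst hab
        simp only [if_true]
        exact congrFun (congrFun hsym j) i |>.symm ▸ rfl
      · simp [hab, Ne.symm hab]
    show (Matrix.reindex e e (indForm T M₀))ᵀ = Matrix.reindex e e (indForm T M₀)
    simp only [Matrix.reindex_apply, Matrix.transpose_submatrix]
    rw [h1]
  have hreal' := character_real_of_form _ hρ' hFinv hFne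
  obtain ⟨-, hall'⟩ := fs_form _ hρ' hreal'
  have h1 := hall' F hFinv
  rw [hFsym] at h1
  set ν := (Nat.card G : ℂ)⁻¹ * ∑ s : G, (indRep T ρ).character (s * s) with hν
  have h2 : (1 - ν) • F = 0 := by
    rw [sub_smul, one_smul, ← h1, sub_self]
  have h3 : 1 - ν = 0 := (smul_eq_zero.1 h2).resolve_right hFne
  have h4 : ν = 1 := by linear_combination -h3
  show fsInd (indFun T ρ.character) = 1
  rw [← hchar]
  exact h4

end Main

end Cfsg.Agent.Lib.Degree
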