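import Mathlib
import Cfsg.Agent.Lib.Degree.Inflate
import Cfsg.Agent.Lib.Degree.GaloisChar
import Cfsg.Agent.Lib.Block.Kernel
import Cfsg.Agent.Lib.Block.Osima
import Cfsg.Agent.Lib.Block.SubAlg
import Cfsg.Agent.Lib.Block.GaloisBlock
import Cfsg.Agent.Lib.Block.Ortho
import Cfsg.Agent.Lib.Char.Galois
import Cfsg.Agent.Lib.Char.Integral

/-!
# Blocks and inflation along a normal subgroup; Galois stability of blocks.
-/

set_option autoImplicit false
set_option linter.unusedSectionVars false
set_option linter.style.haveILetI false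

open scoped ComplexConjugate

namespace Cfsg.Agent.Lib.Degree

open Cfsg Cfsg.Agent.Lib.Char Cfsg.Agent.Lib.Block

universe u

variable {G : Type u} [Group G] [Finite G]

section Inflate

variable (N : Subgroup G) [hN : N.Normal]

/-- The preimage of the centralizer of `gN` in `G / N`. -/
def centT (g : G) : Subgroup G :=
  (Subgroup.centralizer ({(g : G ⧸ N)} : Set (G ⧸ N))).comap (QuotientGroup.mk' N)

theorem mem_centT {g a : G} : a ∈ centT N g ↔ (a : G ⧸ N) * (g : G ⧸ N) = (g : G ⧸ N) * (a : G ⧸ N) := by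
  unfold centT
  rw [Subgroup.mem_comap, Subgroup.mem_centralizer_singleton_iff]
  rfl

theorem centralizer_le_centT (g : G) : Subgroup.centralizer ({g} : Set G) ≤ centT N g := by
  intro a ha
  rw [mem_centT]
  rw [Subgroup.mem_centralizer_singleton_iff] at ha
  rw [← QuotientGroup.mk_mul, ← QuotientGroup.mk_mul, ha]

theorem index_centralizer_eq (g : G) :
    (Subgroup.centralizer ({g} : Set G)).index =
      (Subgroup.centralizer ({g} : Set G)).relIndex (centT N g) *
        (Subgroup.centralizer ({(g : G ⧸ N)} : Set (G ⧸ N))).index := by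
  rw [← Subgroup.relIndex_mul_index (centralizer_le_centT N g)]
  congr 1
  unfold centT
  exact Subgroup.index_comap_of_surjective _ (QuotientGroup.mk'_surjective N)

theorem centralChar_comp_mk (ψ : G ⧸ N → ℂ) (g : G) :
    centralChar (ψ ∘ QuotientGroup.mk' N) g =
      ((Subgroup.centralizer ({g} : Set G)).relIndex (centT N g) : ℂ) * centralChar ψ (g : G ⧸ N) := by
  unfold centralChar
  rw [index_centralizer_eq N g]
  simp only [Function.comp, map_one, QuotientGroup.mk'_apply]
  push_cast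
  ring

variable {M : Ideal AlgInt} [hMp : M.IsPrime]

theorem sameBlock_comp_mk {ψ ψ' : G ⧸ N → ℂ} (h : SameBlock M ψ ψ') :
    SameBlock M (ψ ∘ QuotientGroup.mk' N) (ψ' ∘ QuotientGroup.mk' N) := by
  intro g
  rw [centralChar_comp_mk, centralChar_comp_mk, ← mul_sub]
  exact memLocalIdeal_mul_left (memLocalRing_natCast _) (h _)

theorem exists_lift_not_dvd {p : ℕ} [hp : Fact p.Prime] (hNp : ¬ p ∣ Nat.card N) (q : G ⧸ N) :
    ∃ g : G, (g : G ⧸ N) = q ∧ ¬ p ∣ (Subgroup.centralizer ({g} : Set G)).relIndex (centT N g) := by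
  classical
  obtain ⟨g₀, rfl⟩ := QuotientGroup.mk_surjective q
  let T := centT N g₀
  obtain ⟨R⟩ : Nonempty (Sylow p T) := inferInstance
  let X := {g : G // (g : G ⧸ N) = (g₀ : G ⧸ N)}
  have hact : ∀ (a : T) (x : X), ((a : G) * x.1 * (a : G)⁻¹ : G) = ((a : G) * x.1 * (a : G)⁻¹ : G) := fun _ _ => rfl
  have hmem : ∀ (a : T) (x : X), (((a : G) * x.1 * (a : G)⁻¹ : G) : G ⧸ N) = (g₀ : G ⧸ N) := by
    intro a x
    have h1 := (mem_centT N).1 a.2
    rw [QuotientGroup.mk_mul, QuotientGroup.mk_mul, x.2, h1, QuotientGroup.mk_inv, mul_assoc, mul_inv_cancel, mul_one]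
  letI : MulAction (R : Subgroup T) X :=
    { smul := fun a x => ⟨((a : T) : G) * x.1 * ((a : T) : G)⁻¹, hmem a x⟩
      one_smul := fun x => by
        apply Subtype.ext
        show ((1 : T) : G) * x.1 * ((1 : T) : G)⁻¹ = x.1
        simp
      mul_smul := fun a b x => by
        apply Subtype.ext
        show (((a * b : (R : Subgroup T)) : T) : G) * x.1 * (((a * b : (R : Subgroup T)) : T) : G)⁻¹ =
          ((a : T) : G) * (((b : T) : G) * x.1 * ((b : T) : G)⁻¹) * ((a : T) : G)⁻¹
        simp only [Subgroup.coe_mul, mul_inv_rev]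
        group }
  have hcard : Nat.card X = Nat.card N := by
    refine Nat.card_congr ⟨fun x => ⟨g₀⁻¹ * x.1, (QuotientGroup.eq.1 x.2.symm)⟩,
      fun n => ⟨g₀ * n, (QuotientGroup.eq.2 (by simpa using n.2)).symm⟩, fun x => ?_, fun n => ?_⟩
    · apply Subtype.ext
      simp
    · apply Subtype.ext
      simp
  haveI : Finite X := Subtype.finite
  obtain ⟨x, hx⟩ := IsPGroup.nonempty_fixed_point_of_prime_not_dvd_card (G := (R : Subgroup T)) (α := X)
    R.2 (by rw [hcard]; exact hNp)
  refine ⟨x.1, x.2, fun hd => ?_⟩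
  have hT : centT N x.1 = T := by
    apply Subgroup.ext
    intro a
    rw [mem_centT, mem_centT, x.2]
  rw [hT] at hd
  have hle : (R : Subgroup T) ≤ (Subgroup.centralizer ({x.1} : Set G)).subgroupOf T := by
    intro a ha
    rw [Subgroup.mem_subgroupOf, Subgroup.mem_centralizer_singleton_iff]
    have h1 := congrArg Subtype.val (hx ⟨a, ha⟩)
    have h2 : ((a : T) : G) * x.1 * ((a : T) : G)⁻¹ = x.1 := h1
    exact mul_inv_eq_iff_eq_mul.mp h2
  have h3 : (Subgroup.centralizer ({x.1} : Set G)).relIndex T ∣ (R : Subgroup T).index :=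
    Subgroup.index_dvd_of_le hle
  exact R.not_dvd_index (hd.trans h3)

theorem sameBlock_of_comp_mk {p : ℕ} [hp : Fact p.Prime] (hM : IsPModular p M) (hNp : ¬ p ∣ Nat.card N)
    {ψ ψ' : G ⧸ N → ℂ}
    (h1 : ∀ q, MemLocalRing M (centralChar ψ q)) (h1' : ∀ q, MemLocalRing M (centralChar ψ' q))
    (h : SameBlock M (ψ ∘ QuotientGroup.mk' N) (ψ' ∘ QuotientGroup.mk' N)) :
    SameBlock M ψ ψ' := by
  intro q
  obtain ⟨g, rfl, hg⟩ := exists_lift_not_dvd N hNp q
  have h2 := h g
  rw [centralChar_comp_mk, centralChar_comp_mk, ← mul_sub] at h2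
  have h3 := memLocalIdeal_of_mul (memLocalRing_natCast _)
    (memLocalRing_sub (h1 _) (h1' _)) h2
  rcases h3 with h3 | h3
  · exact absurd ((memLocalIdeal_natCast_iff hM _).1 h3) hg
  · exact h3

end Inflate

section Principal

variable (N : Subgroup G) [hN : N.Normal] {p : ℕ} [hp : Fact p.Prime] {M : Ideal AlgInt}

theorem irr_centralChar_memLocalRing [M.IsPrime] {H : Type*} [Group H] [Finite H] (ψ : IrrCharacter H) (q : H) :
    MemLocalRing M (centralChar (ψ : H → ℂ) q) := by
  haveI : Fintype H := Fintype.ofFinite H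
  exact memLocalRing_of_isIntegral (Cfsg.Agent.Lib.Block.isIntegral_centralChar ψ.2 q)

theorem inflate_mem_principal_iff (hM : IsPModular p M) (hNp : ¬ p ∣ Nat.card N) (ψ : IrrCharacter (G ⧸ N)) :
    inflate N ψ ∈ principalBlock M G ↔ ψ ∈ principalBlock M (G ⧸ N) := by
  have := isPModular_isPrime hM
  constructor
  · intro h
    refine sameBlock_of_comp_mk N hM hNp (fun q => irr_centralChar_memLocalRing (oneIrr (G ⧸ N)) q)
      (fun q => irr_centralChar_memLocalRing ψ q) ?_
    exact h
  · intro h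
    exact sameBlock_comp_mk N h

theorem bijOn_inflate_principal (hM : IsPModular p M) (hNp : ¬ p ∣ Nat.card N) :
    Set.BijOn (inflate N) (principalBlock M (G ⧸ N)) (principalBlock M G) := by
  classical
  have := isPModular_isPrime hM
  haveI : Fintype G := Fintype.ofFinite G
  haveI : Fintype N := Fintype.ofFinite N
  refine ⟨fun ψ hψ => (inflate_mem_principal_iff N hM hNp ψ).2 hψ, (inflate_injective N).injOn, ?_⟩
  intro χ hχ
  obtain ⟨ψ, rfl⟩ := exists_inflate N (ker_of_principal N hM hNp hχ)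
  exact ⟨ψ, (inflate_mem_principal_iff N hM hNp ψ).1 hχ, rfl⟩

end Principal

section Galois

variable {M : Ideal AlgInt} {k : ℕ}

theorem centralChar_pow (hk : k.Coprime (Nat.card G)) (χ : G → ℂ) (g : G) :
    centralChar (fun x => χ (x ^ k)) g = centralChar χ (g ^ k) := by
  haveI : Fintype G := Fintype.ofFinite G
  unfold centralChar
  rw [centralizer_pow_coprime g hk]
  simp only [one_pow]

theorem sameBlock_pow (hk : k.Coprime (Nat.card G)) {χ ψ : G → ℂ} (h : SameBlock M χ ψ) :
    SameBlock M (fun x => χ (x ^ k)) (fun x => ψ (x ^ k)) := by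
  intro g
  rw [centralChar_pow hk, centralChar_pow hk]
  exact h _

variable [Fintype G]

/-- The Galois conjugate of an irreducible character. -/
noncomputable def galoisIrr (hk : k.Coprime (Nat.card G)) (χ : IrrCharacter G) : IrrCharacter G :=
  ⟨fun g => (χ : G → ℂ) (g ^ k), galois_isIrr χ.2 hk⟩

@[simp] theorem galoisIrr_apply (hk : k.Coprime (Nat.card G)) (χ : IrrCharacter G) (g : G) :
    ((galoisIrr hk χ : IrrCharacter G) : G → ℂ) g = (χ : G → ℂ) (g ^ k) := rfl

theorem galoisIrr_injective (hk : k.Coprime (Nat.card G)) :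
    Function.Injective (galoisIrr (G := G) hk) := by
  intro χ ψ h
  apply Subtype.ext
  funext g
  have h1 := congrFun (congrArg Subtype.val h) ((powCoprime (G := G) hk.symm).symm g)
  have h2 : ((powCoprime (G := G) hk.symm).symm g) ^ k = g := (powCoprime (G := G) hk.symm).apply_symm_apply g
  simp only [galoisIrr_apply, h2] at h1
  exact h1

theorem galoisIrr_mem_principal (hk : k.Coprime (Nat.card G)) {χ : IrrCharacter G}
    (h : χ ∈ principalBlock M G) : galoisIrr hk χ ∈ principalBlock M G := by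
  have := sameBlock_pow hk h
  simpa [principalBlock, blockOf, galoisIrr] using this

theorem sum_principal_galois [DecidablePred (· ∈ principalBlock M G)] {R : Type*} [AddCommMonoid R]
    (hk : k.Coprime (Nat.card G)) (f : IrrCharacter G → R) [Fintype (IrrCharacter G)] :
    ∑ χ ∈ Finset.univ.filter (· ∈ principalBlock M G), f (galoisIrr hk χ) =
      ∑ χ ∈ Finset.univ.filter (· ∈ principalBlock M G), f χ := by
  classical
  refine Finset.sum_nbij (galoisIrr hk) ?_ (galoisIrr_injective hk).injOn ?_ fun _ _ => rfl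
  · intro χ hχ
    simp only [Finset.mem_coe, Finset.mem_filter, Finset.mem_univ, true_and] at hχ ⊢
    exact galoisIrr_mem_principal hk hχ
  · refine Finset.surjOn_of_injOn_of_card_le (galoisIrr hk) ?_ (galoisIrr_injective hk).injOn le_rfl
    intro χ hχ
    simp only [Finset.mem_coe, Finset.mem_filter, Finset.mem_univ, true_and] at hχ ⊢
    exact galoisIrr_mem_principal hk hχ

/-- `∑_{χ ∈ B₀} |χ x|²` is a positive integer. -/
theorem exists_nat_sum_normSq_principal {p : ℕ} [hp : Fact p.Prime] (hM : IsPModular p M) (x : G) :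
    ∃ n : ℕ, 0 < n ∧ ∑ᶠ χ ∈ principalBlock M G, Complex.normSq ((χ : G → ℂ) x) = n := by
  classical
  have := isPModular_isPrime hM
  set s := Finset.univ.filter (fun χ : IrrCharacter G => χ ∈ principalBlock M G) with hs
  have hfin : ∑ᶠ χ ∈ principalBlock M G, Complex.normSq ((χ : G → ℂ) x) =
      ∑ χ ∈ s, Complex.normSq ((χ : G → ℂ) x) := by
    rw [finsum_mem_irr, hs, Finset.sum_filter]
  rw [hfin]
  let Λ : G → ℂ := fun g => ∑ χ ∈ s, (χ : G → ℂ) g * conj ((χ : G → ℂ) g)
  have hΛ : IsCharacter G Λ := by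
    have h1 := IsCharacter.sum s (f := fun (χ : IrrCharacter G) (g : G) => (χ : G → ℂ) g * conj ((χ : G → ℂ) g))
      (fun χ _ => IsCharacter.mul (IsIrrCharacter.isCharacter χ.2)
        (IsCharacter.conj_char (IsIrrCharacter.isCharacter χ.2)))
    convert h1 using 1
    funext g
    simp [Λ, Finset.sum_apply]
  obtain ⟨n, ρ, hρ⟩ := hΛ
  have hpow : ∀ u : ℕ, u.Coprime (Nat.card G) → ρ.character (x ^ u) = ρ.character x := by
    intro u hu
    rw [hρ]
    exact sum_principal_galois hu (fun χ => (χ : G → ℂ) x * conj ((χ : G → ℂ) x))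
  obtain ⟨q, hq⟩ := char_rational_of_forall_pow ρ (Nat.card G) x pow_card_eq_one' hpow
  have hint : IsIntegral ℤ (ρ.character x) := by
    rw [hρ]
    refine IsIntegral.sum _ fun χ _ => ?_
    exact (IsCharacter.isIntegral' (IsIrrCharacter.isCharacter χ.2) x).mul
      (IsCharacter.isIntegral' (IsCharacter.conj_char (IsIrrCharacter.isCharacter χ.2)) x)
  rw [hq, isIntegral_ratCast_iff] at hint
  obtain ⟨m, rfl⟩ := hint
  have hre : ((∑ χ ∈ s, Complex.normSq ((χ : G → ℂ) x) : ℝ) : ℂ) = (m : ℂ) := by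
    have h1 : ρ.character x = Λ x := by rw [hρ]
    rw [hq] at h1
    push_cast at h1 ⊢
    rw [h1]
    refine Finset.sum_congr rfl fun χ _ => ?_
    rw [Complex.mul_conj]
  have hre' : (∑ χ ∈ s, Complex.normSq ((χ : G → ℂ) x) : ℝ) = (m : ℝ) := by exact_mod_cast hre
  have hge : (1 : ℝ) ≤ ∑ χ ∈ s, Complex.normSq ((χ : G → ℂ) x) := by
    have hmem : oneIrr G ∈ s := by
      simp only [hs, Finset.mem_filter, Finset.mem_univ, true_and]
      exact sameBlock_refl _
    have h2 := Finset.single_le_sum (f := fun χ : IrrCharacter G => Complex.normSq ((χ : G → ℂ) x))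
      (fun χ _ => Complex.normSq_nonneg _) hmem
    simpa [oneIrr_coe] using h2
  rw [hre'] at hge ⊢
  have hm : 1 ≤ m := by exact_mod_cast hge
  refine ⟨m.toNat, by omega, ?_⟩
  have h3 : ((m.toNat : ℤ)) = m := Int.toNat_of_nonneg (by omega)
  have h4 : ((m.toNat : ℤ) : ℝ) = (m : ℝ) := by rw [h3]
  rw [← h4]
  simp only [Int.cast_natCast]

end Galois

end Cfsg.Agent.Lib.Degree
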