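import Mathlib

/-!
# Involutions inverting `p`-subgroups when centralizers of `p`-elements have odd order.
-/

set_option autoImplicit false
set_option linter.unusedSectionVars false

namespace Cfsg.Agent.Lib.Degree

open scoped Pointwise

universe u

section InvertSylow

variable {G : Type u} [Group G] [Finite G] {p : ℕ} [hp : Fact p.Prime]

/-- The centralizers of nontrivial `p`-elements have odd order. -/
def OddCent (p : ℕ) (G : Type u) [Group G] : Prop :=
  ∀ g : G, g ≠ 1 → (∃ k : ℕ, orderOf g = p ^ k) → Odd (Nat.card (Subgroup.centralizer ({g} : Set G)))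

theorem OddCent.not_commute (h : OddCent p G) {s r : G} (hs : s * s = 1) (hs1 : s ≠ 1) (hr : r ≠ 1)
    (hrp : ∃ k : ℕ, orderOf r = p ^ k) : s * r ≠ r * s := by
  intro hc
  have h1 := h r hr hrp
  have h2 : orderOf s = 2 := orderOf_eq_prime (by rw [pow_two, hs]) hs1
  have h3 := orderOf_dvd_natCard (⟨s, Subgroup.mem_centralizer_singleton_iff.mpr hc⟩ :
    Subgroup.centralizer ({r} : Set G))
  rw [Subgroup.orderOf_mk, h2] at h3
  exact (Nat.not_even_iff_odd.mpr h1) (even_iff_two_dvd.mpr h3)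

theorem OddCent.inverts (h : OddCent p G) {R : Subgroup G} (hR : IsPGroup p R) {s : G}
    (hs : s * s = 1) (hs1 : s ≠ 1) (hn : ∀ r ∈ R, s * r * s⁻¹ ∈ R) :
    ∀ r ∈ R, s * r * s⁻¹ = r⁻¹ := by
  have hsi : s⁻¹ = s := inv_eq_of_mul_eq_one_left hs
  let φ : R →* R :=
    { toFun := fun r => ⟨s * r * s⁻¹, hn r r.2⟩
      map_one' := by
        apply Subtype.ext
        simp
      map_mul' := by
        intro a b
        apply Subtype.ext
        simp only [Subgroup.coe_mul]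
        group }
  have hφ : ∀ r : R, ((φ r : R) : G) = s * r * s⁻¹ := fun r => rfl
  have hfp : MonoidHom.FixedPointFree φ := by
    intro r hr
    by_contra hr1
    have hr1' : (r : G) ≠ 1 := fun h0 => hr1 (Subtype.ext h0)
    obtain ⟨k, hk⟩ := IsPGroup.iff_orderOf.mp hR r
    apply h.not_commute hs hs1 hr1' ⟨k, by rw [Subgroup.orderOf_coe, hk]⟩
    have h1 := congrArg Subtype.val hr
    rw [hφ] at h1
    rw [mul_inv_eq_iff_eq_mul] at h1
    exact h1
  have hinv : Function.Involutive φ := by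
    intro r
    apply Subtype.ext
    rw [hφ, hφ, hsi]
    calc s * (s * (r : G) * s) * s = (s * s) * (r : G) * (s * s) := by group
      _ = r := by rw [hs]; group
  have h2 := hfp.coe_eq_inv_of_involutive hinv
  intro r hr
  exact congrArg Subtype.val (congrFun h2 ⟨r, hr⟩)

theorem OddCent.commute_of_inverts (h : OddCent p G) {P : Subgroup G} (hP : IsPGroup p P) {s : G}
    (hs : s * s = 1) (hs1 : s ≠ 1) (hn : ∀ r ∈ P, s * r * s⁻¹ ∈ P) {a b : G} (ha : a ∈ P)
    (hb : b ∈ P) : a * b = b * a := by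
  have h1 := h.inverts hP hs hs1 hn
  have h2 := h1 _ (P.mul_mem (P.inv_mem ha) (P.inv_mem hb))
  have h3 := h1 _ (P.inv_mem ha)
  have h4 := h1 _ (P.inv_mem hb)
  have h5 : s * (a⁻¹ * b⁻¹) * s⁻¹ = (s * a⁻¹ * s⁻¹) * (s * b⁻¹ * s⁻¹) := by group
  rw [h5, h3, h4] at h2
  simp only [inv_inv, mul_inv_rev] at h2
  exact h2

/-- `P ∩ P^g`. -/
def interConj (P : Subgroup G) (g : G) : Subgroup G :=
  P ⊓ P.comap (MulAut.conj g).toMonoidHom

theorem mem_interConj {P : Subgroup G} {g x : G} :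
    x ∈ interConj P g ↔ x ∈ P ∧ g * x * g⁻¹ ∈ P := Iff.rfl

theorem odd_order_of_pElement (hp2 : p ≠ 2) {r : G} (hr : ∃ k : ℕ, orderOf r = p ^ k) :
    Odd (orderOf r) := by
  obtain ⟨k, hk⟩ := hr
  rw [hk]
  exact Odd.pow ((Fact.out : p.Prime).odd_of_ne_two hp2)

theorem commute_of_sq_commute (hp2 : p ≠ 2) {t r : G} (ht : ∃ k : ℕ, orderOf t = p ^ k)
    (h : t * t * r = r * (t * t)) : t * r = r * t := by
  obtain ⟨m, hm⟩ := odd_order_of_pElement hp2 ht
  have h1 : t ^ (orderOf t + 1) = t := by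
    rw [pow_succ, pow_orderOf_eq_one, one_mul]
  have h2 : t ^ (orderOf t + 1) = (t * t) ^ (m + 1) := by
    rw [← pow_two, ← pow_mul, hm]
    congr 1
  have h3 : Commute (t * t) r := h
  have h4 : Commute t r := by
    have h5 := h3.pow_left (m + 1)
    rw [← h2, h1] at h5
    exact h5
  exact h4

theorem eq_one_of_mul_self (hp2 : p ≠ 2) {r : G} (hr : ∃ k : ℕ, orderOf r = p ^ k)
    (h : r * r = 1) : r = 1 := by
  by_contra h1
  have h2 : orderOf r = 2 := orderOf_eq_prime (by rw [pow_two, h]) h1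
  have h3 := odd_order_of_pElement hp2 hr
  rw [h2] at h3
  exact absurd h3 (by decide)

/-- The growth step. -/
theorem OddCent.step (h : OddCent p G) (hp2 : p ≠ 2) (P : Sylow p G) {g : G} (hg : g * g = 1)
    (hg1 : g ≠ 1) (hR : interConj (P : Subgroup G) g ≠ ⊥)
    (hne : interConj (P : Subgroup G) g ≠ P) :
    ∃ P₂ : Sylow p G, Nat.card (interConj (P : Subgroup G) g) < Nat.card (interConj (P₂ : Subgroup G) g) := by
  classical
  have hgi : g⁻¹ = g := inv_eq_of_mul_eq_one_left hg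
  set R := interConj (P : Subgroup G) g with hRdef
  have hRP : R ≤ P := inf_le_left
  have hRp : IsPGroup p R := IsPGroup.to_le P.isPGroup' hRP
  have horder : ∀ r ∈ (P : Subgroup G), ∃ k : ℕ, orderOf r = p ^ k := by
    intro r hr
    obtain ⟨k, hk⟩ := IsPGroup.iff_orderOf.mp P.isPGroup' ⟨r, hr⟩
    exact ⟨k, by rw [← hk, Subgroup.orderOf_mk]⟩
  have hgR : ∀ r ∈ R, g * r * g⁻¹ ∈ R := by
    intro r hr
    refine ⟨hr.2, ?_⟩
    show g * (g * r * g⁻¹) * g⁻¹ ∈ (P : Subgroup G)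
    have : g * (g * r * g⁻¹) * g⁻¹ = r := by
      rw [hgi]
      calc g * (g * r * g) * g = (g * g) * r * (g * g) := by group
        _ = r := by rw [hg]; group
    rw [this]
    exact hr.1
  -- a nontrivial element of `R`
  obtain ⟨r₀, hr₀, hr₀1⟩ : ∃ r₀ ∈ R, r₀ ≠ 1 := by
    rcases Subgroup.bot_or_exists_ne_one R with h0 | ⟨x, hx⟩
    · exact absurd h0 hR
    · exact ⟨x, hx.1, hx.2⟩
  -- `t ∈ P ∖ R` normalizing `R`.
  obtain ⟨t, htP, htR, htN⟩ : ∃ t ∈ (P : Subgroup G), t ∉ R ∧ t ∈ Subgroup.normalizer (R : Set G) := by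
    have hnil : Group.IsNilpotent (P : Subgroup G) := P.isPGroup'.isNilpotent
    have hnc := Group.normalizerCondition_of_isNilpotent (G := (P : Subgroup G))
    have hlt : R.subgroupOf (P : Subgroup G) < ⊤ := by
      refine lt_of_le_of_ne le_top fun h1 => hne ?_
      apply le_antisymm hRP
      intro x hx
      have : (⟨x, hx⟩ : (P : Subgroup G)) ∈ R.subgroupOf (P : Subgroup G) := by
        rw [h1]; trivial
      exact this
    obtain ⟨t, ht1, ht2⟩ := SetLike.exists_of_lt (hnc _ hlt)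
    refine ⟨t, t.2, ht2, ?_⟩
    rw [Subgroup.mem_normalizer_iff]
    intro x
    by_cases hx : x ∈ (P : Subgroup G)
    · have h2 := (Subgroup.mem_normalizer_iff.mp ht1) ⟨x, hx⟩
      exact h2
    · constructor
      · intro h2
        exact absurd (hRP h2) hx
      · intro h2
        exfalso
        apply hx
        have h3 := hRP h2
        have h4 : x = (t : G)⁻¹ * ((t : G) * x * (t : G)⁻¹) * t := by group
        rw [h4]
        exact (P : Subgroup G).mul_mem ((P : Subgroup G).mul_mem ((P : Subgroup G).inv_mem t.2) h3) t.2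
  set N := Subgroup.normalizer (R : Set G) with hN
  have hnorm : ∀ {x r : G}, x ∈ N → r ∈ R → x * r * x⁻¹ ∈ R := by
    intro x r hx hr
    exact (Subgroup.mem_normalizer_iff.mp hx r).mp hr
  set T : Subgroup G := (P : Subgroup G) ⊓ N with hT
  have hgN : g ∈ N := by
    rw [hN, Subgroup.mem_normalizer_iff]
    intro x
    constructor
    · exact hgR x
    · intro h1
      have h2 := hgR _ h1
      have h3 : g * (g * x * g⁻¹) * g⁻¹ = x := by
        rw [hgi]
        calc g * (g * x * g) * g = (g * g) * x * (g * g) := by group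
          _ = x := by rw [hg]; group
      rwa [h3] at h2
  have hginv := h.inverts hRp hg hg1 hgR
  -- the subgroup `W`
  let W : Subgroup G :=
    { carrier := {x | x ∈ N ∧ ∃ t ∈ T, ∀ r ∈ R, x * r * x⁻¹ = t * r * t⁻¹}
      one_mem' := ⟨N.one_mem, 1, T.one_mem, fun r _ => by simp⟩
      mul_mem' := by
        rintro x y ⟨hx, t₁, ht₁, h₁⟩ ⟨hy, t₂, ht₂, h₂⟩
        refine ⟨N.mul_mem hx hy, t₁ * t₂, T.mul_mem ht₁ ht₂, fun r hr => ?_⟩
        have h3 : t₂ * r * t₂⁻¹ ∈ R := hnorm ht₂.2 hr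
        calc x * y * r * (x * y)⁻¹ = x * (y * r * y⁻¹) * x⁻¹ := by group
          _ = x * (t₂ * r * t₂⁻¹) * x⁻¹ := by rw [h₂ r hr]
          _ = t₁ * (t₂ * r * t₂⁻¹) * t₁⁻¹ := h₁ _ h3
          _ = t₁ * t₂ * r * (t₁ * t₂)⁻¹ := by group
      inv_mem' := by
        rintro x ⟨hx, t₁, ht₁, h₁⟩
        refine ⟨N.inv_mem hx, t₁⁻¹, T.inv_mem ht₁, fun r hr => ?_⟩
        have h3 : t₁⁻¹ * r * t₁ ∈ R := by
          simpa using hnorm (T.inv_mem ht₁).2 hr
        have h4 := h₁ _ h3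
        have h5 : t₁ * (t₁⁻¹ * r * t₁) * t₁⁻¹ = r := by group
        rw [h5] at h4
        have h6 : x⁻¹ * r * x = t₁⁻¹ * r * t₁ := by
          calc x⁻¹ * r * x = x⁻¹ * (x * (t₁⁻¹ * r * t₁) * x⁻¹) * x := by rw [h4]
            _ = t₁⁻¹ * r * t₁ := by group
        simpa using h6 }
  have hmemW : ∀ x, x ∈ W ↔ x ∈ N ∧ ∃ t ∈ T, ∀ r ∈ R, x * r * x⁻¹ = t * r * t⁻¹ := fun x => Iff.rfl
  have hTW : T ≤ W := fun x hx => ⟨hx.2, x, hx, fun r _ => rfl⟩
  -- `g` normalizes `W`.
  have hgW : ∀ x ∈ W, g * x * g⁻¹ ∈ W := by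
    rintro x ⟨hx, t₁, ht₁, h₁⟩
    refine ⟨N.mul_mem (N.mul_mem hgN hx) (N.inv_mem hgN), t₁, ht₁, fun r hr => ?_⟩
    have h2 : g⁻¹ * r * g = r⁻¹ := by
      rw [hgi, ← hginv r hr, hgi]
    have h3 : x * r * x⁻¹ ∈ R := hnorm hx hr
    calc g * x * g⁻¹ * r * (g * x * g⁻¹)⁻¹ = g * (x * (g⁻¹ * r * g) * x⁻¹) * g⁻¹ := by group
      _ = g * (x * r * x⁻¹)⁻¹ * g⁻¹ := by rw [h2]; group
      _ = ((x * r * x⁻¹)⁻¹)⁻¹ := hginv _ (R.inv_mem h3)
      _ = t₁ * r * t₁⁻¹ := by rw [inv_inv, h₁ r hr]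
  -- `W` has odd order.
  have hWodd : ¬ 2 ∣ Nat.card W := by
    intro h2
    obtain ⟨i, hi⟩ := exists_prime_orderOf_dvd_card' (G := W) 2 h2
    have hi' : orderOf (i : G) = 2 := by rw [Subgroup.orderOf_coe, hi]
    have hii : (i : G) * i = 1 := by rw [← pow_two, ← hi', pow_orderOf_eq_one]
    have hi1 : (i : G) ≠ 1 := by
      intro h0
      rw [h0, orderOf_one] at hi'
      exact absurd hi' (by decide)
    obtain ⟨hiN, t₁, ht₁, h₁⟩ := i.2
    have h3 := h.inverts hRp hii hi1 (fun r hr => hnorm hiN hr)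
    have h4 : t₁ * r₀ * t₁⁻¹ = r₀⁻¹ := by rw [← h₁ r₀ hr₀, h3 r₀ hr₀]
    have h5 : t₁ * t₁ * r₀ = r₀ * (t₁ * t₁) := by
      have h6 := h₁ _ (R.inv_mem hr₀)
      rw [h3 _ (R.inv_mem hr₀), inv_inv] at h6
      have h7 : t₁ * r₀⁻¹ * t₁⁻¹ = r₀ := h6.symm
      calc t₁ * t₁ * r₀ = t₁ * (t₁ * r₀ * t₁⁻¹) * t₁ := by group
        _ = t₁ * r₀⁻¹ * t₁ := by rw [h4]
        _ = (t₁ * r₀⁻¹ * t₁⁻¹) * (t₁ * t₁) := by group
        _ = r₀ * (t₁ * t₁) := by rw [h7]
    have h6 := commute_of_sq_commute hp2 (horder t₁ ht₁.1) h5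
    have h7 : t₁ * r₀ * t₁⁻¹ = r₀ := by rw [h6]; group
    rw [h4] at h7
    have h8 : r₀ * r₀ = 1 := by
      nth_rw 1 [← h7]
      simp
    exact hr₀1 (eq_one_of_mul_self hp2 (horder r₀ (hRP hr₀)) h8)
  -- conjugation by `g` on `W`
  let α : MulAut W :=
    { toFun := fun x => ⟨g * x * g⁻¹, hgW x x.2⟩
      invFun := fun x => ⟨g * x * g⁻¹, hgW x x.2⟩
      left_inv := by
        intro x
        apply Subtype.ext
        show g * (g * (x : G) * g⁻¹) * g⁻¹ = x
        rw [hgi]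
        calc g * (g * (x : G) * g) * g = (g * g) * (x : G) * (g * g) := by group
          _ = x := by rw [hg]; group
      right_inv := by
        intro x
        apply Subtype.ext
        show g * (g * (x : G) * g⁻¹) * g⁻¹ = x
        rw [hgi]
        calc g * (g * (x : G) * g) * g = (g * g) * (x : G) * (g * g) := by group
          _ = x := by rw [hg]; group
      map_mul' := by
        intro a b
        apply Subtype.ext
        simp only [Subgroup.coe_mul]
        group }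
  have hαα : α * α = 1 := by
    ext x
    show g * (g * (x : G) * g⁻¹) * g⁻¹ = x
    rw [hgi]
    calc g * (g * (x : G) * g) * g = (g * g) * (x : G) * (g * g) := by group
      _ = x := by rw [hg]; group
  have : Fintype (Sylow p W) := Fintype.ofFinite _
  let σ : Equiv.Perm (Sylow p W) := MulAction.toPermHom (MulAut W) (Sylow p W) α
  have hσ : σ ^ 2 ^ 1 = 1 := by
    show (MulAction.toPermHom (MulAut W) (Sylow p W) α) ^ 2 ^ 1 = 1
    rw [← map_pow, pow_one, pow_two]
    have : (α * α : MulAut W) = 1 := hαα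
    rw [this, map_one]
  obtain ⟨Q₁⟩ : Nonempty (Sylow p W) := inferInstance
  have hα : ¬ 2 ∣ Fintype.card (Sylow p W) := by
    rw [← Nat.card_eq_fintype_card]
    intro h2
    apply hWodd
    exact h2.trans ((Sylow.card_dvd_index Q₁).trans (Subgroup.index_dvd_card _))
  obtain ⟨Q, hQ⟩ := Equiv.Perm.exists_fixed_point_of_prime (p := 2) (n := 1) hα hσ
  have hQα : ∀ x ∈ (Q : Subgroup W), α x ∈ (Q : Subgroup W) := by
    intro x hx
    have h2 : α • Q = Q := hQ
    have h3 : (α • x) ∈ α • (Q : Subgroup W) := Subgroup.smul_mem_pointwise_smul x α _ hx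
    rw [← Sylow.pointwise_smul_def, h2] at h3
    exact h3
  -- sizes
  have hcardT : Nat.card R < Nat.card T := by
    have h2 : R ≤ T := fun r hr => ⟨hRP hr, Subgroup.le_normalizer hr⟩
    by_contra h3
    have h4 := Subgroup.eq_of_le_of_card_ge h2 (not_lt.mp h3)
    apply htR
    rw [h4]
    exact ⟨htP, htN⟩
  have hTp : IsPGroup p T := IsPGroup.to_le P.isPGroup' inf_le_left
  have hT'p : IsPGroup p (T.subgroupOf W) :=
    hTp.comap_of_injective W.subtype (Subgroup.subtype_injective W)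
  obtain ⟨Q₀, hQ₀⟩ := hT'p.exists_le_sylow
  have hc1 : Nat.card T ≤ Nat.card Q := by
    have h2 : Nat.card (T.subgroupOf W) = Nat.card T :=
      Nat.card_congr (Subgroup.subgroupOfEquivOfLe hTW).toEquiv
    have h3 := Subgroup.card_le_of_le hQ₀
    rw [h2] at h3
    have h4 : Nat.card (Q₀ : Subgroup W) = Nat.card (Q : Subgroup W) := by
      rw [Q₀.card_eq_multiplicity, Q.card_eq_multiplicity]
    exact h4 ▸ h3
  set Q' := (Q : Subgroup W).map W.subtype with hQ'
  have hQ'card : Nat.card Q' = Nat.card Q :=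
    Subgroup.card_map_of_injective (Subgroup.subtype_injective W)
  have hQ'p : IsPGroup p Q' := Q.isPGroup'.map _
  obtain ⟨P₂, hP₂⟩ := hQ'p.exists_le_sylow
  refine ⟨P₂, ?_⟩
  have hQle : Q' ≤ interConj (P₂ : Subgroup G) g := by
    rintro _ ⟨y, hy, rfl⟩
    refine ⟨hP₂ ⟨y, hy, rfl⟩, hP₂ ⟨α y, hQα y hy, rfl⟩⟩
  have hc2 := Subgroup.card_le_of_le hQle
  rw [hQ'card] at hc2
  omega

/-- Starting from a nontrivial intersection, an involution normalizes a Sylow subgroup. -/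
theorem OddCent.exists_sylow_normalized (h : OddCent p G) (hp2 : p ≠ 2) {g : G} (hg : g * g = 1)
    (hg1 : g ≠ 1) (m : ℕ) : ∀ P : Sylow p G, interConj (P : Subgroup G) g ≠ ⊥ →
      Nat.card G - Nat.card (interConj (P : Subgroup G) g) = m →
      ∃ P' : Sylow p G, ∀ x ∈ (P' : Subgroup G), g * x * g⁻¹ ∈ (P' : Subgroup G) := by
  induction m using Nat.strong_induction_on with
  | _ m ih =>
    intro P hR hm
    by_cases hne : interConj (P : Subgroup G) g = P
    · refine ⟨P, fun x hx => ?_⟩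
      rw [← hne] at hx
      exact hx.2
    · obtain ⟨P₂, hP₂⟩ := h.step hp2 P hg hg1 hR hne
      have hle : Nat.card (interConj (P₂ : Subgroup G) g) ≤ Nat.card G :=
        Subgroup.card_le_card_group _
      refine ih (Nat.card G - Nat.card (interConj (P₂ : Subgroup G) g)) (by omega) P₂ ?_ rfl
      intro h0
      rw [h0, Subgroup.card_bot] at hP₂
      have : 0 < Nat.card (interConj (P : Subgroup G) g) := Nat.card_pos
      omega

/-- If an involution inverts a nontrivial `p`-element, then every Sylow `p`-subgroup is normalized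
by an involution (and so is abelian). -/
theorem OddCent.forall_sylow (h : OddCent p G) (hp2 : p ≠ 2) {g u : G} (hg : g * g = 1)
    (hg1 : g ≠ 1) (hu : u ≠ 1) (hup : ∃ k : ℕ, orderOf u = p ^ k) (hinv : g * u * g⁻¹ = u⁻¹)
    (P : Sylow p G) :
    ∃ s : G, s * s = 1 ∧ s ≠ 1 ∧ ∀ x ∈ (P : Subgroup G), s * x * s⁻¹ ∈ (P : Subgroup G) := by
  have hzp : IsPGroup p (Subgroup.zpowers u) := by
    obtain ⟨k, hk⟩ := hup
    exact IsPGroup.iff_card.mpr ⟨k, by rw [Nat.card_zpowers, hk]⟩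
  obtain ⟨P₀, hP₀⟩ := hzp.exists_le_sylow
  have hu0 : u ∈ (P₀ : Subgroup G) := hP₀ (Subgroup.mem_zpowers u)
  have hR : interConj (P₀ : Subgroup G) g ≠ ⊥ := by
    intro h0
    have h1 : u ∈ interConj (P₀ : Subgroup G) g := ⟨hu0, by
      show g * u * g⁻¹ ∈ (P₀ : Subgroup G)
      rw [hinv]
      exact (P₀ : Subgroup G).inv_mem hu0⟩
    rw [h0] at h1
    exact hu (by simpa using h1)
  obtain ⟨P₁, hP₁⟩ := h.exists_sylow_normalized hp2 hg hg1 _ P₀ hR rfl
  obtain ⟨c, hc⟩ := MulAction.exists_smul_eq G P₁ P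
  have hmem : ∀ x, x ∈ (P : Subgroup G) ↔ c⁻¹ * x * c ∈ (P₁ : Subgroup G) := by
    intro x
    rw [← hc, Sylow.coe_subgroup_smul, Subgroup.mem_pointwise_smul_iff_inv_smul_mem]
    simp [MulAut.smul_def]
  refine ⟨c * g * c⁻¹, ?_, ?_, ?_⟩
  · calc c * g * c⁻¹ * (c * g * c⁻¹) = c * (g * g) * c⁻¹ := by group
      _ = 1 := by rw [hg]; group
  · intro h0
    apply hg1
    have h1 : g = c⁻¹ * (c * g * c⁻¹) * c := by group
    rw [h1, h0]
    group
  · intro x hx
    rw [hmem] at hx ⊢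
    have h1 := hP₁ _ hx
    have h2 : c⁻¹ * (c * g * c⁻¹ * x * (c * g * c⁻¹)⁻¹) * c = g * (c⁻¹ * x * c) * g⁻¹ := by group
    rw [h2]
    exact h1

end InvertSylow

end Cfsg.Agent.Lib.Degree
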