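import Cfsg.Agent.S4742
import Cfsg.Agent.Lib.Degree.InvertSylow
import Mathlib

/-!
# From no `p`-defect zero character to an involution inverting a `p`-element.
-/

set_option autoImplicit false

namespace Cfsg.Agent.Lib.Degree

theorem exists_inverted_pair {G : Type*} [Group G] [Finite G] (p : ℕ) [Fact p.Prime] (hp2 : p ≠ 2)
    (hpG : p ∣ Nat.card G) (h2G : 2 ∣ Nat.card G)
    (hC : ∀ g : G, g ≠ 1 → (∃ k : ℕ, orderOf g = p ^ k) →
      Odd (Nat.card ↥(Subgroup.centralizer ({g} : Set G))))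
    (hdef : ¬ ∃ χ : Cfsg.IrrCharacter G,
      (Cfsg.charDegree (χ : G → ℂ)).factorization p = (Nat.card G).factorization p) :
    ∃ g u : G, g * g = 1 ∧ g ≠ 1 ∧ u ≠ 1 ∧ (∃ k : ℕ, orderOf u = p ^ k) ∧ g * u * g⁻¹ = u⁻¹ := by
  have A := (Cfsg.Agent.S4742.result p 2 hp2 hpG h2G (fun g hg hk h2 =>
    (Nat.not_even_iff_odd.mpr (hC g hg hk)) (even_iff_two_dvd.mpr h2))).resolve_left hdef
  obtain ⟨z, hz⟩ := exists_prime_orderOf_dvd_card' (G := G) 2 h2G
  have hz1 : z ≠ 1 := by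
    intro h0
    rw [h0, orderOf_one] at hz
    exact absurd hz (by decide)
  have hzz : z * z = 1 := by rw [← pow_two, ← hz, pow_orderOf_eq_one]
  obtain ⟨g, h, hg, hh, hne, hk⟩ := A z hz1 ⟨1, by rw [hz, pow_one]⟩
  have hinv : ∀ y, IsConj z y → y * y = 1 := by
    intro y hy
    obtain ⟨c, rfl⟩ := isConj_iff.mp hy
    calc c * z * c⁻¹ * (c * z * c⁻¹) = c * (z * z) * c⁻¹ := by group
      _ = 1 := by rw [hzz]; group
  have hgg := hinv g hg
  have hhh := hinv h hh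
  have hg1 : g ≠ 1 := by
    rintro rfl
    exact hz1 (isConj_one_left.mp hg)
  refine ⟨g, g * h⁻¹, hgg, hg1, hne, hk, ?_⟩
  have hgi : g⁻¹ = g := inv_eq_of_mul_eq_one_left hgg
  have hhi : h⁻¹ = h := inv_eq_of_mul_eq_one_left hhh
  rw [hgi, hhi, mul_inv_rev, hgi, hhi]
  calc g * (g * h) * g = (g * g) * (h * g) := by group
    _ = h * g := by rw [hgg, one_mul]

end Cfsg.Agent.Lib.Degree
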