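import Mathlib
import Cfsg.Agent.Lib.BPair.CenPair
import Cfsg.Agent.Lib.BPair.Inertial
import Cfsg.Agent.Lib.BPair.Fully
import Cfsg.Agent.Lib.Block.CentralDefect3
import Cfsg.Agent.Lib.Degree.InflateBlock
import Cfsg.Agent.Lib.Block.DefectZero
import Cfsg.Agent.Lib.Block.Height

/-!
# Maximal Brauer pairs and canonical characters

`(Q, e)` is a maximal Brauer pair iff `e` contains a character with `Z(Q)` in the kernel, of defect zero as a
character of `C_G(Q)/Z(Q)`, and the `p`-elements of the stabilizer of `e` in `N_G(Q)` lie in `Q C_G(Q)`.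
-/

set_option autoImplicit false
set_option linter.unusedSectionVars false
set_option linter.unusedSimpArgs false
set_option linter.unusedVariables false

open scoped ComplexConjugate
open Cfsg MonoidAlgebra
open Cfsg.Agent.Lib.Block Cfsg.Agent.Lib.Char Cfsg.Agent.Lib.CharExtra Cfsg.Agent.Lib.BPair

namespace Cfsg.Agent.Lib.Degree

attribute [local instance] subFintype

section Relative

variable {L : Type*} [Group L] [Fintype L] {M : Ideal AlgInt} {p : ℕ} [hp : Fact p.Prime]

/-- A character with the central `p`-subgroup `Z` in its kernel, of defect zero over `Z`, is nonzero modulo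
the ideal at a class all of whose `p`-subgroups lie in `Z`. -/
theorem exists_class_of_relative_defect_zero (hM : IsPModular p M) (Z : Subgroup L) [hZn : Z.Normal]
    (hZc : ∀ z ∈ Z, ∀ l : L, z * l = l * z) (hZp : IsPGroup p Z) (θ : IrrCharacter L)
    (hker : ∀ z ∈ Z, (θ : L → ℂ) z = (θ : L → ℂ) 1)
    (hdeg : (charDegree (θ : L → ℂ)).factorization p + (Nat.card Z).factorization p = (Nat.card L).factorization p) :
    ∃ y : L, ¬ MemLocalIdeal M (centralChar (θ : L → ℂ) y) ∧
      ∀ E : Subgroup L, IsPGroup p E → E ≤ Subgroup.centralizer ({y} : Set L) → E ≤ Z := by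
  classical
  have := isPModular_isPrime hM
  haveI : Fintype (L ⧸ Z) := Fintype.ofFinite _
  obtain ⟨ψ, rfl⟩ := exists_inflate Z (χ := θ) hker
  have hdeg' : charDegree ((inflate Z ψ : IrrCharacter L) : L → ℂ) = charDegree (ψ : L ⧸ Z → ℂ) := rfl
  rw [hdeg'] at hdeg
  have hidx0 : Z.index ≠ 0 := Subgroup.index_ne_zero_of_finite
  have hcard : (Nat.card L).factorization p = (Nat.card Z).factorization p + Z.index.factorization p := by
    rw [← Z.card_mul_index, Nat.factorization_mul Nat.card_pos.ne' hidx0, Finsupp.add_apply]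
  have hψ : (charDegree (ψ : L ⧸ Z → ℂ)).factorization p = (Nat.card (L ⧸ Z)).factorization p := by
    have : Nat.card (L ⧸ Z) = Z.index := rfl
    rw [this]
    omega
  have hsing : blockOf M (ψ : L ⧸ Z → ℂ) = {ψ} := by
    apply blockOf_eq_singleton_of_not_dvd hM
    rw [not_dvd_card_div_iff hp.out (charDegree_dvd_card ψ.2),
      hp.out.pow_dvd_iff_le_factorization (charDegree_pos_of_irr ψ.2).ne', hψ]
  obtain ⟨yb, hyb⟩ := exists_isDefectClass (isPBlock_blockOf (M := M) ψ)
  have hfact := factorization_centralizer_of_defectClass (p := p) hM (isPBlock_blockOf (M := M) ψ) hyb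
  obtain ⟨χ, hχ, he⟩ := exists_height_zero (p := p) (B := blockOf M (ψ : L ⧸ Z → ℂ)) ⟨ψ, mem_blockOf_self ψ⟩
  rw [hsing] at hχ
  have hχψ : χ = ψ := hχ
  rw [hχψ] at he
  rw [← he, hψ, Nat.sub_self] at hfact
  have hCp : ¬ p ∣ Nat.card (Subgroup.centralizer ({yb} : Set (L ⧸ Z))) := by
    intro h
    have := (hp.out.dvd_iff_one_le_factorization Nat.card_pos.ne').1 h
    omega
  have hω := hyb.2.2 ψ (mem_blockOf_self ψ)
  obtain ⟨y, rfl⟩ := QuotientGroup.mk_surjective yb
  refine ⟨y, ?_, ?_⟩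
  · have h1 := centralChar_comp_mk Z (ψ : L ⧸ Z → ℂ) y
    have h2 : ((inflate Z ψ : IrrCharacter L) : L → ℂ) = (ψ : L ⧸ Z → ℂ) ∘ QuotientGroup.mk' Z := rfl
    rw [h2, h1]
    have hZC : Z ≤ Subgroup.centralizer ({y} : Set L) := by
      intro z hz
      rw [Subgroup.mem_centralizer_singleton_iff]
      exact hZc z hz y
    have hCT := centralizer_le_centT Z y
    have hrel : (Subgroup.centralizer ({y} : Set L)).relIndex (centT Z y) ∣
        Nat.card (Subgroup.centralizer ({(y : L ⧸ Z)} : Set (L ⧸ Z))) := by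
      have h3 : Z.relIndex (centT Z y) = Nat.card (Subgroup.centralizer ({(y : L ⧸ Z)} : Set (L ⧸ Z))) := by
        have h5 : (centT Z y).map (QuotientGroup.mk' Z) = Subgroup.centralizer ({(y : L ⧸ Z)} : Set (L ⧸ Z)) := by
          unfold centT
          exact Subgroup.map_comap_eq_self_of_surjective (QuotientGroup.mk'_surjective Z) _
        have h6 : ∀ T : Subgroup L, Z.relIndex T = Nat.card (T.map (QuotientGroup.mk' Z)) := by
          intro T
          have h4 : (⊥ : Subgroup (L ⧸ Z)).comap (QuotientGroup.mk' Z) = Z := by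
            ext x
            simp [Subgroup.mem_comap, QuotientGroup.eq_one_iff]
          have h7 : ((⊥ : Subgroup (L ⧸ Z)).comap (QuotientGroup.mk' Z)).relIndex T =
              (⊥ : Subgroup (L ⧸ Z)).relIndex (T.map (QuotientGroup.mk' Z)) :=
            Subgroup.relIndex_comap _ _ _
          rw [h4, Subgroup.relIndex_bot_left] at h7
          exact h7
        rw [h6, h5]
      rw [← h3, ← Subgroup.relIndex_mul_relIndex _ _ _ hZC hCT]
      exact dvd_mul_left _ _
    have hrelp : ¬ p ∣ (Subgroup.centralizer ({y} : Set L)).relIndex (centT Z y) := fun h => hCp (h.trans hrel)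
    exact not_memLocalIdeal_mul (memLocalRing_natCast _) (irr_centralChar_memLocalRing ψ _)
      (not_memLocalIdeal_natCast hM hrelp) hω
  · intro E hE hEC e he'
    have h1 : ((e : L) : L ⧸ Z) ∈ Subgroup.centralizer ({(y : L ⧸ Z)} : Set (L ⧸ Z)) := by
      rw [Subgroup.mem_centralizer_singleton_iff]
      have h2 := hEC he'
      rw [Subgroup.mem_centralizer_singleton_iff] at h2
      rw [← QuotientGroup.mk_mul, ← QuotientGroup.mk_mul, h2]
    have h3 := orderOf_dvd_natCard (⟨_, h1⟩ : Subgroup.centralizer ({(y : L ⧸ Z)} : Set (L ⧸ Z)))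
    rw [Subgroup.orderOf_mk] at h3
    obtain ⟨k, hk⟩ := hE ⟨e, he'⟩
    have h4 : (e : L) ^ p ^ k = 1 := by
      have := congrArg Subtype.val hk
      simpa using this
    have h5 : ((e : L) : L ⧸ Z) ^ p ^ k = 1 := by
      rw [← QuotientGroup.mk_pow, h4]
      rfl
    have h6 := orderOf_dvd_of_pow_eq_one h5
    obtain ⟨j, _, hj⟩ := (Nat.dvd_prime_pow hp.out).1 h6
    have h7 : j = 0 := by
      by_contra hj0
      apply hCp
      refine dvd_trans ?_ h3
      rw [hj]
      exact dvd_pow_self p hj0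
    rw [h7, pow_zero, orderOf_eq_one_iff] at hj
    exact (QuotientGroup.eq_one_iff e).1 hj

end Relative

section Main

variable {G : Type*} [Group G] [Fintype G] {M : Ideal AlgInt} {p : ℕ} [hp : Fact p.Prime]

/-- `Z(Q)` as a subgroup of `C_G(Q)`. -/
abbrev zQ (Q : Subgroup G) : Subgroup (Cen Q) := Q.subgroupOf (Cen Q)

theorem zQ_central {Q : Subgroup G} {z : Cen Q} (hz : z ∈ zQ Q) (l : Cen Q) : z * l = l * z := by
  apply Subtype.ext
  show (z : G) * l = l * z
  exact (Subgroup.mem_centralizer_iff.1 l.2 z (Subgroup.mem_subgroupOf.1 hz))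

instance zQ_normal (Q : Subgroup G) : (zQ Q).Normal := by
  constructor
  intro z hz l
  have h1 := zQ_central hz l
  have h2 : l * z * l⁻¹ = z := by
    rw [← h1]
    group
  rwa [h2]

theorem isPGroup_zQ {Q : Subgroup G} (hQ : IsPGroup p Q) : IsPGroup p (zQ Q) :=
  hQ.comap_of_injective (Cen Q).subtype (Cen Q).subtype_injective

theorem zQ_sup (Q : Subgroup G) : zQ Q ⊔ Subgroup.centralizer ((zQ Q : Subgroup (Cen Q)) : Set (Cen Q)) = ⊤ := by
  have : Subgroup.centralizer ((zQ Q : Subgroup (Cen Q)) : Set (Cen Q)) = ⊤ := by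
    rw [eq_top_iff]
    intro l _
    rw [Subgroup.mem_centralizer_iff]
    intro z hz
    exact zQ_central hz l
  rw [this, sup_top_eq]

theorem card_zQ (Q : Subgroup G) : Nat.card (zQ Q) = Nat.card ↥(Q ⊓ Cen Q) := by
  have h1 : zQ Q = (Q ⊓ Cen Q).subgroupOf (Cen Q) := by
    rw [Subgroup.inf_subgroupOf_right]
  rw [h1]
  exact card_subgroupOf_of_le inf_le_right

/-- On a maximal pair the defect group of the block is `Z(Q)`. -/
theorem isDefectGroup_zQ (hM : IsPModular p M) {B : Set (IrrCharacter G)} {Q : Subgroup G}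
    {e : Set (IrrCharacter (Cen Q))} (hmax : IsMaximalBrauerPair p M B Q e) : IsDefectGroup p M e (zQ Q) := by
  classical
  have := isPModular_isPrime hM
  have hPe := (isBrauerPairOf_iff.1 hmax.1).1
  obtain ⟨D, hD⟩ := Cfsg.Agent.Lib.CharExtra.exists_isDefectGroup hM hPe.2
  obtain ⟨g, hg⟩ := exists_pair_on_defect hM hD hPe.2
  have hn := isNormalSubpair_supUp hPe hg
  have hup := isBrauerPairOf_of_normal_up hM hn hmax.1
  have heq := hmax.2 _ _ hup (Relation.ReflTransGen.single hn)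
  have hle : D ≤ zQ Q := by
    intro d hd
    rw [Subgroup.mem_subgroupOf]
    have h1 : (d : G) ∈ supUp Q D := Subgroup.mem_sup_right ⟨d, hd, rfl⟩
    rwa [heq] at h1
  have hge : zQ Q ≤ D := normal_le_defect hM (isPGroup_zQ hPe.1) hPe.2 hD
  rw [← le_antisymm hle hge]
  exact hD

/-- **`⇒`**: a maximal pair has a canonical character. -/
theorem exists_canonical_of_max (hM : IsPModular p M) {B : Set (IrrCharacter G)} {Q : Subgroup G}
    {e : Set (IrrCharacter (Cen Q))} (hmax : IsMaximalBrauerPair p M B Q e) :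
    ∃ θ ∈ e, (∀ z : Cen Q, (z : G) ∈ Q → (θ : Cen Q → ℂ) z = (θ : Cen Q → ℂ) 1) ∧
      (charDegree (θ : Cen Q → ℂ)).factorization p + (Nat.card ↥(Q ⊓ Cen Q)).factorization p =
        (Nat.card (Cen Q)).factorization p ∧
      (∀ g : G, g ∈ Subgroup.normalizer (Q : Set G) → StabilizesBlock (Cen Q) e g → (∃ k : ℕ, orderOf g = p ^ k) →
        g ∈ Q ⊔ Cen Q) := by
  classical
  have := isPModular_isPrime hM
  have hPe := (isBrauerPairOf_iff.1 hmax.1).1
  have hD := isDefectGroup_zQ hM hmax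
  obtain ⟨⟨θ, ⟨hθ, hker⟩, -⟩, hdeg, -⟩ := central_defect_main hM (isPGroup_zQ hPe.1) (zQ_sup Q) hPe.2 hD
  refine ⟨θ, hθ, fun z hz => hker z (Subgroup.mem_subgroupOf.2 hz), ?_, ?_⟩
  · rw [hdeg θ hθ hker, ← card_zQ, ← (zQ Q).card_mul_index, Nat.factorization_mul Nat.card_pos.ne'
      Subgroup.index_ne_zero_of_finite, Finsupp.add_apply]
    omega
  · intro g hgN hgs hgp
    obtain ⟨T, hT⟩ := exists_pairT hPe.2
    have hgT : g ∈ T := (hT g).2 ⟨hgN, hgs⟩
    have hle : Subgroup.zpowers g ≤ T := Subgroup.zpowers_le.2 hgT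
    exact le_sup_cen_of_pGroup hM hmax (isPGroup_zpowers_of_orderOf (p := p) hgp)
      (fun r hr => ((hT r).1 (hle hr)).1) (fun r hr => ((hT r).1 (hle hr)).2) (Subgroup.mem_zpowers g)

theorem mem_sup_cen {Q : Subgroup G} {x : G} (hx : x ∈ Q ⊔ Cen Q) : ∃ q ∈ Q, ∃ c ∈ Cen Q, q * c = x := by
  let U : Subgroup G :=
    { carrier := {x | ∃ q ∈ Q, ∃ c ∈ Cen Q, q * c = x}
      one_mem' := ⟨1, Q.one_mem, 1, Subgroup.one_mem _, by simp⟩
      mul_mem' := by
        rintro _ _ ⟨q, hq, c, hc, rfl⟩ ⟨q', hq', c', hc', rfl⟩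
        refine ⟨q * q', Q.mul_mem hq hq', c * c', Subgroup.mul_mem _ hc hc', ?_⟩
        have h1 := Subgroup.mem_centralizer_iff.1 hc q' hq'
        calc q * q' * (c * c') = q * (q' * c) * c' := by group
          _ = q * (c * q') * c' := by rw [h1]
          _ = q * c * (q' * c') := by group
      inv_mem' := by
        rintro _ ⟨q, hq, c, hc, rfl⟩
        refine ⟨q⁻¹, Q.inv_mem hq, c⁻¹, Subgroup.inv_mem _ hc, ?_⟩
        have h1 := Subgroup.mem_centralizer_iff.1 hc q hq
        rw [mul_inv_rev]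
        have h2 : q * c = c * q := h1
        calc q⁻¹ * c⁻¹ = (c * q)⁻¹ := by group
          _ = (q * c)⁻¹ := by rw [h2]
          _ = c⁻¹ * q⁻¹ := by group }
  have hle : Q ⊔ Cen Q ≤ U := sup_le (fun q hq => ⟨q, hq, 1, Subgroup.one_mem _, by simp⟩)
    (fun c hc => ⟨1, Q.one_mem, c, hc, by simp⟩)
  exact hle hx

/-- **`⇐`**: a canonical character makes the pair maximal. -/
theorem isMaximal_of_canonical (hM : IsPModular p M) {B : Set (IrrCharacter G)} {Q : Subgroup G}
    {e : Set (IrrCharacter (Cen Q))} (hB : IsBrauerPairOf p M B Q e) {θ : IrrCharacter (Cen Q)} (hθ : θ ∈ e)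
    (hker : ∀ z : Cen Q, (z : G) ∈ Q → (θ : Cen Q → ℂ) z = (θ : Cen Q → ℂ) 1)
    (hdeg : (charDegree (θ : Cen Q → ℂ)).factorization p + (Nat.card ↥(Q ⊓ Cen Q)).factorization p =
        (Nat.card (Cen Q)).factorization p)
    (hstab : ∀ g : G, g ∈ Subgroup.normalizer (Q : Set G) → StabilizesBlock (Cen Q) e g → (∃ k : ℕ, orderOf g = p ^ k) →
        g ∈ Q ⊔ Cen Q) : IsMaximalBrauerPair p M B Q e := by
  classical
  have := isPModular_isPrime hM
  have hPe := (isBrauerPairOf_iff.1 hB).1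
  obtain ⟨y, hy, hyE⟩ := exists_class_of_relative_defect_zero hM (zQ Q) (fun z hz l => zQ_central hz l)
    (isPGroup_zQ hPe.1) θ (fun z hz => hker z (Subgroup.mem_subgroupOf.1 hz)) (by rw [card_zQ]; exact hdeg)
  refine ⟨hB, fun R g hRg hle => ?_⟩
  by_contra hne
  have hQR : Q ≤ R := le_of_subpairLE hle
  have hlt : Q < R := lt_of_le_of_ne hQR (Ne.symm hne)
  have hRg' := (isBrauerPairOf_iff.1 hRg).1
  have hlt2 := lt_inf_normalizer hRg'.1 hlt
  apply not_le_of_gt hlt2
  obtain ⟨c, hc, hcu⟩ := exists_coeff_of_le hM hRg' hle (inf_le_left : R ⊓ Subgroup.normalizer (Q : Set G) ≤ R) inf_le_right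
  have hcQ : c ∈ Cen Q := (mem_cen_sup.1 hc).1
  have hcR : c ∈ Cen (R ⊓ Subgroup.normalizer (Q : Set G)) := (mem_cen_sup.1 hc).2
  have hd : ¬ MemLocalIdeal M (blockCoeff e (⟨c, hcQ⟩ : Cen Q)) := by
    have h1 := coeff_incl_coe (Cen Q) (blockElt e) ⟨c, hcQ⟩
    simp only at h1
    have h2 : (Ee Q e).coeff c = (blockElt e).coeff ⟨c, hcQ⟩ := h1
    rw [h2, coeff_blockElt] at hcu
    exact hcu
  obtain ⟨D₀⟩ : Nonempty (Sylow p (Subgroup.centralizer ({y} : Set (Cen Q)))) := inferInstance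
  let S : Subgroup (Cen Q) := (R ⊓ Subgroup.normalizer (Q : Set G)).subgroupOf (Cen Q)
  have hSp : IsPGroup p S := (hRg'.1.to_le inf_le_left).comap_of_injective (Cen Q).subtype (Cen Q).subtype_injective
  have hSd : S ≤ Subgroup.centralizer ({(⟨c, hcQ⟩ : Cen Q)} : Set (Cen Q)) := by
    intro s hs
    rw [Subgroup.mem_centralizer_singleton_iff]
    apply Subtype.ext
    exact Subgroup.mem_centralizer_iff.1 hcR s (Subgroup.mem_subgroupOf.1 hs)
  obtain ⟨x, hx⟩ := minmax_le hM hPe.2 hθ hy hd hSp hSd D₀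
  have hD₀Z : (D₀ : Subgroup (Subgroup.centralizer ({y} : Set (Cen Q)))).map
      (Subgroup.centralizer ({y} : Set (Cen Q))).subtype ≤ zQ Q :=
    hyE _ (IsPGroup.map D₀.isPGroup' _) (Subgroup.map_subtype_le _)
  have hSZ : S ≤ zQ Q := by
    intro s hs
    obtain ⟨w, hw, hwe⟩ := hx hs
    have h1 := hD₀Z hw
    have h2 : s = w := by
      rw [← hwe]
      show x * w * x⁻¹ = w
      rw [(zQ_central h1 x).symm]
      group
    rwa [h2]
  intro t ht
  have htst := stabilizes_of_le hM hRg' hle ht.1 ht.2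
  have htp : ∃ k : ℕ, orderOf t = p ^ k := by
    obtain ⟨k, hk⟩ := IsPGroup.iff_orderOf.1 hRg'.1 ⟨t, ht.1⟩
    exact ⟨k, by rw [← hk, Subgroup.orderOf_mk]⟩
  obtain ⟨q, hq, c', hc', rfl⟩ := mem_sup_cen (hstab t ht.2 htst htp)
  have hqR : q ∈ R ⊓ Subgroup.normalizer (Q : Set G) := hlt2.le hq
  have hc'R : c' ∈ R ⊓ Subgroup.normalizer (Q : Set G) := by
    have := Subgroup.mul_mem _ (Subgroup.inv_mem _ hqR) ht
    simpa using this
  have h3 : (⟨c', hc'⟩ : Cen Q) ∈ S := Subgroup.mem_subgroupOf.2 hc'R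
  have h4 : c' ∈ Q := Subgroup.mem_subgroupOf.1 (hSZ h3)
  exact Q.mul_mem hq h4

end Main

end Cfsg.Agent.Lib.Degree
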