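import Mathlib
import Cfsg.Agent.Lib.Degree.CliffordFibre
import Cfsg.Agent.Lib.Degree.IndFS

/-!
# Semidirect products `N ⋊ P` with `N` elementary abelian of odd order and `P` a `2`-group
-/

set_option autoImplicit false
set_option linter.unusedSectionVars false
set_option linter.unusedSimpArgs false
set_option linter.unusedVariables false

open scoped ComplexConjugate
open Module
open Cfsg

namespace Cfsg.Agent.Lib.Degree

open Cfsg.Agent.Lib.Char Cfsg.Agent.Lib.CharExtra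

section FS

variable {G : Type*} [Group G] [Fintype G]

/-- The indicator of an induced function. -/
theorem fsInd_indFun_eq (I : Subgroup G) (θ : I → ℂ) :
    fsInd (indFun I θ) = (Nat.card I : ℂ)⁻¹ * ∑ g : G, extendByZero I θ (g * g) := by
  classical
  unfold fsInd
  simp only [indFun_apply]
  rw [← Finset.mul_sum, Finset.sum_comm]
  have h1 : ∀ x : G, ∑ s : G, extendByZero I θ (x⁻¹ * (s * s) * x) = ∑ g : G, extendByZero I θ (g * g) := by
    intro x
    refine Equiv.sum_comp (MulAut.conj x⁻¹).toEquiv (fun g => extendByZero I θ (g * g)) |>.symm ▸ ?_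
    refine Finset.sum_congr rfl fun s _ => ?_
    congr 1
    simp [MulAut.conj_apply]
    group
  simp only [h1, Finset.sum_const, Finset.card_univ, nsmul_eq_mul, Fintype.card_eq_nat_card]
  have hG : (Nat.card G : ℂ) ≠ 0 := by exact_mod_cast Nat.card_pos.ne'
  field_simp

end FS

section Struct

variable {G : Type*} [Group G] [Finite G] (N P : Subgroup G) [hN : N.Normal]

/-- A central involution of `P` inverts `N`. -/
theorem exists_inverting (hNab : ∀ a ∈ N, ∀ b ∈ N, a * b = b * a) (hPp : IsPGroup 2 P) (hP1 : P ≠ ⊥)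
    (hdisj : N ⊓ P = ⊥) (hprod : N ⊔ P = ⊤)
    (hmin : N ≠ ⊥ ∧ ∀ M : Subgroup G, M.Normal → M ≠ ⊥ → N ≤ M) :
    ∃ z ∈ P, z ≠ 1 ∧ z * z = 1 ∧ (∀ x ∈ P, x * z = z * x) ∧ ∀ n ∈ N, z * n * z⁻¹ = n⁻¹ := by
  classical
  haveI : Fact (Nat.Prime 2) := ⟨Nat.prime_two⟩
  haveI : Nontrivial P := by
    refine (Subgroup.nontrivial_iff_ne_bot P).mpr hP1
  haveI hcn : Nontrivial (Subgroup.center P) := hPp.center_nontrivial
  have h2 : 2 ∣ Nat.card (Subgroup.center P) := by
    have h3 : IsPGroup 2 (Subgroup.center P) := hPp.to_subgroup _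
    obtain ⟨k, hk⟩ := IsPGroup.iff_card.mp h3
    rw [hk]
    have hk0 : k ≠ 0 := by
      rintro rfl
      have : Nat.card (Subgroup.center P) = 1 := by simpa using hk
      have h4 : 1 < Nat.card (Subgroup.center P) := Finite.one_lt_card
      omega
    exact dvd_pow_self 2 hk0
  obtain ⟨w, hw⟩ := exists_prime_orderOf_dvd_card' 2 h2
  set z₀ : P := ((w : Subgroup.center P) : P) with hz₀
  have hordP : orderOf z₀ = 2 := by
    rw [hz₀, ← hw, Subgroup.orderOf_coe]
  set z : G := (z₀ : G) with hz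
  have hzP : z ∈ P := z₀.2
  have hord : orderOf z = 2 := by
    rw [hz, Subgroup.orderOf_coe, hordP]
  have hz1 : z ≠ 1 := by
    intro h
    rw [h, orderOf_one] at hord
    omega
  have hzz : z * z = 1 := by
    have := pow_orderOf_eq_one z
    rw [hord, sq] at this
    exact this
  have hzinv : z⁻¹ = z := by
    exact inv_eq_of_mul_eq_one_left hzz
  have hzc : ∀ x ∈ P, x * z = z * x := by
    intro x hx
    have h3 := (Subgroup.mem_center_iff.mp w.2) ⟨x, hx⟩
    exact congrArg Subtype.val h3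
  have hdec : ∀ g : G, ∃ n ∈ N, ∃ x ∈ P, g = n * x := by
    intro g
    have h1 : g ∈ (↑(N ⊔ P) : Set G) := by rw [hprod]; trivial
    rw [Subgroup.normal_mul] at h1
    obtain ⟨n, hn, x, hx, rfl⟩ := Set.mem_mul.mp h1
    exact ⟨n, hn, x, hx, rfl⟩
  -- the fixed points of `z` on `N` form a normal subgroup
  let C : Subgroup G := N ⊓ Subgroup.centralizer ({z} : Set G)
  have hCn : C.Normal := by
    constructor
    rintro c ⟨hcN, hcz⟩ g
    obtain ⟨n, hn, x, hx, rfl⟩ := hdec g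
    have hcz' : c * z = z * c := (Subgroup.mem_centralizer_singleton_iff.mp hcz)
    have h3 : x * c * x⁻¹ ∈ N := hN.conj_mem c hcN x
    have h4 : n * x * c * (n * x)⁻¹ = x * c * x⁻¹ := by
      have h5 := hNab n hn _ h3
      calc n * x * c * (n * x)⁻¹ = (n * (x * c * x⁻¹)) * n⁻¹ := by group
        _ = ((x * c * x⁻¹) * n) * n⁻¹ := by rw [h5]
        _ = _ := by group
    rw [h4]
    refine ⟨h3, Subgroup.mem_centralizer_singleton_iff.mpr ?_⟩
    have h6 := hzc x hx
    have h7 : x⁻¹ * z = z * x⁻¹ := by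
      have h8 : x⁻¹ * (x * z) * x⁻¹ = x⁻¹ * (z * x) * x⁻¹ := by rw [h6]
      have h9 : z * x⁻¹ = x⁻¹ * z := by simpa [mul_assoc] using h8
      exact h9.symm
    calc x * c * x⁻¹ * z = x * c * (x⁻¹ * z) := by group
      _ = x * c * (z * x⁻¹) := by rw [h7]
      _ = x * (c * z) * x⁻¹ := by group
      _ = x * (z * c) * x⁻¹ := by rw [hcz']
      _ = (x * z) * c * x⁻¹ := by group
      _ = z * (x * c * x⁻¹) := by rw [h6]; group
  have hCbot : C = ⊥ := by
    by_contra hne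
    have hNC : N ≤ C := hmin.2 C hCn hne
    -- `z` centralizes `N`
    let K : Subgroup G := P ⊓ Subgroup.centralizer (N : Set G)
    have hKn : K.Normal := by
      constructor
      rintro k ⟨hkP, hkc⟩ g
      obtain ⟨n, hn, x, hx, rfl⟩ := hdec g
      have hk1 : x * k * x⁻¹ ∈ P := P.mul_mem (P.mul_mem hx hkP) (P.inv_mem hx)
      have hk2 : x * k * x⁻¹ ∈ Subgroup.centralizer (N : Set G) := by
        rw [Subgroup.mem_centralizer_iff]
        intro m hm
        have h3 : x⁻¹ * m * x⁻¹⁻¹ ∈ N := hN.conj_mem m hm x⁻¹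
        have h4 := Subgroup.mem_centralizer_iff.mp hkc _ h3
        simp only [inv_inv] at h3 h4
        calc m * (x * k * x⁻¹) = x * ((x⁻¹ * m * x) * k) * x⁻¹ := by group
          _ = x * (k * (x⁻¹ * m * x)) * x⁻¹ := by rw [h4]
          _ = _ := by group
      have h5 : n * x * k * (n * x)⁻¹ = x * k * x⁻¹ := by
        have h6 := Subgroup.mem_centralizer_iff.mp hk2 n hn
        calc n * x * k * (n * x)⁻¹ = (n * (x * k * x⁻¹)) * n⁻¹ := by group
          _ = ((x * k * x⁻¹) * n) * n⁻¹ := by rw [h6]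
          _ = _ := by group
      rw [h5]
      exact ⟨hk1, hk2⟩
    have hzK : z ∈ K := by
      refine ⟨hzP, Subgroup.mem_centralizer_iff.mpr fun m hm => ?_⟩
      exact Subgroup.mem_centralizer_singleton_iff.mp (hNC hm).2
    have hKne : K ≠ ⊥ := by
      intro h
      rw [h, Subgroup.mem_bot] at hzK
      exact hz1 hzK
    have hNK : N ≤ K := hmin.2 K hKn hKne
    apply hmin.1
    rw [eq_bot_iff]
    intro n hn
    rw [← hdisj]
    exact ⟨hn, (hNK hn).1⟩
  refine ⟨z, hzP, hz1, hzz, hzc, fun n hn => ?_⟩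
  rw [hzinv]
  have h3 : z * n * z ∈ N := by
    have := hN.conj_mem n hn z
    rwa [hzinv] at this
  have h4 : n * (z * n * z) ∈ C := by
    refine ⟨N.mul_mem hn h3, Subgroup.mem_centralizer_singleton_iff.mpr ?_⟩
    have h5 : z * (n * (z * n * z)) * z = (z * n * z) * n := by
      calc z * (n * (z * n * z)) * z = (z * n * z) * n * (z * z) := by group
        _ = _ := by rw [hzz, mul_one]
    have h6 : (z * n * z) * n = n * (z * n * z) := hNab _ h3 _ hn
    calc n * (z * n * z) * z = z * z * (n * (z * n * z)) * z := by rw [hzz, one_mul]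
      _ = z * (z * (n * (z * n * z)) * z) := by group
      _ = z * ((z * n * z) * n) := by rw [h5]
      _ = z * (n * (z * n * z)) := by rw [h6]
  rw [hCbot, Subgroup.mem_bot] at h4
  exact eq_inv_of_mul_eq_one_right h4

/-- `N` lies in the derived subgroup. -/
theorem le_commutator_of_inverting {q : ℕ} (hq : Odd q) (hexp : ∀ n ∈ N, n ^ q = 1) {z : G}
    (hz : ∀ n ∈ N, z * n * z⁻¹ = n⁻¹) : N ≤ commutator G := by
  intro n hn
  obtain ⟨k, rfl⟩ := hq
  have h1 : n * n ∈ commutator G := by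
    have h2 := Subgroup.commutator_mem_commutator (Subgroup.mem_top n) (Subgroup.mem_top z)
    rw [commutatorElement_def] at h2
    have h3 := hz n⁻¹ (N.inv_mem hn)
    have h4 : n * z * n⁻¹ * z⁻¹ = n * (z * n⁻¹ * z⁻¹) := by group
    rw [h4, h3, inv_inv] at h2
    exact h2
  have h5 : n = (n * n) ^ (k + 1) := by
    rw [← sq, ← pow_mul]
    have h6 : 2 * (k + 1) = (2 * k + 1) + 1 := by ring
    rw [h6, pow_succ, hexp n hn, one_mul]
  rw [h5]
  exact Subgroup.pow_mem _ h1 _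

end Struct

section Ext

theorem irr_degree_ne_zero_of_linear {X : Type*} [Group X] [Fintype X] (φ : IrrCharacter X)
    (h : (φ : X → ℂ) 1 = 1) (x : X) : (φ : X → ℂ) x ≠ 0 := by
  intro h0
  have := norm_linear_sq φ h x
  rw [h0, zero_mul] at this
  exact zero_ne_one this

variable {G : Type*} [Group G] [Fintype G] (N P : Subgroup G) [hN : N.Normal] [Fintype N]

/-- The canonical extension of an invariant linear character across a complement. -/
theorem exists_ext_trivial (hdisj : N ⊓ P = ⊥) (hprod : N ⊔ P = ⊤) (φ : IrrCharacter N)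
    (hφ1 : (φ : N → ℂ) 1 = 1) (I : Subgroup G) [Fintype I] (hI : I = inertia hN (φ : N → ℂ))
    (hNI : N ≤ I) :
    ∃ ψ : IrrCharacter I, (∀ n : N, (ψ : I → ℂ) ⟨n, hNI n.2⟩ = (φ : N → ℂ) n) ∧
      (∀ t : I, (t : G) ∈ P → (ψ : I → ℂ) t = 1) ∧ (∀ i j : I, (ψ : I → ℂ) (i * j) = (ψ : I → ℂ) i * (ψ : I → ℂ) j) := by
  classical
  have hdec : ∀ i : I, ∃ n : N, ∃ x : G, x ∈ P ∧ x ∈ I ∧ (i : G) = n * x := by
    intro i
    obtain ⟨n, hn, x, hx, h⟩ := exists_mul_of_sup N hprod (i : G)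
    refine ⟨⟨n, hn⟩, x, hx, ?_, h⟩
    have h1 : x = n⁻¹ * (i : G) := by rw [h]; group
    rw [h1]
    exact I.mul_mem (I.inv_mem (hNI hn)) i.2
  choose fn fx hxP hxI hfn using hdec
  have huniq : ∀ (n n' : N) (x x' : G), x ∈ P → x' ∈ P → (n : G) * x = n' * x' → n = n' := by
    intro n n' x x' hx hx' h
    have h1 : (n' : G)⁻¹ * n = x' * x⁻¹ := by
      calc (n' : G)⁻¹ * n = (n' : G)⁻¹ * (n * x) * x⁻¹ := by group
        _ = (n' : G)⁻¹ * (n' * x') * x⁻¹ := by rw [h]
        _ = _ := by group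
    have h2 : (n' : G)⁻¹ * n ∈ N ⊓ P := ⟨N.mul_mem (N.inv_mem n'.2) n.2, by
      rw [h1]
      exact P.mul_mem hx' (P.inv_mem hx)⟩
    rw [hdisj, Subgroup.mem_bot] at h2
    exact Subtype.ext (inv_mul_eq_one.mp h2).symm
  have hφinv : ∀ t : I, ∀ n : N, (φ : N → ℂ) ⟨t * n * (t : G)⁻¹, hN.conj_mem (n : G) n.2 t⟩ = (φ : N → ℂ) n := by
    intro t n
    have h1 : (t : G) ∈ inertia hN (φ : N → ℂ) := (le_of_eq hI) t.2
    rw [mem_inertia_iff] at h1
    exact h1 n
  let f : I → ℂ := fun i => (φ : N → ℂ) (fn i)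
  have hf1 : f 1 = 1 := by
    have h1 : fn 1 = 1 := by
      refine huniq _ _ (fx 1) 1 (hxP 1) P.one_mem ?_
      rw [← hfn 1]
      simp
    show (φ : N → ℂ) (fn 1) = 1
    rw [h1, hφ1]
  have hfmul : ∀ i j, f (i * j) = f i * f j := by
    intro i j
    have hxn : (fx i) * (fn j : G) * (fx i)⁻¹ ∈ N := hN.conj_mem _ (fn j).2 _
    have h1 : fn (i * j) = fn i * ⟨_, hxn⟩ := by
      refine huniq _ _ (fx (i * j)) (fx i * fx j) (hxP _) (P.mul_mem (hxP i) (hxP j)) ?_
      rw [← hfn (i * j)]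
      show (i : G) * j = _
      rw [hfn i, hfn j]
      show (fn i : G) * fx i * ((fn j : G) * fx j) = (fn i : G) * ((fx i) * (fn j : G) * (fx i)⁻¹) * (fx i * fx j)
      group
    show (φ : N → ℂ) (fn (i * j)) = (φ : N → ℂ) (fn i) * (φ : N → ℂ) (fn j)
    rw [h1, irr_linear_mul φ hφ1]
    congr 1
    exact hφinv ⟨fx i, hxI i⟩ (fn j)
  let lam : I →* ℂˣ := MonoidHom.toHomUnits ⟨⟨f, hf1⟩, hfmul⟩
  have hlam : (fun i : I => (lam i : ℂ)) = f := by
    funext i
    rfl
  have hirr : IsIrrCharacter I f := by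
    rw [← hlam]
    exact isIrrCharacter_of_hom lam
  refine ⟨⟨f, hirr⟩, ?_, ?_, hfmul⟩
  · intro n
    have h1 : fn ⟨n, hNI n.2⟩ = n := by
      refine huniq _ _ (fx ⟨n, hNI n.2⟩) 1 (hxP _) P.one_mem ?_
      rw [← hfn ⟨n, hNI n.2⟩]
      simp
    show (φ : N → ℂ) (fn ⟨n, hNI n.2⟩) = _
    rw [h1]
  · intro t ht
    have h1 : fn t = 1 := by
      refine huniq _ _ (fx t) (t : G) (hxP _) ht ?_
      rw [← hfn t]
      simp
    show (φ : N → ℂ) (fn t) = 1
    rw [h1, hφ1]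

/-- The indicator of the character induced from the canonical extension. -/
theorem fs_of_inverting (hdisj : N ⊓ P = ⊥) (hprod : N ⊔ P = ⊤) (φ : IrrCharacter N)
    (hφ1 : (φ : N → ℂ) 1 = 1) (I : Subgroup G) [Fintype I] (hI : I = inertia hN (φ : N → ℂ))
    (hNI : N ≤ I) (ψ : IrrCharacter I) (hψN : ∀ n : N, (ψ : I → ℂ) ⟨n, hNI n.2⟩ = (φ : N → ℂ) n)
    (hψP : ∀ t : I, (t : G) ∈ P → (ψ : I → ℂ) t = 1)
    (hψmul : ∀ i j : I, (ψ : I → ℂ) (i * j) = (ψ : I → ℂ) i * (ψ : I → ℂ) j)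
    {z : G} (hzP : z ∈ P) (hzz : z * z = 1) (hzc : ∀ x ∈ P, x * z = z * x)
    (hz : ∀ n ∈ N, z * n * z⁻¹ = n⁻¹) :
    fsInd (indFun I (ψ : I → ℂ)) = 1 := by
  classical
  letI : Fintype P := Fintype.ofFinite _
  rw [fsInd_indFun_eq]
  let cj : P → N → N := fun x n => ⟨x * n * (x : G)⁻¹, hN.conj_mem (n : G) n.2 x⟩
  have hφinv : ∀ t : I, ∀ n : N, (φ : N → ℂ) ⟨t * n * (t : G)⁻¹, hN.conj_mem (n : G) n.2 t⟩ = (φ : N → ℂ) n := by
    intro t n
    have h1 : (t : G) ∈ inertia hN (φ : N → ℂ) := (le_of_eq hI) t.2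
    rw [mem_inertia_iff] at h1
    exact h1 n
  have hmemI : ∀ t : G, (∀ n : N, (φ : N → ℂ) ⟨t * n * t⁻¹, hN.conj_mem (n : G) n.2 t⟩ = (φ : N → ℂ) n) → t ∈ I := by
    intro t ht
    rw [hI, mem_inertia_iff]
    exact ht
  -- the decomposition of `G`
  let Φ : N × P → G := fun a => a.1 * a.2
  have hΦ : Function.Bijective Φ := by
    constructor
    · rintro ⟨n, x⟩ ⟨n', x'⟩ h
      have h0 : (n : G) * x = n' * x' := h
      have h1 : (n' : G)⁻¹ * n = x' * (x : G)⁻¹ := by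
        calc (n' : G)⁻¹ * n = (n' : G)⁻¹ * (n * x) * (x : G)⁻¹ := by group
          _ = (n' : G)⁻¹ * (n' * x') * (x : G)⁻¹ := by rw [h0]
          _ = _ := by group
      have h2 : (n' : G)⁻¹ * n ∈ N ⊓ P := ⟨N.mul_mem (N.inv_mem n'.2) n.2, by
        rw [h1]
        exact P.mul_mem x'.2 (P.inv_mem x.2)⟩
      rw [hdisj, Subgroup.mem_bot] at h2
      have h3 : (n : G) = n' := (inv_mul_eq_one.mp h2).symm
      have h4 : (x : G) = x' := by
        rw [h3] at h0
        exact mul_left_cancel h0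
      rw [Subtype.ext h3, Subtype.ext h4]
    · intro g
      obtain ⟨n, hn, x, hx, h⟩ := exists_mul_of_sup N hprod g
      exact ⟨(⟨n, hn⟩, ⟨x, hx⟩), h.symm⟩
  rw [← Equiv.sum_comp (Equiv.ofBijective Φ hΦ), Fintype.sum_prod_type_right]
  show (Nat.card I : ℂ)⁻¹ * ∑ x : P, ∑ n : N,
    extendByZero I (ψ : I → ℂ) (((n : G) * x) * ((n : G) * x)) = 1
  -- expression for the square
  have hsq : ∀ (x : P) (n : N), ((n : G) * x) * ((n : G) * x) = (n : G) * (cj x n : G) * ((x : G) * x) := by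
    intro x n
    show _ = (n : G) * ((x : G) * n * (x : G)⁻¹) * ((x : G) * x)
    group
  -- the value when `x * x` lies in `I`
  have hval : ∀ (x : P) (n : N) (hx : (x : G) * x ∈ I),
      extendByZero I (ψ : I → ℂ) (((n : G) * x) * ((n : G) * x)) =
        (φ : N → ℂ) n * (φ : N → ℂ) (cj x n) := by
    intro x n hx
    have hmem : (n : G) * (cj x n : G) ∈ I := I.mul_mem (hNI n.2) (hNI (cj x n).2)
    have hmem2 : (n : G) * (cj x n : G) * ((x : G) * x) ∈ I := I.mul_mem hmem hx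
    rw [hsq, extendByZero_of_mem I _ hmem2]
    have h1 : (⟨(n : G) * (cj x n : G) * ((x : G) * x), hmem2⟩ : I) =
        ⟨(n * cj x n : N), hNI (n * cj x n).2⟩ * ⟨(x : G) * x, hx⟩ := Subtype.ext rfl
    rw [h1, hψmul, hψN, hψP _ (P.mul_mem x.2 x.2), mul_one, irr_linear_mul φ hφ1]
  have hval0 : ∀ (x : P) (n : N), (x : G) * x ∉ I →
      extendByZero I (ψ : I → ℂ) (((n : G) * x) * ((n : G) * x)) = 0 := by
    intro x n hx
    rw [hsq, extendByZero_of_not_mem I]
    intro h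
    apply hx
    have h1 : (n : G) * (cj x n : G) ∈ I := I.mul_mem (hNI n.2) (hNI (cj x n).2)
    have h2 := I.mul_mem (I.inv_mem h1) h
    simpa [mul_assoc] using h2
  let A := Finset.univ.filter (fun x : P => ∀ n : N, (φ : N → ℂ) (cj x n) = conj ((φ : N → ℂ) n))
  have hinner1 : ∀ x ∈ A, ∑ n : N, extendByZero I (ψ : I → ℂ) (((n : G) * x) * ((n : G) * x)) = (Nat.card N : ℂ) := by
    intro x hx
    have hxA := (Finset.mem_filter.mp hx).2
    have hx2 : (x : G) * x ∈ I := by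
      refine hmemI _ fun n => ?_
      have h1 : (⟨(x : G) * x * n * ((x : G) * x)⁻¹, hN.conj_mem (n : G) n.2 _⟩ : N) = cj x (cj x n) :=
        Subtype.ext (by show _ = (x : G) * ((x : G) * n * (x : G)⁻¹) * (x : G)⁻¹; group)
      rw [h1, hxA, hxA, Complex.conj_conj]
    have h2 : ∀ n : N, extendByZero I (ψ : I → ℂ) (((n : G) * x) * ((n : G) * x)) = 1 := by
      intro n
      rw [hval x n hx2, hxA]
      exact norm_linear_sq φ hφ1 n
    simp only [h2, Finset.sum_const, Finset.card_univ, nsmul_eq_mul, mul_one, Fintype.card_eq_nat_card]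
  have hinner0 : ∀ x ∉ A, ∑ n : N, extendByZero I (ψ : I → ℂ) (((n : G) * x) * ((n : G) * x)) = 0 := by
    intro x hx
    by_cases hx2 : (x : G) * x ∈ I
    · have hxA : ¬ ∀ n : N, (φ : N → ℂ) (cj x n) = conj ((φ : N → ℂ) n) := by
        intro h
        exact hx (Finset.mem_filter.mpr ⟨Finset.mem_univ _, h⟩)
      push Not at hxA
      obtain ⟨n₀, hn₀⟩ := hxA
      simp only [hval x _ hx2]
      set S := ∑ n : N, (φ : N → ℂ) n * (φ : N → ℂ) (cj x n) with hS
      set c := (φ : N → ℂ) n₀ * (φ : N → ℂ) (cj x n₀) with hc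
      have h1 : S = c * S := by
        rw [hS, Finset.mul_sum]
        rw [← Equiv.sum_comp (Equiv.mulLeft n₀)]
        refine Finset.sum_congr rfl fun n _ => ?_
        have h2 : cj x (n₀ * n) = cj x n₀ * cj x n := Subtype.ext (by
          show (x : G) * ((n₀ : G) * n) * (x : G)⁻¹ = ((x : G) * n₀ * (x : G)⁻¹) * ((x : G) * n * (x : G)⁻¹)
          group)
        show (φ : N → ℂ) (n₀ * n) * (φ : N → ℂ) (cj x (n₀ * n)) = _
        rw [h2, irr_linear_mul φ hφ1, irr_linear_mul φ hφ1, hc]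
        ring
      have hcne : c ≠ 1 := by
        intro h
        apply hn₀
        have h3 := norm_linear_sq φ hφ1 n₀
        have h4 : (φ : N → ℂ) n₀ ≠ 0 := irr_degree_ne_zero_of_linear φ hφ1 n₀
        refine mul_left_cancel₀ h4 ?_
        rw [h3]
        exact h
      have h5 : (1 - c) * S = 0 := by linear_combination h1
      exact (mul_eq_zero.mp h5).resolve_left (sub_ne_zero.mpr (Ne.symm hcne))
    · exact Finset.sum_eq_zero fun n _ => hval0 x n hx2
  rw [← Finset.sum_filter_add_sum_filter_not Finset.univ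
    (fun x : P => ∀ n : N, (φ : N → ℂ) (cj x n) = conj ((φ : N → ℂ) n))]
  rw [Finset.sum_congr rfl hinner1, Finset.sum_eq_zero (s := Finset.univ.filter _) (fun x hx => hinner0 x (by
    intro h
    exact (Finset.mem_filter.mp hx).2 (Finset.mem_filter.mp h).2))]
  rw [add_zero, Finset.sum_const, nsmul_eq_mul]
  -- cardinalities
  have hzinv : z⁻¹ = z := inv_eq_of_mul_eq_one_left hzz
  have hφz : ∀ (y : G) (hy : y ∈ N), (φ : N → ℂ) ⟨z * y * z⁻¹, hN.conj_mem y hy z⟩ = conj ((φ : N → ℂ) ⟨y, hy⟩) := by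
    intro y hy
    have h1 : (⟨z * y * z⁻¹, hN.conj_mem y hy z⟩ : N) = (⟨y, hy⟩ : N)⁻¹ := Subtype.ext (hz y hy)
    rw [h1, irr_map_inv]
  have hA : A.card = Nat.card (I ⊓ P : Subgroup G) := by
    have h1 : A.card = Nat.card {x : P // ∀ n : N, (φ : N → ℂ) (cj x n) = conj ((φ : N → ℂ) n)} := by
      rw [Nat.card_eq_fintype_card, Fintype.card_subtype]
    rw [h1]
    refine Nat.card_congr
      { toFun := fun x => ⟨z * x, ?_, ?_⟩
        invFun := fun t => ⟨⟨z * t, ?_⟩, ?_⟩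
        left_inv := ?_
        right_inv := ?_ }
    · -- `z x` lies in `I`
      refine hmemI _ fun n => ?_
      have hy := (cj x.1 n).2
      have h2 : (⟨z * x.1 * n * (z * x.1)⁻¹, hN.conj_mem (n : G) n.2 _⟩ : N) =
          ⟨z * (cj x.1 n : G) * z⁻¹, hN.conj_mem _ hy z⟩ := Subtype.ext (by
        show z * x.1 * n * (z * x.1)⁻¹ = z * ((x.1 : G) * n * (x.1 : G)⁻¹) * z⁻¹
        group)
      rw [h2, hφz _ hy]
      have h3 : (⟨(cj x.1 n : G), hy⟩ : N) = cj x.1 n := rfl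
      rw [h3, x.2, Complex.conj_conj]
    · exact P.mul_mem hzP x.1.2
    · exact P.mul_mem hzP t.2.2
    · intro n
      have ht : (t : G) ∈ I := t.2.1
      have hy : (t : G) * n * (t : G)⁻¹ ∈ N := hN.conj_mem _ n.2 _
      have h2 : cj ⟨z * t, P.mul_mem hzP t.2.2⟩ n = ⟨z * ((t : G) * n * (t : G)⁻¹) * z⁻¹, hN.conj_mem _ hy z⟩ :=
        Subtype.ext (by
          show z * (t : G) * n * (z * (t : G))⁻¹ = z * ((t : G) * n * (t : G)⁻¹) * z⁻¹
          group)
      rw [h2, hφz _ hy]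
      congr 1
      exact hφinv ⟨t, ht⟩ n
    · intro x
      apply Subtype.ext
      apply Subtype.ext
      show z * (z * (x.1 : G)) = x.1
      rw [← mul_assoc, hzz, one_mul]
    · intro t
      apply Subtype.ext
      show z * (z * (t : G)) = t
      rw [← mul_assoc, hzz, one_mul]
  have hIc : Nat.card I = Nat.card N * Nat.card (I ⊓ P : Subgroup G) := by
    rw [← Nat.card_prod]
    refine (Nat.card_congr (Equiv.ofBijective (fun a : N × (I ⊓ P : Subgroup G) =>
      (⟨a.1 * a.2, I.mul_mem (hNI a.1.2) a.2.2.1⟩ : I)) ⟨?_, ?_⟩)).symm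
    · rintro ⟨n, x⟩ ⟨n', x'⟩ h
      have h0 : (n : G) * x = n' * x' := congrArg Subtype.val h
      have h1 : (n' : G)⁻¹ * n = x' * (x : G)⁻¹ := by
        calc (n' : G)⁻¹ * n = (n' : G)⁻¹ * (n * x) * (x : G)⁻¹ := by group
          _ = (n' : G)⁻¹ * (n' * x') * (x : G)⁻¹ := by rw [h0]
          _ = _ := by group
      have h2 : (n' : G)⁻¹ * n ∈ N ⊓ P := ⟨N.mul_mem (N.inv_mem n'.2) n.2, by
        rw [h1]
        exact P.mul_mem x'.2.2 (P.inv_mem x.2.2)⟩
      rw [hdisj, Subgroup.mem_bot] at h2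
      have h3 : (n : G) = n' := (inv_mul_eq_one.mp h2).symm
      have h4 : (x : G) = x' := by
        rw [h3] at h0
        exact mul_left_cancel h0
      rw [Subtype.ext h3, Subtype.ext h4]
    · intro i
      obtain ⟨n, hn, x, hx, h⟩ := exists_mul_of_sup N hprod (i : G)
      have hxI : x ∈ I := by
        have h1 : x = n⁻¹ * (i : G) := by rw [h]; group
        rw [h1]
        exact I.mul_mem (I.inv_mem (hNI hn)) i.2
      exact ⟨(⟨n, hn⟩, ⟨x, hxI, hx⟩), Subtype.ext h.symm⟩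
  rw [hA, hIc]
  push_cast
  have h1 : (Nat.card N : ℂ) ≠ 0 := by exact_mod_cast Nat.card_pos.ne'
  have h2 : (Nat.card (I ⊓ P : Subgroup G) : ℂ) ≠ 0 := by exact_mod_cast Nat.card_pos.ne'
  field_simp

end Ext

end Cfsg.Agent.Lib.Degree
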