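import Cfsg.Agent.Lib.Degree.RealGen
import Cfsg.Agent.Lib.Coprime.GlauberP
import Mathlib

/-!
# Real classes of a normal `p'`-subgroup of odd index when the real irreducible characters have
degree prime to `p`: they meet the centralizer of a Sylow `p`-subgroup.
-/

set_option autoImplicit false
set_option linter.unusedSectionVars false

open scoped ComplexConjugate
open Module

namespace Cfsg.Agent.Lib.Degree

open Cfsg (classInner IsCharacter IsIrrCharacter IrrCharacter IsClassFunction charDegree indFun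
  extendByZero)
open Cfsg.Agent.Lib.Char
open Cfsg.Agent.Lib.CharExtra
open Cfsg.Agent.Lib.Coprime

universe u

section Conj

variable {H : Type u} [Group H] [Fintype H]

theorem classInner_conj_conj (f g : H → ℂ) :
    classInner (fun x => conj (f x)) (fun x => conj (g x)) = conj (classInner f g) := by
  simp only [classInner_def, map_mul, map_sum, map_inv₀, Complex.conj_natCast]

theorem isUnitP_conj_eq {p : ℕ} {z : ℂ} (h : IsUnitP p z) : conj z = z := by
  obtain ⟨t, ε, -, rfl⟩ := h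
  simp

theorem isDvdP_conj_eq {p : ℕ} {z : ℂ} (h : IsDvdP p z) : conj z = z := by
  obtain ⟨t, rfl⟩ := h
  simp

/-- The Glauberman relation and complex conjugation. -/
theorem IsGlauber.conjPair {Y C : Type u} [Group Y] [Group C] [Fintype C] {p : ℕ} {j : C →* Y}
    {χ : Y → ℂ} {β : IrrCharacter C} (h : IsGlauber p j χ β) :
    IsGlauber p j (fun y => conj (χ y)) (conjIrr β) := by
  refine ⟨?_, fun β' hβ' => ?_⟩
  · have h1 := classInner_conj_conj (fun c => χ (j c)) (β : C → ℂ)
    have h2 : classInner (fun c => conj (χ (j c))) ((conjIrr β : IrrCharacter C) : C → ℂ) =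
        conj (classInner (fun c => χ (j c)) (β : C → ℂ)) := h1
    rw [h2, isUnitP_conj_eq h.unit]
    exact h.unit
  · have hne : conjIrr β' ≠ β := by
      intro h3
      apply hβ'
      rw [← h3, conjIrr_conjIrr]
    have h1 := classInner_conj_conj (fun c => χ (j c)) ((conjIrr β' : IrrCharacter C) : C → ℂ)
    have h2 : classInner (fun c => conj (χ (j c))) (β' : C → ℂ) =
        conj (classInner (fun c => χ (j c)) ((conjIrr β' : IrrCharacter C) : C → ℂ)) := by
      rw [← h1]
      congr 1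
      funext c
      simp
    rw [h2, isDvdP_conj_eq (h.dvd _ hne)]
    exact h.dvd _ hne

end Conj

section Fix

variable {G : Type u} [Group G] [Finite G] {p : ℕ} [hpf : Fact p.Prime]

/-- A Sylow subgroup has a conjugate in each subgroup of index prime to `p`. -/
theorem exists_conj_sylow_le (P : Sylow p G) (T : Subgroup G) (h : ¬ p ∣ Nat.card (G ⧸ T)) :
    ∃ g : G, ∀ x ∈ (P : Subgroup G), g⁻¹ * x * g ∈ T := by
  obtain ⟨q, hq⟩ := IsPGroup.nonempty_fixed_point_of_prime_not_dvd_card P.isPGroup' (G ⧸ T) h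
  obtain ⟨g, rfl⟩ := QuotientGroup.mk_surjective q
  refine ⟨g, fun x hx => ?_⟩
  have h1 := hq ⟨x⁻¹, (P : Subgroup G).inv_mem hx⟩
  have h2 : ((x⁻¹ * g : G) : G ⧸ T) = (g : G ⧸ T) := h1
  have h3 := QuotientGroup.eq.mp h2
  have h4 : (x⁻¹ * g)⁻¹ * g = g⁻¹ * x * g := by group
  rwa [h4] at h3

end Fix

section Setup

variable {G : Type u} [Group G] [Fintype G] {p : ℕ} [hpf : Fact p.Prime] (K : Subgroup G)
  (hK : K.Normal) [Fintype K] (P : Sylow p G)

/-- The normalizer of the Sylow subgroup. -/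
abbrev nrm : Subgroup G := Subgroup.normalizer (((P : Subgroup G) : Set G))

/-- The intersection with `K`. -/
abbrev cZ : Subgroup (nrm P) := K.subgroupOf (nrm P)

/-- The inclusion in `K`. -/
def jC : cZ K P →* K :=
  ((nrm P).subtype.comp (cZ K P).subtype).codRestrict K (fun c => Subgroup.mem_subgroupOf.mp c.2)

@[simp] theorem jC_coe (c : cZ K P) : ((jC K P c : K) : G) = ((c : nrm P) : G) := rfl

theorem jC_injective : Function.Injective (jC K P) := by
  intro a b hab
  apply Subtype.ext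
  apply Subtype.ext
  exact congrArg (fun t : K => (t : G)) hab

/-- The action of `P` on `K`. -/
def actP : (P : Subgroup G) →* MulAut K :=
  conjAct K (P : Subgroup G) (fun s _ g hg => hK.conj_mem g hg s)

@[simp] theorem actP_coe (a : (P : Subgroup G)) (y : K) :
    ((actP K hK P a y : K) : G) = a * y * (a : G)⁻¹ := rfl

variable {K}

theorem inter_eq_one (hcop : ¬ p ∣ Nat.card K) {y : G} (hyP : y ∈ (P : Subgroup G)) (hyK : y ∈ K) :
    y = 1 := by
  obtain ⟨j, hj⟩ := P.isPGroup' ⟨y, hyP⟩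
  have h1 : y ^ (p ^ j) = 1 := congrArg Subtype.val hj
  have h2 : y ^ (Nat.card K) = 1 := by
    have := pow_card_eq_one' (x := (⟨y, hyK⟩ : K))
    exact congrArg Subtype.val this
  refine eq_one_of_pow_of_coprime h2 h1 (Nat.Coprime.pow_right _ ?_)
  exact ((Nat.Prime.coprime_iff_not_dvd hpf.out).mpr hcop).symm

theorem comm_of_mem_nrm (hK : K.Normal) (hcop : ¬ p ∣ Nat.card K) {c a : G} (hcD : c ∈ nrm P) (hcK : c ∈ K)
    (ha : a ∈ (P : Subgroup G)) : a * c * a⁻¹ = c := by
  have h1 : c * a * c⁻¹ ∈ (P : Subgroup G) := (Subgroup.mem_normalizer_iff.mp hcD a).mp ha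
  have h2 : c * a * c⁻¹ * a⁻¹ ∈ (P : Subgroup G) := (P : Subgroup G).mul_mem h1 ((P : Subgroup G).inv_mem ha)
  have h3 : c * a * c⁻¹ * a⁻¹ ∈ K := by
    have : c * a * c⁻¹ * a⁻¹ = c * (a * c⁻¹ * a⁻¹) := by group
    rw [this]
    exact K.mul_mem hcK (hK.conj_mem _ (K.inv_mem hcK) a)
  have h4 := inter_eq_one P hcop h2 h3
  have h5 : c * a = a * c := by
    calc c * a = (c * a * c⁻¹ * a⁻¹) * (a * c) := by group
      _ = a * c := by rw [h4, one_mul]
  rw [← h5]
  group

theorem mem_nrm_of_comm {y : G} (h1 : ∀ a ∈ (P : Subgroup G), a * y * a⁻¹ = y) : y ∈ nrm P := by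
  rw [Subgroup.mem_normalizer_iff]
  intro a
  constructor
  · intro ha
    have h3 : y * a * y⁻¹ = a := by
      have h4 := h1 a ha
      have h5 : a * y = y * a := by
        calc a * y = (a * y * a⁻¹) * a := by group
          _ = y * a := by rw [h4]
      rw [← h5]
      group
    rw [h3]
    exact ha
  · intro ha
    have h4 := h1 _ ha
    have h5 : y * a * y⁻¹ = a := by
      have h6 : (y * a * y⁻¹) * y = y * (y * a * y⁻¹) := by
        calc (y * a * y⁻¹) * y = ((y * a * y⁻¹) * y * (y * a * y⁻¹)⁻¹) * (y * a * y⁻¹) := by group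
          _ = y * (y * a * y⁻¹) := by rw [h4]
      have h7 : y * a = y * (y * a * y⁻¹) := by
        rw [← h6]
        group
      exact (mul_left_cancel h7).symm
    rw [← h5]
    exact ha

theorem jC_range (hcop : ¬ p ∣ Nat.card K) (y : K) :
    y ∈ (jC K P).range ↔ ∀ a, actP K hK P a y = y := by
  constructor
  · rintro ⟨c, rfl⟩ a
    apply Subtype.ext
    exact comm_of_mem_nrm P hK hcop c.1.2 (Subgroup.mem_subgroupOf.mp c.2) a.2
  · intro h
    have h1 : ∀ a ∈ (P : Subgroup G), a * (y : G) * a⁻¹ = y := fun a ha =>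
      congrArg Subtype.val (h ⟨a, ha⟩)
    exact ⟨⟨⟨y, mem_nrm_of_comm P h1⟩, Subgroup.mem_subgroupOf.mpr y.2⟩, Subtype.ext rfl⟩

variable [Fintype (cZ K P)]

theorem exists_corr (hcop : ¬ p ∣ Nat.card K) :
    ∃ f : IrrInv (actP K hK P) ≃ IrrCharacter (cZ K P),
      ∀ χ, IsGlauber p (jC K P) (χ.1 : K → ℂ) (f χ) := by
  refine pgroup_corr_coprime hpf.out (actP K hK P) P.isPGroup' ?_ (jC_injective K P) (jC_range hK P hcop)
  obtain ⟨k, hk⟩ := IsPGroup.iff_card.1 P.isPGroup'
  rw [hk]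
  exact Nat.Coprime.pow_right _ ((Nat.Prime.coprime_iff_not_dvd hpf.out).mpr hcop).symm

variable {hK P}
variable {f : IrrInv (actP K hK P) ≃ IrrCharacter (cZ K P)}
  (hf : ∀ χ, IsGlauber p (jC K P) (χ.1 : K → ℂ) (f χ))

include hf

theorem f_real (θ : IrrInv (actP K hK P)) (hθ : ∀ k, ((θ.1 : K → ℂ) k).im = 0) :
    ∀ c, ((f θ : cZ K P → ℂ) c).im = 0 := by
  have h1 := IsGlauber.conjPair (hf θ)
  have h2 : (fun y => conj ((θ.1 : K → ℂ) y)) = (θ.1 : K → ℂ) := by
    funext y
    exact Complex.conj_eq_iff_im.mpr (hθ y)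
  rw [h2] at h1
  have h3 := (hf θ).unique hpf.out h1
  intro c
  have h4 := congrFun (congrArg Subtype.val h3) c
  exact Complex.conj_eq_iff_im.mp h4.symm

theorem finv_real (β : IrrCharacter (cZ K P)) (hβ : ∀ c, ((β : cZ K P → ℂ) c).im = 0) :
    ∀ k, (((f.symm β).1 : K → ℂ) k).im = 0 := by
  set θ := f.symm β with hθ
  have hfθ : f θ = β := by rw [hθ]; simp
  let θ' : IrrInv (actP K hK P) := ⟨conjIrr θ.1, fun a y => by
    show conj ((θ.1 : K → ℂ) _) = conj ((θ.1 : K → ℂ) _)
    rw [θ.2 a y]⟩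
  have h1 := IsGlauber.conjPair (hf θ)
  rw [hfθ] at h1
  have h2 : conjIrr β = β := by
    apply Subtype.ext
    funext c
    exact Complex.conj_eq_iff_im.mpr (hβ c)
  rw [h2] at h1
  have h3 := (hf θ').unique hpf.out h1
  have h4 : θ' = θ := by
    apply f.injective
    rw [h3, hfθ]
  intro k
  have h5 := congrFun (congrArg (fun t : IrrInv (actP K hK P) => (t.1 : K → ℂ)) h4) k
  exact Complex.conj_eq_iff_im.mp h5

theorem f_conj (θ : IrrInv (actP K hK P)) (d : nrm P)
    (hinv : IsInv (actP K hK P) (conjFn hK (d : G)⁻¹ (θ.1 : K → ℂ))) :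
    f ⟨⟨conjFn hK (d : G)⁻¹ (θ.1 : K → ℂ), conjFn_isIrr hK _ θ.1.2⟩, hinv⟩ =
      ⟨conjFn (Subgroup.Normal.subgroupOf hK (nrm P)) d⁻¹ (f θ : cZ K P → ℂ), conjFn_isIrr _ _ (f θ).2⟩ := by
  have h1 := (hf θ).comp (conjEquiv hK (d : G)⁻¹) (conjEquiv (Subgroup.Normal.subgroupOf hK (nrm P)) d⁻¹) (fun c => by
    apply Subtype.ext
    rfl)
  exact (hf _).unique hpf.out h1

end Setup

end Cfsg.Agent.Lib.Degree
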