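import Cfsg.Agent.Lib.Degree.RealCentral
import Mathlib

/-!
# Real classes meet the centralizer of a Sylow `p`-subgroup: the count.
-/

set_option autoImplicit false
set_option linter.unusedSectionVars false

open scoped ComplexConjugate
open Module

namespace Cfsg.Agent.Lib.Degree

open Cfsg (classInner IsCharacter IsIrrCharacter IrrCharacter IsClassFunction charDegree indFun
  extendByZero)
open Cfsg.Agent.Lib.Char
open Cfsg.Agent.Lib.CharExtra
open Cfsg.Agent.Lib.Coprime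

universe u

variable {G : Type u} [Group G] [Fintype G] {p : ℕ} [hpf : Fact p.Prime] {K : Subgroup G}
  (hK : K.Normal) [Fintype K] (P : Sylow p G)

/-- Conjugating an invariant function by an element normalizing `P`. -/
theorem isInv_conjFn (d : nrm P) {θ : K → ℂ} (hθ : IsInv (actP K hK P) θ) :
    IsInv (actP K hK P) (conjFn hK (d : G)⁻¹ θ) := by
  intro a y
  have hd : (d : G)⁻¹ * (a : G) * d ∈ (P : Subgroup G) := by
    have h1 := (Subgroup.mem_normalizer_iff.mp ((nrm P).inv_mem d.2) a).mp a.2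
    simpa using h1
  have h1 := hθ ⟨_, hd⟩ ⟨(d : G)⁻¹ * y * ((d : G)⁻¹)⁻¹, hK.conj_mem _ y.2 _⟩
  show θ _ = θ _
  rw [← h1]
  refine congrArg θ (Subtype.ext ?_)
  show (d : G)⁻¹ * (a * y * (a : G)⁻¹) * ((d : G)⁻¹)⁻¹ =
    ((d : G)⁻¹ * a * d) * ((d : G)⁻¹ * y * ((d : G)⁻¹)⁻¹) * ((d : G)⁻¹ * a * d)⁻¹
  group

/-- The inertia group of a real character contains a conjugate of `P`. -/
theorem exists_conj_inv (hodd : Odd K.index)
    (hreal : ∀ χ : IrrCharacter G, (∀ g, ((χ : G → ℂ) g).im = 0) → ¬ p ∣ charDegree (χ : G → ℂ))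
    (θ : IrrCharacter K) (hθ : ∀ k, ((θ : K → ℂ) k).im = 0) :
    ∃ g : G, IsInv (actP K hK P) (conjFn hK g⁻¹ (θ : K → ℂ)) := by
  obtain ⟨χ, hχ, hne⟩ := exists_real_over K hK hodd θ hθ
  have hdvd := inertia_index_mul_degree_dvd K hK χ.2 θ.2 hne
  have hp : ¬ p ∣ Nat.card (G ⧸ inertia hK (θ : K → ℂ)) := by
    intro h
    exact hreal χ hχ (dvd_trans (dvd_mul_of_dvd_left h _) hdvd)
  obtain ⟨g, hg⟩ := exists_conj_sylow_le P _ hp
  refine ⟨g, fun a y => ?_⟩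
  have h1 := (mem_inertia_iff hK (θ : K → ℂ) _).mp (hg a a.2) ⟨g⁻¹ * y * g⁻¹⁻¹, hK.conj_mem _ y.2 _⟩
  show (θ : K → ℂ) _ = (θ : K → ℂ) _
  rw [← h1]
  refine congrArg (θ : K → ℂ) (Subtype.ext ?_)
  show g⁻¹ * (a * y * (a : G)⁻¹) * g⁻¹⁻¹ = g⁻¹ * a * g * (g⁻¹ * y * g⁻¹⁻¹) * (g⁻¹ * a * g)⁻¹
  group

include hK in
/-- **Real classes meet the centralizer of a Sylow subgroup**. -/
theorem real_class_meets_centralizer (hodd : Odd K.index) (hcop : ¬ p ∣ Nat.card K)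
    (hreal : ∀ χ : IrrCharacter G, (∀ g, ((χ : G → ℂ) g).im = 0) → ¬ p ∣ charDegree (χ : G → ℂ))
    {x : G} (hxK : x ∈ K) (hxr : IsConj x x⁻¹) :
    ∃ g : G, ∀ a ∈ (P : Subgroup G), a * (g * x * g⁻¹) * a⁻¹ = g * x * g⁻¹ := by
  classical
  letI : Fintype (nrm P) := Fintype.ofFinite _
  letI : Fintype (cZ K P) := Fintype.ofFinite _
  obtain ⟨f, hf⟩ := exists_corr hK P hcop
  have hC₀ : (cZ K P).Normal := Subgroup.Normal.subgroupOf hK (nrm P)
  have hodd₀ : Odd (cZ K P).index :=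
    Odd.of_dvd_nat hodd (Subgroup.relIndex_dvd_index_of_normal K (nrm P))
  have c1 := card_real_orbits hK hodd
  have c2 := card_real_orbits hC₀ hodd₀
  letI a1 := realIrrAct hK
  letI a2 := realEltAct hK
  letI a3 := realIrrAct hC₀
  letI a4 := realEltAct hC₀
  let F : {β : IrrCharacter (cZ K P) // ∀ c, ((β : cZ K P → ℂ) c).im = 0} →
      {θ : IrrCharacter K // ∀ k, ((θ : K → ℂ) k).im = 0} :=
    fun β => ⟨(f.symm β.1).1, finv_real hf β.1 β.2⟩
  have hF : ∀ (d : nrm P) (β : {β : IrrCharacter (cZ K P) // ∀ c, ((β : cZ K P → ℂ) c).im = 0}),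
      F (d • β) = (d : G) • F β := by
    intro d β
    set θ := f.symm β.1 with hθ
    have hfθ : f θ = β.1 := by rw [hθ]; simp
    have hinv := isInv_conjFn hK P d θ.2
    have h1 := f_conj hf θ d hinv
    apply Subtype.ext
    have h2 : (d • β).1 = f ⟨⟨conjFn hK (d : G)⁻¹ (θ.1 : K → ℂ), conjFn_isIrr hK _ θ.1.2⟩, hinv⟩ := by
      rw [h1]
      apply Subtype.ext
      rw [hfθ]
      rfl
    show (f.symm (d • β).1).1 = _
    rw [h2, Equiv.symm_apply_apply]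
    rfl
  have hsurj : ∀ θ : {θ : IrrCharacter K // ∀ k, ((θ : K → ℂ) k).im = 0},
      ∃ (g : G) (β : {β : IrrCharacter (cZ K P) // ∀ c, ((β : cZ K P → ℂ) c).im = 0}), F β = g • θ := by
    intro θ
    obtain ⟨g, hg⟩ := exists_conj_inv hK P hodd hreal θ.1 θ.2
    let θ' : IrrInv (actP K hK P) := ⟨⟨conjFn hK g⁻¹ (θ.1 : K → ℂ), conjFn_isIrr hK _ θ.1.2⟩, hg⟩
    refine ⟨g, ⟨f θ', f_real hf θ' (fun k => θ.2 _)⟩, ?_⟩
    apply Subtype.ext
    show (f.symm (f θ')).1 = _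
    rw [Equiv.symm_apply_apply]
    rfl
  let ι : {c : cZ K P // IsConj c c⁻¹} → {y : K // IsConj y y⁻¹} := fun c =>
    ⟨jC K P c.1, by
      obtain ⟨w, hw⟩ := isConj_iff.mp c.2
      refine isConj_iff.mpr ⟨jC K P w, ?_⟩
      rw [← map_inv, ← map_inv, ← map_mul, ← map_mul, hw]⟩
  let ψ₁ : MulAction.orbitRel.Quotient (nrm P)
      {β : IrrCharacter (cZ K P) // ∀ c, ((β : cZ K P → ℂ) c).im = 0} →
      MulAction.orbitRel.Quotient G {θ : IrrCharacter K // ∀ k, ((θ : K → ℂ) k).im = 0} :=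
    Quotient.map' F (by
      rintro a b ⟨d, rfl⟩
      exact ⟨(d : G), (hF d b).symm⟩)
  have hψ₁ : Function.Surjective ψ₁ := by
    intro q
    induction q using Quotient.inductionOn' with
    | h θ =>
      obtain ⟨g, β, hβ⟩ := hsurj θ
      refine ⟨Quotient.mk'' β, ?_⟩
      show Quotient.mk'' (F β) = _
      rw [hβ]
      exact Quotient.sound' ⟨g, rfl⟩
  let ψ₂ : MulAction.orbitRel.Quotient (nrm P) {c : cZ K P // IsConj c c⁻¹} →
      MulAction.orbitRel.Quotient G {y : K // IsConj y y⁻¹} :=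
    Quotient.map' ι (by
      rintro a b ⟨d, rfl⟩
      exact ⟨(d : G), Subtype.ext (Subtype.ext rfl)⟩)
  have hcent : ∀ c : cZ K P, ((c : nrm P) : G) ∈ Subgroup.centralizer ((P : Subgroup G) : Set G) := by
    intro c
    rw [Subgroup.mem_centralizer_iff]
    intro a ha
    have h1 := comm_of_mem_nrm P hK hcop c.1.2 (Subgroup.mem_subgroupOf.mp c.2) ha
    calc a * ((c : nrm P) : G) = (a * ((c : nrm P) : G) * a⁻¹) * a := by group
      _ = ((c : nrm P) : G) * a := by rw [h1]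
  have hψ₂ : Function.Injective ψ₂ := by
    intro q₁ q₂
    induction q₁ using Quotient.inductionOn' with
    | h a =>
    induction q₂ using Quotient.inductionOn' with
    | h b =>
      intro h
      obtain ⟨g, hg⟩ := Quotient.exact' h
      have h1 : g * ((b.1 : nrm P) : G) * g⁻¹ = ((a.1 : nrm P) : G) :=
        congrArg (fun t : {y : K // IsConj y y⁻¹} => ((t.1 : K) : G)) hg
      have h2 : g⁻¹ * ((a.1 : nrm P) : G) * g = ((b.1 : nrm P) : G) := by
        rw [← h1]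
        group
      obtain ⟨n, hn, h3⟩ := P.conj_eq_normalizer_conj_of_mem_centralizer ((a.1 : nrm P) : G) g
        (hcent a.1) (by rw [h2]; exact hcent b.1)
      rw [h2] at h3
      refine Quotient.sound' ⟨⟨n, hn⟩, Subtype.ext (Subtype.ext (Subtype.ext ?_))⟩
      show n * ((b.1 : nrm P) : G) * n⁻¹ = _
      rw [h3]
      group
  have h1 := Nat.card_le_card_of_surjective ψ₁ hψ₁
  have h2 := Nat.card_le_card_of_injective ψ₂ hψ₂
  have hbij : Function.Bijective ψ₂ := by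
    refine (Nat.bijective_iff_injective_and_card ψ₂).mpr ⟨hψ₂, ?_⟩
    omega
  have hxr' : IsConj (⟨x, hxK⟩ : K) (⟨x, hxK⟩ : K)⁻¹ := by
    obtain ⟨c, hc⟩ := isConj_iff.mp hxr
    refine isConj_of_conj_eq_inv hK hodd c⁻¹ _ ?_
    show c⁻¹⁻¹ * x⁻¹ * c⁻¹ = x
    rw [inv_inv]
    have h5 : c * x⁻¹ * c⁻¹ = (c * x * c⁻¹)⁻¹ := by group
    rw [h5, hc, inv_inv]
  obtain ⟨q, hq⟩ := hbij.2 (Quotient.mk'' ⟨⟨x, hxK⟩, hxr'⟩)
  induction q using Quotient.inductionOn' with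
  | h c =>
    obtain ⟨g, hg⟩ := Quotient.exact' hq
    have h3 : g * x * g⁻¹ = ((c.1 : nrm P) : G) :=
      congrArg (fun t : {y : K // IsConj y y⁻¹} => ((t.1 : K) : G)) hg
    refine ⟨g, fun a ha => ?_⟩
    rw [h3]
    exact comm_of_mem_nrm P hK hcop c.1.1.2 (Subgroup.mem_subgroupOf.mp c.1.2) ha

end Cfsg.Agent.Lib.Degree
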