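import Mathlib
import Cfsg.Agent.Lib.CharExtra.FS
import Cfsg.Agent.Lib.Block.Cover
import Cfsg.Agent.S0887
import Cfsg.Agent.Lib.Char.OddOrder

/-!
# Real characters over characters of `2`-defect zero

An alternating invariant form forces the fixed-point dimension to be even; this gives Gow-type results on
strongly real characters over characters of `2`-defect zero.
-/

set_option autoImplicit false
set_option linter.unusedSectionVars false
set_option linter.unusedSimpArgs false
set_option linter.unusedVariables false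

open scoped ComplexConjugate Matrix
open Cfsg Cfsg.Agent.Lib.Block Cfsg.Agent.Lib.Char Cfsg.Agent.Lib.CharExtra

namespace Cfsg.Agent.Lib.Degree

section Form

variable {S : Type*} [Group S] [Fintype S] {n : ℕ}

/-- With an invariant alternating nondegenerate form, the dimension of the fixed space is even. -/
theorem even_of_alt_inv (ρ : Representation ℂ S (Fin n → ℂ)) {M : Matrix (Fin n) (Fin n) ℂ} (hM : IsInvForm ρ M)
    (hu : IsUnit M) (halt : Mᵀ = -M) {b : ℕ} (hb : (Nat.card S : ℂ)⁻¹ * ∑ s, ρ.character s = b) : Even b := by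
  classical
  have hc : (Nat.card S : ℂ) ≠ 0 := by exact_mod_cast Nat.card_pos.ne'
  set c : ℂ := (Nat.card S : ℂ)⁻¹ with hcdef
  set E : Matrix (Fin n) (Fin n) ℂ := c • ∑ s, matOf ρ s with hEdef
  have h1 : ∀ t, matOf ρ t * E = E := by
    intro t
    rw [hEdef, Matrix.mul_smul, Finset.mul_sum]
    congr 1
    simp_rw [← matOf_mul]
    exact Equiv.sum_comp (Equiv.mulLeft t) (fun s => matOf ρ s)
  have h2 : (∑ s, matOf ρ s) * E = (Nat.card S : ℂ) • E := by
    rw [Finset.sum_mul]
    simp_rw [h1]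
    rw [Finset.sum_const, Finset.card_univ, ← Nat.card_eq_fintype_card, Nat.cast_smul_eq_nsmul]
  have hE : E * E = E := by
    have h3 : E * E = c • ((∑ s, matOf ρ s) * E) := by
      rw [← Matrix.smul_mul]
    rw [h3, h2, smul_smul, hcdef, inv_mul_cancel₀ hc, one_smul]
  have htr : E.trace = b := by
    rw [hEdef, Matrix.trace_smul, Matrix.trace_sum]
    simp_rw [trace_matOf]
    simpa using hb
  have hME : M * E = Eᵀ * M := by
    rw [hEdef, Matrix.mul_smul, Matrix.transpose_smul, Matrix.smul_mul, Matrix.transpose_sum, Finset.mul_sum, Finset.sum_mul]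
    congr 1
    simp_rw [IsInvForm.mul_matOf hM]
    exact Equiv.sum_comp (Equiv.inv S) (fun s => (matOf ρ s)ᵀ * M)
  let f : (Fin n → ℂ) →ₗ[ℂ] (Fin n → ℂ) := Matrix.toLin' E
  have hf : IsIdempotentElem f := by
    show f * f = f
    rw [show f * f = Matrix.toLin' (E * E) by rw [Matrix.toLin'_mul]; rfl, hE]
  have hrank : Module.finrank ℂ (LinearMap.range f) = b := by
    have h2 := (LinearMap.IsIdempotentElem.isProj_range f hf).trace
    have h3 : LinearMap.trace ℂ _ f = E.trace := by
      simpa [f] using Matrix.trace_toLin'_eq E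
    rw [h3, htr] at h2
    exact_mod_cast h2.symm
  set W := LinearMap.range f with hW
  have hfix : ∀ w ∈ W, E *ᵥ w = w := by
    rintro _ ⟨y, rfl⟩
    show E *ᵥ (E *ᵥ y) = E *ᵥ y
    rw [Matrix.mulVec_mulVec, hE]
  have hmem : ∀ y, E *ᵥ y ∈ W := fun y => ⟨y, rfl⟩
  let v := Module.finBasis ℂ W
  let Gm : Matrix (Fin (Module.finrank ℂ W)) (Fin (Module.finrank ℂ W)) ℂ :=
    Matrix.of fun i j => (v i : Fin n → ℂ) ⬝ᵥ (M *ᵥ (v j : Fin n → ℂ))
  have hdot : ∀ x y : Fin n → ℂ, y ⬝ᵥ (M *ᵥ x) = -(x ⬝ᵥ (M *ᵥ y)) := by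
    intro x y
    rw [Matrix.dotProduct_mulVec, ← Matrix.mulVec_transpose, halt, Matrix.neg_mulVec, neg_dotProduct, dotProduct_comm]
  have hanti : Gmᵀ = -Gm := by
    ext i j
    simp only [Gm, Matrix.transpose_apply, Matrix.of_apply, Matrix.neg_apply]
    exact hdot _ _
  have hinjaux : ∀ a, Matrix.mulVecLin Gm a = 0 → a = 0 := by
    intro a ha
    have ha' : ∀ i, (v i : Fin n → ℂ) ⬝ᵥ (M *ᵥ (∑ j, a j • (v j : Fin n → ℂ))) = 0 := by
      intro i
      have h3 := congrFun ha i
      rw [Matrix.mulVecLin_apply] at h3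
      simp only [Matrix.mulVec, dotProduct, Gm, Matrix.of_apply, Pi.zero_apply] at h3
      rw [Matrix.mulVec_sum, dotProduct_sum]
      simp only [Matrix.mulVec_smul, dotProduct_smul, smul_eq_mul]
      rw [← h3]
      refine Finset.sum_congr rfl fun j _ => ?_
      simp only [dotProduct, Matrix.mulVec]
      ring
    set w : Fin n → ℂ := ∑ j, a j • (v j : Fin n → ℂ) with hw
    have hwW : w ∈ W := Submodule.sum_mem _ fun j _ => Submodule.smul_mem _ _ (v j).2
    have hL : ∀ u : W, (u : Fin n → ℂ) ⬝ᵥ (M *ᵥ w) = 0 := by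
      intro u
      rw [← v.sum_repr u, Submodule.coe_sum, sum_dotProduct]
      refine Finset.sum_eq_zero fun i _ => ?_
      rw [Submodule.coe_smul, smul_dotProduct, ha' i, smul_zero]
    have hall : ∀ y : Fin n → ℂ, y ⬝ᵥ (M *ᵥ w) = 0 := by
      intro y
      have h3 : M *ᵥ w = Eᵀ *ᵥ (M *ᵥ w) := by
        conv_lhs => rw [← hfix w hwW]
        rw [Matrix.mulVec_mulVec, hME, Matrix.mulVec_mulVec]
      rw [h3, Matrix.dotProduct_mulVec, Matrix.vecMul_transpose]
      exact hL ⟨_, hmem y⟩
    have hMw : M *ᵥ w = 0 := by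
      funext i
      have h3 := hall (Pi.single i 1)
      simpa using h3
    have hw0 : w = 0 := by
      have h3 := (Matrix.mulVec_injective_iff_isUnit.mpr hu)
      exact h3 (by rw [hMw, Matrix.mulVec_zero])
    have hli := Fintype.linearIndependent_iff.mp v.linearIndependent a (by
      apply Subtype.ext
      rw [Submodule.coe_sum]
      simpa using hw0)
    funext i
    exact hli i
  have hinj : Function.Injective Gm.mulVec := by
    have hinj' : Function.Injective (Matrix.mulVecLin Gm) := by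
      rw [injective_iff_map_eq_zero]
      intro a ha
      exact hinjaux a ha
    exact hinj'
  have hunit : IsUnit Gm := Matrix.mulVec_injective_iff_isUnit.mp hinj
  have hdet : IsUnit Gm.det := (Matrix.isUnit_iff_isUnit_det Gm).mp hunit
  have h3 : Gm.det = (-1) ^ (Module.finrank ℂ W) * Gm.det := by
    conv_lhs => rw [← Matrix.det_transpose, hanti, Matrix.det_neg]
    simp
  have h4 : ((-1 : ℂ)) ^ (Module.finrank ℂ W) = 1 := by
    have h5 := hdet.ne_zero
    exact (mul_right_cancel₀ h5 (h3.symm.trans (one_mul _).symm))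
  rw [← hrank]
  by_contra hodd
  rw [Nat.not_even_iff_odd] at hodd
  rw [hodd.neg_one_pow] at h4
  norm_num at h4

end Form


section Main

variable {G : Type*} [Group G] [Fintype G]

/-- A real irreducible character with odd multiplicity of the principal character on a subgroup has
Frobenius--Schur indicator `1`. -/
theorem fsInd_eq_one_of_odd (χ : IrrCharacter G) (hreal : ∀ g : G, ((χ : G → ℂ) g).im = 0) (T : Subgroup G) [Fintype T] {b : ℕ}
    (hb : classInner (fun s : T => (χ : G → ℂ) s) (fun _ => 1) = b) (hodd : Odd b) : fsInd (χ : G → ℂ) = 1 := by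
  classical
  rcases fsInd_of_real χ hreal with h | h
  · exact h
  exfalso
  obtain ⟨χ, k, ρ, hρ, rfl⟩ := χ
  obtain ⟨⟨M, hne, hM⟩, hall⟩ := fs_form ρ hρ hreal
  have h1 := hall M hM
  have h2 : (Nat.card G : ℂ)⁻¹ * ∑ s : G, ρ.character (s * s) = -1 := h
  rw [h2, neg_smul, one_smul] at h1
  have hu := isUnit_of_isInvForm ρ hρ hM hne
  let σ : Representation ℂ T (Fin k → ℂ) := ρ.comp T.subtype
  have hMσ : IsInvForm σ M := fun s => hM s
  have hb' : (Nat.card T : ℂ)⁻¹ * ∑ s, σ.character s = b := by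
    rw [← hb, classInner_def]
    simp only [map_one, mul_one]
    rfl
  have := even_of_alt_inv σ hMσ hu h1 hb'
  exact (Nat.not_even_iff_odd.mpr hodd) this

variable (N : Subgroup G) [hN : N.Normal] [Fintype N]

/-- The sum over a Sylow `2`-subgroup. -/
theorem sum_mult_odd (h2 : IsPGroup 2 (G ⧸ N)) (φ : IrrCharacter N)
    (hdef : 2 ^ (Nat.card N).factorization 2 ∣ charDegree (φ : N → ℂ)) (S : Sylow 2 G) [Fintype (S : Subgroup G)]
    (a b : IrrCharacter G → ℕ)
    (ha : ∀ χ : IrrCharacter G, classInner (fun n : N => (χ : G → ℂ) n) (φ : N → ℂ) = a χ)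
    (hb : ∀ χ : IrrCharacter G, classInner (fun s : (S : Subgroup G) => (χ : G → ℂ) s) (fun _ => 1) = b χ) :
    Odd (∑ χ, a χ * b χ) := by
  classical
  haveI hf2 : Fact (Nat.Prime 2) := ⟨Nat.prime_two⟩
  set Θ := indFun N (φ : N → ℂ) with hΘ
  have hcf : IsClassFunction G Θ := IsCharacter.isClassFunction (indFun_isCharacter N (IsIrrCharacter.isCharacter φ.2))
  have hexp : ∀ g, Θ g = ∑ χ : IrrCharacter G, (a χ : ℂ) * (χ : G → ℂ) g := by
    intro g
    have h1 := congrFun (classFunction_eq_sum Θ hcf) g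
    rw [h1, Finset.sum_apply]
    refine Finset.sum_congr rfl fun χ _ => ?_
    simp only [Pi.smul_apply, smul_eq_mul]
    congr 1
    rw [hΘ, frobenius_reciprocity N _ _ (IsCharacter.isClassFunction (IsIrrCharacter.isCharacter χ.2)),
      ← conj_classInner, ha]
    simp
  have hvan : ∀ s ∈ (S : Subgroup G), s ≠ 1 → Θ s = 0 := by
    intro s hs hs1
    rw [hΘ, indFun_apply]
    rw [Finset.sum_eq_zero, mul_zero]
    intro x _
    by_cases hm : x⁻¹ * s * x ∈ N
    · rw [extendByZero_of_mem _ _ hm]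
      apply irr_eq_zero_of_pow_dvd φ hdef
      obtain ⟨k, hk⟩ := IsPGroup.iff_orderOf.mp S.isPGroup' ⟨s, hs⟩
      have hk' : orderOf s = 2 ^ k := by
        rw [← hk]; exact (Subgroup.orderOf_mk s hs).symm
      have hk0 : k ≠ 0 := by
        rintro rfl
        rw [pow_zero, orderOf_eq_one_iff] at hk'
        exact hs1 hk'
      have e : orderOf (⟨x⁻¹ * s * x, hm⟩ : N) = orderOf s := by
        rw [Subgroup.orderOf_mk]
        have : x⁻¹ * s * x = MulAut.conj x⁻¹ s := by simp [MulAut.conj_apply]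
        rw [this, MulEquiv.orderOf_eq]
      rw [e, hk']
      exact dvd_pow_self 2 hk0
    · rw [extendByZero_of_not_mem _ _ hm]
  have hsum1 : ∑ s : (S : Subgroup G), Θ s = (N.index : ℂ) * (φ : N → ℂ) 1 := by
    rw [Finset.sum_eq_single (1 : (S : Subgroup G))]
    · simp only [OneMemClass.coe_one]
      rw [hΘ, indFun_one]
    · intro s _ hs
      exact hvan s s.2 (by simpa using hs)
    · simp
  have hcardS : (Nat.card (S : Subgroup G) : ℂ) ≠ 0 := by exact_mod_cast Nat.card_pos.ne'
  have hsum2 : ∑ s : (S : Subgroup G), Θ s = (Nat.card (S : Subgroup G) : ℂ) * ∑ χ : IrrCharacter G, (a χ : ℂ) * (b χ : ℂ) := by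
    simp_rw [hexp]
    rw [Finset.sum_comm, Finset.mul_sum]
    refine Finset.sum_congr rfl fun χ _ => ?_
    rw [← Finset.mul_sum, ← hb χ, classInner_def]
    simp only [map_one, mul_one]
    field_simp
  have hdeg := map_one_eq_charDegree (IsIrrCharacter.isCharacter φ.2)
  rw [hsum1, hdeg] at hsum2
  have hnat : N.index * charDegree (φ : N → ℂ) = Nat.card (S : Subgroup G) * ∑ χ, a χ * b χ := by
    exact_mod_cast hsum2
  obtain ⟨k, hk⟩ := IsPGroup.iff_card.mp h2
  have hidx : N.index = 2 ^ k := hk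
  have hGc : Nat.card G = Nat.card N * 2 ^ k := by
    rw [← hidx]
    exact (Subgroup.card_mul_index N).symm
  have hfG : (Nat.card G).factorization 2 = (Nat.card N).factorization 2 + k := by
    rw [hGc, Nat.factorization_mul Nat.card_pos.ne' (pow_ne_zero _ two_ne_zero), Finsupp.add_apply,
      Nat.factorization_pow, Finsupp.smul_apply, Nat.prime_two.factorization_self]
    simp
  have hScard : Nat.card (S : Subgroup G) = 2 ^ ((Nat.card N).factorization 2 + k) := by
    rw [← hfG]
    exact S.card_eq_multiplicity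
  set v := (Nat.card N).factorization 2 with hv
  obtain ⟨m, hm⟩ := hdef
  have hd0 : charDegree (φ : N → ℂ) ≠ 0 := (charDegree_pos_of_irr φ.2).ne'
  have hmodd : Odd m := by
    rw [← Nat.not_even_iff_odd]
    rintro ⟨r, hr⟩
    have h3 : 2 ^ (v + 1) ∣ Nat.card N := by
      refine dvd_trans ?_ (charDegree_dvd_card φ.2)
      rw [hm, hr, pow_succ]
      exact ⟨r, by ring⟩
    have h4 := (Nat.Prime.pow_dvd_iff_le_factorization Nat.prime_two Nat.card_pos.ne').mp h3
    omega
  have hfinal : ∑ χ, a χ * b χ = m := by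
    rw [hScard, hidx, hm, pow_add] at hnat
    have h5 : 0 < 2 ^ v * 2 ^ k := by positivity
    apply Nat.eq_of_mul_eq_mul_left h5
    rw [← hnat]
    ring
  rw [hfinal]
  exact hmodd

/-- The main theorem. -/
theorem exists_strongly_real_over (h2 : IsPGroup 2 (G ⧸ N)) (φ : IrrCharacter N)
    (hdef : 2 ^ (Nat.card N).factorization 2 ∣ charDegree (φ : N → ℂ)) (g₀ : G)
    (hg₀ : ∀ n : N, (conjIrr N g₀ φ : N → ℂ) n = conj ((φ : N → ℂ) n)) :
    ∃ χ : IrrCharacter G, fsInd (χ : G → ℂ) = 1 ∧ classInner (fun n : N => (χ : G → ℂ) n) (φ : N → ℂ) = 1 := by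
  classical
  haveI hf2 : Fact (Nat.Prime 2) := ⟨Nat.prime_two⟩
  obtain ⟨S⟩ : Nonempty (Sylow 2 G) := inferInstance
  haveI : Fintype (S : Subgroup G) := Fintype.ofFinite _
  have hone : IsCharacter (S : Subgroup G) (fun _ => (1 : ℂ)) := by
    have := IsIrrCharacter.isCharacter (oneIrr (S : Subgroup G)).2
    rwa [oneIrr_coe] at this
  have ha : ∀ χ : IrrCharacter G, ∃ k : ℕ, classInner (fun n : N => (χ : G → ℂ) n) (φ : N → ℂ) = k := fun χ =>
    classInner_isCharacter_nat (IsCharacter.restrict N (IsIrrCharacter.isCharacter χ.2)) (IsIrrCharacter.isCharacter φ.2)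
  have hb : ∀ χ : IrrCharacter G, ∃ k : ℕ, classInner (fun s : (S : Subgroup G) => (χ : G → ℂ) s) (fun _ => 1) = k := fun χ =>
    classInner_isCharacter_nat (IsCharacter.restrict _ (IsIrrCharacter.isCharacter χ.2)) hone
  choose a ha using ha
  choose b hb using hb
  have hodd := sum_mult_odd N h2 φ hdef S a b ha hb
  let inv : IrrCharacter G → IrrCharacter G := fun χ => ⟨fun g => conj ((χ : G → ℂ) g), isIrr_conj χ.2⟩
  have hinvinv : ∀ χ, inv (inv χ) = χ := by
    intro χ
    apply Subtype.ext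
    funext g
    simp [inv]
  have hainv : ∀ χ, a (inv χ) = a χ := by
    intro χ
    have h1 : classInner (fun n : N => (inv χ : G → ℂ) n) (φ : N → ℂ) =
        conj (classInner (fun n : N => (χ : G → ℂ) n) (conjIrr N g₀ φ : N → ℂ)) := by
      simp only [classInner_def, map_mul, map_sum, map_inv₀, map_natCast, hg₀, Complex.conj_conj, inv]
    rw [classInner_conjIrr, ha, ha] at h1
    have h2 : ((a (inv χ) : ℕ) : ℂ) = (a χ : ℕ) := by simpa using h1
    exact_mod_cast h2
  have hbinv : ∀ χ, b (inv χ) = b χ := by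
    intro χ
    have h1 : classInner (fun s : (S : Subgroup G) => (inv χ : G → ℂ) s) (fun _ => 1) =
        conj (classInner (fun s : (S : Subgroup G) => (χ : G → ℂ) s) (fun _ => 1)) := by
      simp only [classInner_def, map_mul, map_sum, map_inv₀, map_natCast, map_one, mul_one, inv]
    rw [hb, hb] at h1
    have h2 : ((b (inv χ) : ℕ) : ℂ) = (b χ : ℕ) := by simpa using h1
    exact_mod_cast h2
  have hex : ∃ χ, Odd (a χ * b χ) ∧ inv χ = χ := by
    by_contra hcon
    push Not at hcon
    have hsum : ∑ χ, ((a χ * b χ : ℕ) : ZMod 2) = 0 := by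
      refine Finset.sum_involution (fun χ _ => inv χ) ?_ ?_ ?_ ?_
      · intro χ _
        rw [hainv, hbinv]
        exact CharTwo.add_self_eq_zero _
      · intro χ _ hne
        refine hcon χ ?_
        rw [← Nat.not_even_iff_odd]
        intro he
        exact hne ((ZMod.natCast_eq_zero_iff_even).mpr he)
      · intro χ _
        exact Finset.mem_univ _
      · intro χ _
        exact hinvinv χ
    rw [← Nat.cast_sum] at hsum
    exact (Nat.not_even_iff_odd.mpr hodd) ((ZMod.natCast_eq_zero_iff_even).mp hsum)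
  obtain ⟨χ, hχodd, hχinv⟩ := hex
  have hχreal : ∀ g, ((χ : G → ℂ) g).im = 0 := by
    intro g
    have h1 : conj ((χ : G → ℂ) g) = (χ : G → ℂ) g := congrFun (congrArg Subtype.val hχinv) g
    exact Complex.conj_eq_iff_im.mp h1
  obtain ⟨hoa, hob⟩ := Nat.odd_mul.mp hχodd
  refine ⟨χ, fsInd_eq_one_of_odd χ hχreal _ (hb χ) hob, ?_⟩
  rw [ha]
  have hd0 : a χ ≠ 0 := by
    rintro h0
    rw [h0] at hoa
    simp at hoa
  have hdeg := clifford_degree hN χ.2 φ.2 (ha χ) hd0
  have hχc := IsIrrCharacter.isCharacter χ.2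
  have hφc := IsIrrCharacter.isCharacter φ.2
  have hcon : classInner (fun n : N => (χ : G → ℂ) n) (φ : N → ℂ) ≠ 0 := by
    rw [ha]
    exact_mod_cast hd0
  obtain ⟨-, hdvd⟩ := Cfsg.Agent.S0887.result N (χ : G → ℂ) χ.2 (φ : N → ℂ) φ.2 hcon _ _
    (map_one_eq_charDegree hχc) (map_one_eq_charDegree hφc)
  have hφ0 : 0 < charDegree (φ : N → ℂ) := charDegree_pos_of_irr φ.2
  rw [hdeg, Nat.mul_div_cancel _ hφ0] at hdvd
  obtain ⟨k, hk⟩ := IsPGroup.iff_card.mp h2
  have hidx : N.index = 2 ^ k := hk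
  have h5 : a χ ∣ 2 ^ k := by
    rw [← hidx]
    exact (Dvd.intro _ rfl).trans hdvd
  obtain ⟨j, -, hj⟩ := (Nat.dvd_prime_pow Nat.prime_two).mp h5
  have hj0 : j = 0 := by
    by_contra h0
    rw [hj] at hoa
    exact (Nat.not_even_iff_odd.mpr hoa) ((Nat.even_pow.mpr ⟨even_two, h0⟩))
  rw [hj, hj0]
  simp

end Main

end Cfsg.Agent.Lib.Degree
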