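import Cfsg.Agent.Lib.Degree.RealKer
import Cfsg.Agent.Lib.Core.MinNormal2
import Cfsg.Agent.Lib.Core.Factor
import Cfsg.Agent.Lib.Char.DetExt
import Cfsg.Agent.Lib.Hall.Elementary
import Mathlib

/-!
# Groups all of whose real irreducible characters have degree prime to `p`: basic reductions.
-/

set_option autoImplicit false
set_option linter.unusedSectionVars false

open scoped ComplexConjugate
open Module

namespace Cfsg.Agent.Lib.Degree

open Cfsg (classInner IsCharacter IsIrrCharacter IrrCharacter IsClassFunction charDegree indFun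
  extendByZero)
open Cfsg.Agent.Lib.Char
open Cfsg.Agent.Lib.CharExtra

universe u

/-- The subgroup generated by the elements of `q`-power order. -/
abbrev powGen (q : ℕ) (G : Type u) [Group G] : Subgroup G :=
  Subgroup.closure {g : G | ∃ k : ℕ, orderOf g = q ^ k}

section PowGen

variable {G : Type u} [Group G]

theorem powGen_normal (q : ℕ) : (powGen q G).Normal := by
  constructor
  intro n hn g
  have h1 : powGen q G ≤ (powGen q G).comap (MulAut.conj g).toMonoidHom := by
    rw [Subgroup.closure_le]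
    rintro x ⟨k, hk⟩
    apply Subgroup.subset_closure
    refine ⟨k, ?_⟩
    show orderOf ((MulAut.conj g) x) = _
    rw [MulEquiv.orderOf_eq, hk]
  exact h1 hn

/-- An element of prime power order in an image lifts to an element of prime power order. -/
theorem exists_lift_pow_order {H : Type*} [Group H] [Finite G] (f : G →* H)
    (hf : Function.Surjective f) {q : ℕ} (hq : q.Prime) {y : H} {k : ℕ} (hy : orderOf y = q ^ k) :
    ∃ x : G, f x = y ∧ ∃ j : ℕ, orderOf x = q ^ j := by
  obtain ⟨x₀, rfl⟩ := hf y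
  obtain ⟨e, m, hm, ho⟩ := Nat.exists_eq_pow_mul_and_not_dvd (orderOf_pos x₀).ne' q hq.ne_one
  have hcop : m.Coprime (orderOf (f x₀)) := by
    rw [hy]
    exact Nat.Coprime.pow_right _ ((Nat.Prime.coprime_iff_not_dvd hq).mpr hm).symm
  obtain ⟨c, hc⟩ := exists_pow_eq_self_of_coprime hcop
  refine ⟨(x₀ ^ m) ^ c, by rw [map_pow, map_pow, hc], ?_⟩
  have h1 : ((x₀ ^ m) ^ c) ^ (q ^ e) = 1 := by
    rw [← pow_mul, ← pow_mul]
    have : m * (c * q ^ e) = orderOf x₀ * c := by rw [ho]; ring
    rw [this, pow_mul, pow_orderOf_eq_one, one_pow]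
  obtain ⟨j, -, hj⟩ := (Nat.dvd_prime_pow hq).1 (orderOf_dvd_of_pow_eq_one h1)
  exact ⟨j, hj⟩

theorem map_powGen {H : Type u} [Group H] [Finite G] (f : G →* H)
    (hf : Function.Surjective f) {q : ℕ} (hq : q.Prime) :
    (powGen q G).map f = powGen q H := by
  apply le_antisymm
  · rw [Subgroup.map_le_iff_le_comap, Subgroup.closure_le]
    rintro x ⟨k, hk⟩
    apply Subgroup.subset_closure
    have h1 : (f x) ^ (q ^ k) = 1 := by
      rw [← map_pow, ← hk, pow_orderOf_eq_one, map_one]
    obtain ⟨j, -, hj⟩ := (Nat.dvd_prime_pow hq).1 (orderOf_dvd_of_pow_eq_one h1)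
    exact ⟨j, hj⟩
  · rw [Subgroup.closure_le]
    rintro y ⟨k, hk⟩
    obtain ⟨x, hx, j, hj⟩ := exists_lift_pow_order f hf hq hk
    exact ⟨x, Subgroup.subset_closure ⟨j, hj⟩, hx⟩

theorem powGen_subgroup_le (q : ℕ) (U : Subgroup G) :
    powGen q U ≤ (powGen q G).comap U.subtype := by
  rw [Subgroup.closure_le]
  rintro x ⟨k, hk⟩
  apply Subgroup.subset_closure
  refine ⟨k, ?_⟩
  show orderOf (x : G) = _
  rw [Subgroup.orderOf_coe, hk]

theorem map_powGen_subgroup (q : ℕ) (U : Subgroup G) (hU : powGen q G ≤ U) :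
    (powGen q U).map U.subtype = powGen q G := by
  apply le_antisymm
  · rw [Subgroup.map_le_iff_le_comap]
    exact powGen_subgroup_le q U
  · rw [Subgroup.closure_le]
    rintro x ⟨k, hk⟩
    have hxU : x ∈ U := hU (Subgroup.subset_closure ⟨k, hk⟩)
    refine ⟨⟨x, hxU⟩, Subgroup.subset_closure ⟨k, ?_⟩, rfl⟩
    rw [← Subgroup.orderOf_coe]
    exact hk

theorem powGen_subgroup_eq (q : ℕ) (U : Subgroup G) (hU : powGen q G ≤ U) :
    powGen q U = (powGen q G).subgroupOf U := by
  apply Subgroup.map_injective U.subtype_injective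
  rw [map_powGen_subgroup q U hU, Subgroup.map_subgroupOf_eq_of_le hU]

theorem powGen_self_eq_top (q : ℕ) : powGen q (powGen q G) = ⊤ := by
  rw [powGen_subgroup_eq q _ le_rfl]
  exact Subgroup.subgroupOf_self _

/-- The quotient by a subgroup containing all the `2`-elements has odd order. -/
theorem odd_index_of_le [Finite G] (U : Subgroup G) (hU : U.Normal) (hKU : powGen 2 G ≤ U) :
    Odd U.index := by
  haveI := hU
  by_contra hodd
  rw [Nat.not_odd_iff_even, even_iff_two_dvd] at hodd
  obtain ⟨y, hy⟩ := exists_prime_orderOf_dvd_card' (G := G ⧸ U) 2 hodd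
  have hy2 : orderOf y = 2 ^ 1 := by rw [hy]; norm_num
  obtain ⟨x, hx, j, hj⟩ := exists_lift_pow_order (QuotientGroup.mk' U)
    (QuotientGroup.mk'_surjective U) Nat.prime_two hy2
  have h1 : x ∈ U := hKU (Subgroup.subset_closure ⟨j, hj⟩)
  have h2 : y = 1 := by
    rw [← hx]
    exact (QuotientGroup.eq_one_iff x).mpr h1
  rw [h2, orderOf_one] at hy
  omega

end PowGen

/-- The hypotheses of the main theorem. -/
structure RealDegHyp (p : ℕ) (G : Type u) [Group G] : Prop where
  solv : Group.IsSolvable (powGen p G)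
  deg : ∀ χ : IrrCharacter G, (∀ g, ((χ : G → ℂ) g).im = 0) → ¬ p ∣ charDegree (χ : G → ℂ)

section Hyp

variable {G : Type u} [Group G] [Finite G] {p : ℕ} [hp : Fact p.Prime]

theorem RealDegHyp.quotient (h : RealDegHyp p G) (N : Subgroup G) [hN : N.Normal] :
    RealDegHyp p (G ⧸ N) := by
  constructor
  · haveI := h.solv
    rw [← map_powGen (QuotientGroup.mk' N) (QuotientGroup.mk'_surjective N) hp.out]
    exact Group.isSolvable_of_surjective (MonoidHom.subgroupMap_surjective (QuotientGroup.mk' N) (powGen p G))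
  · intro ψ hψ
    have h1 := h.deg (inflate N ψ) (fun g => hψ _)
    have h2 : charDegree ((inflate N ψ : IrrCharacter G) : G → ℂ) = charDegree (ψ : G ⧸ N → ℂ) :=
      charDegree_comp_monoidHom (QuotientGroup.mk' N) (ψ : G ⧸ N → ℂ)
    rwa [h2] at h1

theorem RealDegHyp.subgroup (h : RealDegHyp p G) (U : Subgroup G) (hU : U.Normal)
    (hKU : powGen 2 G ≤ U) : RealDegHyp p U := by
  classical
  constructor
  · haveI := h.solv
    let f : powGen p U →* powGen p G :=
      (U.subtype.comp (powGen p U).subtype).codRestrict (powGen p G)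
        (fun x => powGen_subgroup_le p U x.2)
    refine solvable_of_solvable_injective (f := f) ?_
    intro a b hab
    apply Subtype.ext
    apply Subtype.ext
    exact congrArg (fun t : powGen p G => (t : G)) hab
  · intro θ hθ
    letI : Fintype G := Fintype.ofFinite G
    letI : Fintype U := Fintype.ofFinite U
    obtain ⟨χ, hχ, hdvd⟩ := exists_real_degree_dvd U hU (odd_index_of_le U hU hKU) θ hθ
    exact fun h1 => h.deg χ hχ (h1.trans hdvd)

end Hyp

section MinNormal

variable {G : Type u} [Group G] [Finite G]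

/-- A solvable minimal normal subgroup is elementary abelian. -/
theorem minimal_normal_elementary_of_solvable (N : Subgroup G) [hNn : N.Normal] [Group.IsSolvable N]
    (hN : N ≠ ⊥) (hmin : ∀ M : Subgroup G, M.Normal → M ≤ N → M = ⊥ ∨ M = N) :
    IsMulCommutative N ∧ ∃ p : ℕ, p.Prime ∧ ∀ x ∈ N, x ^ p = 1 := by
  classical
  have hnt : Nontrivial N := (Subgroup.nontrivial_iff_ne_bot N).mpr hN
  obtain ⟨A, hA1, hA2, hA3⟩ := Cfsg.Agent.Lib.Core.exists_abelian_characteristic (G := N)
  have hAG : (A.map N.subtype).Normal := Cfsg.Agent.Lib.Core.normal_map_of_characteristic N A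
  have hAN : A = ⊤ := by
    rcases hmin _ hAG (Subgroup.map_subtype_le _) with h | h
    · exfalso
      apply hA1
      rw [eq_bot_iff]
      intro x hx
      have : (x : G) ∈ A.map N.subtype := ⟨x, hx, rfl⟩
      rw [h, Subgroup.mem_bot] at this
      exact Subgroup.mem_bot.mpr (Subtype.ext this)
    · rw [eq_top_iff]
      intro x _
      have : (x : G) ∈ A.map N.subtype := by
        rw [h]
        exact x.2
      obtain ⟨y, hy, hyx⟩ := this
      have h2 : y = x := Subtype.ext hyx
      exact h2 ▸ hy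
  have hcomm : IsMulCommutative N := by
    subst hAN
    exact IsMulCommutative.of_comm (fun a b => by
      have := hA3.is_comm.comm ⟨a, Subgroup.mem_top a⟩ ⟨b, Subgroup.mem_top b⟩
      exact congrArg Subtype.val this)
  refine ⟨hcomm, ?_⟩
  have hone : Nat.card N ≠ 1 := by
    intro h
    exact hN (Subgroup.eq_bot_of_card_eq N h)
  let p := (Nat.card N).minFac
  have hp : p.Prime := Nat.minFac_prime hone
  have hf : Fact p.Prime := ⟨hp⟩
  refine ⟨p, hp, ?_⟩
  obtain ⟨x₀, hx₀⟩ := exists_prime_orderOf_dvd_card' p (Nat.minFac_dvd (Nat.card N))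
  let T : Subgroup N := Cfsg.Agent.Lib.Hall.tors p
  have hTc : T.Characteristic := by
    rw [Subgroup.characteristic_iff_le_comap]
    intro φ x hx
    have h1 : x ^ p = 1 := Cfsg.Agent.Lib.Hall.mem_tors.mp hx
    apply Cfsg.Agent.Lib.Hall.mem_tors.mpr
    show (φ x) ^ p = 1
    rw [← map_pow, h1, map_one]
  have hTn := Cfsg.Agent.Lib.Core.normal_map_of_characteristic N T
  rcases hmin _ hTn (Subgroup.map_subtype_le _) with h | h
  · exfalso
    have h1 : (x₀ : G) ∈ T.map N.subtype :=
      ⟨x₀, Cfsg.Agent.Lib.Hall.mem_tors.mpr (hx₀ ▸ pow_orderOf_eq_one x₀), rfl⟩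
    rw [h, Subgroup.mem_bot] at h1
    have h2 : x₀ = 1 := Subtype.ext h1
    rw [h2, orderOf_one] at hx₀
    exact hp.one_lt.ne hx₀
  · intro x hx
    rw [← h] at hx
    obtain ⟨y, hy, rfl⟩ := hx
    have := Cfsg.Agent.Lib.Hall.mem_tors.mp hy
    have := congrArg Subtype.val this
    simpa using this

end MinNormal

section NoFixed

variable {G : Type u} [Group G] [Fintype G]

/-- A `p'`-degree irreducible character contains in its kernel each abelian normal `p'`-subgroup
with no nontrivial element centralized by a Sylow `p`-subgroup. -/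
theorem kerContains_of_centralizer_bot {p : ℕ} [Fact p.Prime] (P : Sylow p G) (N : Subgroup G)
    [hN : N.Normal] (hab : ∀ a ∈ N, ∀ b ∈ N, a * b = b * a) (hcop : (Nat.card N).Coprime p)
    (hC : ∀ n ∈ N, (∀ x ∈ (P : Subgroup G), x * n = n * x) → n = 1) (χ : IrrCharacter G)
    (hχ : ¬ p ∣ charDegree (χ : G → ℂ)) : KerContains N (χ : G → ℂ) := by
  classical
  by_contra hcon
  haveI : Fintype N := Fintype.ofFinite _
  haveI : Fintype (P : Subgroup G) := Fintype.ofFinite _
  have h0 := irr_sum_coset_eq_zero N χ hcon 1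
  have hχc := IsIrrCharacter.isCharacter χ.2
  have hr := IsCharacter.restrict N hχc
  obtain ⟨θ, hθ⟩ : ∃ θ : IrrCharacter N, classInner (fun n : N => (χ : G → ℂ) n) (θ : N → ℂ) ≠ 0 := by
    by_contra hno
    push Not at hno
    have h1 := congrFun (classFunction_eq_sum _ (IsCharacter.isClassFunction hr)) 1
    rw [Finset.sum_apply] at h1
    simp only [hno, zero_smul, Pi.zero_apply, Finset.sum_const_zero] at h1
    exact map_one_ne_zero_of_irr χ.2 (by simpa using h1)
  have hθ1 : (θ : N → ℂ) 1 = 1 :=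
    irr_linear_of_comm' (fun a b => Subtype.ext (hab a a.2 b b.2)) θ
  have hdvd := inertia_index_mul_degree_dvd N hN χ.2 θ.2 hθ
  have hpT : ¬ p ∣ Nat.card (G ⧸ inertia hN (θ : N → ℂ)) := by
    intro h
    exact hχ (dvd_trans (dvd_mul_of_dvd_left h _) hdvd)
  obtain ⟨q, hq⟩ := IsPGroup.nonempty_fixed_point_of_prime_not_dvd_card P.isPGroup'
    (G ⧸ inertia hN (θ : N → ℂ)) hpT
  obtain ⟨g, rfl⟩ := QuotientGroup.mk_surjective q
  have hfix : ∀ x ∈ (P : Subgroup G), g⁻¹ * x * g ∈ inertia hN (θ : N → ℂ) := by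
    intro x hx
    have h1 := hq ⟨x⁻¹, (P : Subgroup G).inv_mem hx⟩
    have h2 : ((x⁻¹ * g : G) : G ⧸ inertia hN (θ : N → ℂ)) = (g : G ⧸ inertia hN (θ : N → ℂ)) := h1
    have h3 := QuotientGroup.eq.mp h2
    have h4 : (x⁻¹ * g)⁻¹ * g = g⁻¹ * x * g := by group
    rwa [h4] at h3
  -- the conjugate of `θ`
  let lam : N →* ℂ := (linearHom θ hθ1).comp (conjEquiv hN g⁻¹).toMonoidHom
  have hlam : ∀ n : N, lam n = (θ : N → ℂ) (conjEquiv hN g⁻¹ n) := fun n => rfl
  have hinv : ∀ (x : (P : Subgroup G)) (n : N), lam (conjEquiv hN x n) = lam n := by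
    intro x n
    have h1 := (mem_inertia_iff hN (θ : N → ℂ) (g⁻¹ * x * g)).mp (hfix x x.2) (conjEquiv hN g⁻¹ n)
    rw [hlam, hlam, ← h1]
    refine congrArg (θ : N → ℂ) (Subtype.ext ?_)
    show g⁻¹ * (x * n * (x : G)⁻¹) * g⁻¹⁻¹ = g⁻¹ * x * g * (g⁻¹ * n * g⁻¹⁻¹) * (g⁻¹ * x * g)⁻¹
    group
  letI cg : CommGroup N :=
    { (inferInstance : Group N) with mul_comm := fun a b => Subtype.ext (hab a a.2 b b.2) }
  let ν : N → N := fun n => ∏ x : (P : Subgroup G), conjEquiv hN x n
  have hν : ∀ n : N, ν n = 1 := by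
    intro n
    apply Subtype.ext
    apply hC _ (ν n).2
    intro y hy
    have h1 : conjEquiv hN y (ν n) = ν n := by
      simp only [ν]
      rw [map_prod]
      refine Fintype.prod_equiv (Equiv.mulLeft (⟨y, hy⟩ : (P : Subgroup G))) _ _ fun x => ?_
      apply Subtype.ext
      show y * (x * n * (x : G)⁻¹) * y⁻¹ = y * x * n * (y * x : G)⁻¹
      group
    have h2 : y * (ν n : G) * y⁻¹ = ν n := congrArg Subtype.val h1
    calc y * (ν n : G) = (y * (ν n : G) * y⁻¹) * y := by group
      _ = (ν n : G) * y := by rw [h2]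
  have hlam1 : ∀ n : N, lam n = 1 := by
    intro n
    have h1 : lam n ^ Fintype.card (P : Subgroup G) = 1 := by
      have h2 : lam (ν n) = ∏ x : (P : Subgroup G), lam (conjEquiv hN x n) := map_prod lam _ _
      simp only [hinv, Finset.prod_const, Finset.card_univ] at h2
      rw [← h2, hν, map_one]
    have h3 : lam n ^ Nat.card N = 1 := by
      rw [← map_pow, pow_card_eq_one', map_one]
    have hP : Fintype.card (P : Subgroup G) = p ^ (Nat.card (P : Subgroup G)).factorization p := by
      obtain ⟨k, hk⟩ := IsPGroup.iff_card.1 P.isPGroup'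
      rw [← Nat.card_eq_fintype_card, hk]
      simp [(Fact.out : p.Prime).factorization_self]
    exact Cfsg.Agent.Lib.Char.eq_one_of_pow_of_coprime h3 h1 (by
      rw [hP]
      exact Nat.Coprime.pow_right _ hcop)
  have hθall : ∀ n : N, (θ : N → ℂ) n = 1 := by
    intro n
    have h1 := hlam1 (conjEquiv hN g n)
    rw [hlam] at h1
    rw [← h1]
    refine congrArg (θ : N → ℂ) (Subtype.ext ?_)
    show (n : G) = g⁻¹ * (g * n * g⁻¹) * g⁻¹⁻¹
    group
  apply hθ
  rw [classInner_def]
  have h1 : ∑ n : N, (χ : G → ℂ) n * conj ((θ : N → ℂ) n) = ∑ n : N, (χ : G → ℂ) ((n : G) * 1) := by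
    refine Finset.sum_congr rfl fun n _ => ?_
    rw [hθall, map_one, mul_one, mul_one]
  rw [h1, h0, mul_zero]

end NoFixed

end Cfsg.Agent.Lib.Degree
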