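import Cfsg.Agent.Lib.Degree.RealOver
import Cfsg.Agent.Lib.Degree.Avg
import Cfsg.Agent.Lib.Degree.GalConj1
import Mathlib

/-!
# Real characters not containing a normal subgroup in their kernel.
-/

set_option autoImplicit false
set_option linter.unusedSectionVars false

open scoped ComplexConjugate
open Module

namespace Cfsg.Agent.Lib.Degree

open Cfsg (classInner IsCharacter IsIrrCharacter IrrCharacter IsClassFunction charDegree indFun
  extendByZero)
open Cfsg.Agent.Lib.Char
open Cfsg.Agent.Lib.CharExtra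

universe u

section Lift

variable {G : Type u} [Group G]

theorem conj_pow_odd_inv {H : Type*} [Group H] (a y : H) (h : a * y * a⁻¹ = y⁻¹) (t : ℕ) :
    a ^ (2 * t + 1) * y * (a ^ (2 * t + 1))⁻¹ = y⁻¹ := by
  induction t with
  | zero => simpa using h
  | succ t ih =>
    have h1 : 2 * (t + 1) + 1 = 1 + (2 * t + 1) + 1 := by ring
    have h2 : a ^ (2 * t + 1) * y⁻¹ * (a ^ (2 * t + 1))⁻¹ = y := by
      have : a ^ (2 * t + 1) * y⁻¹ * (a ^ (2 * t + 1))⁻¹ =
          (a ^ (2 * t + 1) * y * (a ^ (2 * t + 1))⁻¹)⁻¹ := by group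
      rw [this, ih, inv_inv]
    rw [h1, pow_succ, pow_add, pow_one]
    calc a * a ^ (2 * t + 1) * a * y * (a * a ^ (2 * t + 1) * a)⁻¹
        = a * (a ^ (2 * t + 1) * (a * y * a⁻¹) * (a ^ (2 * t + 1))⁻¹) * a⁻¹ := by group
      _ = a * (a ^ (2 * t + 1) * y⁻¹ * (a ^ (2 * t + 1))⁻¹) * a⁻¹ := by rw [h]
      _ = a * y * a⁻¹ := by rw [h2]
      _ = y⁻¹ := h

/-- A real element of a quotient by a normal subgroup of odd order has a real lift. -/
theorem real_lift_of_odd [Finite G] (N : Subgroup G) [hN : N.Normal] (hodd : Odd (Nat.card N)) (x : G)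
    (hx : IsConj (x : G ⧸ N) (x : G ⧸ N)⁻¹) : ∃ z : G, (z : G ⧸ N) = x ∧ IsConj z z⁻¹ := by
  classical
  obtain ⟨w, hw⟩ := isConj_iff.mp hx
  obtain ⟨v₀, rfl⟩ := QuotientGroup.mk_surjective w
  obtain ⟨k, m, hm, hord⟩ := Nat.exists_eq_two_pow_mul_odd (orderOf_pos v₀).ne'
  set v := v₀ ^ m with hv
  have hv2 : v ^ (2 ^ k) = 1 := by
    rw [hv, ← pow_mul, mul_comm, ← hord, pow_orderOf_eq_one]
  let π : G →* G ⧸ N := QuotientGroup.mk' N
  have hvinv : π v * π x * (π v)⁻¹ = (π x)⁻¹ := by
    obtain ⟨t, ht⟩ := hm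
    have h1 : π v₀ * π x * (π v₀)⁻¹ = (π x)⁻¹ := hw
    have h2 := conj_pow_odd_inv (π v₀) (π x) h1 t
    rw [hv, ht, map_pow]
    exact h2
  have hvinv' : π v * (π x)⁻¹ * (π v)⁻¹ = π x := by
    have : π v * (π x)⁻¹ * (π v)⁻¹ = (π v * π x * (π v)⁻¹)⁻¹ := by group
    rw [this, hvinv, inv_inv]
  let X := {z : G // π z = π x}
  have hfmem : ∀ z : X, π (v * z.1⁻¹ * v⁻¹) = π x := by
    intro z
    rw [map_mul, map_mul, map_inv, map_inv, z.2]
    exact hvinv'
  let f : Function.End X := fun z => ⟨v * z.1⁻¹ * v⁻¹, hfmem z⟩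
  have hf2 : ∀ (j : ℕ) (z : X), (((f ^ 2) ^ j : Function.End X) z).1 = (v * v) ^ j * z.1 * ((v * v) ^ j)⁻¹ := by
    intro j
    induction j with
    | zero =>
      intro z
      rw [pow_zero, pow_zero, Function.End.one_def]
      simp
    | succ j ih =>
      intro z
      rw [pow_succ]
      show (((f ^ 2) ^ j : Function.End X) ((f ^ 2 : Function.End X) z)).1 = _
      rw [ih]
      have h3 : ((f ^ 2 : Function.End X) z).1 = (v * v) * z.1 * (v * v)⁻¹ := by
        show (f (f z)).1 = _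
        show v * (v * z.1⁻¹ * v⁻¹)⁻¹ * v⁻¹ = _
        group
      rw [h3]
      rw [pow_succ]
      group
  have hf : f ^ 2 ^ (k + 1) = 1 := by
    funext z
    apply Subtype.ext
    have h4 : (2 : ℕ) ^ (k + 1) = 2 * 2 ^ k := by ring
    rw [h4, pow_mul, Function.End.one_def]
    rw [hf2]
    have h5 : (v * v) ^ (2 ^ k) = 1 := by
      rw [← pow_two, ← pow_mul, mul_comm, pow_mul, hv2, one_pow]
    rw [h5]
    simp
  haveI : Fintype X := Fintype.ofFinite X
  have hmod := Equiv.Perm.card_fixedPoints_modEq hf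
  have hcard : Fintype.card X = Nat.card N := by
    rw [← Nat.card_eq_fintype_card]
    refine Nat.card_congr ?_
    refine
      { toFun := fun z => ⟨x⁻¹ * z.1, ?_⟩
        invFun := fun n => ⟨x * n, ?_⟩
        left_inv := fun z => Subtype.ext (by simp)
        right_inv := fun n => Subtype.ext (by simp) }
    · exact QuotientGroup.eq.mp (z.2.symm)
    · show π (x * n) = π x
      rw [map_mul]
      have : π (n : G) = 1 := (QuotientGroup.eq_one_iff (n : G)).mpr n.2
      rw [this, mul_one]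
  rw [hcard] at hmod
  have hfix : Fintype.card (Function.fixedPoints f) ≠ 0 := by
    intro h0
    rw [h0] at hmod
    have := hmod
    rw [Nat.modEq_zero_iff_dvd] at this
    exact (Nat.not_even_iff_odd.mpr hodd) (even_iff_two_dvd.mpr this)
  obtain ⟨⟨z, hz⟩⟩ := Fintype.card_pos_iff.mp (Nat.pos_of_ne_zero hfix)
  refine ⟨z.1, z.2, ?_⟩
  have h6 : v * z.1⁻¹ * v⁻¹ = z.1 := congrArg Subtype.val hz
  refine isConj_iff.mpr ⟨v⁻¹, ?_⟩
  conv_lhs => rw [← h6]
  group

end Lift

section Count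

variable {G : Type u} [Group G] [Fintype G]

/-- A normal subgroup over which every real class of the quotient lifts, containing a real element,
is not in the kernel of some real irreducible character. -/
theorem exists_real_not_kerContains (N : Subgroup G) [hN : N.Normal] [Fintype (G ⧸ N)]
    (hlift : ∀ x : G, IsConj (x : G ⧸ N) (x : G ⧸ N)⁻¹ → ∃ z : G, (z : G ⧸ N) = x ∧ IsConj z z⁻¹)
    {u : G} (hu : u ∈ N) (hu1 : u ≠ 1) (hur : IsConj u u⁻¹) :
    ∃ χ : IrrCharacter G, (∀ g, ((χ : G → ℂ) g).im = 0) ∧ ¬ KerContains N (χ : G → ℂ) := by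
  classical
  by_contra hcon
  push Not at hcon
  -- the real characters of `G` and `G ⧸ N`
  have hc1 : Nat.card {ψ : IrrCharacter (G ⧸ N) // ∀ g, ((ψ : G ⧸ N → ℂ) g).im = 0} =
      Nat.card {χ : IrrCharacter G // ∀ g, ((χ : G → ℂ) g).im = 0} := by
    refine Nat.card_congr (Equiv.ofBijective
      (fun ψ => ⟨inflate N ψ.1, fun g => ψ.2 _⟩) ⟨?_, ?_⟩)
    · intro a b hab
      apply Subtype.ext
      exact inflate_injective N (congrArg Subtype.val hab)
    · rintro ⟨χ, hχ⟩
      obtain ⟨ψ, hψ⟩ := exists_inflate N (hcon χ hχ)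
      refine ⟨⟨ψ, ?_⟩, Subtype.ext hψ⟩
      intro q
      obtain ⟨g, rfl⟩ := QuotientGroup.mk_surjective q
      have := hχ g
      rw [← hψ] at this
      exact this
  rw [card_realIrr_eq, card_realIrr_eq] at hc1
  -- the map of classes
  let π : G →* G ⧸ N := QuotientGroup.mk' N
  have hreal : ∀ x : G, IsConj x x⁻¹ → IsConj (π x) (π x)⁻¹ := by
    intro x hx
    obtain ⟨c, hc⟩ := isConj_iff.mp hx
    refine isConj_iff.mpr ⟨π c, ?_⟩
    rw [← map_inv, ← map_inv, ← map_mul, ← map_mul, hc, map_inv]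
  let φ : RealCl G → RealCl (G ⧸ N) := Quot.map (fun x => ⟨π x.1, hreal x.1 x.2⟩) (by
    intro a b hab
    obtain ⟨c, hc⟩ := isConj_iff.mp hab
    refine isConj_iff.mpr ⟨π c, ?_⟩
    show π c * π a.1 * (π c)⁻¹ = π b.1
    rw [← map_inv, ← map_mul, ← map_mul, hc])
  have hsurj : Function.Surjective φ := by
    intro q
    induction q using Quot.ind with
    | mk y =>
      obtain ⟨x, hx⟩ := QuotientGroup.mk_surjective y.1
      have hy : IsConj (x : G ⧸ N) (x : G ⧸ N)⁻¹ := by
        rw [hx]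
        exact y.2
      obtain ⟨z, hz, hzr⟩ := hlift x hy
      refine ⟨Quot.mk _ ⟨z, hzr⟩, ?_⟩
      show Quot.mk _ _ = Quot.mk _ _
      congr 1
      apply Subtype.ext
      show (z : G ⧸ N) = y.1
      rw [hz, hx]
  haveI : Finite (RealCl G) := by unfold RealCl; infer_instance
  have hbij : Function.Bijective φ := (Nat.bijective_iff_surjective_and_card φ).mpr ⟨hsurj, hc1.symm⟩
  have h1 : φ (Quot.mk _ ⟨u, hur⟩) = φ (Quot.mk _ ⟨1, by simp⟩) := by
    show Quot.mk _ _ = Quot.mk _ _
    congr 1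
    apply Subtype.ext
    show π u = π 1
    rw [map_one]
    exact (QuotientGroup.eq_one_iff u).mpr hu
  have h2 := hbij.1 h1
  let cl : RealCl G → ConjClasses G := Quot.lift (fun x => ConjClasses.mk x.1)
    (fun a b hab => ConjClasses.mk_eq_mk_iff_isConj.mpr hab)
  have h3 : ConjClasses.mk u = ConjClasses.mk (1 : G) := congrArg cl h2
  rw [ConjClasses.mk_eq_mk_iff_isConj, isConj_one_left] at h3
  exact hu1 h3

/-- A normal subgroup of odd order containing a real element is not in the kernel of some real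
irreducible character. -/
theorem exists_real_not_kerContains_of_odd (N : Subgroup G) [hN : N.Normal] (hodd : Odd (Nat.card N))
    {u : G} (hu : u ∈ N) (hu1 : u ≠ 1) (hur : IsConj u u⁻¹) :
    ∃ χ : IrrCharacter G, (∀ g, ((χ : G → ℂ) g).im = 0) ∧ ¬ KerContains N (χ : G → ℂ) := by
  classical
  haveI : Fintype (G ⧸ N) := Fintype.ofFinite _
  exact exists_real_not_kerContains N (fun x hx => real_lift_of_odd N hodd x hx) hu hu1 hur

end Count

section TwoElt

variable {G : Type u} [Group G] [Finite G]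

/-- A `2`-element not centralizing a normal subgroup produces a real element of this subgroup. -/
theorem exists_real_of_not_centralize (N : Subgroup G) [hN : N.Normal] {s : G} {k : ℕ}
    (hs : orderOf s = 2 ^ k) (hsN : ¬ ∀ n ∈ N, s * n = n * s) :
    ∃ u ∈ N, u ≠ 1 ∧ IsConj u u⁻¹ := by
  classical
  have hex : ∃ j : ℕ, ∀ n ∈ N, s ^ (2 ^ j) * n = n * s ^ (2 ^ j) := by
    refine ⟨k, fun n _ => ?_⟩
    rw [← hs, pow_orderOf_eq_one]
    simp
  have hj0 : Nat.find hex ≠ 0 := by
    intro h0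
    have := Nat.find_spec hex
    rw [h0] at this
    simp only [pow_zero, pow_one] at this
    exact hsN this
  obtain ⟨j, hj⟩ := Nat.exists_eq_succ_of_ne_zero hj0
  have h1 : ∀ n ∈ N, s ^ (2 ^ (j + 1)) * n = n * s ^ (2 ^ (j + 1)) := by
    have := Nat.find_spec hex
    rw [hj] at this
    exact this
  have h2 : ¬ ∀ n ∈ N, s ^ (2 ^ j) * n = n * s ^ (2 ^ j) :=
    Nat.find_min hex (by omega)
  push Not at h2
  obtain ⟨m, hm, hne⟩ := h2
  set t := s ^ (2 ^ j) with ht
  have ht2 : ∀ n ∈ N, t * t * n = n * (t * t) := by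
    intro n hn
    have h3 : t * t = s ^ (2 ^ (j + 1)) := by
      rw [ht, ← pow_add, pow_succ, mul_two]
    rw [h3]
    exact h1 n hn
  refine ⟨m⁻¹ * (t * m * t⁻¹), N.mul_mem (N.inv_mem hm) (hN.conj_mem m hm t), ?_, ?_⟩
  · intro h
    apply hne
    have h3 : t * m * t⁻¹ = m := (inv_injective (mul_eq_one_iff_eq_inv.mp h)).symm
    calc t * m = (t * m * t⁻¹) * t := by group
      _ = m * t := by rw [h3]
  · refine isConj_iff.mpr ⟨t, ?_⟩
    have h4 : t * (t * m * t⁻¹) * t⁻¹ = m := by
      have h5 : t * (t * m * t⁻¹) * t⁻¹ = (t * t * m) * (t * t)⁻¹ := by group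
      rw [h5, ht2 m hm]
      group
    calc t * (m⁻¹ * (t * m * t⁻¹)) * t⁻¹
        = (t * m * t⁻¹)⁻¹ * (t * (t * m * t⁻¹) * t⁻¹) := by group
      _ = (t * m * t⁻¹)⁻¹ * m := by rw [h4]
      _ = (m⁻¹ * (t * m * t⁻¹))⁻¹ := by group

end TwoElt

section Comm

variable {G : Type u} [Group G] [Fintype G]

/-- An irreducible character of `p'`-degree contains in its kernel any normal subgroup inside the
derived subgroup of a Sylow `p`-subgroup. -/
theorem kerContains_of_le_commutator {p : ℕ} [Fact p.Prime] (P : Sylow p G) (M : Subgroup G)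
    [hM : M.Normal] (hMP : M ≤ ⁅(P : Subgroup G), (P : Subgroup G)⁆) (χ : IrrCharacter G)
    (hχ : ¬ p ∣ charDegree (χ : G → ℂ)) : KerContains M (χ : G → ℂ) := by
  classical
  by_contra hcon
  haveI : Fintype M := Fintype.ofFinite _
  haveI : Fintype (P : Subgroup G) := Fintype.ofFinite _
  have h0 := irr_sum_coset_eq_zero M χ hcon 1
  have hMle : M ≤ (P : Subgroup G) := hMP.trans (Subgroup.commutator_le_self _)
  have hχc := IsIrrCharacter.isCharacter χ.2
  have hr := IsCharacter.restrict (P : Subgroup G) hχc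
  choose a ha using fun μ : IrrCharacter (P : Subgroup G) =>
    classInner_isCharacter_nat hr (IsIrrCharacter.isCharacter μ.2)
  have hdec := classFunction_eq_sum _ (IsCharacter.isClassFunction hr)
  have hval : ∀ h : (P : Subgroup G), (χ : G → ℂ) h =
      ∑ μ : IrrCharacter (P : Subgroup G), (a μ : ℂ) * (μ : ↥(P : Subgroup G) → ℂ) h := by
    intro h
    have := congrFun hdec h
    rw [Finset.sum_apply] at this
    rw [this]
    refine Finset.sum_congr rfl fun μ _ => ?_
    rw [Pi.smul_apply, ha, smul_eq_mul]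
  -- a linear constituent
  obtain ⟨μ₀, hμ₀, hμ₀d⟩ : ∃ μ₀ : IrrCharacter (P : Subgroup G), a μ₀ ≠ 0 ∧
      ¬ p ∣ charDegree (μ₀ : ↥(P : Subgroup G) → ℂ) := by
    by_contra hno
    push Not at hno
    apply hχ
    have h1 : charDegree (χ : G → ℂ) = ∑ μ : IrrCharacter (P : Subgroup G),
        a μ * charDegree (μ : ↥(P : Subgroup G) → ℂ) := by
      have h2 := hval 1
      simp only [OneMemClass.coe_one] at h2
      rw [map_one_eq_charDegree hχc] at h2
      have h3 : ((charDegree (χ : G → ℂ) : ℕ) : ℂ) = ((∑ μ : IrrCharacter (P : Subgroup G),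
          a μ * charDegree (μ : ↥(P : Subgroup G) → ℂ) : ℕ) : ℂ) := by
        rw [h2]
        push_cast
        refine Finset.sum_congr rfl fun μ _ => ?_
        rw [map_one_eq_charDegree (IsIrrCharacter.isCharacter μ.2)]
      exact_mod_cast h3
    rw [h1]
    refine Finset.dvd_sum fun μ _ => ?_
    by_cases h4 : a μ = 0
    · simp [h4]
    · exact Dvd.dvd.mul_left (hno μ h4) _
  have hμ₀1 : (μ₀ : ↥(P : Subgroup G) → ℂ) 1 = 1 := by
    have h3 : charDegree (μ₀ : ↥(P : Subgroup G) → ℂ) ∣ Nat.card (P : Subgroup G) :=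
      charDegree_dvd_card μ₀.2
    obtain ⟨k, hk⟩ := IsPGroup.iff_card.1 P.isPGroup'
    rw [hk] at h3
    obtain ⟨j, -, hj⟩ := (Nat.dvd_prime_pow Fact.out).1 h3
    have h4 : j = 0 := by
      by_contra hj0
      apply hμ₀d
      rw [hj]
      exact dvd_pow_self p hj0
    rw [map_one_eq_charDegree (IsIrrCharacter.isCharacter μ₀.2), hj, h4]
    simp
  -- the sums over `M`
  let L : M →* (P : Subgroup G) := Subgroup.inclusion hMle
  have htriv : IsIrrCharacter M (fun _ : M => (1 : ℂ)) := by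
    have := isIrrCharacter_of_hom (1 : M →* ℂˣ)
    simpa using this
  choose c hc using fun μ : IrrCharacter (P : Subgroup G) =>
    classInner_isCharacter_nat (IsCharacter.comp L (IsIrrCharacter.isCharacter μ.2))
      (IsIrrCharacter.isCharacter htriv)
  have hcM : (Nat.card M : ℂ) ≠ 0 := card_subgroup_ne_zero M
  have hs : ∀ μ : IrrCharacter (P : Subgroup G), ∑ n : M, (μ : ↥(P : Subgroup G) → ℂ) (L n) =
      (Nat.card M : ℂ) * c μ := by
    intro μ
    have := hc μ
    rw [classInner_def] at this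
    rw [← this]
    simp only [map_one, mul_one, Function.comp]
    field_simp
  have hc0 : c μ₀ = 1 := by
    have h5 := hs μ₀
    have h6 : ∀ n : M, (μ₀ : ↥(P : Subgroup G) → ℂ) (L n) = 1 := by
      intro n
      apply irr_linear_commutator μ₀ hμ₀1
      have h7 : (n : G) ∈ (commutator (P : Subgroup G)).map (P : Subgroup G).subtype := by
        rw [Subgroup.map_subtype_commutator]
        exact hMP n.2
      obtain ⟨y, hy, hyn⟩ := h7
      have h8 : y = L n := Subtype.ext hyn
      rw [← h8]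
      exact hy
    simp only [h6, Finset.sum_const, Finset.card_univ, nsmul_eq_mul, mul_one, Fintype.card_eq_nat_card] at h5
    have h9 : (Nat.card M : ℂ) * c μ₀ = (Nat.card M : ℂ) * 1 := by
      rw [← h5, mul_one]
    exact_mod_cast mul_left_cancel₀ hcM h9
  have h10 : ∑ n : M, (χ : G → ℂ) ((n : G) * 1) =
      (Nat.card M : ℂ) * ∑ μ : IrrCharacter (P : Subgroup G), (a μ : ℂ) * c μ := by
    calc ∑ n : M, (χ : G → ℂ) ((n : G) * 1) = ∑ n : M, ∑ μ : IrrCharacter (P : Subgroup G),
          (a μ : ℂ) * (μ : ↥(P : Subgroup G) → ℂ) (L n) := by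
            refine Finset.sum_congr rfl fun n _ => ?_
            rw [mul_one]
            exact hval (L n)
      _ = ∑ μ : IrrCharacter (P : Subgroup G), (a μ : ℂ) * ∑ n : M, (μ : ↥(P : Subgroup G) → ℂ) (L n) := by
            rw [Finset.sum_comm]
            refine Finset.sum_congr rfl fun μ _ => ?_
            rw [Finset.mul_sum]
      _ = _ := by
            simp only [hs]
            rw [Finset.mul_sum]
            refine Finset.sum_congr rfl fun μ _ => ?_
            ring
  rw [h10] at h0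
  have h11 : ∑ μ : IrrCharacter (P : Subgroup G), (a μ : ℂ) * c μ = 0 :=
    (mul_eq_zero.mp h0).resolve_left hcM
  have h12 : ∑ μ : IrrCharacter (P : Subgroup G), a μ * c μ = 0 := by
    exact_mod_cast h11
  have h13 := (Finset.sum_eq_zero_iff.mp h12) μ₀ (Finset.mem_univ _)
  rw [hc0, mul_one] at h13
  exact hμ₀ h13

end Comm

end Cfsg.Agent.Lib.Degree
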