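import Cfsg.Agent.Lib.Degree.OddIndex
import Cfsg.Agent.Lib.Char.PermChar

/-!
# Orbits on real characters and on real classes of a normal subgroup of odd index.
-/

set_option autoImplicit false
set_option linter.unusedSectionVars false

open scoped ComplexConjugate
open Module

namespace Cfsg.Agent.Lib.Degree

open Cfsg (classInner IsCharacter IsIrrCharacter IrrCharacter IsClassFunction charDegree indFun
  extendByZero)
open Cfsg.Agent.Lib.Char
open Cfsg.Agent.Lib.CharExtra

universe u v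

/-- Second orthogonality as a count. -/
theorem sum_irr_mul_conj_eq_count {H : Type u} [Group H] [Fintype H] (a b : H) [DecidableEq H] :
    ∑ θ : IrrCharacter H, (θ : H → ℂ) a * conj ((θ : H → ℂ) b) =
      ∑ u : H, if u * a * u⁻¹ = b then (1 : ℂ) else 0 := by
  classical
  rw [second_orthogonality']
  split_ifs with h
  · obtain ⟨v, hv⟩ := isConj_iff.mp h
    rw [← Equiv.sum_comp (Equiv.mulRight v)]
    have h1 : ∀ c : H, (c * v) * a * (c * v)⁻¹ = b ↔ c ∈ Subgroup.centralizer ({b} : Set H) := by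
      intro c
      rw [Subgroup.mem_centralizer_singleton_iff]
      have h2 : (c * v) * a * (c * v)⁻¹ = c * (v * a * v⁻¹) * c⁻¹ := by group
      rw [h2, hv, mul_inv_eq_iff_eq_mul]
    simp only [Equiv.coe_mulRight, h1]
    rw [Finset.sum_boole, Nat.card_eq_fintype_card, Fintype.card_subtype]
  · symm
    refine Finset.sum_eq_zero fun u _ => ?_
    rw [if_neg]
    intro h2
    exact h (isConj_iff.mpr ⟨u, h2⟩)

/-- Number of orbits from a relation. -/
theorem card_quot_eq_card_orbits {α X : Type*} [Group α] [MulAction α X] (r : X → X → Prop)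
    (hr : ∀ a b, r a b ↔ ∃ g : α, b = g • a) :
    Nat.card (Quot r) = Nat.card (MulAction.orbitRel.Quotient α X) := by
  have hrr : r = (MulAction.orbitRel α X).r := by
    funext a b
    apply propext
    rw [hr]
    show _ ↔ a ∈ MulAction.orbit α b
    rw [MulAction.mem_orbit_iff]
    constructor
    · rintro ⟨g, rfl⟩
      exact ⟨g⁻¹, by simp⟩
    · rintro ⟨g, rfl⟩
      exact ⟨g⁻¹, by simp⟩
  subst hrr
  rfl

section Main

variable {G : Type u} [Group G] [Fintype G] {K : Subgroup G} (hN : K.Normal) [Fintype K]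

theorem conjFn_inv_apply (g : G) (θ : K → ℂ) (k : K) (hk : g⁻¹ * k * g ∈ K) :
    conjFn hN g⁻¹ θ k = θ ⟨g⁻¹ * k * g, hk⟩ :=
  congrArg θ (Subtype.ext (by simp))

/-- The action on the real irreducible characters. -/
@[reducible] def realIrrAct : MulAction G {θ : IrrCharacter K // ∀ k : K, ((θ : K → ℂ) k).im = 0} where
  smul g θ := ⟨⟨conjFn hN g⁻¹ θ.1, conjFn_isIrr hN _ θ.1.2⟩, fun _ => θ.2 _⟩
  one_smul θ := by
    apply Subtype.ext
    apply Subtype.ext
    show conjFn hN 1⁻¹ θ.1.1 = θ.1.1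
    rw [inv_one, conjFn_one]
  mul_smul a b θ := by
    apply Subtype.ext
    apply Subtype.ext
    show conjFn hN (a * b)⁻¹ θ.1.1 = conjFn hN a⁻¹ (conjFn hN b⁻¹ θ.1.1)
    rw [mul_inv_rev, conjFn_mul]

/-- The action on the real elements. -/
@[reducible] noncomputable def realEltAct : MulAction G {x : K // IsConj x x⁻¹} where
  smul g x := ⟨conjEquiv hN g x.1, by
    obtain ⟨c, hc⟩ := isConj_iff.mp x.2
    refine isConj_iff.mpr ⟨conjEquiv hN g c, ?_⟩
    rw [← map_inv, ← map_mul, ← map_mul, hc, map_inv]⟩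
  one_smul x := by
    apply Subtype.ext
    apply Subtype.ext
    show (1 : G) * x.1 * (1 : G)⁻¹ = x.1
    group
  mul_smul a b x := by
    apply Subtype.ext
    apply Subtype.ext
    show (a * b) * x.1 * (a * b)⁻¹ = a * (b * x.1 * b⁻¹) * a⁻¹
    group

/-- The complex-conjugate twist of the conjugation action. -/
noncomputable def twistChar (g : G) (θ : IrrCharacter K) : IrrCharacter K :=
  ⟨fun k => conj (conjFn hN g⁻¹ θ k), isIrr_conj (conjFn_isIrr hN _ θ.2)⟩

include hN in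
/-- Elements are in `K` times powers of their squares, if `K` has odd index. -/
theorem exists_mem_mul_pow_mul_self (hodd : Odd K.index) (g : G) :
    ∃ u ∈ K, ∃ j : ℕ, g = u * (g * g) ^ j := by
  have := hN
  have hcop : (Nat.card (G ⧸ K)).Coprime 2 := by
    rcases hodd with ⟨k, hk⟩
    show K.index.Coprime 2
    rw [hk]; simp
  obtain ⟨j, hj⟩ : ∃ j : ℕ, (((g : G) : G ⧸ K) ^ 2) ^ j = (g : G ⧸ K) := exists_pow_eq_self_of_coprime
    (Nat.Coprime.coprime_dvd_right (orderOf_dvd_natCard _) hcop.symm)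
  refine ⟨g * ((g * g) ^ j)⁻¹, ?_, j, by group⟩
  rw [← QuotientGroup.eq_one_iff, QuotientGroup.mk_mul, QuotientGroup.mk_inv, QuotientGroup.mk_pow,
    QuotientGroup.mk_mul, ← pow_two, hj]
  simp

/-- Fixed points of the twisted action are the real characters fixed by `g`. -/
theorem twistChar_fixed_iff (hodd : Odd K.index) (g : G) (θ : IrrCharacter K) :
    twistChar hN g θ = θ ↔ (∀ k : K, ((θ : K → ℂ) k).im = 0) ∧
      conjFn hN g⁻¹ (θ : K → ℂ) = θ := by
  constructor
  · intro h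
    have hf : ∀ k : K, conj (conjFn hN g⁻¹ (θ : K → ℂ) k) = (θ : K → ℂ) k := fun k =>
      congrFun (congrArg Subtype.val h) k
    -- `g * g` fixes `θ`
    have hgg : g * g ∈ inertia hN (θ : K → ℂ) := by
      rw [mem_inertia_iff]
      intro n
      -- apply `hf` twice
      have h1 := hf ⟨g * n * g⁻¹, hN.conj_mem n n.2 g⟩
      have h2 := hf ⟨g * (g * n * g⁻¹) * g⁻¹, hN.conj_mem _ (hN.conj_mem n n.2 g) g⟩
      have e1 : conjFn hN g⁻¹ (θ : K → ℂ) ⟨g * n * g⁻¹, hN.conj_mem n n.2 g⟩ = (θ : K → ℂ) n :=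
        congrArg (θ : K → ℂ) (Subtype.ext (by simp [mul_assoc]))
      have e2 : conjFn hN g⁻¹ (θ : K → ℂ) ⟨g * (g * n * g⁻¹) * g⁻¹, hN.conj_mem _ (hN.conj_mem n n.2 g) g⟩ =
          (θ : K → ℂ) ⟨g * n * g⁻¹, hN.conj_mem n n.2 g⟩ :=
        congrArg (θ : K → ℂ) (Subtype.ext (by simp [mul_assoc]))
      rw [e1] at h1
      rw [e2] at h2
      have h3 : (θ : K → ℂ) ⟨g * g * n * (g * g)⁻¹, hN.conj_mem n n.2 (g * g)⟩ =
          (θ : K → ℂ) ⟨g * (g * n * g⁻¹) * g⁻¹, hN.conj_mem _ (hN.conj_mem n n.2 g) g⟩ :=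
        congrArg _ (Subtype.ext (by simp [mul_assoc]))
      rw [h3, ← h2, ← h1, Complex.conj_conj]
    have hKT : K ≤ inertia hN (θ : K → ℂ) :=
      le_inertia hN (IsCharacter.isClassFunction (IsIrrCharacter.isCharacter θ.2))
    obtain ⟨u, hu, j, hj⟩ := exists_mem_mul_pow_mul_self hN hodd g
    have hgT : g ∈ inertia hN (θ : K → ℂ) := by
      rw [hj]
      exact Subgroup.mul_mem _ (hKT hu) (Subgroup.pow_mem _ hgg j)
    have hinv : conjFn hN g⁻¹ (θ : K → ℂ) = θ := (inertia hN (θ : K → ℂ)).inv_mem hgT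
    refine ⟨fun k => ?_, hinv⟩
    have h5 := hf k
    rw [hinv] at h5
    exact Complex.conj_eq_iff_im.mp h5
  · rintro ⟨h1, h2⟩
    apply Subtype.ext
    funext k
    show conj (conjFn hN g⁻¹ (θ : K → ℂ) k) = _
    rw [h2]
    exact Complex.conj_eq_iff_im.mpr (h1 k)

/-- Count of fixed points on real characters. -/
theorem card_fixedBy_realIrr (hodd : Odd K.index) (g : G) [DecidableEq (IrrCharacter K)] :
    letI := realIrrAct hN
    (Nat.card (MulAction.fixedBy {θ : IrrCharacter K // ∀ k : K, ((θ : K → ℂ) k).im = 0} g) : ℂ) =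
      ∑ θ : IrrCharacter K, if twistChar hN g θ = θ then (1 : ℂ) else 0 := by
  classical
  let _ := realIrrAct hN
  rw [Finset.sum_boole, ← Fintype.card_subtype, ← Nat.card_eq_fintype_card]
  congr 1
  refine Nat.card_congr ?_
  refine
    { toFun := fun x => ⟨x.1.1, (twistChar_fixed_iff hN hodd g x.1.1).mpr ⟨x.1.2, ?_⟩⟩
      invFun := fun y => ⟨⟨y.1, ((twistChar_fixed_iff hN hodd g y.1).mp y.2).1⟩, ?_⟩
      left_inv := fun x => rfl
      right_inv := fun y => rfl }
  · have := x.2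
    rw [MulAction.mem_fixedBy] at this
    exact congrArg (fun t : {θ : IrrCharacter K // ∀ k : K, ((θ : K → ℂ) k).im = 0} => (t.1 : K → ℂ)) this
  · rw [MulAction.mem_fixedBy]
    apply Subtype.ext
    apply Subtype.ext
    exact ((twistChar_fixed_iff hN hodd g y.1).mp y.2).2

/-- The count of twisted fixed points via orthogonality. -/
theorem sum_twistChar_fixed [DecidableEq (IrrCharacter K)] [DecidableEq G] :
    ∑ g : G, ∑ θ : IrrCharacter K, (if twistChar hN g θ = θ then (1 : ℂ) else 0) =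
      ∑ k : K, ∑ g : G, if g⁻¹ * (k : G)⁻¹ * g = (k : G) then (1 : ℂ) else 0 := by
  classical
  have hmem : ∀ (g : G) (k : K), g⁻¹ * (k : G)⁻¹ * g ∈ K := by
    intro g k
    have := hN.conj_mem _ (K.inv_mem k.2) g⁻¹
    simpa using this
  have hcard : (Nat.card K : ℂ) ≠ 0 := card_subgroup_ne_zero K
  have h1 : ∀ (g : G) (θ : IrrCharacter K), (if twistChar hN g θ = θ then (1 : ℂ) else 0) =
      (Nat.card K : ℂ)⁻¹ * ∑ k : K, (θ : K → ℂ) ⟨g⁻¹ * (k : G)⁻¹ * g, hmem g k⟩ * conj ((θ : K → ℂ) k) := by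
    intro g θ
    have h2 := classInner_irr (twistChar hN g θ).2 θ.2
    rw [classInner_def] at h2
    have h3 : (if twistChar hN g θ = θ then (1 : ℂ) else 0) =
        if ((twistChar hN g θ : IrrCharacter K) : K → ℂ) = (θ : K → ℂ) then (1 : ℂ) else 0 := by
      refine if_congr ?_ rfl rfl
      exact Subtype.ext_iff
    rw [h3, ← h2]
    congr 1
    refine Finset.sum_congr rfl fun k _ => ?_
    congr 1
    show conj (conjFn hN g⁻¹ (θ : K → ℂ) k) = _
    have h4 := IsCharacter.map_inv' (IsIrrCharacter.isCharacter θ.2)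
      (⟨g⁻¹ * (k : G) * g, by simpa using hN.conj_mem _ k.2 g⁻¹⟩ : K)
    have h5 : conjFn hN g⁻¹ (θ : K → ℂ) k =
        (θ : K → ℂ) (⟨g⁻¹ * (k : G) * g, by simpa using hN.conj_mem _ k.2 g⁻¹⟩ : K) :=
      congrArg (θ : K → ℂ) (Subtype.ext (by simp))
    rw [h5, ← h4]
    exact congrArg (θ : K → ℂ) (Subtype.ext (by simp [mul_assoc]))
  have h6 : ∀ (g : G) (k : K), ∑ θ : IrrCharacter K,
      (θ : K → ℂ) ⟨g⁻¹ * (k : G)⁻¹ * g, hmem g k⟩ * conj ((θ : K → ℂ) k) =
      ∑ u : K, if (u : G) * (g⁻¹ * (k : G)⁻¹ * g) * (u : G)⁻¹ = (k : G) then (1 : ℂ) else 0 := by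
    intro g k
    rw [sum_irr_mul_conj_eq_count]
    refine Finset.sum_congr rfl fun u _ => ?_
    refine if_congr ?_ rfl rfl
    rw [Subtype.ext_iff]
    rfl
  have h7 : ∀ (u : K) (k : K), ∑ g : G,
      (if (u : G) * (g⁻¹ * (k : G)⁻¹ * g) * (u : G)⁻¹ = (k : G) then (1 : ℂ) else 0) =
      ∑ g : G, if g⁻¹ * (k : G)⁻¹ * g = (k : G) then (1 : ℂ) else 0 := by
    intro u k
    rw [← Equiv.sum_comp (Equiv.mulRight (u : G))]
    refine Finset.sum_congr rfl fun g _ => ?_
    refine if_congr ?_ rfl rfl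
    simp only [Equiv.coe_mulRight]
    have h8 : (u : G) * ((g * u)⁻¹ * (k : G)⁻¹ * (g * u)) * (u : G)⁻¹ = g⁻¹ * (k : G)⁻¹ * g := by
      group
    rw [h8]
  simp only [h1]
  simp only [← Finset.mul_sum]
  have h9 : ∑ g : G, ∑ θ : IrrCharacter K, ∑ k : K,
      (θ : K → ℂ) ⟨g⁻¹ * (k : G)⁻¹ * g, hmem g k⟩ * conj ((θ : K → ℂ) k) =
      (Nat.card K : ℂ) * ∑ k : K, ∑ g : G, if g⁻¹ * (k : G)⁻¹ * g = (k : G) then (1 : ℂ) else 0 := by
    calc _ = ∑ g : G, ∑ k : K, ∑ θ : IrrCharacter K,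
          (θ : K → ℂ) ⟨g⁻¹ * (k : G)⁻¹ * g, hmem g k⟩ * conj ((θ : K → ℂ) k) := by
            refine Finset.sum_congr rfl fun g _ => ?_
            rw [Finset.sum_comm]
      _ = ∑ g : G, ∑ k : K, ∑ u : K,
          (if (u : G) * (g⁻¹ * (k : G)⁻¹ * g) * (u : G)⁻¹ = (k : G) then (1 : ℂ) else 0) := by
            simp only [h6]
      _ = ∑ u : K, ∑ k : K, ∑ g : G,
          (if (u : G) * (g⁻¹ * (k : G)⁻¹ * g) * (u : G)⁻¹ = (k : G) then (1 : ℂ) else 0) := by
            calc _ = ∑ g : G, ∑ u : K, ∑ k : K,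
                  (if (u : G) * (g⁻¹ * (k : G)⁻¹ * g) * (u : G)⁻¹ = (k : G) then (1 : ℂ) else 0) :=
                    Finset.sum_congr rfl fun g _ => Finset.sum_comm
              _ = ∑ u : K, ∑ g : G, ∑ k : K,
                  (if (u : G) * (g⁻¹ * (k : G)⁻¹ * g) * (u : G)⁻¹ = (k : G) then (1 : ℂ) else 0) :=
                    Finset.sum_comm
              _ = _ := Finset.sum_congr rfl fun u _ => Finset.sum_comm
      _ = _ := by
            simp only [h7, Finset.sum_const, Finset.card_univ, nsmul_eq_mul, Fintype.card_eq_nat_card]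
  rw [h9]
  field_simp

include hN in
/-- Inversion by conjugation inside `G` gives inversion by conjugation inside `K`. -/
theorem isConj_of_conj_eq_inv (hodd : Odd K.index) (g : G) (k : K)
    (h : g⁻¹ * (k : G)⁻¹ * g = (k : G)) : IsConj k k⁻¹ := by
  have h1 : g * (k : G) * g⁻¹ = (k : G)⁻¹ := by
    conv_lhs => rw [← h]
    group
  obtain ⟨u, hu, j, hj⟩ := exists_mem_mul_pow_mul_self hN hodd g
  have h2 : Commute (g * g) (k : G) := by
    show g * g * (k : G) = (k : G) * (g * g)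
    have h3 : g⁻¹ * (k : G) * g = (k : G)⁻¹ := by
      have h4 : g⁻¹ * (k : G) * g = (g⁻¹ * (k : G)⁻¹ * g)⁻¹ := by group
      rw [h4, h]
    have h5 : (k : G) * g = g * (k : G)⁻¹ := by
      calc (k : G) * g = g * (g⁻¹ * (k : G) * g) := by group
        _ = g * (k : G)⁻¹ := by rw [h3]
    have h6 : (k : G)⁻¹ * g = g * (k : G) := by
      calc (k : G)⁻¹ * g = g * (g⁻¹ * (k : G)⁻¹ * g) := by group
        _ = g * (k : G) := by rw [h]
    calc g * g * (k : G) = g * (g * (k : G)) := by group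
      _ = g * ((k : G)⁻¹ * g) := by rw [h6]
      _ = (g * (k : G)⁻¹) * g := by group
      _ = (k : G) * g * g := by rw [h5]
      _ = (k : G) * (g * g) := by group
  have h7 := h2.pow_left j
  refine isConj_iff.mpr ⟨⟨u, hu⟩, Subtype.ext ?_⟩
  show u * (k : G) * u⁻¹ = (k : G)⁻¹
  rw [← h1]
  conv_rhs => rw [hj]
  have h8 : u * (g * g) ^ j * (k : G) * (u * (g * g) ^ j)⁻¹ = u * ((g * g) ^ j * (k : G) * ((g * g) ^ j)⁻¹) * u⁻¹ := by
    group
  rw [h8, h7.eq]
  group

/-- The count of inverting conjugations in terms of the fixed points on real elements. -/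
theorem sum_inv_conj_eq_fixedBy (hodd : Odd K.index) [DecidableEq G] :
    letI := realEltAct hN
    ∑ k : K, ∑ g : G, (if g⁻¹ * (k : G)⁻¹ * g = (k : G) then (1 : ℂ) else 0) =
      ∑ g : G, (Nat.card (MulAction.fixedBy {x : K // IsConj x x⁻¹} g) : ℂ) := by
  classical
  let _ := realEltAct hN
  have h1 : ∀ g : G, (Nat.card (MulAction.fixedBy {x : K // IsConj x x⁻¹} g) : ℂ) =
      ∑ k : K, if (IsConj k k⁻¹ ∧ g * (k : G) * g⁻¹ = (k : G)) then (1 : ℂ) else 0 := by
    intro g
    rw [Finset.sum_boole, ← Fintype.card_subtype, ← Nat.card_eq_fintype_card]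
    congr 1
    refine Nat.card_congr ?_
    refine
      { toFun := fun x => ⟨x.1.1, x.1.2, ?_⟩
        invFun := fun y => ⟨⟨y.1, y.2.1⟩, ?_⟩
        left_inv := fun x => rfl
        right_inv := fun y => rfl }
    · have := x.2
      rw [MulAction.mem_fixedBy] at this
      exact congrArg (fun t : {x : K // IsConj x x⁻¹} => (t.1 : G)) this
    · rw [MulAction.mem_fixedBy]
      apply Subtype.ext
      apply Subtype.ext
      exact y.2.2
  simp only [h1]
  rw [Finset.sum_comm (s := (Finset.univ : Finset G))]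
  refine Finset.sum_congr rfl fun k _ => ?_
  by_cases hk : IsConj k k⁻¹
  · obtain ⟨c, hc⟩ := isConj_iff.mp hk
    have hc' : (c : G) * (k : G) * (c : G)⁻¹ = (k : G)⁻¹ := congrArg Subtype.val hc
    rw [← Equiv.sum_comp (Equiv.mulLeft (c : G))]
    refine Finset.sum_congr rfl fun h _ => ?_
    refine if_congr ?_ rfl rfl
    simp only [Equiv.coe_mulLeft, hk, true_and]
    constructor
    · intro h2
      have h3 : (c : G) * h * (k : G) * ((c : G) * h)⁻¹ = (k : G)⁻¹ := by
        conv_lhs => rw [← h2]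
        group
      have h4 : (c : G) * (h * (k : G) * h⁻¹) * (c : G)⁻¹ = (c : G) * (k : G) * (c : G)⁻¹ := by
        rw [hc', ← h3]
        group
      have h5 := mul_right_cancel h4
      exact mul_left_cancel h5
    · intro h2
      have h3 : ((c : G) * h)⁻¹ * (k : G)⁻¹ * ((c : G) * h) = h⁻¹ * ((c : G)⁻¹ * (k : G)⁻¹ * (c : G)) * h := by
        group
      rw [h3]
      have h4 : (c : G)⁻¹ * (k : G)⁻¹ * (c : G) = (k : G) := by
        rw [← hc']
        group
      rw [h4]
      conv_lhs => rw [← h2]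
      group
  · have h2 : ∀ g : G, ¬ (g⁻¹ * (k : G)⁻¹ * g = (k : G)) := fun g h =>
      hk (isConj_of_conj_eq_inv hN hodd g k h)
    have h3 : ∀ g : G, ¬ (IsConj k k⁻¹ ∧ g * (k : G) * g⁻¹ = (k : G)) := fun g h => hk h.1
    rw [Finset.sum_eq_zero (fun g _ => if_neg (h2 g)), Finset.sum_eq_zero (fun g _ => if_neg (h3 g))]

/-- The number of `G`-orbits on real irreducible characters and on real elements of `K`. -/
theorem card_real_orbits (hodd : Odd K.index) :
    @Nat.card (@MulAction.orbitRel.Quotient G {θ : IrrCharacter K // ∀ k : K, ((θ : K → ℂ) k).im = 0} _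
        (realIrrAct hN)) =
      @Nat.card (@MulAction.orbitRel.Quotient G {x : K // IsConj x x⁻¹} _ (realEltAct hN)) := by
  classical
  let _ := realIrrAct hN
  let _ := realEltAct hN
  have h1 := sum_fixedBy_eq_card_orbits (G := G) {θ : IrrCharacter K // ∀ k : K, ((θ : K → ℂ) k).im = 0}
  have h2 := sum_fixedBy_eq_card_orbits (G := G) {x : K // IsConj x x⁻¹}
  have h3 : ∑ g : G, (Nat.card (MulAction.fixedBy {θ : IrrCharacter K // ∀ k : K, ((θ : K → ℂ) k).im = 0} g) : ℂ) =
      ∑ g : G, (Nat.card (MulAction.fixedBy {x : K // IsConj x x⁻¹} g) : ℂ) := by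
    rw [← sum_inv_conj_eq_fixedBy hN hodd, ← sum_twistChar_fixed hN]
    exact Finset.sum_congr rfl fun g _ => card_fixedBy_realIrr hN hodd g
  rw [h1, h2] at h3
  have h4 := card_ne_zero_complex G
  have h5 := mul_right_cancel₀ h4 h3
  exact_mod_cast h5

end Main

end Cfsg.Agent.Lib.Degree
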