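import Cfsg.Agent.Lib.Degree.RealOrbits
import Cfsg.Agent.Lib.Degree.OddDeg
import Cfsg.Agent.Lib.Degree.Inflate
import Cfsg.Agent.Lib.Degree.Linear
import Mathlib

/-!
# Real characters over real characters, the count of real characters, lifts of real classes.
-/

set_option autoImplicit false
set_option linter.unusedSectionVars false

open scoped ComplexConjugate
open Module

namespace Cfsg.Agent.Lib.Degree

open Cfsg (classInner IsCharacter IsIrrCharacter IrrCharacter IsClassFunction charDegree indFun
  extendByZero)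
open Cfsg.Agent.Lib.Char
open Cfsg.Agent.Lib.CharExtra

universe u

section Over

variable {G : Type u} [Group G] [Fintype G]

/-- A real irreducible character of a normal subgroup of odd index lies under a real irreducible
character. -/
theorem exists_real_over (N : Subgroup G) (hN : N.Normal) [Fintype N] (hodd : Odd N.index)
    (θ : IrrCharacter N) (hθ : ∀ n, ((θ : N → ℂ) n).im = 0) :
    ∃ χ : IrrCharacter G, (∀ g, ((χ : G → ℂ) g).im = 0) ∧
      classInner (fun n : N => (χ : G → ℂ) n) (θ : N → ℂ) ≠ 0 := by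
  classical
  have hθc := IsIrrCharacter.isCharacter θ.2
  choose m hm using fun χ : IrrCharacter G => classInner_isCharacter_nat
    (IsCharacter.restrict N (IsIrrCharacter.isCharacter χ.2)) hθc
  have hcl : ∀ χ : IrrCharacter G, IsClassFunction G (χ : G → ℂ) := fun χ =>
    IsCharacter.isClassFunction (IsIrrCharacter.isCharacter χ.2)
  have hind := indFun_isCharacter N hθc
  have hdec := congrFun (classFunction_eq_sum (indFun N (θ : N → ℂ))
    (IsCharacter.isClassFunction hind)) 1
  rw [indFun_one, Finset.sum_apply] at hdec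
  have hco : ∀ χ : IrrCharacter G, classInner (indFun N (θ : N → ℂ)) (χ : G → ℂ) = m χ := by
    intro χ
    rw [frobenius_reciprocity N _ _ (hcl χ), ← conj_classInner, hm, Complex.conj_natCast]
  set t := (inertia hN (θ : N → ℂ)).index with ht
  have hdeg : ∀ χ : IrrCharacter G, (m χ : ℂ) * (χ : G → ℂ) 1 =
      (m χ : ℂ) ^ 2 * t * (θ : N → ℂ) 1 := by
    intro χ
    by_cases h0 : m χ = 0
    · simp [h0]
    · have h1 := clifford_degree hN χ.2 θ.2 (hm χ) h0
      rw [map_one_eq_charDegree (IsIrrCharacter.isCharacter χ.2), map_one_eq_charDegree hθc, h1]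
      push_cast
      ring
  have hsum : ((N.index : ℕ) : ℂ) = (∑ χ : IrrCharacter G, (m χ : ℂ) ^ 2) * t := by
    have h1 : ((N.index : ℕ) : ℂ) * (θ : N → ℂ) 1 =
        ((∑ χ : IrrCharacter G, (m χ : ℂ) ^ 2) * t) * (θ : N → ℂ) 1 := by
      rw [hdec, Finset.sum_mul, Finset.sum_mul]
      refine Finset.sum_congr rfl fun χ _ => ?_
      rw [Pi.smul_apply, hco, smul_eq_mul, hdeg]
    exact mul_right_cancel₀ (map_one_ne_zero_of_irr θ.2) h1
  have hsum' : N.index = (∑ χ : IrrCharacter G, (m χ) ^ 2) * t := by
    exact_mod_cast hsum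
  have hoddS : Odd (∑ χ : IrrCharacter G, (m χ) ^ 2) := by
    rw [hsum'] at hodd
    exact (Nat.odd_mul.mp hodd).1
  by_contra hcon
  push Not at hcon
  have hm0 : ∀ χ : IrrCharacter G, (∀ g, ((χ : G → ℂ) g).im = 0) → m χ = 0 := by
    intro χ hχ
    have h1 := hcon χ hχ
    rw [hm] at h1
    exact_mod_cast h1
  have hmconj : ∀ χ : IrrCharacter G, (m (conjIrr χ) : ℂ) = m χ := by
    intro χ
    rw [← hm, ← hm]
    have h1 : classInner (fun n : N => ((conjIrr χ : IrrCharacter G) : G → ℂ) n) (θ : N → ℂ) =
        conj (classInner (fun n : N => (χ : G → ℂ) n) (θ : N → ℂ)) := by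
      simp only [classInner_def, map_mul, map_sum, map_inv₀, Complex.conj_natCast]
      congr 1
      refine Finset.sum_congr rfl fun n _ => ?_
      rw [Complex.conj_conj]
      show conj ((χ : G → ℂ) n) * _ = _
      rw [Complex.conj_eq_iff_im.mpr (hθ n)]
    rw [h1, hm, Complex.conj_natCast]
  let S : Finset (IrrCharacter G) := Finset.univ.filter (fun χ => m χ ≠ 0)
  obtain ⟨T, hT⟩ := exists_sum_eq_two_mul (conjIrr : IrrCharacter G → IrrCharacter G)
    (fun χ => by
      apply Subtype.ext
      funext g
      exact Complex.conj_conj _) S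
    (fun χ hχ => by
      have hχ' : m χ ≠ 0 := (Finset.mem_filter.mp hχ).2
      refine ⟨Finset.mem_filter.mpr ⟨Finset.mem_univ _, ?_⟩, ?_⟩
      · have := hmconj χ
        intro h0
        rw [h0] at this
        apply hχ'
        exact_mod_cast this.symm
      · intro h
        apply hχ'
        apply hm0
        intro g
        have := congrFun (congrArg Subtype.val h) g
        exact Complex.conj_eq_iff_im.mp this)
    (fun χ => (m χ : ℂ) ^ 2) (fun χ _ => by simp only [hmconj])
  have h1 : ∑ χ : IrrCharacter G, (m χ : ℂ) ^ 2 = ∑ χ ∈ S, (m χ : ℂ) ^ 2 := by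
    symm
    apply Finset.sum_subset (Finset.subset_univ _)
    intro χ _ hχ
    have : m χ = 0 := by
      by_contra h0
      exact hχ (Finset.mem_filter.mpr ⟨Finset.mem_univ _, h0⟩)
    simp [this]
  rw [hT] at h1
  have h2 : ∑ χ : IrrCharacter G, (m χ) ^ 2 = 2 * ∑ χ ∈ T, (m χ) ^ 2 := by
    exact_mod_cast h1
  rw [h2] at hoddS
  exact (Nat.not_odd_iff_even.mpr (even_two_mul _)) hoddS

/-- The degree of a real irreducible character of a normal subgroup of odd index divides the degree
of a real irreducible character. -/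
theorem exists_real_degree_dvd (N : Subgroup G) (hN : N.Normal) [Fintype N] (hodd : Odd N.index)
    (θ : IrrCharacter N) (hθ : ∀ n, ((θ : N → ℂ) n).im = 0) :
    ∃ χ : IrrCharacter G, (∀ g, ((χ : G → ℂ) g).im = 0) ∧
      charDegree (θ : N → ℂ) ∣ charDegree (χ : G → ℂ) := by
  obtain ⟨χ, hχ, h1⟩ := exists_real_over N hN hodd θ hθ
  refine ⟨χ, hχ, ?_⟩
  exact dvd_trans (Dvd.intro_left _ rfl) (inertia_index_mul_degree_dvd N hN χ.2 θ.2 h1)

end Over

section Count

variable {G : Type u} [Group G] [Fintype G]

/-- The real classes of a group. -/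
def RealCl (H : Type u) [Group H] : Type u :=
  Quot (fun x y : {x : H // IsConj x x⁻¹} => IsConj x.1 y.1)

/-- The conjugation action on the real elements. -/
@[reducible] noncomputable def realConjAct (H : Type u) [Group H] : MulAction H {x : H // IsConj x x⁻¹} where
  smul g x := ⟨g * x.1 * g⁻¹, by
    obtain ⟨c, hc⟩ := isConj_iff.mp x.2
    refine isConj_iff.mpr ⟨g * c * g⁻¹, ?_⟩
    have h1 : (g * x.1 * g⁻¹)⁻¹ = g * x.1⁻¹ * g⁻¹ := by group
    rw [h1, ← hc]
    group⟩
  one_smul x := by
    apply Subtype.ext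
    show (1 : H) * x.1 * (1 : H)⁻¹ = x.1
    group
  mul_smul a b x := by
    apply Subtype.ext
    show (a * b) * x.1 * (a * b)⁻¹ = a * (b * x.1 * b⁻¹) * a⁻¹
    group

theorem card_realCl_eq_orbits (H : Type u) [Group H] :
    Nat.card (RealCl H) = @Nat.card (@MulAction.orbitRel.Quotient H {x : H // IsConj x x⁻¹} _ (realConjAct H)) := by
  letI := realConjAct H
  refine card_quot_eq_card_orbits (α := H) _ ?_
  intro a b
  constructor
  · intro h
    obtain ⟨c, hc⟩ := isConj_iff.mp h
    exact ⟨c, Subtype.ext hc.symm⟩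
  · rintro ⟨g, rfl⟩
    exact isConj_iff.mpr ⟨g, rfl⟩

/-- The number of real irreducible characters equals the number of real classes. -/
theorem card_realIrr_eq : Nat.card {χ : IrrCharacter G // ∀ g, ((χ : G → ℂ) g).im = 0} = Nat.card (RealCl G) := by
  classical
  rw [card_realCl_eq_orbits]
  letI := realConjAct G
  have h1 := sum_fixedBy_eq_card_orbits (G := G) {x : G // IsConj x x⁻¹}
  have h2 : ∑ g : G, (Nat.card (MulAction.fixedBy {x : G // IsConj x x⁻¹} g) : ℂ) =
      (Nat.card {χ : IrrCharacter G // ∀ g, ((χ : G → ℂ) g).im = 0} : ℂ) * Nat.card G := by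
    -- fixed points
    have h3 : ∀ g : G, (Nat.card (MulAction.fixedBy {x : G // IsConj x x⁻¹} g) : ℂ) =
        ∑ x : G, if (IsConj x x⁻¹ ∧ g * x * g⁻¹ = x) then (1 : ℂ) else 0 := by
      intro g
      rw [Finset.sum_boole, ← Fintype.card_subtype, ← Nat.card_eq_fintype_card]
      congr 1
      refine Nat.card_congr ?_
      refine
        { toFun := fun x => ⟨x.1.1, x.1.2, ?_⟩
          invFun := fun y => ⟨⟨y.1, y.2.1⟩, ?_⟩
          left_inv := fun x => rfl
          right_inv := fun y => rfl }
      · have := x.2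
        rw [MulAction.mem_fixedBy] at this
        exact congrArg (fun t : {x : G // IsConj x x⁻¹} => t.1) this
      · rw [MulAction.mem_fixedBy]
        apply Subtype.ext
        exact y.2.2
    simp only [h3]
    rw [Finset.sum_comm]
    -- real characters
    have h4 : ∀ χ : IrrCharacter G, (∑ x : G, (χ : G → ℂ) x * conj (conj ((χ : G → ℂ) x))) =
        (if (∀ g, ((χ : G → ℂ) g).im = 0) then (Nat.card G : ℂ) else 0) := by
      intro χ
      have h5 := classInner_irr χ.2 (conjIrr χ).2
      rw [classInner_def] at h5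
      have hc := card_ne_zero_complex G
      have h6 : (∑ x : G, (χ : G → ℂ) x * conj (conj ((χ : G → ℂ) x))) =
          (Nat.card G : ℂ) * if ((χ : G → ℂ) = ((conjIrr χ : IrrCharacter G) : G → ℂ)) then (1 : ℂ) else 0 := by
        rw [← h5]
        field_simp
        rfl
      rw [h6]
      by_cases h7 : ∀ g, ((χ : G → ℂ) g).im = 0
      · rw [if_pos h7, if_pos, mul_one]
        funext g
        exact (Complex.conj_eq_iff_im.mpr (h7 g)).symm
      · rw [if_neg h7, if_neg, mul_zero]
        intro h
        apply h7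
        intro g
        exact Complex.conj_eq_iff_im.mp (congrFun h g).symm
    have h5 : (Nat.card {χ : IrrCharacter G // ∀ g, ((χ : G → ℂ) g).im = 0} : ℂ) * Nat.card G =
        ∑ χ : IrrCharacter G, ∑ x : G, (χ : G → ℂ) x * conj (conj ((χ : G → ℂ) x)) := by
      simp only [h4]
      rw [Nat.card_eq_fintype_card, Fintype.card_subtype, ← Finset.sum_filter, Finset.sum_const,
        nsmul_eq_mul]
    rw [h5]
    conv_rhs => rw [Finset.sum_comm]
    refine Finset.sum_congr rfl fun x _ => ?_
    -- second orthogonality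
    have h6 : ∑ χ : IrrCharacter G, (χ : G → ℂ) x * conj (conj ((χ : G → ℂ) x)) =
        ∑ χ : IrrCharacter G, (χ : G → ℂ) x * conj ((χ : G → ℂ) x⁻¹) := by
      refine Finset.sum_congr rfl fun χ _ => ?_
      rw [IsCharacter.map_inv' (IsIrrCharacter.isCharacter χ.2) x]
    rw [h6, sum_irr_mul_conj_eq_count]
    by_cases hx : IsConj x x⁻¹
    · obtain ⟨c, hc⟩ := isConj_iff.mp hx
      rw [← Equiv.sum_comp (Equiv.mulLeft c) (fun u => if u * x * u⁻¹ = x⁻¹ then (1 : ℂ) else 0)]
      refine Finset.sum_congr rfl fun g _ => ?_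
      refine if_congr ?_ rfl rfl
      simp only [Equiv.coe_mulLeft, hx, true_and]
      constructor
      · intro h
        have : c * g * x * (c * g)⁻¹ = c * (g * x * g⁻¹) * c⁻¹ := by group
        rw [this, h, hc]
      · intro h
        have h7 : c * (g * x * g⁻¹) * c⁻¹ = c * x * c⁻¹ := by
          rw [hc, ← h]
          group
        have h8 := mul_right_cancel h7
        exact mul_left_cancel h8
    · rw [Finset.sum_eq_zero, Finset.sum_eq_zero]
      · intro u _
        rw [if_neg]
        intro h
        exact hx (isConj_iff.mpr ⟨u, h⟩)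
      · intro u _
        rw [if_neg]
        intro h
        exact hx h.1
  rw [h1] at h2
  have h3 := mul_right_cancel₀ (card_ne_zero_complex G) h2
  exact_mod_cast h3.symm

end Count

end Cfsg.Agent.Lib.Degree
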