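import Cfsg.Agent.Lib.Degree.RealGen
import Mathlib

/-!
# Real irreducible characters of degree prime to `p`: a normal Sylow `p`-subgroup.
-/

set_option autoImplicit false
set_option linter.unusedSectionVars false

open scoped ComplexConjugate
open Module

namespace Cfsg.Agent.Lib.Degree

open Cfsg (classInner IsCharacter IsIrrCharacter IrrCharacter IsClassFunction charDegree indFun
  extendByZero)
open Cfsg.Agent.Lib.Char
open Cfsg.Agent.Lib.CharExtra

universe u

variable {p : ℕ} [hpf : Fact p.Prime]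

/-- The last step of the argument: `N` has odd order, is central in `K`. -/
theorem realSylow_last {G : Type u} [Group G] [Finite G] (P : Sylow p G) (N : Subgroup G) [hNn : N.Normal]
    (hY : ((P : Subgroup G) ⊔ N).Normal) {ℓ : ℕ} (hℓ : ℓ.Prime) (hℓ2 : ℓ ≠ 2) (hℓp : ℓ ≠ p)
    (hNℓ : ∀ x ∈ N, x ^ ℓ = 1)
    (hKC : ∀ s : G, (∃ k : ℕ, orderOf s = 2 ^ k) → ∀ n ∈ N, s * n = n * s)
    (hNK : N ≤ powGen 2 G)
    (hKQ : ∀ Q : Sylow p (powGen 2 G), (Q : Subgroup (powGen 2 G)).Normal) :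
    ∀ x ∈ (P : Subgroup G), ∀ n ∈ N, x * n = n * x := by
  classical
  obtain ⟨Q⟩ : Nonempty (Sylow p (powGen 2 G)) := inferInstance
  have hQn := hKQ Q
  haveI hQc : (Q : Subgroup (powGen 2 G)).Characteristic := Sylow.characteristic_of_normal Q hQn
  haveI hKn : (powGen 2 G).Normal := powGen_normal 2
  let Q' : Subgroup G := (Q : Subgroup (powGen 2 G)).map (powGen 2 G).subtype
  haveI hQ'n : Q'.Normal := Cfsg.Agent.Lib.Core.normal_map_of_characteristic _ _
  have hQ'p : IsPGroup p Q' := Q.isPGroup'.map _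
  -- coprimality of `N` and `Q'`
  have hNQ : ∀ c ∈ N, c ∈ Q' → c = 1 := by
    intro c hc hc'
    obtain ⟨j, hj⟩ := hQ'p ⟨c, hc'⟩
    have h1 : c ^ (p ^ j) = 1 := congrArg Subtype.val hj
    have h2 : Nat.Coprime ℓ (p ^ j) := Nat.Coprime.pow_right _ ((Nat.coprime_primes hℓ hpf.out).mpr hℓp)
    exact eq_one_of_pow_of_coprime (hNℓ c hc) h1 h2
  -- the elements of `P` in `K` lie in `Q'`
  have hPK : ∀ y ∈ (P : Subgroup G), y ∈ powGen 2 G → y ∈ Q' := by
    intro y hy hyK
    have hp1 : IsPGroup p ((P : Subgroup G).subgroupOf (powGen 2 G)) :=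
      IsPGroup.comap_subtype P.isPGroup'
    obtain ⟨R, hR⟩ := hp1.exists_le_sylow
    letI := Sylow.unique_of_normal Q hQn
    have hRQ : R = Q := Subsingleton.elim _ _
    subst hRQ
    exact ⟨⟨y, hyK⟩, hR (by simpa [Subgroup.mem_subgroupOf] using hy), rfl⟩
  let π : G →* G ⧸ Q' := QuotientGroup.mk' Q'
  have hπ : ∀ c : G, π c = 1 ↔ c ∈ Q' := fun c => QuotientGroup.eq_one_iff c
  have hmain : ∀ x ∈ (P : Subgroup G), ∀ s : G, (∃ k : ℕ, orderOf s = 2 ^ k) → π x * π s = π s * π x := by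
    intro x hx s hs
    obtain ⟨k, hk⟩ := hs
    have hsK : s ∈ powGen 2 G := Subgroup.subset_closure ⟨k, hk⟩
    set c := x * s * x⁻¹ * s⁻¹ with hc
    have hcK : c ∈ powGen 2 G :=
      (powGen 2 G).mul_mem (hKn.conj_mem s hsK x) ((powGen 2 G).inv_mem hsK)
    have hcY : c ∈ (P : Subgroup G) ⊔ N := by
      have h1 : c = x * (s * x⁻¹ * s⁻¹) := by rw [hc]; group
      rw [h1]
      refine Subgroup.mul_mem _ (Subgroup.mem_sup_left hx) ?_
      exact hY.conj_mem _ (Subgroup.mem_sup_left ((P : Subgroup G).inv_mem hx)) s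
    obtain ⟨y, hy, n₀, hn₀, hcyn⟩ := Cfsg.Agent.Lib.Core.exists_mul_of_mem_sup_normal_right hcY
    have hyK : y ∈ powGen 2 G := by
      have : y = c * n₀⁻¹ := by rw [hcyn]; group
      rw [this]
      exact (powGen 2 G).mul_mem hcK ((powGen 2 G).inv_mem (hNK hn₀))
    have hyQ : y ∈ Q' := hPK y hy hyK
    have hπc : π c = π n₀ := by
      rw [hcyn, map_mul, (hπ y).mpr hyQ, one_mul]
    have hconj : π x * π s * (π x)⁻¹ = π n₀ * π s := by
      have h1 : x * s * x⁻¹ = c * s := by rw [hc]; group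
      rw [← map_inv, ← map_mul, ← map_mul, h1, map_mul, hπc]
    have hsk : s ^ (2 ^ k) = 1 := by
      rw [← hk]
      exact pow_orderOf_eq_one s
    have hpow1 : (π x * π s * (π x)⁻¹) ^ (2 ^ k) = 1 := by
      rw [conj_pow, ← map_pow, hsk, map_one]
      group
    have hcm : Commute (π n₀) (π s) := by
      show π n₀ * π s = π s * π n₀
      rw [← map_mul, ← map_mul, (hKC s ⟨k, hk⟩ n₀ hn₀).symm]
    have hpow2 : π n₀ ^ (2 ^ k) = 1 := by
      rw [hconj, hcm.mul_pow, ← map_pow π s, hsk, map_one, mul_one] at hpow1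
      exact hpow1
    have hpow3 : π n₀ ^ ℓ = 1 := by
      rw [← map_pow, hNℓ n₀ hn₀, map_one]
    have hn1 : π n₀ = 1 := eq_one_of_pow_of_coprime hpow2 hpow3
      (Nat.Coprime.pow_left _ ((Nat.coprime_primes Nat.prime_two hℓ).mpr hℓ2.symm))
    rw [hn1, one_mul] at hconj
    have h5 := congrArg (· * π x) hconj
    simp only [inv_mul_cancel_right] at h5
    exact h5
  intro x hx n hn
  have hcent : powGen 2 G ≤ (Subgroup.centralizer ({π x} : Set (G ⧸ Q'))).comap π := by
    rw [Subgroup.closure_le]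
    intro s hs
    rw [SetLike.mem_coe, Subgroup.mem_comap, Subgroup.mem_centralizer_singleton_iff]
    exact (hmain x hx s hs).symm
  have h1 := hcent (hNK hn)
  rw [Subgroup.mem_comap, Subgroup.mem_centralizer_singleton_iff] at h1
  have h2 : x * n * x⁻¹ * n⁻¹ ∈ Q' := by
    rw [← hπ, map_mul, map_mul, map_mul, map_inv, map_inv, ← h1]
    group
  have h3 : x * n * x⁻¹ * n⁻¹ ∈ N := N.mul_mem (hNn.conj_mem n hn x) (N.inv_mem hn)
  have h4 := hNQ _ h3 h2
  calc x * n = (x * n * x⁻¹ * n⁻¹) * (n * x) := by group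
    _ = n * x := by rw [h4, one_mul]

/-- The case of no fixed points. -/
theorem realSylow_noFixed {G : Type u} [Group G] [Finite G] (hH : RealDegHyp p G)
    (hidx : ∃ a : ℕ, (powGen 2 G).index = p ^ a) (P : Sylow p G) (N : Subgroup G) [hNn : N.Normal]
    (hY : ((P : Subgroup G) ⊔ N).Normal) (hab : ∀ a ∈ N, ∀ b ∈ N, a * b = b * a)
    {ℓ : ℕ} (hℓ : ℓ.Prime) (hℓp : ℓ ≠ p) (hNℓ : ∀ x ∈ N, x ^ ℓ = 1) (hN1 : N ≠ ⊥)
    (hF : Subgroup.normalizer ((P : Subgroup G) : Set G) ⊔ N = ⊤)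
    (hcop : (Nat.card N).Coprime p)
    (hNx : ∀ (x : G), x ∈ N → x ∈ (P : Subgroup G) → x = 1)
    (hCb : ∀ n ∈ N, (∀ x ∈ (P : Subgroup G), x * n = n * x) → n = 1)
    (hKQ : powGen 2 G ≠ ⊤ → ∀ Q : Sylow p (powGen 2 G), (Q : Subgroup (powGen 2 G)).Normal) : False := by
  classical
  letI : Fintype G := Fintype.ofFinite G
  set L := Subgroup.normalizer ((P : Subgroup G) : Set G) with hL
  have hdec : ∀ g : G, ∃ l ∈ L, ∃ n ∈ N, g = l * n := by
    intro g
    have : g ∈ L ⊔ N := by rw [hF]; trivial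
    exact Cfsg.Agent.Lib.Core.exists_mul_of_mem_sup_normal_right this
  have hker : ∀ χ : IrrCharacter G, (∀ g, ((χ : G → ℂ) g).im = 0) → KerContains N (χ : G → ℂ) :=
    fun χ hχ => kerContains_of_centralizer_bot P N hab hcop hCb χ (hH.deg χ hχ)
  have hLN : ∀ c ∈ L, c ∈ N → c = 1 := by
    intro c hcL hcN
    apply hCb c hcN
    intro x hx
    have h1 : c * x * c⁻¹ ∈ (P : Subgroup G) := (Subgroup.mem_normalizer_iff.mp hcL x).mp hx
    have h2 : c * x * c⁻¹ * x⁻¹ ∈ (P : Subgroup G) :=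
      (P : Subgroup G).mul_mem h1 ((P : Subgroup G).inv_mem hx)
    have h3 : c * x * c⁻¹ * x⁻¹ ∈ N := by
      have : c * x * c⁻¹ * x⁻¹ = c * (x * c⁻¹ * x⁻¹) := by group
      rw [this]
      exact N.mul_mem hcN (hNn.conj_mem _ (N.inv_mem hcN) x)
    have h4 := hNx _ h3 h2
    have h5 : c * x * c⁻¹ = x := by
      calc c * x * c⁻¹ = (c * x * c⁻¹ * x⁻¹) * x := by group
        _ = x := by rw [h4, one_mul]
    calc x * c = (c * x * c⁻¹) * c := by rw [h5]
      _ = c * x := by group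
  haveI : Fintype (G ⧸ N) := Fintype.ofFinite _
  have hlift : ∀ x : G, IsConj (x : G ⧸ N) (x : G ⧸ N)⁻¹ → ∃ z : G, (z : G ⧸ N) = x ∧ IsConj z z⁻¹ := by
    intro x hx
    obtain ⟨l, hl, n, hn, rfl⟩ := hdec x
    have h1 : ((l * n : G) : G ⧸ N) = (l : G ⧸ N) := by
      rw [QuotientGroup.mk_mul, (QuotientGroup.eq_one_iff n).mpr hn, mul_one]
    refine ⟨l, h1.symm, ?_⟩
    rw [h1] at hx
    obtain ⟨w, hw⟩ := isConj_iff.mp hx
    obtain ⟨v, rfl⟩ := QuotientGroup.mk_surjective w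
    obtain ⟨l', hl', n', hn', rfl⟩ := hdec v
    have h2 : ((l' * n' : G) : G ⧸ N) = (l' : G ⧸ N) := by
      rw [QuotientGroup.mk_mul, (QuotientGroup.eq_one_iff n').mpr hn', mul_one]
    rw [h2] at hw
    refine isConj_iff.mpr ⟨l', ?_⟩
    have h3 : ((l' * l * l'⁻¹ * l : G) : G ⧸ N) = 1 := by
      rw [QuotientGroup.mk_mul, QuotientGroup.mk_mul, QuotientGroup.mk_mul, QuotientGroup.mk_inv, hw]
      group
    have h4 : l' * l * l'⁻¹ * l ∈ N := (QuotientGroup.eq_one_iff _).mp h3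
    have h5 : l' * l * l'⁻¹ * l ∈ L :=
      L.mul_mem (L.mul_mem (L.mul_mem hl' hl) (L.inv_mem hl')) hl
    have h6 := hLN _ h5 h4
    exact eq_inv_of_mul_eq_one_left h6
  have hnoreal : ∀ u ∈ N, u ≠ 1 → ¬ IsConj u u⁻¹ := by
    intro u hu hu1 hur
    obtain ⟨χ, h1, h2⟩ := exists_real_not_kerContains N hlift hu hu1 hur
    exact h2 (hker χ h1)
  obtain ⟨u, hu, hu1⟩ := (Subgroup.bot_or_exists_ne_one N).resolve_left hN1
  by_cases hℓ2 : ℓ = 2
  · subst hℓ2
    apply hnoreal u hu hu1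
    have h1 : u⁻¹ = u := by
      have := hNℓ u hu
      exact inv_eq_of_mul_eq_one_left (by rw [← pow_two]; exact this)
    rw [h1]
  have hKC : ∀ s : G, (∃ k : ℕ, orderOf s = 2 ^ k) → ∀ n ∈ N, s * n = n * s := by
    rintro s ⟨k, hk⟩ n hn
    by_contra hne
    have hnc : ¬ ∀ n ∈ N, s * n = n * s := fun h => hne (h n hn)
    obtain ⟨v, hv, hv1, hvr⟩ := exists_real_of_not_centralize N hk hnc
    exact hnoreal v hv hv1 hvr
  haveI hKn : (powGen 2 G).Normal := powGen_normal 2
  have hKcent : ∀ g ∈ powGen 2 G, ∀ n ∈ N, g * n = n * g := by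
    intro g hg n hn
    have h1 : powGen 2 G ≤ Subgroup.centralizer (N : Set G) := by
      rw [Subgroup.closure_le]
      intro s hs
      rw [SetLike.mem_coe, Subgroup.mem_centralizer_iff]
      intro m hm
      exact (hKC s hs m hm).symm
    exact (Subgroup.mem_centralizer_iff.mp (h1 hg) n hn).symm
  by_cases hKtop : powGen 2 G = ⊤
  · apply hu1
    apply hCb u hu
    intro x _
    exact hKcent x (by rw [hKtop]; trivial) u hu
  -- `N ≤ K`
  have hNK : N ≤ powGen 2 G := by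
    intro n hn
    obtain ⟨a, ha⟩ := hidx
    rw [← QuotientGroup.eq_one_iff]
    have h1 : ((n : G) : G ⧸ powGen 2 G) ^ (p ^ a) = 1 := by
      rw [← ha]
      exact pow_card_eq_one'
    have h2 : ((n : G) : G ⧸ powGen 2 G) ^ ℓ = 1 := by
      rw [← QuotientGroup.mk_pow, hNℓ n hn]
      rfl
    exact eq_one_of_pow_of_coprime h2 h1
      (Nat.Coprime.pow_right _ ((Nat.coprime_primes hℓ hpf.out).mpr hℓp))
  have hall := realSylow_last P N hY hℓ hℓ2 hℓp hNℓ hKC hNK (hKQ hKtop)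
  exact hu1 (hCb u hu fun x hx => hall x hx u hu)

/-- **Main theorem**: a normal Sylow subgroup when the quotient by the subgroup generated by the
`2`-elements is a `p`-group. -/
theorem sylow_normal_main : ∀ (m : ℕ) (G : Type u) [Group G] [Finite G], Nat.card G = m →
    RealDegHyp p G → (∃ a : ℕ, (powGen 2 G).index = p ^ a) →
    ∀ P : Sylow p G, (P : Subgroup G).Normal := by
  intro m
  induction m using Nat.strong_induction_on with
  | _ m ih =>
  intro G _ _ hm hH hidx P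
  classical
  by_cases hW : powGen p G = ⊥
  · have h1 : (P : Subgroup G) = ⊥ := by
      rw [eq_bot_iff]
      intro x hx
      obtain ⟨j, hj⟩ := P.isPGroup' ⟨x, hx⟩
      have h2 : x ^ (p ^ j) = 1 := congrArg Subtype.val hj
      obtain ⟨i, -, hi⟩ := (Nat.dvd_prime_pow hpf.out).1 (orderOf_dvd_of_pow_eq_one h2)
      have h3 : x ∈ powGen p G := Subgroup.subset_closure ⟨i, hi⟩
      rwa [hW] at h3
    rw [h1]
    infer_instance
  haveI hWn : (powGen p G).Normal := powGen_normal p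
  obtain ⟨N, hNn, hN1, hNW, hNmin⟩ := Cfsg.Agent.Lib.Core.exists_minimal_normal_le hWn hW
  haveI := hNn
  haveI := hH.solv
  haveI hNsol : Group.IsSolvable N :=
    Group.isSolvable_of_isSolvable_injective (f := Subgroup.inclusion hNW) (Subgroup.inclusion_injective hNW)
  obtain ⟨hNab, ℓ, hℓ, hNℓ⟩ := minimal_normal_elementary_of_solvable N hN1 hNmin
  have hab : ∀ a ∈ N, ∀ b ∈ N, a * b = b * a := fun a ha b hb =>
    congrArg Subtype.val (hNab.is_comm.comm ⟨a, ha⟩ ⟨b, hb⟩)
  have hNcard : 1 < Nat.card N := by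
    have : Nontrivial N := (Subgroup.nontrivial_iff_ne_bot N).mpr hN1
    exact Finite.one_lt_card
  -- the quotient
  have hqcard : Nat.card (G ⧸ N) < m := by
    have h1 := Subgroup.card_eq_card_quotient_mul_card_subgroup N
    rw [hm] at h1
    have h2 : 0 < Nat.card (G ⧸ N) := Nat.card_pos
    nlinarith
  have hπs := QuotientGroup.mk'_surjective N
  have hqidx : ∃ a : ℕ, (powGen 2 (G ⧸ N)).index = p ^ a := by
    obtain ⟨a, ha⟩ := hidx
    rw [← map_powGen (QuotientGroup.mk' N) hπs Nat.prime_two]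
    have h1 := Subgroup.index_map_dvd (powGen 2 G) hπs
    rw [ha] at h1
    obtain ⟨b, -, hb⟩ := (Nat.dvd_prime_pow hpf.out).1 h1
    exact ⟨b, hb⟩
  have hqP := ih _ hqcard (G ⧸ N) rfl (hH.quotient N) hqidx (P.mapSurjective hπs)
  have hYeq : ((P : Subgroup G) ⊔ N) =
      ((P : Subgroup G).map (QuotientGroup.mk' N)).comap (QuotientGroup.mk' N) := by
    rw [Subgroup.comap_map_eq, QuotientGroup.ker_mk']
  haveI hY : ((P : Subgroup G) ⊔ N).Normal := by
    rw [hYeq]
    have h2 : ((P : Subgroup G).map (QuotientGroup.mk' N)).Normal := hqP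
    exact h2.comap _
  by_cases hℓp : ℓ = p
  · -- `N` is a `p`-group
    have hNp : IsPGroup p N := fun x => ⟨1, Subtype.ext (by rw [pow_one, ← hℓp]; simpa using hNℓ x x.2)⟩
    have h1 : IsPGroup p ((P : Subgroup G) ⊔ N : Subgroup G) :=
      IsPGroup.to_sup_of_normal_right P.isPGroup' hNp
    have h2 := P.is_maximal' h1 le_sup_left
    rw [← h2]
    exact hY
  -- `N` is a `p'`-group
  have hNx : ∀ (x : G), x ∈ N → x ∈ (P : Subgroup G) → x = 1 := by
    intro c hc hc'
    obtain ⟨j, hj⟩ := P.isPGroup' ⟨c, hc'⟩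
    have h1 : c ^ (p ^ j) = 1 := congrArg Subtype.val hj
    have h2 : Nat.Coprime ℓ (p ^ j) := Nat.Coprime.pow_right _ ((Nat.coprime_primes hℓ hpf.out).mpr hℓp)
    exact eq_one_of_pow_of_coprime (hNℓ c hc) h1 h2
  have hcop : (Nat.card N).Coprime p := by
    have hf : Fact ℓ.Prime := ⟨hℓ⟩
    have hNp : IsPGroup ℓ N := fun x => ⟨1, Subtype.ext (by simpa using hNℓ x x.2)⟩
    obtain ⟨k, hk⟩ := IsPGroup.iff_card.1 hNp
    rw [hk]
    exact Nat.Coprime.pow_left _ ((Nat.coprime_primes hℓ hpf.out).mpr hℓp)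
  -- Frattini
  have hF : Subgroup.normalizer ((P : Subgroup G) : Set G) ⊔ N = ⊤ := by
    have h1 := Sylow.normalizer_sup_eq_top' P (le_sup_left : (P : Subgroup G) ≤ (P : Subgroup G) ⊔ N)
    rw [eq_top_iff, ← h1]
    apply sup_le le_sup_left
    apply sup_le
    · exact le_trans Subgroup.le_normalizer le_sup_left
    · exact le_sup_right
  set L := Subgroup.normalizer ((P : Subgroup G) : Set G) with hL
  have hdec : ∀ g : G, ∃ l ∈ L, ∃ n ∈ N, g = l * n := by
    intro g
    have : g ∈ L ⊔ N := by rw [hF]; trivial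
    exact Cfsg.Agent.Lib.Core.exists_mul_of_mem_sup_normal_right this
  -- the fixed points in `N`
  have hCn : (N ⊓ Subgroup.centralizer ((P : Subgroup G) : Set G)).Normal := by
    constructor
    rintro c ⟨hcN, hcC⟩ g
    obtain ⟨l, hl, n, hn, rfl⟩ := hdec g
    have h1 : n * c * n⁻¹ = c := by
      rw [hab n hn c hcN]
      group
    have h2 : l * n * c * (l * n)⁻¹ = l * c * l⁻¹ := by
      calc l * n * c * (l * n)⁻¹ = l * (n * c * n⁻¹) * l⁻¹ := by group
        _ = l * c * l⁻¹ := by rw [h1]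
    rw [h2]
    refine ⟨hNn.conj_mem c hcN l, Subgroup.mem_centralizer_iff.mpr ?_⟩
    have hcC := Subgroup.mem_centralizer_iff.mp hcC
    intro x hx
    have h3 : l⁻¹ * x * l ∈ (P : Subgroup G) := by
      have h4 := (Subgroup.mem_normalizer_iff''.mp hl x)
      exact h4.mp hx
    have h5 := hcC _ h3
    calc x * (l * c * l⁻¹) = l * ((l⁻¹ * x * l) * c) * l⁻¹ := by group
      _ = l * (c * (l⁻¹ * x * l)) * l⁻¹ := by rw [h5]
      _ = l * c * l⁻¹ * x := by group
  rcases hNmin _ hCn inf_le_left with hC | hC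
  swap
  · -- `P` centralizes `N`
    have hNC : N ≤ Subgroup.centralizer ((P : Subgroup G) : Set G) := inf_eq_left.mp hC
    have h1 : L = ⊤ := by
      rw [eq_top_iff, ← hF]
      apply sup_le le_rfl
      intro n hn
      rw [hL, Subgroup.mem_normalizer_iff]
      intro x
      have h2 := Subgroup.mem_centralizer_iff.mp (hNC hn)
      constructor
      · intro hx
        have h3 : n * x * n⁻¹ = x := by
          rw [← h2 x hx]
          group
        rw [h3]
        exact hx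
      · intro hx
        have h3 := h2 _ hx
        have h4 : n * x * n⁻¹ = x := by
          have h5 : n * x = n * (n * x * n⁻¹) := by
            rw [← h3]
            group
          exact (mul_left_cancel h5).symm
        rw [← h4]
        exact hx
    exact Subgroup.normalizer_eq_top_iff.mp h1
  -- no fixed points
  exfalso
  have hCb : ∀ n ∈ N, (∀ x ∈ (P : Subgroup G), x * n = n * x) → n = 1 := by
    intro n hn hx
    have h1 : n ∈ N ⊓ Subgroup.centralizer ((P : Subgroup G) : Set G) :=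
      ⟨hn, Subgroup.mem_centralizer_iff.mpr hx⟩
    rw [hC] at h1
    exact Subgroup.mem_bot.mp h1
  refine realSylow_noFixed hH hidx P N hY hab hℓ hℓp hNℓ hN1 hF hcop hNx hCb ?_
  intro hKtop
  haveI hKn : (powGen 2 G).Normal := powGen_normal 2
  have hKcard : Nat.card (powGen 2 G) < m := by
    rw [← hm]
    have h1 := Subgroup.card_mul_index (powGen 2 G)
    have h2 : (powGen 2 G).index ≠ 1 := fun h => hKtop (Subgroup.index_eq_one.mp h)
    have h3 : (powGen 2 G).index ≠ 0 := Subgroup.index_ne_zero_of_finite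
    have h4 : 0 < Nat.card (powGen 2 G) := Nat.card_pos
    have h5 : 2 ≤ (powGen 2 G).index := by omega
    nlinarith
  exact ih _ hKcard (powGen 2 G) rfl (hH.subgroup _ hKn le_rfl) ⟨0, by
    rw [powGen_self_eq_top, Subgroup.index_top, pow_zero]⟩

end Cfsg.Agent.Lib.Degree
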