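import Mathlib
import Cfsg.Agent.Lib.Block.Central
import Cfsg.Agent.Lib.Block.Principal
import Cfsg.Agent.Lib.Char.Iso

/-!
# Group algebra elements commuting with a normal subgroup

For `N ⊴ G` and an irreducible character `χ` of `G` with irreducible restriction to `N`, elements of
`ℂG` commuting with `N` act by scalars; on the subring of those with integer coefficients this is a ring
homomorphism `om χ`, and it is compared with the augmentation `eps`.
-/

set_option autoImplicit false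
set_option linter.unusedSectionVars false
set_option linter.unusedSimpArgs false
set_option linter.unusedVariables false

open Cfsg Cfsg.Agent.Lib.Block Cfsg.Agent.Lib.Char MonoidAlgebra

namespace Cfsg.Agent.Lib.Degree

section Rel

variable {G : Type*} [Group G] [Fintype G] (N : Subgroup G)

/-- The element `z` commutes with `N`. -/
def RelInv (z : MonoidAlgebra ℂ G) : Prop := ∀ x ∈ N, ∀ g, z.coeff (x * g * x⁻¹) = z.coeff g

omit [Fintype G] in
theorem relInv_iff (z : MonoidAlgebra ℂ G) :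
    RelInv N z ↔ ∀ x ∈ N, MonoidAlgebra.single x 1 * z = z * MonoidAlgebra.single x 1 := by
  constructor
  · intro h x hx
    apply ext_coeff
    intro g
    rw [MonoidAlgebra.coeff_single_mul_apply, MonoidAlgebra.coeff_mul_single_apply, one_mul, mul_one]
    have := h x⁻¹ (N.inv_mem hx) (g * x⁻¹)
    rw [inv_inv] at this
    rw [← this]
    congr 1
    group
  · intro h x hx g
    have h1 := congrArg (fun t => t.coeff (x * g)) (h x hx)
    simp only [MonoidAlgebra.coeff_single_mul_apply, MonoidAlgebra.coeff_mul_single_apply, one_mul,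
      mul_one] at h1
    have h2 : x⁻¹ * (x * g) = g := by group
    rw [h2] at h1
    exact h1.symm

variable {N}

omit [Fintype G] in
theorem RelInv.mul {z w : MonoidAlgebra ℂ G} (hz : RelInv N z) (hw : RelInv N w) : RelInv N (z * w) := by
  rw [relInv_iff] at hz hw ⊢
  intro x hx
  rw [← mul_assoc, hz x hx, mul_assoc, hw x hx, mul_assoc]

omit [Fintype G] in
theorem relInv_one : RelInv N (1 : MonoidAlgebra ℂ G) := by
  rw [relInv_iff]
  intro x hx
  simp

omit [Fintype G] in
theorem RelInv.pow {z : MonoidAlgebra ℂ G} (hz : RelInv N z) (k : ℕ) : RelInv N (z ^ k) := by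
  induction k with
  | zero => simpa using relInv_one
  | succ k ih => rw [pow_succ]; exact ih.mul hz

/-- Integer coefficients. -/
def IntCoeff (z : MonoidAlgebra ℂ G) : Prop := ∀ g, ∃ k : ℤ, z.coeff g = k

theorem IntCoeff.mul {z w : MonoidAlgebra ℂ G} (hz : IntCoeff z) (hw : IntCoeff w) : IntCoeff (z * w) := by
  intro g
  rw [coeff_mul_eq]
  have : ∑ h, z.coeff h * w.coeff (h⁻¹ * g) ∈ (Int.castRingHom ℂ).range := by
    refine Subring.sum_mem _ fun h _ => Subring.mul_mem _ ?_ ?_
    · obtain ⟨k, hk⟩ := hz h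
      exact ⟨k, by simp [hk]⟩
    · obtain ⟨k, hk⟩ := hw (h⁻¹ * g)
      exact ⟨k, by simp [hk]⟩
  obtain ⟨k, hk⟩ := this
  exact ⟨k, by simpa using hk.symm⟩

omit [Fintype G] in
theorem intCoeff_one : IntCoeff (1 : MonoidAlgebra ℂ G) := by
  classical
  intro g
  rw [MonoidAlgebra.one_def, MonoidAlgebra.coeff_single, Finsupp.single_apply]
  split_ifs
  · exact ⟨1, by simp⟩
  · exact ⟨0, by simp⟩

theorem IntCoeff.pow {z : MonoidAlgebra ℂ G} (hz : IntCoeff z) (k : ℕ) : IntCoeff (z ^ k) := by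
  induction k with
  | zero => simpa using intCoeff_one
  | succ k ih => rw [pow_succ]; exact ih.mul hz

/-- The augmentation. -/
noncomputable def eps (z : MonoidAlgebra ℂ G) : ℂ := ∑ g, z.coeff g

theorem eps_eq_tr (z : MonoidAlgebra ℂ G) : eps z = tr (fun _ => 1) z := by
  simp [eps, tr]

theorem eps_mul (z w : MonoidAlgebra ℂ G) : eps (z * w) = eps z * eps w := by
  unfold eps
  simp_rw [coeff_mul_eq]
  rw [Finset.sum_comm, Finset.sum_mul]
  refine Finset.sum_congr rfl fun h _ => ?_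
  rw [← Finset.mul_sum]
  congr 1
  exact Equiv.sum_comp (Equiv.mulLeft h⁻¹) (fun u => w.coeff u)

theorem eps_one : eps (1 : MonoidAlgebra ℂ G) = 1 := by
  rw [eps_eq_tr, tr_one]

theorem eps_pow (z : MonoidAlgebra ℂ G) (k : ℕ) : eps (z ^ k) = eps z ^ k := by
  induction k with
  | zero => simp [eps_one]
  | succ k ih => rw [pow_succ, eps_mul, ih, pow_succ]

theorem eps_sum {ι : Type*} (s : Finset ι) (f : ι → MonoidAlgebra ℂ G) :
    eps (∑ i ∈ s, f i) = ∑ i ∈ s, eps (f i) := by
  classical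
  induction s using Finset.induction_on with
  | empty => simp [eps]
  | insert a s ha ih =>
    rw [Finset.sum_insert ha, Finset.sum_insert ha, ← ih]
    simp [eps, Finset.sum_add_distrib]

end Rel

section Irr

variable {G : Type*} [Group G] [Fintype G] {N : Subgroup G}

/-- Restriction of a representation whose restricted character is irreducible. -/
theorem rep_isIrreducible_of_res {n : ℕ} (ρ : Representation ℂ G (Fin n → ℂ))
    (h : IsIrrCharacter N (fun x : N => ρ.character x)) :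
    Representation.IsIrreducible (k := ℂ) (G := N) (V := Fin n → ℂ) (ρ.comp N.subtype) := by
  classical
  obtain ⟨m, σ, hσ, e⟩ := h
  have e' : σ.character = Representation.character (k := ℂ) (G := N) (V := Fin n → ℂ) (ρ.comp N.subtype) := by
    rw [e]; rfl
  obtain ⟨φ⟩ := nonempty_equiv_of_character_eq _ _ _ σ (ρ.comp N.subtype) rfl e'
  exact isIrreducible_of_equiv φ hσ

theorem asAlgebraHom_rel {n : ℕ} (ρ : Representation ℂ G (Fin n → ℂ))
    (h : IsIrrCharacter N (fun x : N => ρ.character x)) {z : MonoidAlgebra ℂ G} (hz : RelInv N z) :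
    ρ.asAlgebraHom z = (om ρ.character z) • 1 := by
  have hirr := rep_isIrreducible_of_res ρ h
  obtain ⟨c, hc⟩ := schur_scalar (ρ.comp N.subtype) hirr (ρ.asAlgebraHom z) (by
    intro g v
    have h1 := (relInv_iff N z).mp hz g g.2
    have h2 := congrArg (fun t => ρ.asAlgebraHom t v) h1
    simpa [map_mul] using h2.symm)
  have h3 : tr ρ.character z = c * Module.finrank ℂ (Fin n → ℂ) := by
    rw [← trace_asAlgebraHom, hc, map_smul, LinearMap.trace_one, smul_eq_mul]
  have hpos : (Module.finrank ℂ (Fin n → ℂ) : ℂ) ≠ 0 := by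
    exact_mod_cast (finrank_pos_of_irr hirr).ne'
  have h4 : om ρ.character z = c := by
    unfold om
    rw [h3, Representation.char_one, mul_div_assoc, div_self hpos, mul_one]
  rw [h4, hc]

theorem tr_mul_rel {χ : G → ℂ} (hχ : IsCharacter G χ) (h : IsIrrCharacter N (fun x : N => χ x))
    {z : MonoidAlgebra ℂ G} (hz : RelInv N z) (w : MonoidAlgebra ℂ G) : tr χ (z * w) = om χ z * tr χ w := by
  obtain ⟨n, ρ, rfl⟩ := hχ
  rw [← trace_asAlgebraHom, map_mul, asAlgebraHom_rel ρ h hz, ← trace_asAlgebraHom]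
  simp

theorem om_mul_rel {χ : G → ℂ} (hχ : IsCharacter G χ) (h : IsIrrCharacter N (fun x : N => χ x))
    {z : MonoidAlgebra ℂ G} (hz : RelInv N z) (w : MonoidAlgebra ℂ G) : om χ (z * w) = om χ z * om χ w := by
  rw [om, tr_mul_rel hχ h hz, mul_div_assoc]
  rfl

theorem om_one_of_ne {χ : G → ℂ} (h1 : χ 1 ≠ 0) : om χ 1 = 1 := by
  unfold om
  rw [tr_one, div_self h1]

theorem om_pow_rel {χ : G → ℂ} (hχ : IsCharacter G χ) (h : IsIrrCharacter N (fun x : N => χ x))
    (h1 : χ 1 ≠ 0) {z : MonoidAlgebra ℂ G} (hz : RelInv N z) (k : ℕ) : om χ (z ^ k) = om χ z ^ k := by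
  induction k with
  | zero => simpa using om_one_of_ne h1
  | succ k ih => rw [pow_succ, om_mul_rel hχ h (hz.pow k), ih, pow_succ]

theorem isIntegral_om_rel {χ : G → ℂ} (hχ : IsCharacter G χ) (h : IsIrrCharacter N (fun x : N => χ x))
    {z : MonoidAlgebra ℂ G} (hz : RelInv N z) (hi : IntCoeff z) : IsIntegral ℤ (om χ z) := by
  classical
  obtain ⟨n, ρ, rfl⟩ := hχ
  choose f hf using hi
  let F : MonoidAlgebra ℤ G →ₐ[ℤ] Module.End ℂ (Fin n → ℂ) := MonoidAlgebra.lift ℤ (Module.End ℂ (Fin n → ℂ)) G ρ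
  have h1 : F (ofFun f) = ρ.asAlgebraHom z := by
    conv_rhs => rw [eq_sum_single z]
    unfold ofFun
    rw [map_sum, map_sum]
    refine Finset.sum_congr rfl fun u _ => ?_
    rw [Representation.asAlgebraHom_single, hf]
    simp only [F, MonoidAlgebra.lift_single]
    exact (Int.cast_smul_eq_zsmul ℂ (f u) (ρ u)).symm
  have h2 : IsIntegral ℤ (ρ.asAlgebraHom z) := by
    rw [← h1]
    exact (isIntegral_groupRing _).map F
  rw [asAlgebraHom_rel ρ h hz] at h2
  have hirr := rep_isIrreducible_of_res ρ h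
  haveI := nontrivial_of_irr hirr
  have hinj : Function.Injective (algebraMap ℂ (Module.End ℂ (Fin n → ℂ))) :=
    FaithfulSMul.algebraMap_injective _ _
  have h3 : (om ρ.character z) • (1 : Module.End ℂ (Fin n → ℂ)) =
      algebraMap ℂ (Module.End ℂ (Fin n → ℂ)) (om ρ.character z) := by
    rw [Algebra.algebraMap_eq_smul_one]
  rw [h3] at h2
  exact (isIntegral_algebraMap_iff hinj).mp h2

end Irr

section Push

variable {G : Type*} [Group G] [Fintype G]

theorem sum_eq_sum_subgroup (J : Subgroup G) [Fintype J] (f : G → ℂ) (hf : ∀ g, g ∉ J → f g = 0) :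
    ∑ g, f g = ∑ j : J, f j := by
  classical
  have h1 : ∑ g, f g = ∑ g ∈ Finset.univ.filter (· ∈ J), f g := by
    rw [Finset.sum_filter]
    refine Finset.sum_congr rfl fun g _ => ?_
    split_ifs with h
    · rfl
    · exact hf g h
  rw [h1]
  exact Finset.sum_subtype _ (by simp) f

open Classical in
/-- The push-forward of a group algebra element of a subgroup. -/
noncomputable def pushZ (J : Subgroup G) [Fintype J] (w : MonoidAlgebra ℂ J) : MonoidAlgebra ℂ G :=
  ofFun (fun u => if h : u ∈ J then w.coeff ⟨u, h⟩ else 0)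

theorem coeff_pushZ_mem (J : Subgroup G) [Fintype J] (w : MonoidAlgebra ℂ J) (j : J) :
    (pushZ J w).coeff j = w.coeff j := by
  classical
  unfold pushZ
  rw [coeff_ofFun, dif_pos j.2]

theorem coeff_pushZ_notMem (J : Subgroup G) [Fintype J] (w : MonoidAlgebra ℂ J) {u : G} (hu : u ∉ J) :
    (pushZ J w).coeff u = 0 := by
  classical
  unfold pushZ
  rw [coeff_ofFun, dif_neg hu]

theorem tr_pushZ (J : Subgroup G) [Fintype J] (φ : G → ℂ) (w : MonoidAlgebra ℂ J) :
    tr φ (pushZ J w) = tr (fun j : J => φ j) w := by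
  unfold tr
  rw [sum_eq_sum_subgroup J _ (fun g hg => by rw [coeff_pushZ_notMem J w hg, zero_mul])]
  refine Finset.sum_congr rfl fun j _ => ?_
  rw [coeff_pushZ_mem]

theorem eps_pushZ (J : Subgroup G) [Fintype J] (w : MonoidAlgebra ℂ J) : eps (pushZ J w) = eps w := by
  rw [eps_eq_tr, tr_pushZ, eps_eq_tr]

theorem om_pushZ (J : Subgroup G) [Fintype J] (φ : G → ℂ) (w : MonoidAlgebra ℂ J) :
    om φ (pushZ J w) = om (fun j : J => φ j) w := by
  unfold om
  rw [tr_pushZ]
  rfl

theorem relInv_pushZ {J N : Subgroup G} [Fintype J] (hNJ : N ≤ J) {w : MonoidAlgebra ℂ J} (hw : IsCentralElt w) :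
    RelInv N (pushZ J w) := by
  intro x hx g
  by_cases hg : g ∈ J
  · have h1 : x * g * x⁻¹ ∈ J := J.mul_mem (J.mul_mem (hNJ hx) hg) (J.inv_mem (hNJ hx))
    have e1 := coeff_pushZ_mem J w ⟨x * g * x⁻¹, h1⟩
    have e2 := coeff_pushZ_mem J w ⟨g, hg⟩
    simp only at e1 e2
    rw [e1, e2]
    have := hw ⟨x, hNJ hx⟩ ⟨g, hg⟩
    rw [← this]
    rfl
  · have h1 : x * g * x⁻¹ ∉ J := by
      intro h
      apply hg
      have h2 : g = x⁻¹ * (x * g * x⁻¹) * x := by group
      rw [h2]
      exact J.mul_mem (J.mul_mem (J.inv_mem (hNJ hx)) h) (hNJ hx)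
    rw [coeff_pushZ_notMem J w hg, coeff_pushZ_notMem J w h1]

theorem intCoeff_pushZ {J : Subgroup G} [Fintype J] {w : MonoidAlgebra ℂ J} (hw : IntCoeff w) :
    IntCoeff (pushZ J w) := by
  intro u
  by_cases hu : u ∈ J
  · have e := coeff_pushZ_mem J w ⟨u, hu⟩
    simp only at e
    rw [e]
    exact hw _
  · rw [coeff_pushZ_notMem J w hu]
    exact ⟨0, by simp⟩

theorem intCoeff_classSum (g : G) : IntCoeff (classSum g) := by
  classical
  intro u
  rw [coeff_classSum]
  split_ifs
  · exact ⟨1, by simp⟩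
  · exact ⟨0, by simp⟩

end Push

section Congruence

variable {G : Type*} [Group G] [Fintype G] {N : Subgroup G} {M : Ideal AlgInt}

/-- The core congruence: for `θ` in the principal block of `N`, and `z` with integer coefficients,
commuting with and supported on `N`. -/
theorem memLocalIdeal_om_sub_eps_of_supp [M.IsPrime] {χ : G → ℂ} (θ : IrrCharacter N)
    (hext : ∀ x : N, χ x = (θ : N → ℂ) x) (hθ : θ ∈ principalBlock M N) {z : MonoidAlgebra ℂ G}
    (hz : RelInv N z) (hi : IntCoeff z) (hs : ∀ g, g ∉ N → z.coeff g = 0) :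
    MemLocalIdeal M (om χ z - eps z) := by
  classical
  let z' : MonoidAlgebra ℂ N := ofFun (fun n : N => z.coeff n)
  have hc : IsCentralElt z' := isCentralElt_ofFun (fun x g => by
    have := hz x x.2 g
    simpa using this)
  have hl : LocalCoeff M z' := by
    intro g
    rw [coeff_ofFun]
    obtain ⟨k, hk⟩ := hi g
    rw [hk]
    exact memLocalRing_intCast k
  have h1 := memLocalIdeal_om_sub (oneIrr N).2 θ.2 hθ hc hl
  have e1 : om (oneIrr N : N → ℂ) z' = eps z := by
    rw [oneIrr_coe]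
    unfold om tr eps
    rw [sum_eq_sum_subgroup N _ (fun g hg => hs g hg)]
    simp [z', coeff_ofFun]
  have e2 : om (θ : N → ℂ) z' = om χ z := by
    unfold om tr
    rw [sum_eq_sum_subgroup N (fun g => z.coeff g * χ g) (fun g hg => by simp only [hs g hg, zero_mul])]
    have h3 : (θ : N → ℂ) 1 = χ 1 := (hext 1).symm
    rw [h3]
    congr 1
    refine Finset.sum_congr rfl fun n _ => ?_
    rw [hext n]
    simp [z', coeff_ofFun]
  rw [e1, e2] at h1
  exact memLocalIdeal_sub_comm.mp h1

end Congruence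

section Supp

variable {G : Type*} [Group G] (N : Subgroup G)

/-- `z` is supported on the coset `t N`. -/
def SuppC (t : G) (z : MonoidAlgebra ℂ G) : Prop := ∀ g, z.coeff g ≠ 0 → t⁻¹ * g ∈ N

variable {N}

theorem SuppC.mul [Fintype G] [hN : N.Normal] {t s : G} {z w : MonoidAlgebra ℂ G} (hz : SuppC N t z) (hw : SuppC N s w) :
    SuppC N (t * s) (z * w) := by
  intro g hg
  rw [coeff_mul_eq] at hg
  obtain ⟨h, -, hh⟩ := Finset.exists_ne_zero_of_sum_ne_zero hg
  have h1 := hz h (left_ne_zero_of_mul hh)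
  have h2 := hw _ (right_ne_zero_of_mul hh)
  have e : (t * s)⁻¹ * g = s⁻¹ * (t⁻¹ * h) * s * (s⁻¹ * (h⁻¹ * g)) := by group
  rw [e]
  refine N.mul_mem ?_ h2
  have := hN.conj_mem _ h1 s⁻¹
  simpa using this

theorem suppC_one : SuppC N (1 : G) (1 : MonoidAlgebra ℂ G) := by
  classical
  intro g hg
  rw [MonoidAlgebra.one_def, MonoidAlgebra.coeff_single, Finsupp.single_apply] at hg
  have : (1 : G) = g := by
    by_contra h
    exact hg (if_neg h)
  rw [← this]
  simp [N.one_mem]

theorem SuppC.pow [Fintype G] [N.Normal] {t : G} {z : MonoidAlgebra ℂ G} (hz : SuppC N t z) (k : ℕ) :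
    SuppC N (t ^ k) (z ^ k) := by
  induction k with
  | zero => simpa using suppC_one
  | succ k ih => rw [pow_succ, pow_succ]; exact ih.mul hz

theorem SuppC.eq_zero_of_mem {t : G} {z : MonoidAlgebra ℂ G} (hz : SuppC N t z) (ht : t ∈ N) (g : G) (hg : g ∉ N) :
    z.coeff g = 0 := by
  by_contra h
  apply hg
  have := N.mul_mem ht (hz g h)
  simpa using this

theorem SuppC.of_inv_mul_mem {t s : G} {z : MonoidAlgebra ℂ G} (hz : SuppC N t z) (h : s⁻¹ * t ∈ N) : SuppC N s z := by
  intro g hg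
  have e : s⁻¹ * g = (s⁻¹ * t) * (t⁻¹ * g) := by group
  rw [e]
  exact N.mul_mem h (hz g hg)

end Supp

section Orbit

variable {G : Type*} [Group G] [Fintype G] (N : Subgroup G)

/-- The `N`-conjugates of `g`. -/
def orbN (g : G) : Set G := {u | ∃ n ∈ N, n * g * n⁻¹ = u}

open Classical in
/-- The `N`-class sum. -/
noncomputable def sigmaN (g : G) : MonoidAlgebra ℂ G := ofFun (fun u => if u ∈ orbN N g then 1 else 0)

open Classical in
theorem coeff_sigmaN (g u : G) : (sigmaN N g).coeff u = if u ∈ orbN N g then 1 else 0 :=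
  coeff_ofFun _ u

theorem orbN_conj {g u x : G} (hx : x ∈ N) : x * u * x⁻¹ ∈ orbN N g ↔ u ∈ orbN N g := by
  constructor
  · rintro ⟨n, hn, e⟩
    refine ⟨x⁻¹ * n, N.mul_mem (N.inv_mem hx) hn, ?_⟩
    have : x⁻¹ * n * g * (x⁻¹ * n)⁻¹ = x⁻¹ * (n * g * n⁻¹) * x := by group
    rw [this, e]
    group
  · rintro ⟨n, hn, rfl⟩
    refine ⟨x * n, N.mul_mem hx hn, ?_⟩
    group

theorem relInv_sigmaN (g : G) : RelInv N (sigmaN N g) := by
  classical
  intro x hx u
  rw [coeff_sigmaN, coeff_sigmaN]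
  simp only [orbN_conj N hx]

theorem intCoeff_sigmaN (g : G) : IntCoeff (sigmaN N g) := by
  classical
  intro u
  rw [coeff_sigmaN]
  split_ifs
  · exact ⟨1, by simp⟩
  · exact ⟨0, by simp⟩

theorem suppC_sigmaN [hN : N.Normal] (g : G) : SuppC N g (sigmaN N g) := by
  classical
  intro u hu
  rw [coeff_sigmaN] at hu
  have h : u ∈ orbN N g := by
    by_contra h
    exact hu (if_neg h)
  obtain ⟨n, hn, rfl⟩ := h
  have e : g⁻¹ * (n * g * n⁻¹) = (g⁻¹ * n * g) * n⁻¹ := by group
  rw [e]
  refine N.mul_mem ?_ (N.inv_mem hn)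
  have := hN.conj_mem _ hn g⁻¹
  simpa using this

/-- The size of the `N`-class. -/
noncomputable def mN (g : G) : ℕ := Nat.card (orbN N g)

theorem eps_sigmaN (g : G) : eps (sigmaN N g) = mN N g := by
  classical
  unfold eps mN
  simp_rw [coeff_sigmaN]
  rw [Finset.sum_boole, Nat.card_eq_fintype_card, Fintype.card_subtype]

theorem tr_sigmaN {χ : G → ℂ} (hχ : IsClassFunction G χ) (g : G) : tr χ (sigmaN N g) = mN N g * χ g := by
  classical
  unfold tr mN
  simp_rw [coeff_sigmaN]
  have h1 : ∀ u, (if u ∈ orbN N g then (1 : ℂ) else 0) * χ u = if u ∈ orbN N g then χ g else 0 := by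
    intro u
    split_ifs with h
    · obtain ⟨n, hn, rfl⟩ := h
      rw [one_mul]
      exact hχ _ _
    · simp
  simp_rw [h1]
  rw [← Finset.sum_filter, Finset.sum_const, nsmul_eq_mul, Nat.card_eq_fintype_card, Fintype.card_subtype]

theorem om_sigmaN {χ : G → ℂ} (hχ : IsClassFunction G χ) (g : G) : om χ (sigmaN N g) = mN N g * (χ g / χ 1) := by
  unfold om
  rw [tr_sigmaN N hχ, mul_div_assoc]

/-- If `g` is centralized by a Sylow `p`-subgroup of `N`, then the `N`-class of `g` has size prime to `p`. -/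
theorem not_dvd_mN {p : ℕ} [hp : Fact p.Prime] (P : Sylow p N) {g : G}
    (hg : ∀ x ∈ (P : Subgroup N), (x : G) * g = g * x) : ¬ p ∣ mN N g := by
  classical
  letI : MulAction N G := MulAction.compHom G ((MulAut.conj : G →* MulAut G).comp N.subtype)
  have hsmul : ∀ (n : N) (u : G), n • u = n * u * (n : G)⁻¹ := fun n u => rfl
  have e : orbN N g = MulAction.orbit N g := by
    ext u
    constructor
    · rintro ⟨n, hn, rfl⟩
      exact ⟨⟨n, hn⟩, rfl⟩
    · rintro ⟨n, rfl⟩
      exact ⟨n, n.2, rfl⟩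
  have h1 : (MulAction.stabilizer N g).index = mN N g := by
    unfold mN
    rw [e]
    exact MulAction.index_stabilizer N g
  have h2 : (P : Subgroup N) ≤ MulAction.stabilizer N g := by
    intro x hx
    rw [MulAction.mem_stabilizer_iff, hsmul, hg x hx]
    group
  intro h
  rw [← h1] at h
  exact P.not_dvd_index (h.trans (Subgroup.index_dvd_of_le h2))

end Orbit

section Arith

variable {M : Ideal AlgInt} {p : ℕ} [hp : Fact p.Prime]

theorem memLocalIdeal_pow_sub_pow [M.IsPrime] {x y : ℂ} (hx : MemLocalRing M x) (hy : MemLocalRing M y)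
    (h : MemLocalIdeal M (x - y)) (k : ℕ) : MemLocalIdeal M (x ^ k - y ^ k) := by
  induction k with
  | zero => simpa using memLocalIdeal_zero
  | succ k ih =>
    have e : x ^ (k + 1) - y ^ (k + 1) = x ^ k * (x - y) + (x ^ k - y ^ k) * y := by ring
    rw [e]
    exact memLocalIdeal_add (memLocalIdeal_mul_left (memLocalRing_pow hx k) h) (memLocalIdeal_mul_right ih hy)

theorem memLocalIdeal_div_sub_one [M.IsPrime] {x y : ℂ} (hy : MemLocalRing M y) (hy' : ¬ MemLocalIdeal M y)
    (h : MemLocalIdeal M (x - y)) : MemLocalIdeal M (x / y - 1) := by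
  have hy0 := ne_zero_of_not_memLocalIdeal hy'
  have e : x / y - 1 = (x - y) * y⁻¹ := by field_simp
  rw [e]
  exact memLocalIdeal_mul_right h (memLocalRing_inv hy hy')

/-- Elements of `p`-power order are congruent to `1`. -/
theorem memLocalIdeal_sub_one_of_pow_prime_pow (hM : IsPModular p M) {η : ℂ} {a : ℕ} (h : η ^ (p ^ a) = 1) :
    MemLocalIdeal M (η - 1) := by
  haveI := isPModular_isPrime hM
  have hint : IsIntegral ℤ η := IsIntegral.of_pow (pow_pos hp.out.pos a) (h ▸ isIntegral_one)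
  let e : AlgInt := ⟨η, hint⟩
  have he : e ^ (p ^ a) = 1 := Subtype.ext h
  letI : IsDomain (AlgInt ⧸ M) := Ideal.Quotient.isDomain M
  have hp0 : (p : AlgInt ⧸ M) = 0 := by
    have := Ideal.Quotient.eq_zero_iff_mem.mpr hM.2.2
    simpa using this
  haveI : CharP (AlgInt ⧸ M) p := (CharP.charP_iff_prime_eq_zero hp.out).mpr hp0
  have h1 : ((Ideal.Quotient.mk M e) - 1) ^ (p ^ a) = 0 := by
    rw [sub_pow_char_pow, one_pow, ← map_pow, he, map_one, sub_self]
  have h2 : Ideal.Quotient.mk M e - 1 = 0 := pow_eq_zero_iff (pow_ne_zero a hp.out.ne_zero) |>.mp h1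
  have h3 : e - 1 ∈ M := by
    apply Ideal.Quotient.eq_zero_iff_mem.mp
    rw [map_sub, map_one]
    exact h2
  have h4 := memLocalIdeal_of_mem h3
  simpa [e] using h4

theorem exists_root_of_pow_congr [M.IsPrime] {y : ℂ} (hy : MemLocalRing M y) {k : ℕ} (hk : k ≠ 0)
    (h : MemLocalIdeal M (y ^ k - 1)) : ∃ ζ : ℂ, ζ ^ k = 1 ∧ MemLocalIdeal M (y - ζ) := by
  classical
  have hk' : 0 < k := Nat.pos_of_ne_zero hk
  haveI : NeZero k := ⟨hk⟩
  have hprim := Complex.isPrimitiveRoot_exp k hk
  have e := hprim.pow_sub_pow_eq_prod_sub_mul y 1 hk'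
  simp only [one_pow, mul_one] at e
  rw [e] at h
  have hloc : ∀ ζ ∈ Polynomial.nthRootsFinset k (1 : ℂ), MemLocalRing M (y - ζ) := by
    intro ζ hζ
    refine memLocalRing_sub hy (memLocalRing_of_isIntegral ?_)
    rw [Polynomial.mem_nthRootsFinset hk' 1] at hζ
    exact IsIntegral.of_pow hk' (hζ ▸ isIntegral_one)
  by_contra hcon
  push Not at hcon
  have hnot : ∀ ζ ∈ Polynomial.nthRootsFinset k (1 : ℂ), ¬ MemLocalIdeal M (y - ζ) := by
    intro ζ hζ
    exact hcon ζ ((Polynomial.mem_nthRootsFinset hk' 1).mp hζ)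
  have : ∀ s : Finset ℂ, (∀ ζ ∈ s, MemLocalRing M (y - ζ)) → (∀ ζ ∈ s, ¬ MemLocalIdeal M (y - ζ)) →
      MemLocalRing M (∏ ζ ∈ s, (y - ζ)) ∧ ¬ MemLocalIdeal M (∏ ζ ∈ s, (y - ζ)) := by
    intro s
    induction s using Finset.induction_on with
    | empty =>
      intro _ _
      simp only [Finset.prod_empty]
      exact ⟨memLocalRing_one, not_memLocalIdeal_one⟩
    | insert a s ha ih =>
      intro h1 h2
      rw [Finset.prod_insert ha]
      obtain ⟨h3, h4⟩ := ih (fun ζ hζ => h1 ζ (Finset.mem_insert_of_mem hζ)) (fun ζ hζ => h2 ζ (Finset.mem_insert_of_mem hζ))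
      refine ⟨memLocalRing_mul (h1 a (Finset.mem_insert_self _ _)) h3, ?_⟩
      exact not_memLocalIdeal_mul (h1 a (Finset.mem_insert_self _ _)) h3 (h2 a (Finset.mem_insert_self _ _)) h4
  exact (this _ hloc hnot).2 h

/-- A local number with `x ^ (p ^ a * m) ≡ 1` is congruent to an `m`-th root of unity. -/
theorem exists_root_congr (hM : IsPModular p M) {x : ℂ} (hx : MemLocalRing M x) {a m : ℕ} (hm : m ≠ 0)
    (h : MemLocalIdeal M (x ^ (p ^ a * m) - 1)) : ∃ ζ : ℂ, ζ ^ m = 1 ∧ MemLocalIdeal M (x - ζ) := by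
  haveI := isPModular_isPrime hM
  have h1 : MemLocalIdeal M ((x ^ m) ^ (p ^ a) - 1) := by
    rw [← pow_mul, mul_comm]
    exact h
  obtain ⟨η, hη, h2⟩ := exists_root_of_pow_congr (memLocalRing_pow hx m) (pow_ne_zero a hp.out.ne_zero) h1
  have h3 := memLocalIdeal_sub_one_of_pow_prime_pow hM hη
  have h4 : MemLocalIdeal M (x ^ m - 1) := memLocalIdeal_sub_trans h2 h3
  exact exists_root_of_pow_congr hx hm h4

end Arith

end Cfsg.Agent.Lib.Degree
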