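import Mathlib
import Cfsg.Agent.Lib.Degree.RelCentral
import Cfsg.Agent.Lib.BPair.AlperinDade
import Cfsg.Agent.Lib.Degree.GaloisChar
import Cfsg.Agent.Lib.Char.Brauer
import Cfsg.Agent.Lib.Char.QuasiPrim

/-!
# Extensions in the principal block when `G = N C_G(P)`

The hypotheses: `N ⊴ G`, `P ∈ Syl_p(N)`, `G = N C_G(P)`, and `θ` in the principal block of `N`. An extension
of `θ` can be twisted by a linear character of `G / N` so that it is congruent to the principal character on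
all the elements commuting with `N`.
-/

set_option autoImplicit false
set_option linter.unusedSectionVars false
set_option linter.unusedSimpArgs false
set_option linter.unusedVariables false

open Cfsg Cfsg.Agent.Lib.Block Cfsg.Agent.Lib.Char Cfsg.Agent.Lib.BPair MonoidAlgebra

namespace Cfsg.Agent.Lib.Degree

section Main

variable {G : Type*} [Group G] [Fintype G] {N : Subgroup G} [hN : N.Normal] {M : Ideal AlgInt}
  {p : ℕ} [hp : Fact p.Prime]

/-- The centralizer in `G` of a Sylow subgroup of `N`. -/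
def sylC (P : Sylow p N) : Subgroup G :=
  Subgroup.centralizer (((P : Subgroup N).map N.subtype : Subgroup G) : Set G)

theorem sylC_comm {P : Sylow p N} {c : G} (hc : c ∈ sylC P) (x : N) (hx : x ∈ (P : Subgroup N)) :
    (x : G) * c = c * x :=
  Subgroup.mem_centralizer_iff.mp hc x (Subgroup.mem_map_of_mem _ hx)

/-- The hypotheses. -/
structure RelHyp (p : ℕ) [Fact p.Prime] (M : Ideal AlgInt) (N : Subgroup G) (P : Sylow p N) (θ : IrrCharacter N) : Prop where
  hM : IsPModular p M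
  hθ : θ ∈ principalBlock M N
  hcov : ∀ g : G, ∃ c ∈ sylC P, c⁻¹ * g ∈ N

variable {P : Sylow p N} {θ : IrrCharacter N}

theorem RelHyp.prime (H : RelHyp p M N P θ) : M.IsPrime := isPModular_isPrime H.hM

theorem RelHyp.m_unit {c : G} (hc : c ∈ sylC P) : ¬ p ∣ mN N c :=
  not_dvd_mN N P fun x hx => sylC_comm hc x hx

section Fixed

variable (H : RelHyp p M N P θ) {χ : G → ℂ} (hχ : IsCharacter G χ) (hext : ∀ x : N, χ x = (θ : N → ℂ) x)

include H hχ hext

theorem RelHyp.res_irr : IsIrrCharacter N (fun x : N => χ x) := by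
  have : (fun x : N => χ x) = (θ : N → ℂ) := funext hext
  rw [this]
  exact θ.2

theorem RelHyp.one_ne : χ 1 ≠ 0 := by
  have := hext 1
  simp only [OneMemClass.coe_one] at this
  rw [this]
  exact isIrr_one_ne_zero θ.2

theorem RelHyp.cong_of_supp {z : MonoidAlgebra ℂ G} (hz : RelInv N z) (hi : IntCoeff z) {t : G} (ht : t ∈ N)
    (hs : SuppC N t z) : MemLocalIdeal M (om χ z - eps z) := by
  haveI := H.prime
  exact memLocalIdeal_om_sub_eps_of_supp θ hext H.hθ hz hi (hs.eq_zero_of_mem ht)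

theorem RelHyp.om_local {z : MonoidAlgebra ℂ G} (hz : RelInv N z) (hi : IntCoeff z) : MemLocalRing M (om χ z) := by
  haveI := H.prime
  exact memLocalRing_of_isIntegral (isIntegral_om_rel hχ (H.res_irr hχ hext) hz hi)

/-- The ratio. -/
theorem RelHyp.rr_local {c : G} (hc : c ∈ sylC P) : MemLocalRing M (χ c / χ 1) := by
  haveI := H.prime
  have h1 := H.om_local hχ hext (relInv_sigmaN N c) (intCoeff_sigmaN N c)
  rw [om_sigmaN N (IsCharacter.isClassFunction hχ)] at h1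
  have h2 := not_memLocalIdeal_natCast H.hM (RelHyp.m_unit hc)
  have h3 := memLocalRing_inv (memLocalRing_natCast (M := M) (mN N c)) h2
  have h4 := memLocalRing_mul h3 h1
  have h5 := ne_zero_of_not_memLocalIdeal h2
  rwa [inv_mul_cancel_left₀ h5] at h4

theorem RelHyp.prod3 {c₁ c₂ c₃ : G} (h₁ : c₁ ∈ sylC P) (h₂ : c₂ ∈ sylC P) (h₃ : c₃ ∈ sylC P) (k : ℕ)
    (hmem : c₁ * c₂ * c₃ ^ k ∈ N) :
    MemLocalIdeal M (χ c₁ / χ 1 * (χ c₂ / χ 1) * (χ c₃ / χ 1) ^ k - 1) := by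
  haveI := H.prime
  have hcf := IsCharacter.isClassFunction hχ
  have hirr := H.res_irr hχ hext
  set s₁ := sigmaN N c₁
  set s₂ := sigmaN N c₂
  set s₃ := sigmaN N c₃
  have r₁ : RelInv N s₁ := relInv_sigmaN N c₁
  have r₂ : RelInv N s₂ := relInv_sigmaN N c₂
  have r₃ : RelInv N s₃ := relInv_sigmaN N c₃
  have hz : RelInv N (s₁ * s₂ * s₃ ^ k) := (r₁.mul r₂).mul (r₃.pow k)
  have hi : IntCoeff (s₁ * s₂ * s₃ ^ k) :=
    ((intCoeff_sigmaN N c₁).mul (intCoeff_sigmaN N c₂)).mul ((intCoeff_sigmaN N c₃).pow k)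
  have hs : SuppC N (c₁ * c₂ * c₃ ^ k) (s₁ * s₂ * s₃ ^ k) :=
    ((suppC_sigmaN N c₁).mul (suppC_sigmaN N c₂)).mul ((suppC_sigmaN N c₃).pow k)
  have h1 := H.cong_of_supp hχ hext hz hi hmem hs
  have e1 : om χ (s₁ * s₂ * s₃ ^ k) = (mN N c₁ : ℂ) * (mN N c₂ : ℂ) * (mN N c₃ : ℂ) ^ k *
      (χ c₁ / χ 1 * (χ c₂ / χ 1) * (χ c₃ / χ 1) ^ k) := by
    rw [om_mul_rel hχ hirr (r₁.mul r₂), om_mul_rel hχ hirr r₁, om_pow_rel hχ hirr (H.one_ne hχ hext) r₃,
      om_sigmaN N hcf, om_sigmaN N hcf, om_sigmaN N hcf]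
    ring
  have e2 : eps (s₁ * s₂ * s₃ ^ k) = (mN N c₁ : ℂ) * (mN N c₂ : ℂ) * (mN N c₃ : ℂ) ^ k := by
    rw [eps_mul, eps_mul, eps_pow, eps_sigmaN, eps_sigmaN, eps_sigmaN]
  rw [e1, e2] at h1
  have hunit : ¬ p ∣ mN N c₁ * mN N c₂ * mN N c₃ ^ k := by
    intro hd
    rcases (Nat.Prime.dvd_mul hp.out).mp hd with h | h
    · rcases (Nat.Prime.dvd_mul hp.out).mp h with h | h
      · exact RelHyp.m_unit h₁ h
      · exact RelHyp.m_unit h₂ h
    · exact RelHyp.m_unit h₃ (Nat.Prime.dvd_of_dvd_pow hp.out h)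
  have hu := not_memLocalIdeal_natCast H.hM hunit
  have hl := memLocalRing_natCast (M := M) (mN N c₁ * mN N c₂ * mN N c₃ ^ k)
  push_cast at hu hl
  have h2 := memLocalIdeal_div_sub_one hl hu h1
  rwa [mul_div_cancel_left₀ _ (ne_zero_of_not_memLocalIdeal hu)] at h2

theorem RelHyp.rr_one : χ 1 / χ 1 = 1 := div_self (H.one_ne hχ hext)

theorem RelHyp.rr_pow {c : G} (hc : c ∈ sylC P) {w : ℕ} (hw : c ^ w ∈ N) : MemLocalIdeal M ((χ c / χ 1) ^ w - 1) := by
  have h := H.prod3 hχ hext (sylC P).one_mem (sylC P).one_mem hc w (by simpa using hw)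
  rwa [H.rr_one hχ hext, one_mul, one_mul] at h

theorem RelHyp.rr_mem {c : G} (hc : c ∈ sylC P) (hcN : c ∈ N) : MemLocalIdeal M (χ c / χ 1 - 1) := by
  have h := H.prod3 hχ hext hc (sylC P).one_mem (sylC P).one_mem 0 (by simpa using hcN)
  rwa [H.rr_one hχ hext, mul_one, pow_zero, mul_one] at h

theorem RelHyp.rr_mul {c c' : G} (hc : c ∈ sylC P) (hc' : c' ∈ sylC P) :
    MemLocalIdeal M (χ c / χ 1 * (χ c' / χ 1) - χ (c * c') / χ 1) := by
  haveI := H.prime
  have hd := (sylC P).mul_mem hc hc'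
  have hw : 0 < Fintype.card G := Fintype.card_pos
  obtain ⟨v, hv⟩ : ∃ v, Fintype.card G = v + 1 := ⟨Fintype.card G - 1, by omega⟩
  have h1 : (c * c') ^ (v + 1) = 1 := by
    rw [← hv]
    exact pow_card_eq_one
  have h2 := H.rr_pow hχ hext hd (w := v + 1) (by rw [h1]; exact N.one_mem)
  have h3 := H.prod3 hχ hext hc hc' hd v (by
    have : c * c' * (c * c') ^ v = (c * c') ^ (v + 1) := (pow_succ' _ _).symm
    rw [this, h1]
    exact N.one_mem)
  set r := χ c / χ 1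
  set r' := χ c' / χ 1
  set r'' := χ (c * c') / χ 1
  have hr := H.rr_local hχ hext hc
  have hr' := H.rr_local hχ hext hc'
  have hr'' := H.rr_local hχ hext hd
  have e : r * r' - r'' = (-(r * r')) * (r'' ^ (v + 1) - 1) + (r * r' * r'' ^ v - 1) * r'' := by ring
  rw [e]
  exact memLocalIdeal_add (memLocalIdeal_mul_left (memLocalRing_neg (memLocalRing_mul hr hr')) h2)
    (memLocalIdeal_mul_right h3 hr'')

end Fixed

theorem root_local [M.IsPrime] {m : ℕ} (hm : m ≠ 0) {ζ : ℂ} (h : ζ ^ m = 1) : MemLocalRing M ζ :=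
  memLocalRing_of_isIntegral (IsIntegral.of_pow (Nat.pos_of_ne_zero hm) (h ▸ isIntegral_one))

theorem root_unique (hM : IsPModular p M) {m : ℕ} (hm : m ≠ 0) (hpm : ¬ p ∣ m) {ζ ζ' : ℂ} (h : ζ ^ m = 1)
    (h' : ζ' ^ m = 1) (hc : MemLocalIdeal M (ζ - ζ')) : ζ = ζ' := by
  haveI := isPModular_isPrime hM
  have h0 : ζ' ≠ 0 := by
    rintro rfl
    rw [zero_pow hm] at h'
    exact zero_ne_one h'
  have h1 : (ζ / ζ') ^ m = 1 := by rw [div_pow, h, h', div_one]
  have h2 : ζ'⁻¹ ^ m = 1 := by rw [inv_pow, h', inv_one]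
  have h3 : MemLocalIdeal M (ζ / ζ' - 1) := by
    have e : ζ / ζ' - 1 = (ζ - ζ') * ζ'⁻¹ := by field_simp
    rw [e]
    exact memLocalIdeal_mul_right hc (root_local hm h2)
  have h4 := eq_one_of_memLocalIdeal_sub_one hM hpm h1 hm h3
  exact (div_eq_one_iff_eq h0).mp h4

end Main

end Cfsg.Agent.Lib.Degree
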