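import Mathlib
import Cfsg.Agent.Lib.Degree.RelExt

/-!
# Extensions in the principal block when `G = N C_G(P)`, continued
-/

set_option autoImplicit false
set_option linter.unusedSectionVars false
set_option linter.unusedSimpArgs false
set_option linter.unusedVariables false

open Cfsg Cfsg.Agent.Lib.Block Cfsg.Agent.Lib.Char Cfsg.Agent.Lib.BPair MonoidAlgebra

namespace Cfsg.Agent.Lib.Degree

section Main

variable {G : Type*} [Group G] [Fintype G] {N : Subgroup G} [hN : N.Normal] {M : Ideal AlgInt}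
  {p : ℕ} [hp : Fact p.Prime] {P : Sylow p N} {θ : IrrCharacter N}

/-- The linear character `Z` with `Z(c) ≡ χ(c)/χ(1)` on the centralizer of `P`, trivial on `N`. -/
theorem RelHyp.exists_twist (H : RelHyp p M N P θ) {χ : G → ℂ} (hχ : IsCharacter G χ) (hext : ∀ x : N, χ x = (θ : N → ℂ) x) :
    ∃ Z : G →* ℂˣ, (∀ n ∈ N, Z n = 1) ∧ ∀ c ∈ sylC P, MemLocalIdeal M (χ c / χ 1 - (Z c : ℂ)) := by
  classical
  haveI := H.prime
  have hM := H.hM
  set w := Fintype.card G with hw
  have hw0 : w ≠ 0 := Fintype.card_ne_zero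
  set a := w.factorization p
  set m := ordCompl[p] w with hm
  have hwm : p ^ a * m = w := Nat.ordProj_mul_ordCompl_eq_self w p
  have hm0 : m ≠ 0 := by
    intro h
    rw [h, mul_zero] at hwm
    exact hw0 hwm.symm
  have hpm : ¬ p ∣ m := Nat.not_dvd_ordCompl hp.out hw0
  have hr : ∀ c ∈ sylC P, MemLocalRing M (χ c / χ 1) := fun c hc => H.rr_local hχ hext hc
  have hex : ∀ g : G, ∃ ζ : ℂ, ζ ^ m = 1 ∧ ∀ c ∈ sylC P, c⁻¹ * g ∈ N → MemLocalIdeal M (χ c / χ 1 - ζ) := by
    intro g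
    obtain ⟨c₀, hc₀, hg₀⟩ := H.hcov g
    have h1 : MemLocalIdeal M ((χ c₀ / χ 1) ^ (p ^ a * m) - 1) := by
      rw [hwm]
      refine H.rr_pow hχ hext hc₀ ?_
      rw [hw, pow_card_eq_one]
      exact N.one_mem
    obtain ⟨ζ, hζ, h2⟩ := exists_root_congr hM (hr c₀ hc₀) hm0 h1
    refine ⟨ζ, hζ, fun c hc hcg => ?_⟩
    have hd : c⁻¹ * c₀ ∈ sylC P := (sylC P).mul_mem ((sylC P).inv_mem hc) hc₀
    have hdN : c⁻¹ * c₀ ∈ N := by
      have e : c⁻¹ * c₀ = (c⁻¹ * g) * (c₀⁻¹ * g)⁻¹ := by group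
      rw [e]
      exact N.mul_mem hcg (N.inv_mem hg₀)
    have h3 := H.rr_mem hχ hext hd hdN
    have h4 := H.rr_mul hχ hext hc hd
    rw [mul_inv_cancel_left] at h4
    have e : χ c / χ 1 - ζ = (-(χ c / χ 1)) * (χ (c⁻¹ * c₀) / χ 1 - 1) +
        (χ c / χ 1 * (χ (c⁻¹ * c₀) / χ 1) - χ c₀ / χ 1) + (χ c₀ / χ 1 - ζ) := by ring
    rw [e]
    exact memLocalIdeal_add (memLocalIdeal_add (memLocalIdeal_mul_left (memLocalRing_neg (hr c hc)) h3) h4) h2
  choose Zf hZm hZc using hex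
  have hone : ∀ n ∈ N, Zf n = 1 := by
    intro n hn
    have h1 := hZc n 1 (sylC P).one_mem (by simpa using hn)
    rw [H.rr_one hχ hext] at h1
    exact (root_unique hM hm0 hpm (hZm n) (one_pow m) (memLocalIdeal_sub_comm.mp h1))
  have hmul : ∀ g h, Zf (g * h) = Zf g * Zf h := by
    intro g h
    obtain ⟨c, hc, hg⟩ := H.hcov g
    obtain ⟨d, hd, hh⟩ := H.hcov h
    have h1 := hZc g c hc hg
    have h2 := hZc h d hd hh
    have hcd : (c * d)⁻¹ * (g * h) ∈ N := by
      have e : (c * d)⁻¹ * (g * h) = d⁻¹ * (c⁻¹ * g) * d * (d⁻¹ * h) := by group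
      rw [e]
      refine N.mul_mem ?_ hh
      have := hN.conj_mem _ hg d⁻¹
      simpa using this
    have h3 := hZc (g * h) (c * d) ((sylC P).mul_mem hc hd) hcd
    have h4 := H.rr_mul hχ hext hc hd
    refine root_unique hM hm0 hpm (hZm _) (by rw [mul_pow, hZm, hZm, one_mul]) ?_
    have e : Zf (g * h) - Zf g * Zf h = -(χ (c * d) / χ 1 - Zf (g * h)) - (χ c / χ 1 * (χ d / χ 1) - χ (c * d) / χ 1) +
        (χ d / χ 1) * (χ c / χ 1 - Zf g) + (Zf g) * (χ d / χ 1 - Zf h) := by ring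
    rw [e]
    exact memLocalIdeal_add (memLocalIdeal_add (memLocalIdeal_sub (memLocalIdeal_neg h3) h4)
      (memLocalIdeal_mul_left (hr d hd) h1)) (memLocalIdeal_mul_left (root_local hm0 (hZm g)) h2)
  let Z₀ : G →* ℂ := { toFun := Zf, map_one' := hone 1 N.one_mem, map_mul' := hmul }
  refine ⟨Z₀.toHomUnits, fun n hn => ?_, fun c hc => ?_⟩
  · apply Units.ext
    rw [MonoidHom.coe_toHomUnits]
    exact hone n hn
  · rw [MonoidHom.coe_toHomUnits]
    exact hZc c c hc (by simp [N.one_mem])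

/-- An extension congruent to the principal character on the centralizer of `P`. -/
theorem RelHyp.exists_U (H : RelHyp p M N P θ) (ψ : IrrCharacter G) (hext : ∀ x : N, (ψ : G → ℂ) x = (θ : N → ℂ) x) :
    ∃ χ : IrrCharacter G, (∀ x : N, (χ : G → ℂ) x = (θ : N → ℂ) x) ∧
      ∀ c ∈ sylC P, MemLocalIdeal M ((χ : G → ℂ) c / (χ : G → ℂ) 1 - 1) := by
  classical
  haveI := H.prime
  obtain ⟨Z, hZN, hZ⟩ := H.exists_twist (IsIrrCharacter.isCharacter ψ.2) hext
  have hL := Cfsg.Agent.Lib.Degree.isCharacter_of_units_hom (Z⁻¹)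
  have hL1 : (fun e => (((Z⁻¹) e : ℂˣ) : ℂ)) 1 = 1 := by simp
  refine ⟨⟨_, isIrr_mul_linear ψ.2 hL hL1⟩, fun x => ?_, fun c hc => ?_⟩
  · simp only [Pi.mul_apply, MonoidHom.inv_apply, hZN x x.2, inv_one, Units.val_one, mul_one, hext]
  · simp only [Pi.mul_apply, MonoidHom.inv_apply, map_one, inv_one, Units.val_one, mul_one]
    have h1 := hZ c hc
    have hm : (Fintype.card G) ≠ 0 := Fintype.card_ne_zero
    have h2 : (((Z c)⁻¹ : ℂˣ) : ℂ) ^ (Fintype.card G) = 1 := by
      rw [← Units.val_pow_eq_pow_val, ← map_inv, ← map_pow, pow_card_eq_one, map_one, Units.val_one]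
    have e : (ψ : G → ℂ) c * (((Z c)⁻¹ : ℂˣ) : ℂ) / (ψ : G → ℂ) 1 - 1 =
        ((ψ : G → ℂ) c / (ψ : G → ℂ) 1 - (Z c : ℂ)) * (((Z c)⁻¹ : ℂˣ) : ℂ) := by
      have h3 : (Z c : ℂ) * (((Z c)⁻¹ : ℂˣ) : ℂ) = 1 := by simp
      linear_combination h3
    rw [e]
    exact memLocalIdeal_mul_right h1 (root_local hm h2)

section Fixed

variable (H : RelHyp p M N P θ) {χ : G → ℂ} (hχ : IsCharacter G χ) (hext : ∀ x : N, χ x = (θ : N → ℂ) x)
  (hU : ∀ c ∈ sylC P, MemLocalIdeal M (χ c / χ 1 - 1))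

include H hχ hext hU

theorem RelHyp.cong_coset {z : MonoidAlgebra ℂ G} (hz : RelInv N z) (hi : IntCoeff z) {g : G} (hs : SuppC N g z) :
    MemLocalIdeal M (om χ z - eps z) := by
  classical
  haveI := H.prime
  have hirr := H.res_irr hχ hext
  have hcf := IsCharacter.isClassFunction hχ
  obtain ⟨c, hc, hcg⟩ := H.hcov g
  have hs' : SuppC N c z := hs.of_inv_mul_mem hcg
  have hw : 0 < Fintype.card G := Fintype.card_pos
  obtain ⟨v, hv⟩ : ∃ v, Fintype.card G = v + 1 := ⟨Fintype.card G - 1, by omega⟩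
  have h1 : c * c ^ v = 1 := by
    have : c ^ (v + 1) = 1 := by
      rw [← hv]
      exact pow_card_eq_one
    rwa [pow_succ'] at this
  have r₃ : RelInv N (sigmaN N c) := relInv_sigmaN N c
  have h2 := H.cong_of_supp hχ hext (hz.mul (r₃.pow v)) (hi.mul ((intCoeff_sigmaN N c).pow v))
    (t := c * c ^ v) (by rw [h1]; exact N.one_mem) (hs'.mul ((suppC_sigmaN N c).pow v))
  rw [om_mul_rel hχ hirr hz, om_pow_rel hχ hirr (H.one_ne hχ hext) r₃, eps_mul, eps_pow, eps_sigmaN,
    om_sigmaN N hcf] at h2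
  have hloc := H.om_local hχ hext hz hi
  have hm := memLocalRing_natCast (M := M) (mN N c)
  have hr := H.rr_local hχ hext hc
  have h3 : MemLocalIdeal M ((mN N c : ℂ) * (χ c / χ 1) - (mN N c : ℂ)) := by
    have e : (mN N c : ℂ) * (χ c / χ 1) - (mN N c : ℂ) = (mN N c : ℂ) * (χ c / χ 1 - 1) := by ring
    rw [e]
    exact memLocalIdeal_mul_left hm (hU c hc)
  have h4 := memLocalIdeal_pow_sub_pow (memLocalRing_mul hm hr) hm h3 v
  have hepsl : MemLocalRing M (eps z) := by
    unfold eps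
    refine memLocalRing_sum _ _ fun u _ => ?_
    obtain ⟨k, hk⟩ := hi u
    rw [hk]
    exact memLocalRing_intCast k
  have h5 : MemLocalIdeal M ((om χ z - eps z) * (mN N c : ℂ) ^ v) := by
    have e : (om χ z - eps z) * (mN N c : ℂ) ^ v = om χ z * ((mN N c : ℂ) * (χ c / χ 1)) ^ v - eps z * (mN N c : ℂ) ^ v -
        om χ z * (((mN N c : ℂ) * (χ c / χ 1)) ^ v - (mN N c : ℂ) ^ v) := by ring
    rw [e]
    exact memLocalIdeal_sub h2 (memLocalIdeal_mul_left hloc h4)
  have hunit : ¬ p ∣ mN N c ^ v := fun h => RelHyp.m_unit hc (Nat.Prime.dvd_of_dvd_pow hp.out h)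
  have hu := not_memLocalIdeal_natCast H.hM hunit
  have hl := memLocalRing_natCast (M := M) (mN N c ^ v)
  push_cast at hu hl
  exact memLocalIdeal_of_mul_unit hl hu h5

theorem RelHyp.cong_all {z : MonoidAlgebra ℂ G} (hz : RelInv N z) (hi : IntCoeff z) :
    MemLocalIdeal M (om χ z - eps z) := by
  classical
  haveI := H.prime
  haveI : Fintype (G ⧸ N) := Fintype.ofFinite _
  let zt : G ⧸ N → MonoidAlgebra ℂ G := fun t => ofFun (fun u => if (u : G ⧸ N) = t then z.coeff u else 0)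
  have hct : ∀ t u, (zt t).coeff u = if (u : G ⧸ N) = t then z.coeff u else 0 := fun t u => coeff_ofFun _ u
  have hsum : z = ∑ t, zt t := by
    apply ext_coeff
    intro u
    rw [MonoidAlgebra.coeff_sum, Finset.sum_apply']
    simp only [hct]
    rw [Finset.sum_ite_eq]
    simp
  have hconj : ∀ x ∈ N, ∀ u : G, ((x * u * x⁻¹ : G) : G ⧸ N) = (u : G ⧸ N) := by
    intro x hx u
    rw [QuotientGroup.eq]
    have e : (x * u * x⁻¹)⁻¹ * u = x * (u⁻¹ * x⁻¹ * u) := by group
    rw [e]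
    refine N.mul_mem hx ?_
    have := hN.conj_mem _ (N.inv_mem hx) u⁻¹
    simpa using this
  have hrel : ∀ t, RelInv N (zt t) := by
    intro t x hx u
    rw [hct, hct, hconj x hx u, hz x hx u]
  have hint : ∀ t, IntCoeff (zt t) := by
    intro t u
    rw [hct]
    split_ifs
    · exact hi u
    · exact ⟨0, by simp⟩
  have hsupp : ∀ t, SuppC N (Quotient.out t) (zt t) := by
    intro t u hu
    rw [hct] at hu
    have h1 : (u : G ⧸ N) = t := by
      by_contra h
      exact hu (if_neg h)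
    rw [← QuotientGroup.eq, h1]
    exact QuotientGroup.out_eq' t
  have h1 : om χ z - eps z = ∑ t, (om χ (zt t) - eps (zt t)) := by
    rw [Finset.sum_sub_distrib, ← om_sum, ← eps_sum, ← hsum]
  rw [h1]
  exact memLocalIdeal_sum _ _ fun t _ => H.cong_coset hχ hext hU (hrel t) (hint t) (hsupp t)

/-- The congruence in a subgroup containing `N`. -/
theorem RelHyp.sameBlock_sub {J : Subgroup G} [Fintype J] (hNJ : N ≤ J) :
    SameBlock M (fun _ : J => (1 : ℂ)) (fun y : J => χ y) := by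
  classical
  haveI := H.prime
  intro y
  have hcfJ : IsClassFunction J (fun y : J => χ y) := IsCharacter.isClassFunction (IsCharacter.restrict J hχ)
  have hone : IsClassFunction J (fun _ : J => (1 : ℂ)) := fun _ _ => rfl
  have hc := isCentralElt_classSum y
  have h1 := H.cong_all hχ hext hU (relInv_pushZ hNJ hc) (intCoeff_pushZ (intCoeff_classSum y))
  rw [om_pushZ, eps_pushZ, om_classSum hcfJ] at h1
  have h2 : eps (classSum y) = centralChar (fun _ : J => (1 : ℂ)) y := by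
    rw [← om_classSum hone, eps_eq_tr]
    unfold om
    simp
  rw [h2] at h1
  exact memLocalIdeal_sub_comm.mp h1

theorem RelHyp.sameBlock_top : SameBlock M (fun _ : G => (1 : ℂ)) χ := by
  classical
  haveI := H.prime
  intro y
  have hcf := IsCharacter.isClassFunction hχ
  have hone : IsClassFunction G (fun _ : G => (1 : ℂ)) := fun _ _ => rfl
  have hc := isCentralElt_classSum y
  have hrel : RelInv N (classSum y) := fun x _ u => hc x u
  have h1 := H.cong_all hχ hext hU hrel (intCoeff_classSum y)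
  rw [om_classSum hcf] at h1
  have h2 : eps (classSum y) = centralChar (fun _ : G => (1 : ℂ)) y := by
    rw [← om_classSum hone, eps_eq_tr]
    unfold om
    simp
  rw [h2] at h1
  exact memLocalIdeal_sub_comm.mp h1

end Fixed

end Main

end Cfsg.Agent.Lib.Degree
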