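import Mathlib
import Cfsg.Agent.Lib.Perm.PermModule
import Cfsg.Agent.Lib.Degree.Sums
import Cfsg.Agent.Lib.Char.Constituent

/-!
# Fixed vectors of normalizers of trivial-intersection Sylow subgroups have large degree.
-/

set_option autoImplicit false
set_option linter.unusedSectionVars false
set_option linter.style.haveILetI false

open scoped ComplexConjugate Pointwise
open Module

namespace Cfsg.Agent.Lib.Degree

open Cfsg Cfsg.Agent.Lib.Char

universe u v w

/-- A free action decomposes sums over orbits. -/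
theorem exists_transversal_sum {α : Type w} {β : Type v} [Group α] [Fintype α] [Fintype β] [MulAction α β]
    (hfree : ∀ (a : α) (b : β), a • b = b → a = 1) {M : Type*} [AddCommMonoid M] :
    ∃ (ι : Type v) (_ : Fintype ι) (r : ι → β), ∀ (F : β → M),
      ∑ b, F b = ∑ i, ∑ a : α, F (a • r i) := by
  classical
  let Ω := Quotient (MulAction.orbitRel α β)
  let e : Ω × α → β := fun q => q.2 • q.1.out
  have hinj : Function.Injective e := by
    rintro ⟨ω, a⟩ ⟨ω', a'⟩ h
    have h1 : a • ω.out = a' • ω'.out := h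
    have h2 : ω = ω' := by
      have h3 : ω'.out ∈ MulAction.orbit α ω.out := by
        refine ⟨a'⁻¹ * a, ?_⟩
        show (a'⁻¹ * a) • ω.out = _
        rw [mul_smul, h1, inv_smul_smul]
      have h4 : (MulAction.orbitRel α β).r ω'.out ω.out := h3
      rw [← ω.out_eq, ← ω'.out_eq]
      exact (Quotient.sound h4).symm
    subst h2
    have h5 : (a'⁻¹ * a) • ω.out = ω.out := by rw [mul_smul, h1, inv_smul_smul]
    have h6 := hfree _ _ h5
    have h7 : a = a' := by
      rw [inv_mul_eq_one] at h6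
      exact h6.symm
    rw [h7]
  have hsurj : Function.Surjective e := by
    intro b
    have h1 : (MulAction.orbitRel α β).r (Quotient.out (Quotient.mk _ b : Ω)) b :=
      Quotient.exact (Quotient.out_eq _)
    obtain ⟨a, ha⟩ := (MulAction.orbitRel α β).symm h1
    refine ⟨(Quotient.mk _ b, a), ?_⟩
    exact ha
  let E : Ω × α ≃ β := Equiv.ofBijective e ⟨hinj, hsurj⟩
  haveI : Fintype Ω := Fintype.ofFinite _
  refine ⟨Ω, inferInstance, fun ω => ω.out, fun F => ?_⟩
  rw [← Equiv.sum_comp E, Fintype.sum_prod_type]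
  rfl

variable {G : Type u} [Group G] [Fintype G] {p : ℕ} [hp : Fact p.Prime]

/-- A `p`-element normalizing a conjugate of a trivial-intersection Sylow subgroup is trivial. -/
theorem eq_one_of_ti {P : Sylow p G}
    (hTI : ∀ g : G, g ∉ Subgroup.normalizer ((P : Subgroup G) : Set G) →
      (P : Subgroup G) ⊓ (MulAut.conj g • (P : Subgroup G)) = ⊥)
    {g n u : G} (hg : g ∉ Subgroup.normalizer ((P : Subgroup G) : Set G))
    (hn : n ∈ Subgroup.normalizer ((P : Subgroup G) : Set G)) (hu : u ∈ (P : Subgroup G))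
    (h : u * g = g * n) : u = 1 := by
  let S : Sylow p G := g • P
  have hS : (S : Subgroup G) = MulAut.conj g • (P : Subgroup G) := rfl
  have hmemS : ∀ y, y ∈ (S : Subgroup G) ↔ g⁻¹ * y * g ∈ (P : Subgroup G) := by
    intro y
    rw [hS, Subgroup.mem_pointwise_smul_iff_inv_smul_mem]
    simp [MulAut.smul_def, mul_assoc]
  have hu' : u = g * n * g⁻¹ := eq_mul_inv_of_mul_eq (by rw [h])
  have h1 : u ∈ Subgroup.normalizer ((S : Subgroup G) : Set G) := by
    rw [Subgroup.mem_normalizer_iff]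
    intro y
    simp only [hmemS]
    have key : g⁻¹ * (u * y * u⁻¹) * g = n * (g⁻¹ * y * g) * n⁻¹ := by
      rw [hu']
      group
    rw [key]
    exact Subgroup.mem_normalizer_iff.mp hn (g⁻¹ * y * g)
  have h3 := IsPGroup.inf_normalizer_sylow P.2 S
  have h2 : u ∈ (P : Subgroup G) ⊓ (S : Subgroup G) := by
    rw [← h3]
    exact ⟨hu, h1⟩
  rw [hS, hTI g hg] at h2
  exact h2

/-- The orbit relation: `x` plus the `P`-translates of `w` vanish. -/
theorem exists_decomposition {P : Sylow p G} [Fintype (P : Subgroup G)]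
    (hTI : ∀ g : G, g ∉ Subgroup.normalizer ((P : Subgroup G) : Set G) →
      (P : Subgroup G) ⊓ (MulAut.conj g • (P : Subgroup G)) = ⊥)
    {n : ℕ} (ρ : Representation ℂ G (Fin n → ℂ)) (x : Fin n → ℂ)
    (hfix : ∀ g ∈ Subgroup.normalizer ((P : Subgroup G) : Set G), ρ g x = x)
    (hsum : ∑ g, ρ g x = 0) :
    ∃ (ι : Type u) (_ : Fintype ι) (r : ι → G),
      x + ∑ u : (P : Subgroup G), ρ (u : G) (∑ i, ρ (r i) x) = 0 := by
  classical
  let N : Subgroup G := Subgroup.normalizer ((P : Subgroup G) : Set G)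
  have hPN : (P : Subgroup G) ≤ N := Subgroup.le_normalizer
  let S := {g : G // g ∉ N}
  letI act : MulAction (↥(P : Subgroup G) × ↥N) S :=
    { smul := fun a g => ⟨(a.1 : G) * g.1 * (a.2 : G)⁻¹, fun h => g.2 (by
        have h1 : g.1 = (a.1 : G)⁻¹ * ((a.1 : G) * g.1 * (a.2 : G)⁻¹) * (a.2 : G) := by group
        rw [h1]
        exact N.mul_mem (N.mul_mem (N.inv_mem (hPN a.1.2)) h) a.2.2)⟩
      one_smul := fun g => by
        apply Subtype.ext
        show ((1 : (P : Subgroup G)) : G) * g.1 * ((1 : N) : G)⁻¹ = g.1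
        simp
      mul_smul := fun a b g => by
        apply Subtype.ext
        show (((a.1 * b.1 : (P : Subgroup G)) : G)) * g.1 * ((a.2 * b.2 : N) : G)⁻¹ =
          (a.1 : G) * ((b.1 : G) * g.1 * (b.2 : G)⁻¹) * (a.2 : G)⁻¹
        simp only [Subgroup.coe_mul, mul_inv_rev]
        group }
  have hsmul : ∀ (a : ↥(P : Subgroup G) × ↥N) (g : S), ((a • g : S) : G) = (a.1 : G) * g.1 * (a.2 : G)⁻¹ :=
    fun _ _ => rfl
  have hfree : ∀ (a : ↥(P : Subgroup G) × ↥N) (b : S), a • b = b → a = 1 := by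
    intro a b h
    have h1 : (a.1 : G) * b.1 * (a.2 : G)⁻¹ = b.1 := by
      rw [← hsmul, h]
    have h2 : (a.1 : G) * b.1 = b.1 * a.2 := mul_inv_eq_iff_eq_mul.mp h1
    have h3 : (a.1 : G) = 1 := eq_one_of_ti hTI b.2 a.2.2 a.1.2 h2
    have h4 : (a.2 : G) = 1 := by
      rw [h3, one_mul] at h2
      simpa using h2.symm
    exact Prod.ext (Subtype.ext h3) (Subtype.ext h4)
  haveI : Fintype N := Fintype.ofFinite N
  obtain ⟨ι, hι, r, hr⟩ := exists_transversal_sum (M := Fin n → ℂ) hfree
  refine ⟨ι, hι, fun i => (r i : G), ?_⟩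
  have hN0 : ∑ g : {g : G // g ∈ N}, ρ g.1 x = (Fintype.card N : ℂ) • x := by
    have : ∀ g : {g : G // g ∈ N}, ρ g.1 x = x := fun g => hfix g.1 g.2
    simp only [this, Finset.sum_const, Finset.card_univ]
    rw [Nat.cast_smul_eq_nsmul]
  have hS0 : ∑ g : S, ρ g.1 x = (Fintype.card N : ℂ) • ∑ u : (P : Subgroup G), ρ (u : G) (∑ i, ρ (r i : G) x) := by
    rw [hr (fun g : S => ρ g.1 x), Finset.smul_sum]
    have h1 : ∀ (i : ι) (a : ↥(P : Subgroup G) × ↥N), ρ ((a • r i : S) : G) x = ρ (a.1 : G) (ρ (r i : G) x) := by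
      intro i a
      rw [hsmul, map_mul, map_mul]
      show (ρ (a.1 : G) * ρ (r i : G)) (ρ (a.2 : G)⁻¹ x) = _
      rw [hfix _ (N.inv_mem a.2.2)]
      rfl
    simp only [h1, Fintype.sum_prod_type, Finset.sum_const, Finset.card_univ, map_sum]
    rw [Finset.sum_comm]
    refine Finset.sum_congr rfl fun u _ => ?_
    rw [Finset.smul_sum]
    refine Finset.sum_congr rfl fun i _ => ?_
    rw [Nat.cast_smul_eq_nsmul]
  have htot : ∑ g : {g : G // g ∈ N}, ρ g.1 x + ∑ g : S, ρ g.1 x = 0 := by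
    rw [← hsum]
    convert Fintype.sum_subtype_add_sum_subtype (fun g : G => g ∈ N) (fun g : G => ρ g x)
  rw [hN0, hS0, ← smul_add] at htot
  have hcard : (Fintype.card N : ℂ) ≠ 0 := by
    exact_mod_cast Fintype.card_ne_zero
  exact (smul_eq_zero.mp htot).resolve_left hcard

/-- Key rank lemma: if `f : P → ℂ` is valued in a valuation ring over `p` and the matrix
`f (u * v)` has rank below `|P|`, then the sum of the values of `f` is a non-unit. -/
theorem sum_mem_nonunits_of_low_rank {Q : Type v} [Group Q] [Fintype Q] [DecidableEq Q]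
    (hQ : IsPGroup p Q) (B : ValuationSubring ℂ) (hpB : (p : ℂ) ∈ B.nonunits) {n : ℕ}
    (hn : n < Fintype.card Q) (f : Q → ℂ) (hf : ∀ u, f u ∈ B)
    (Φ : Matrix Q (Fin n) ℂ) (W : Matrix (Fin n) Q ℂ)
    (hfac : ∀ u v, f (u * v) = (Φ * W) u v) : ∑ u, f u ∈ B.nonunits := by
  classical
  -- Step 1: the complex matrix is singular.
  have hdet : (Φ * W).det = 0 := by
    have hker : LinearMap.ker W.mulVecLin ≠ ⊥ := by
      apply LinearMap.ker_ne_bot_of_finrank_lt
      simpa using hn
    obtain ⟨c, hc, hc0⟩ := Submodule.exists_mem_ne_zero_of_ne_bot hker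
    apply Matrix.exists_mulVec_eq_zero_iff.mp
    refine ⟨c, hc0, ?_⟩
    rw [← Matrix.mulVec_mulVec]
    have : W.mulVec c = 0 := hc
    rw [this, Matrix.mulVec_zero]
  -- Step 2: the same matrix over the valuation ring.
  let g : Q → B := fun u => ⟨f u, hf u⟩
  let AB : Matrix Q Q B := Matrix.of fun u v => g (u * v)
  have hAB : (B.subtype.mapMatrix AB) = Φ * W := by
    ext u v
    simp only [RingHom.mapMatrix_apply, Matrix.map_apply, AB, Matrix.of_apply]
    exact hfac u v
  have hdetB : AB.det = 0 := by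
    apply Subtype.ext
    have h1 : ((AB.det : B) : ℂ) = (B.subtype.mapMatrix AB).det := by
      rw [← RingHom.map_det]
      rfl
    rw [h1, hAB, hdet]
    rfl
  -- Step 3: the residue field.
  let k := IsLocalRing.ResidueField B
  let res : B →+* k := IsLocalRing.residue B
  have hres0 : ∀ a : B, (a : ℂ) ∈ B.nonunits ↔ res a = 0 := by
    intro a
    rw [ValuationSubring.coe_mem_nonunits_iff]
    exact (IsLocalRing.residue_eq_zero_iff a).symm
  have hpk : (p : k) = 0 := by
    have h1 : ((p : B) : ℂ) ∈ B.nonunits := by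
      have : ((p : B) : ℂ) = (p : ℂ) := by simp
      rwa [this]
    have h2 := (hres0 _).mp h1
    rwa [map_natCast] at h2
  haveI hchar : CharP k p := by
    have h1 := CharP.ringChar_of_prime_eq_zero (hp.out) hpk
    exact ringChar.of_eq h1
  let Ak : Matrix Q Q k := res.mapMatrix AB
  have hdetk : Ak.det = 0 := by
    show (res.mapMatrix AB).det = 0
    rw [← RingHom.map_det, hdetB, map_zero]
  obtain ⟨c, hc0, hc⟩ := Matrix.exists_mulVec_eq_zero_iff.mpr hdetk
  -- Step 4: translation action on the kernel.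
  have hA : ∀ u v, Ak u v = res (g (u * v)) := fun u v => rfl
  let τ : Q →* Module.End k (Q → k) :=
    { toFun := fun t =>
        { toFun := fun a v => a (t⁻¹ * v)
          map_add' := fun _ _ => rfl
          map_smul' := fun _ _ => rfl }
      map_one' := by
        ext a v
        simp
      map_mul' := fun s t => by
        ext a v
        simp [mul_assoc] }
  have hτ : ∀ t a v, τ t a v = a (t⁻¹ * v) := fun _ _ _ => rfl
  have hstable : ∀ t, ∀ a ∈ LinearMap.ker Ak.mulVecLin, τ t a ∈ LinearMap.ker Ak.mulVecLin := by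
    intro t a ha
    rw [LinearMap.mem_ker, Matrix.mulVecLin_apply] at ha ⊢
    funext u
    have h1 := congrFun ha (u * t)
    simp only [Matrix.mulVec, dotProduct, Pi.zero_apply, hA] at h1 ⊢
    rw [← h1]
    refine Fintype.sum_equiv (Equiv.mulLeft t⁻¹) _ _ fun v => ?_
    rw [hτ]
    simp [mul_assoc]
  obtain ⟨d, hd, hd0, hdfix⟩ := Cfsg.Agent.Lib.Perm.exists_fixed_vector hQ τ
    (LinearMap.ker Ak.mulVecLin) hstable c hc hc0
  -- Step 5: the fixed vector is constant.
  have hconst : ∀ v, d v = d 1 := by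
    intro v
    have h1 := congrFun (hdfix v⁻¹) 1
    rw [hτ] at h1
    simpa using h1
  have hd1 : d 1 ≠ 0 := by
    intro h
    apply hd0
    funext v
    rw [hconst v, h]
    rfl
  rw [LinearMap.mem_ker, Matrix.mulVecLin_apply] at hd
  have h2 := congrFun hd 1
  simp only [Matrix.mulVec, dotProduct, Pi.zero_apply, hA, one_mul] at h2
  simp only [hconst] at h2
  rw [← Finset.sum_mul] at h2
  have h3 : ∑ v, res (g v) = 0 := (mul_eq_zero.mp h2).resolve_right hd1
  rw [← map_sum] at h3
  have h4 := (hres0 _).mpr h3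
  have h5 : ((∑ v, g v : B) : ℂ) = ∑ u, f u := by
    simp [g]
  rwa [h5] at h4

/-- There is a valuation subring of `ℂ` in which the prime `p` is a non-unit. -/
theorem exists_valuationSubring_nonunit (p : ℕ) [hp : Fact p.Prime] :
    ∃ B : ValuationSubring ℂ, (p : ℂ) ∈ B.nonunits := by
  classical
  let A : Subring ℂ := (Int.castRingHom ℂ).range
  let a : A := ⟨(p : ℂ), ⟨(p : ℤ), by simp⟩⟩
  let I : Ideal A := Ideal.span {a}
  have hI : I ≠ ⊤ := by
    rw [Ne, Ideal.span_singleton_eq_top]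
    intro hu
    obtain ⟨b, hb⟩ := hu.exists_right_inv
    obtain ⟨z, hz⟩ := b.2
    have h1 : ((a * b : A) : ℂ) = 1 := by rw [hb]; rfl
    have h2 : ((a * b : A) : ℂ) = (p : ℂ) * b := rfl
    rw [h2, ← hz] at h1
    have h3 : ((p : ℤ) * z : ℤ) = 1 := by
      have : (((p : ℤ) * z : ℤ) : ℂ) = ((1 : ℤ) : ℂ) := by
        push_cast
        simpa using h1
      exact_mod_cast this
    have h4 : (p : ℤ) ∣ 1 := ⟨z, h3.symm⟩
    have h5 : p ∣ 1 := by exact_mod_cast h4
    exact hp.out.one_lt.ne' (Nat.dvd_one.mp h5)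
  obtain ⟨B, -, hB⟩ := Ideal.image_subset_nonunits_valuationSubring I hI
  refine ⟨B, hB ⟨a, Ideal.subset_span rfl, rfl⟩⟩

/-- A non-zero `N_G(P)`-fixed vector in a representation without trivial `G`-average lives in a
representation of degree at least `|P|`. -/
theorem card_le_of_fixed {P : Sylow p G}
    (hTI : ∀ g : G, g ∉ Subgroup.normalizer ((P : Subgroup G) : Set G) →
      (P : Subgroup G) ⊓ (MulAut.conj g • (P : Subgroup G)) = ⊥)
    {n : ℕ} (ρ : Representation ℂ G (Fin n → ℂ)) (x : Fin n → ℂ) (hx : x ≠ 0)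
    (hfix : ∀ g ∈ Subgroup.normalizer ((P : Subgroup G) : Set G), ρ g x = x)
    (hsum : ∑ g, ρ g x = 0) : Nat.card (P : Subgroup G) ≤ n := by
  classical
  by_contra hlt
  rw [not_le] at hlt
  haveI : Fintype (P : Subgroup G) := Fintype.ofFinite _
  rw [Nat.card_eq_fintype_card] at hlt
  obtain ⟨ι, hι, r, hdec⟩ := exists_decomposition hTI ρ x hfix hsum
  obtain ⟨B, hpB⟩ := exists_valuationSubring_nonunit p
  obtain ⟨i₀, hi₀⟩ : ∃ i, x i ≠ 0 := by
    by_contra h
    push Not at h
    exact hx (funext h)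
  obtain ⟨g₀, -, hg₀⟩ := Finset.exists_max_image Finset.univ
    (fun g : G => B.valuation ((ρ g x) i₀)) Finset.univ_nonempty
  have hg₀' : ∀ g, B.valuation ((ρ g x) i₀) ≤ B.valuation ((ρ g₀ x) i₀) :=
    fun g => hg₀ g (Finset.mem_univ g)
  let y₀ := (ρ g₀ x) i₀
  have hy₀ : y₀ ≠ 0 := by
    intro h
    have h1 := hg₀' 1
    rw [map_one ρ] at h1
    simp only [Module.End.one_apply] at h1
    have h2 : B.valuation y₀ = 0 := by rw [h, map_zero]
    have h3 : B.valuation (x i₀) = 0 := le_antisymm (h1.trans h2.le) zero_le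
    rw [map_eq_zero] at h3
    exact hi₀ h3
  let φ : (Fin n → ℂ) →ₗ[ℂ] ℂ := y₀⁻¹ • (LinearMap.proj i₀ ∘ₗ ρ g₀)
  have hφ : ∀ y, φ y = y₀⁻¹ * (ρ g₀ y) i₀ := fun y => rfl
  have hφx : φ x = 1 := by
    rw [hφ]
    exact inv_mul_cancel₀ hy₀
  have hφB : ∀ g, φ (ρ g x) ∈ B := by
    intro g
    rw [← B.valuation_le_one_iff, hφ]
    have h1 : (ρ g₀) ((ρ g) x) = ρ (g₀ * g) x := by rw [map_mul]; rfl
    rw [h1, map_mul, map_inv₀]
    have hv : B.valuation y₀ ≠ 0 := by rwa [Ne, map_eq_zero]
    rw [inv_mul_le_iff₀ (zero_lt_iff.mpr hv), mul_one]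
    exact hg₀' _
  let w : Fin n → ℂ := ∑ i, ρ (r i) x
  let f : ↥(P : Subgroup G) → ℂ := fun u => φ (ρ (u : G) w)
  have hf : ∀ u, f u ∈ B := by
    intro u
    show φ (ρ (u : G) w) ∈ B
    simp only [w, map_sum]
    refine sum_mem fun i _ => ?_
    have h1 : (ρ (u : G)) ((ρ (r i)) x) = ρ ((u : G) * r i) x := by rw [map_mul]; rfl
    rw [h1]
    exact hφB _
  have hsumf : ∑ u, f u = -1 := by
    have h1 := congrArg φ hdec
    rw [map_add, hφx, map_sum, map_zero] at h1
    exact (neg_eq_of_add_eq_zero_right h1).symm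
  let e : Fin n → (Fin n → ℂ) := fun i => fun j => if i = j then 1 else 0
  let Φ : Matrix ↥(P : Subgroup G) (Fin n) ℂ := Matrix.of fun u i => φ (ρ (u : G) (e i))
  let W : Matrix (Fin n) ↥(P : Subgroup G) ℂ := Matrix.of fun i v => (ρ (v : G) w) i
  have hfac : ∀ u v, f (u * v) = (Φ * W) u v := by
    intro u v
    have h1 : ρ (v : G) w = ∑ i, (ρ (v : G) w) i • e i := by
      funext j
      simp [e, Finset.sum_apply]
    simp only [Matrix.mul_apply, Φ, W, Matrix.of_apply, f]
    have h2 : ρ ((u * v : (P : Subgroup G)) : G) w = ρ (u : G) (ρ (v : G) w) := by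
      rw [Subgroup.coe_mul, map_mul]
      rfl
    rw [h2]
    conv_lhs => rw [h1]
    rw [map_sum, map_sum]
    refine Finset.sum_congr rfl fun i _ => ?_
    rw [map_smul, map_smul, smul_eq_mul, mul_comm]
  have hQ : IsPGroup p (P : Subgroup G) := P.isPGroup'
  have hmem := sum_mem_nonunits_of_low_rank hQ B hpB hlt f hf Φ W hfac
  rw [hsumf] at hmem
  have h1 : (-1 : ℂ) ∉ B.nonunits := by
    intro h
    have h2 := (B.mem_nonunits_iff.mp h)
    rw [Valuation.map_neg, map_one] at h2
    exact lt_irrefl _ h2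
  exact h1 hmem

/-- Non-principal irreducible characters of degree below `|P|` average to zero on each subgroup
containing the normalizer of the trivial-intersection Sylow subgroup `P`. -/
theorem irr_sum_subgroup_eq_zero {P : Sylow p G}
    (hTI : ∀ g : G, g ∉ Subgroup.normalizer ((P : Subgroup G) : Set G) →
      (P : Subgroup G) ⊓ (MulAut.conj g • (P : Subgroup G)) = ⊥)
    {H : Subgroup G} [Fintype H]
    (hH : Subgroup.normalizer ((P : Subgroup G) : Set G) ≤ H)
    (ξ : IrrCharacter G) (hξ : ξ ≠ principal G)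
    (hdeg : charDegree (ξ : G → ℂ) < Nat.card (P : Subgroup G)) :
    ∑ h : H, (ξ : G → ℂ) h = 0 := by
  classical
  obtain ⟨ξ, n, ρ, hρ, rfl⟩ := ξ
  by_contra hne
  let T : Module.End ℂ (Fin n → ℂ) := ∑ h : H, ρ (h : G)
  have hT : T ≠ 0 := by
    intro h0
    apply hne
    have h1 := congrArg (LinearMap.trace ℂ (Fin n → ℂ)) h0
    rw [map_zero, map_sum] at h1
    exact h1
  obtain ⟨y, hy⟩ : ∃ y, T y ≠ 0 := by
    by_contra h
    push Not at h
    exact hT (LinearMap.ext h)
  have hfix : ∀ g ∈ Subgroup.normalizer ((P : Subgroup G) : Set G), ρ g (T y) = T y := by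
    intro g hg
    have hgH : g ∈ H := hH hg
    simp only [T, LinearMap.sum_apply, map_sum]
    refine Fintype.sum_equiv (Equiv.mulLeft (⟨g, hgH⟩ : H)) _ _ fun h => ?_
    show ρ g (ρ (h : G) y) = ρ (g * (h : G)) y
    rw [map_mul]
    rfl
  have hsum0 : ∑ g : G, ρ g = 0 := by
    have h1 := sum_smul_eq_scalar ρ hρ (fun _ => 1) (fun _ _ => rfl)
    simp only [one_smul, one_mul] at h1
    have h2 := classInner_irr_of_ne ⟨n, ρ, hρ, rfl⟩ (principal G).2 (fun h => hξ (Subtype.ext h))
    rw [classInner_def] at h2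
    simp only [principal_apply, map_one, mul_one] at h2
    have h3 : ∑ g, ρ.character g = 0 := by
      rcases mul_eq_zero.mp h2 with h | h
      · exact absurd h (inv_ne_zero (by exact_mod_cast Nat.card_pos.ne'))
      · exact h
    rw [h1, h3, zero_div, zero_smul]
  have hsum : ∑ g : G, ρ g (T y) = 0 := by
    rw [← LinearMap.sum_apply, hsum0]
    rfl
  have hle := card_le_of_fixed hTI ρ (T y) hy hfix hsum
  have hd : charDegree ρ.character = n := by
    have := charDegree_natCast (χ := ρ.character) (n := n) (by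
      rw [Representation.char_one]; simp)
    exact this
  rw [hd] at hdeg
  omega

end Cfsg.Agent.Lib.Degree
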