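import Mathlib
import Cfsg.Agent.Lib.Degree.Camina
import Cfsg.Agent.Lib.Block.Kernel
import Cfsg.Agent.Lib.BPair.Basic
import Cfsg.Agent.Lib.Degree.Sums

/-!
# Irreducible characters nonzero on exactly two classes
-/

set_option autoImplicit false
set_option linter.unusedSectionVars false
set_option linter.unusedSimpArgs false
set_option linter.unusedVariables false

open scoped ComplexConjugate
open Cfsg
open Cfsg.Agent.Lib.Block Cfsg.Agent.Lib.Char

namespace Cfsg.Agent.Lib.Degree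

attribute [local instance] Cfsg.Agent.Lib.BPair.subFintype

section

variable {G : Type*} [Group G] [Fintype G]

/-- Two elements with nonzero value, different from `1`, are conjugate. -/
theorem conj_of_twoClass (χ : IrrCharacter G)
    (hχ : Nat.card {C : ConjClasses G // ∃ g ∈ C.carrier, (χ : G → ℂ) g ≠ 0} = 2)
    {x y : G} (hx : (χ : G → ℂ) x ≠ 0) (hx1 : x ≠ 1) (hy : (χ : G → ℂ) y ≠ 0) (hy1 : y ≠ 1) : IsConj x y := by
  classical
  have h1 : (χ : G → ℂ) 1 ≠ 0 := isIrr_one_ne_zero χ.2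
  let a : {C : ConjClasses G // ∃ g ∈ C.carrier, (χ : G → ℂ) g ≠ 0} :=
    ⟨ConjClasses.mk 1, 1, ConjClasses.mem_carrier_mk, h1⟩
  let b : {C : ConjClasses G // ∃ g ∈ C.carrier, (χ : G → ℂ) g ≠ 0} :=
    ⟨ConjClasses.mk x, x, ConjClasses.mem_carrier_mk, hx⟩
  let c : {C : ConjClasses G // ∃ g ∈ C.carrier, (χ : G → ℂ) g ≠ 0} :=
    ⟨ConjClasses.mk y, y, ConjClasses.mem_carrier_mk, hy⟩
  obtain ⟨d, hd, huniq⟩ := (Nat.card_eq_two_iff' a).1 hχ
  have hb : b ≠ a := by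
    intro h
    have h2 : ConjClasses.mk x = ConjClasses.mk 1 := congrArg Subtype.val h
    rw [ConjClasses.mk_eq_mk_iff_isConj, isConj_one_left] at h2
    exact hx1 h2
  have hc : c ≠ a := by
    intro h
    have h2 : ConjClasses.mk y = ConjClasses.mk 1 := congrArg Subtype.val h
    rw [ConjClasses.mk_eq_mk_iff_isConj, isConj_one_left] at h2
    exact hy1 h2
  have hbc : b = c := (huniq b hb).trans (huniq c hc).symm
  have h2 : ConjClasses.mk x = ConjClasses.mk y := congrArg Subtype.val hbc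
  exact ConjClasses.mk_eq_mk_iff_isConj.1 h2

/-- A nontrivial normal `p`-subgroup, all of whose non-identity elements are conjugate, is abelian. -/
theorem abelian_of_conj {p : ℕ} [hp : Fact p.Prime] {N : Subgroup G} [hNn : N.Normal] (hNp : IsPGroup p N)
    (hN1 : N ≠ ⊥) (hconj : ∀ x ∈ N, x ≠ 1 → ∀ y ∈ N, y ≠ 1 → IsConj x y) : ∀ a ∈ N, ∀ b ∈ N, a * b = b * a := by
  classical
  haveI : Nontrivial N := (Subgroup.nontrivial_iff_ne_bot N).2 hN1
  haveI := hNp.center_nontrivial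
  obtain ⟨z, hz⟩ := exists_ne (1 : Subgroup.center N)
  obtain ⟨z₀, hz₀⟩ : ∃ z₀ : G, z₀ = ((z : N) : G) := ⟨_, rfl⟩
  have hz₀N : z₀ ∈ N := by
    rw [hz₀]
    exact (z : N).2
  have hz₀1 : z₀ ≠ 1 := by
    rw [hz₀]
    intro h
    exact hz (Subtype.ext (Subtype.ext h))
  have hzc : ∀ c ∈ N, c * z₀ = z₀ * c := by
    intro c hc
    have h1 := Subgroup.mem_center_iff.1 z.2 ⟨c, hc⟩
    have h2 := congrArg Subtype.val h1
    rw [hz₀]
    exact h2
  intro a ha b hb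
  by_cases ha1 : a = 1
  · rw [ha1, one_mul, mul_one]
  obtain ⟨g, hg⟩ := isConj_iff.1 (hconj z₀ hz₀N hz₀1 a ha ha1)
  have hb' : g⁻¹ * b * g ∈ N := by
    have := hNn.conj_mem b hb g⁻¹
    simpa using this
  have h3 := hzc _ hb'
  calc a * b = g * (z₀ * (g⁻¹ * b * g)) * g⁻¹ := by rw [← hg]; group
    _ = g * ((g⁻¹ * b * g) * z₀) * g⁻¹ := by rw [h3]
    _ = b * a := by rw [← hg]; group

/-- Exponent `p`. -/
theorem exp_of_conj {p : ℕ} [hp : Fact p.Prime] {N : Subgroup G} (hNp : IsPGroup p N)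
    (hN1 : N ≠ ⊥) (hconj : ∀ x ∈ N, x ≠ 1 → ∀ y ∈ N, y ≠ 1 → IsConj x y) : ∀ a ∈ N, a ^ p = 1 := by
  classical
  obtain ⟨k, hk⟩ := IsPGroup.iff_card.1 hNp
  have hk0 : k ≠ 0 := by
    rintro rfl
    rw [pow_zero] at hk
    exact hN1 (Subgroup.eq_bot_of_card_eq N hk)
  obtain ⟨y, hy⟩ := exists_prime_orderOf_dvd_card' (G := N) p (by rw [hk]; exact dvd_pow_self p hk0)
  have hy' : orderOf (y : G) = p := by
    rw [Subgroup.orderOf_coe]
    exact hy
  have hy1 : (y : G) ≠ 1 := by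
    intro h
    rw [h, orderOf_one] at hy'
    exact hp.out.one_lt.ne hy'
  intro a ha
  by_cases ha1 : a = 1
  · rw [ha1, one_pow]
  have h1 := orderOf_eq_of_conj (hconj _ y.2 hy1 a ha ha1)
  have h2 : orderOf a = p := h1.symm.trans hy'
  rw [← h2]
  exact pow_orderOf_eq_one a

/-- All other irreducible characters have `N` in the kernel. -/
theorem ker_of_ne_twoClass (χ : IrrCharacter G) (N : Subgroup G) [hNn : N.Normal]
    (hN : ∀ g : G, g ∈ N ↔ (χ : G → ℂ) g ≠ 0) (hconj : ∀ x ∈ N, x ≠ 1 → ∀ y ∈ N, y ≠ 1 → IsConj x y)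
    (hχ1 : χ ≠ oneIrr G) {x : G} (hx : x ∈ N) (hx1 : x ≠ 1) (ψ : IrrCharacter G) (hψ : ψ ≠ χ) :
    ∀ n ∈ N, (ψ : G → ℂ) n = (ψ : G → ℂ) 1 := by
  classical
  have hval : ∀ n : N, (χ : G → ℂ) n = (χ : G → ℂ) x + if n = 1 then (χ : G → ℂ) 1 - (χ : G → ℂ) x else 0 := by
    intro n
    split_ifs with h
    · rw [h]
      simp
    · rw [add_zero]
      refine irr_map_isConj χ (hconj _ n.2 (fun h' => h (Subtype.ext h')) x hx hx1)
  have hsum : ∀ φ : IrrCharacter G, ∑ g : G, (χ : G → ℂ) g * conj ((φ : G → ℂ) g) =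
      (χ : G → ℂ) x * ∑ n : N, conj ((φ : G → ℂ) n) + ((χ : G → ℂ) 1 - (χ : G → ℂ) x) * conj ((φ : G → ℂ) 1) := by
    intro φ
    rw [sum_eq_sum_subgroup N _ (fun k hk => by
      have : (χ : G → ℂ) k = 0 := by
        by_contra h
        exact hk ((hN k).2 h)
      rw [this, zero_mul])]
    simp_rw [hval]
    simp_rw [add_mul, Finset.sum_add_distrib, ite_mul, zero_mul]
    rw [Finset.mul_sum]
    congr 1
    rw [Finset.sum_ite_eq' Finset.univ (1 : N)]
    simp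
  have hzero : ∀ φ : IrrCharacter G, φ ≠ χ → ∑ g : G, (χ : G → ℂ) g * conj ((φ : G → ℂ) g) = 0 := by
    intro φ hφ
    have h1 := classInner_irr_of_ne χ.2 φ.2 (fun h => hφ (Subtype.ext h.symm))
    unfold classInner at h1
    have hc : (Nat.card G : ℂ) ≠ 0 := by exact_mod_cast Nat.card_pos.ne'
    exact (mul_eq_zero.mp h1).resolve_left (inv_ne_zero hc)
  have hε : (χ : G → ℂ) x ≠ 0 := (hN x).1 hx
  have hone := hsum (oneIrr G)
  rw [hzero _ (Ne.symm hχ1)] at hone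
  simp only [oneIrr_coe, map_one, Finset.sum_const, Finset.card_univ, nsmul_eq_mul, mul_one] at hone
  have hψeq := hsum ψ
  rw [hzero ψ hψ] at hψeq
  have hcN : (Fintype.card N : ℂ) ≠ 0 := by
    exact_mod_cast Fintype.card_pos.ne'
  have hS : ∑ n : N, conj ((ψ : G → ℂ) n) = (Fintype.card N : ℂ) * conj ((ψ : G → ℂ) 1) := by
    have h3 : (χ : G → ℂ) 1 - (χ : G → ℂ) x = - ((χ : G → ℂ) x * (Fintype.card N : ℂ)) := by
      linear_combination -hone
    rw [h3] at hψeq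
    have h4 : (χ : G → ℂ) x * (∑ n : N, conj ((ψ : G → ℂ) n) - (Fintype.card N : ℂ) * conj ((ψ : G → ℂ) 1)) = 0 := by
      linear_combination -hψeq
    have h5 := (mul_eq_zero.mp h4).resolve_left hε
    linear_combination h5
  have hψ1 : (ψ : G → ℂ) 1 ≠ 0 := isIrr_one_ne_zero ψ.2
  rw [← classInner_one_iff N ψ]
  unfold classInner
  simp only [oneIrr_coe, map_one, mul_one]
  refine mul_ne_zero (inv_ne_zero (by exact_mod_cast Nat.card_pos.ne')) ?_
  intro h0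
  have h6 : ∑ n : N, conj ((ψ : G → ℂ) n) = 0 := by
    rw [← map_sum, h0, map_zero]
  rw [hS] at h6
  rcases mul_eq_zero.mp h6 with h7 | h7
  · exact hcN h7
  · exact hψ1 ((map_eq_zero _).mp h7)

/-- The Camina property. -/
theorem camina_of_ker (χ : IrrCharacter G) (N : Subgroup G) [hNn : N.Normal] (hχ1 : χ ≠ oneIrr G)
    (hker : ∀ ψ : IrrCharacter G, ψ ≠ χ → ∀ n ∈ N, (ψ : G → ℂ) n = (ψ : G → ℂ) 1)
    (hval : ∀ g : G, g ∉ N → (χ : G → ℂ) g = 0) : ∀ y, y ∉ N → ∀ n ∈ N, IsConj y (y * n) := by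
  classical
  intro y hy n hn
  by_contra hnc
  have h1 := second_orthogonality' y (y * n)
  rw [if_neg hnc] at h1
  have h2 : ∀ ψ : IrrCharacter G, (ψ : G → ℂ) y * conj ((ψ : G → ℂ) (y * n)) = ((Complex.normSq ((ψ : G → ℂ) y) : ℝ) : ℂ) := by
    intro ψ
    by_cases hψ : ψ = χ
    · subst hψ
      rw [hval y hy]
      simp
    · rw [irr_mul_comm ψ y n, irr_mul_of_ker ψ (hker ψ hψ n hn) y, Complex.mul_conj]
  simp_rw [h2] at h1
  have h3 : ∑ ψ : IrrCharacter G, Complex.normSq ((ψ : G → ℂ) y) = 0 := by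
    exact_mod_cast h1
  have h4 := (Finset.sum_eq_zero_iff_of_nonneg (fun ψ _ => Complex.normSq_nonneg _)).1 h3 (oneIrr G) (Finset.mem_univ _)
  rw [oneIrr_coe] at h4
  simp at h4

/-- The Camina data for a character with two nonzero classes. -/
theorem twoClass_data (hG : 2 < Nat.card G) (χ : IrrCharacter G)
    (hχ : Nat.card {C : ConjClasses G // ∃ g ∈ C.carrier, (χ : G → ℂ) g ≠ 0} = 2) {p : ℕ} [hp : Fact p.Prime]
    (N : Subgroup G) [hNn : N.Normal] (hN : ∀ g : G, g ∈ N ↔ (χ : G → ℂ) g ≠ 0) (hNp : IsPGroup p N)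
    (hN1 : N ≠ ⊥) :
    (∀ x ∈ N, x ≠ 1 → ∀ y ∈ N, y ≠ 1 → IsConj x y) ∧ (∀ a ∈ N, ∀ b ∈ N, a * b = b * a) ∧
      (∀ a ∈ N, a ^ p = 1) ∧ (∀ y, y ∉ N → ∀ n ∈ N, IsConj y (y * n)) := by
  classical
  have hconj : ∀ x ∈ N, x ≠ 1 → ∀ y ∈ N, y ≠ 1 → IsConj x y := fun x hx hx1 y hy hy1 =>
    conj_of_twoClass χ hχ ((hN x).1 hx) hx1 ((hN y).1 hy) hy1
  have hab := abelian_of_conj hNp hN1 hconj
  refine ⟨hconj, hab, exp_of_conj hNp hN1 hconj, ?_⟩
  obtain ⟨x, hx, hx1⟩ : ∃ x ∈ N, x ≠ 1 := (Subgroup.bot_or_exists_ne_one N).resolve_left hN1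
  have hχ1 : χ ≠ oneIrr G := by
    rintro rfl
    have htop : ∀ g : G, g ∈ N := fun g => (hN g).2 (by rw [oneIrr_coe]; exact one_ne_zero)
    have huniq : ∀ y : G, y ≠ 1 → y = x := by
      intro y hy1
      obtain ⟨g, hg⟩ := isConj_iff.1 (hconj x hx hx1 y (htop y) hy1)
      rw [← hg, hab g (htop g) x hx]
      group
    have hcard : Nat.card G ≤ 2 := by
      have hsub : (Finset.univ : Finset G) ⊆ {1, x} := by
        intro y _
        by_cases hy : y = 1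
        · simp [hy]
        · simp [huniq y hy]
      have := Finset.card_le_card hsub
      rw [Nat.card_eq_fintype_card]
      exact this.trans Finset.card_le_two
    omega
  exact camina_of_ker χ N hχ1 (ker_of_ne_twoClass χ N hN hconj hχ1 hx hx1)
    (fun g hg => by
      by_contra h
      exact hg ((hN g).2 h))

end

end Cfsg.Agent.Lib.Degree
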